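import Mathlib.FieldTheory.Finite.Basic
import Mathlib.Algebra.MvPolynomial.Degrees
import Mathlib.RingTheory.MvPolynomial.Homogeneous
import Mathlib.LinearAlgebra.Basis.Basic
import Mathlib.LinearAlgebra.Dimension.Finite

/-!
A zero of `D·N(y) + z·Tr(C φy φ²y) + z²·Tr(B y) + A z³` on a cubic extension of finite fields,
by the Chevalley–Warning argument applied over the larger field.
-/

set_option autoImplicit false

open MvPolynomial Finset Module

namespace Cfsg.Agent.H71.CubicNorm

variable {K : Type*} [Field K]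

/-- The sum over a power of a finite subfield of the values of a polynomial of low degree vanishes. -/
theorem sum_eval_subfield (S : Subfield K) [Fintype S] {n : ℕ} (G : MvPolynomial (Fin n) K)
    (hG : G.totalDegree < (Fintype.card S - 1) * n) :
    ∑ x : Fin n → S, eval (fun i => (x i : K)) G = 0 := by
  classical
  simp only [eval_eq']
  rw [Finset.sum_comm]
  refine Finset.sum_eq_zero fun d hd => ?_
  rw [← Finset.mul_sum, ← Fintype.prod_sum (fun i (s : S) => (s : K) ^ d i)]
  have hlt : ∃ i, d i < Fintype.card S - 1 := by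
    by_contra hc
    push Not at hc
    have h1 : (d.sum fun _ e => e) ≤ G.totalDegree := le_totalDegree hd
    rw [Finsupp.sum_fintype d _ fun _ => rfl] at h1
    have h2 : (Fintype.card S - 1) * n ≤ ∑ i, d i := by
      refine le_trans (le_of_eq ?_) (Finset.sum_le_sum fun i _ => hc i)
      simp [mul_comm]
    omega
  obtain ⟨i, hi⟩ := hlt
  rw [Finset.prod_eq_zero (mem_univ i), mul_zero]
  have h := congrArg (Subtype.val : S → K) (FiniteField.sum_pow_lt_card_sub_one S (d i) hi)
  simpa using h

/-- Every such cubic form has a zero with `z = 1` when `D ≠ 0`. -/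
theorem exists_zero [Finite K] (φ : K →+* K) (S : Subfield K) [Fintype S] (hS : ∀ s, s ∈ S ↔ φ s = s)
    (h3 : ∀ x, φ (φ (φ x)) = x) (hfr : Module.finrank S K = 3)
    (A B C D : K) (hA : φ A = A) (hD : φ D = D) (hD0 : D ≠ 0) :
    ∃ y : K, D * (y * φ y * φ (φ y)) + (C * φ y * φ (φ y) + φ C * φ (φ y) * y + φ (φ C) * y * φ y) +
      (B * y + φ B * φ y + φ (φ B) * φ (φ y)) + A = 0 := by
  classical
  let β : Basis (Fin 3) S K := Module.finBasisOfFinrankEq S K hfr
  have hfix : ∀ s : S, φ (s : K) = s := fun s => (hS s).1 s.2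
  let Y : (Fin 4 → S) → K := fun x => ∑ i : Fin 3, (x i.castSucc : K) * β i
  let P : (K → K) → MvPolynomial (Fin 4) K := fun σ => ∑ i : Fin 3, MvPolynomial.C (σ (β i)) * X i.castSucc
  let Z : MvPolynomial (Fin 4) K := X (Fin.last 3)
  let Q2 : MvPolynomial (Fin 4) K :=
    MvPolynomial.C C * P φ * P (fun x => φ (φ x)) + MvPolynomial.C (φ C) * P (fun x => φ (φ x)) * P id +
      MvPolynomial.C (φ (φ C)) * P id * P φ
  let L1 : MvPolynomial (Fin 4) K :=
    MvPolynomial.C B * P id + MvPolynomial.C (φ B) * P φ + MvPolynomial.C (φ (φ B)) * P (fun x => φ (φ x))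
  let F : MvPolynomial (Fin 4) K :=
    MvPolynomial.C D * (P id * P φ * P (fun x => φ (φ x))) + Z * Q2 + Z ^ 2 * L1 + MvPolynomial.C A * Z ^ 3
  have hP : ∀ σ, (P σ).IsHomogeneous 1 := fun σ =>
    IsHomogeneous.sum _ _ _ fun i _ => (isHomogeneous_X _ _).C_mul _
  have hZ : Z.IsHomogeneous 1 := isHomogeneous_X _ _
  have hQ : Q2.IsHomogeneous 2 :=
    ((((hP φ).C_mul C).mul (hP (fun x => φ (φ x)))).add
      (((hP fun x => φ (φ x)).C_mul (φ C)).mul (hP id))).add (((hP id).C_mul (φ (φ C))).mul (hP φ))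
  have hL : L1.IsHomogeneous 1 :=
    (((hP id).C_mul B).add ((hP φ).C_mul (φ B))).add ((hP fun x => φ (φ x)).C_mul (φ (φ B)))
  have hF : F.IsHomogeneous 3 := by
    have t1 : (MvPolynomial.C D * (P id * P φ * P (fun x => φ (φ x)))).IsHomogeneous 3 :=
      (((hP id).mul (hP φ)).mul (hP fun x => φ (φ x))).C_mul D
    have t2 : (Z * Q2).IsHomogeneous 3 := hZ.mul hQ
    have t3 : (Z ^ 2 * L1).IsHomogeneous 3 := (hZ.pow 2).mul hL
    have t4 : (MvPolynomial.C A * Z ^ 3).IsHomogeneous 3 := (hZ.pow 3).C_mul A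
    exact ((t1.add t2).add t3).add t4
  have hev : ∀ x, eval (fun i => (x i : K)) F =
      D * (Y x * φ (Y x) * φ (φ (Y x))) +
      (x (Fin.last 3) : K) * (C * φ (Y x) * φ (φ (Y x)) + φ C * φ (φ (Y x)) * Y x + φ (φ C) * Y x * φ (Y x)) +
      (x (Fin.last 3) : K) ^ 2 * (B * Y x + φ B * φ (Y x) + φ (φ B) * φ (φ (Y x))) +
      A * (x (Fin.last 3) : K) ^ 3 := by
    intro x
    have eP : ∀ σ : K → K, eval (fun i => (x i : K)) (P σ) = ∑ i : Fin 3, (x i.castSucc : K) * σ (β i) := by
      intro σ
      simp [P, mul_comm]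
    have e1 : φ (Y x) = ∑ i : Fin 3, (x i.castSucc : K) * φ (β i) := by
      simp [Y, hfix]
    have e2 : φ (φ (Y x)) = ∑ i : Fin 3, (x i.castSucc : K) * φ (φ (β i)) := by
      simp [e1, hfix]
    simp only [F, Q2, L1, Z, map_add, map_mul, map_pow, eval_C, eval_X, eP]
    rw [e2, e1]
    rfl
  set q := Fintype.card S with hq
  have hq1 : 1 < q := Fintype.one_lt_card
  have hdeg : (1 - F ^ (q - 1)).totalDegree < (q - 1) * 4 := by
    refine lt_of_le_of_lt (totalDegree_sub _ _) ?_
    rw [max_lt_iff, totalDegree_one]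
    refine ⟨by omega, lt_of_le_of_lt (hF.pow (q - 1)).totalDegree_le ?_⟩
    omega
  have hsum := sum_eval_subfield S _ hdeg
  have hval : ∀ x : Fin 4 → S, eval (fun i => (x i : K)) (1 - F ^ (q - 1)) =
      if eval (fun i => (x i : K)) F = 0 then 1 else 0 := by
    intro x
    rw [map_sub, map_one, map_pow]
    split_ifs with h
    · rw [h, zero_pow (by omega), sub_zero]
    · have hmem : eval (fun i => (x i : K)) F ∈ S := by
        rw [hS, hev]
        simp only [map_add, map_mul, map_pow, h3, hfix, hA, hD]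
        ring
      have := FiniteField.pow_card_sub_one_eq_one (⟨_, hmem⟩ : S) (fun hh => h (congrArg Subtype.val hh))
      have h1 := congrArg (Subtype.val : S → K) this
      simp only [SubmonoidClass.coe_pow, OneMemClass.coe_one] at h1
      rw [hq, h1, sub_self]
  rw [Finset.sum_congr rfl fun x _ => hval x, Finset.sum_boole] at hsum
  have hmem0 : (0 : Fin 4 → S) ∈ univ.filter fun x : Fin 4 → S => eval (fun i => (x i : K)) F = 0 := by
    refine mem_filter.2 ⟨mem_univ _, ?_⟩
    rw [hev]; simp [Y]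
  obtain ⟨x, hx, hx0⟩ : ∃ x ∈ univ.filter (fun x : Fin 4 → S => eval (fun i => (x i : K)) F = 0), x ≠ 0 := by
    by_contra hc
    push Not at hc
    have : (univ.filter fun x : Fin 4 → S => eval (fun i => (x i : K)) F = 0) = {0} := by
      ext x
      exact ⟨fun h => mem_singleton.2 (hc x h), fun h => mem_singleton.1 h ▸ hmem0⟩
    rw [this, card_singleton, Nat.cast_one] at hsum
    exact one_ne_zero hsum
  have hx' := (mem_filter.1 hx).2
  rw [hev] at hx'
  set z : K := ((x (Fin.last 3) : S) : K) with hz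
  by_cases hz0 : z = 0
  · exfalso
    rw [hz0] at hx'
    simp only [zero_mul, ne_eq, OfNat.ofNat_ne_zero, not_false_eq_true, zero_pow, mul_zero, add_zero,
      mul_eq_zero, hD0, false_or] at hx'
    have hY : Y x = 0 := by
      rcases hx' with (h | h) | h
      · exact h
      · exact φ.injective (h.trans (map_zero φ).symm)
      · exact φ.injective ((φ.injective (h.trans (map_zero φ).symm)).trans (map_zero φ).symm)
    have hall : ∀ i : Fin 3, x i.castSucc = 0 := by
      have h : ∑ i : Fin 3, x i.castSucc • β i = 0 := by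
        simpa [Y, Subfield.smul_def] using hY
      exact Fintype.linearIndependent_iff.1 β.linearIndependent _ h
    refine hx0 (funext fun i => ?_)
    induction i using Fin.lastCases with
    | last => exact Subtype.ext hz0
    | cast i => exact hall i
  · refine ⟨Y x / z, ?_⟩
    have e1 : φ (Y x / z) = φ (Y x) / z := by rw [map_div₀, hfix]
    have e2 : φ (φ (Y x / z)) = φ (φ (Y x)) / z := by rw [e1, map_div₀, hfix]
    rw [e2, e1]
    field_simp
    linear_combination hx'

end Cfsg.Agent.H71.CubicNorm
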