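/-
Element orders of finite direct powers.
-/
import Mathlib

set_option autoImplicit false

namespace Cfsg.Agent.H71

/-- If `k₀` elements of `G` have orders with lcm a multiple of every element order, then every
`G ^ k`, `k₀ ≤ k`, has exactly the divisors of that lcm as element orders. -/
theorem range_orderOf_pi_eq {G : Type*} [Group G] [Finite G] {k₀ k : ℕ} (f : Fin k₀ → G)
    (hf : ∀ g : G, orderOf g ∣ orderOf f) (hk : k₀ ≤ k) :
    Set.range (orderOf : (Fin k → G) → ℕ) = {d | d ∣ orderOf f} := by
  ext d
  constructor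
  · rintro ⟨x, rfl⟩
    refine orderOf_dvd_of_pow_eq_one (funext fun i => ?_)
    simpa using orderOf_dvd_iff_pow_eq_one.mp (hf (x i))
  · intro hd
    classical
    let F : Fin k → G := fun i => if h : (i : ℕ) < k₀ then f ⟨i, h⟩ else 1
    have hF : orderOf F = orderOf f := by
      refine orderOf_eq_orderOf_iff.mpr fun m => ?_
      simp only [funext_iff, Pi.pow_apply, Pi.one_apply]
      constructor
      · intro h i
        have := h (Fin.castLE hk i)
        simpa [F] using this
      · intro h i
        by_cases hi : (i : ℕ) < k₀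
        · simp [F, hi, h]
        · simp [F, hi]
    have hne : orderOf F ≠ 0 := (orderOf_pos F).ne'
    refine ⟨F ^ (orderOf F / d), ?_⟩
    rw [orderOf_pow_of_dvd ?_ (Nat.div_dvd_of_dvd (hF ▸ hd))]
    · exact Nat.div_div_self (hF ▸ hd) hne
    · exact Nat.pos_iff_ne_zero.mp (Nat.div_pos (Nat.le_of_dvd (Nat.pos_of_ne_zero hne) (hF ▸ hd))
        (Nat.pos_of_dvd_of_pos (hF ▸ hd) (Nat.pos_of_ne_zero hne)))

/-- Order of a component divides the order of the tuple. -/
theorem orderOf_apply_dvd_pi {ι G : Type*} [Monoid G] (f : ι → G) (i : ι) :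
    orderOf (f i) ∣ orderOf f := by
  refine orderOf_dvd_of_pow_eq_one ?_
  have := congr_fun (pow_orderOf_eq_one f) i
  simpa using this

end Cfsg.Agent.H71
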