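import Cfsg.Agent.H71.E6InvForms
import Cfsg.Agent.H65.Inv.Level
import Mathlib.FieldTheory.Perfect

/-!
A certificate checker for the reduction of involutions in the unipotent subgroup of the twisted group of type E₆ in
characteristic two.
-/

set_option autoImplicit false
set_option maxRecDepth 100000
set_option linter.unusedSectionVars false

open Cfsg.Lie Cfsg.Agent.H46

namespace Cfsg.Agent.H71.E6Inv

/-- A reduction tree. -/
inductive Tree
  /-- an earlier state -/
  | ref (i : ℕ)
  /-- a contradiction from the square -/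
  | absurd (r : ℕ)
  /-- a coordinate killed by the square -/
  | sq (r k : ℕ) (t : Tree)
  /-- a case split -/
  | split (k : ℕ) (zero nonzero : Tree)
  /-- a conjugation killing a coordinate, possibly with parameter a fixed multiple of a coordinate -/
  | conj (g : ℕ) (sub : Option (ℕ × Bool)) (r : ℕ) (useL : Bool) (t : Tree)
  /-- a product of relative reflections -/
  | weyl (L : List ℕ) (t : Tree)

/-- The reflections of one orbit of the graph symmetry on the fundamental roots. -/
def wGens : List (List ℕ) := [[0, 5], [2, 4], [3], [1]]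

/-- The simple reflections of a word in the relative reflections. -/
def wWord (L : List ℕ) : List ℕ := L.flatMap fun j => wGens.getD j []

/-- The image of a root under a product of simple reflections. -/
noncomputable def wImg (L : List ℕ) (r : ℕ) : ℕ := L.foldr (fun i s => goodE6.tab.refl i s) r

/-- The parameter of a conjugation. -/
def parP : Option (ℕ × Bool) → PPoly
  | none => pv 24
  | some (j, b) => mulP (pv 24) (if b then sigP (pv j) else pv j)

/-- The parameter variable is fixed. -/
def tFix (g : ℕ) (sub : Option (ℕ × Bool)) : Bool := fixL.contains g || sub.isSome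

/-- The fixed variables. -/
def fVars (g : ℕ) (sub : Option (ℕ × Bool)) : List ℕ := if tFix g sub then 24 :: fixL else fixL

/-- The symbolic conjugate. -/
def cjW (Z : List ℕ) (g : ℕ) (sub : Option (ℕ × Bool)) : PWord :=
  gen g (parP sub) ++ shW Z ++ (gen g (parP sub)).reverse

/-- The symbolic image under relative reflections. -/
noncomputable def wlW (Z L : List ℕ) : PWord := (shW Z).map fun e => (wImg (wWord L) e.1, e.2)

/-- The collected square. -/
def sqW (Z : List ℕ) : PWord := collect (shW Z ++ shW Z)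

/-- The fixed monomials from the square. -/
def relsOf (Z NZ : List ℕ) : List Mono :=
  fixL.flatMap fun k => relOf NZ (nmP fixL (coef (sqW Z) (root0 k)))

/-- The checks of a square coordinate. -/
def sqOk (Z NZ : List ℕ) (r : ℕ) : Bool :=
  decide (r < 24) && isCollected (sqW Z) &&
    match nmP fixL (coef (sqW Z) (root0 r)) with
    | [m] => monoOk NZ m && noLast m
    | _ => false

/-- The checks that the parameter can kill a coordinate. -/
def killOk (F : List ℕ) (L : List Mono) (NZ : List ℕ) (tf : Bool) (r : ℕ) : PPoly → Bool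
  | [m] =>
    monoOk NZ m &&
      if fixL.contains r then
        fixOk (24 :: fixL) L m &&
          if tf then decide ((m.getD 24 (0, 0)).1 + (m.getD 24 (0, 0)).2 ∈ [1, 2])
          else decide (m.getD 24 (0, 0) = (1, 1))
      else if tf then
        decide ((m.getD 24 (0, 0)).1 + (m.getD 24 (0, 0)).2 ∈ [1, 2]) &&
          fixOk (24 :: fixL) L (mulM (List.replicate r (0, 0) ++ [(1, 0)]) (sigM m))
      else decide (m.getD 24 (0, 0) ∈ [(1, 0), (0, 1), (2, 0), (0, 2)])
  | [m, m'] =>
    fixL.contains r && !tf && monoOk NZ m && decide (nmP F (sigP [m]) = [m']) &&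
      decide (m.getD 24 (0, 0) ∈ [(1, 0), (0, 1)])
  | _ => false

/-- The coordinates known to vanish. -/
def zeroSet (F : List ℕ) (L : List Mono) (NZ : List ℕ) (w : PWord) : List ℕ :=
  (List.range 24).filter fun k =>
    decide (nmP F (coef w (root0 k)) = []) || (fixL.contains k && zeroOk F L NZ (nmP F (coef w (root0 k))))

/-- The polynomial has visibly nonzero value. -/
def nzOk (NZ : List ℕ) (tnz : Bool) : PPoly → Bool
  | [m] => monoOk NZ m && (noLast m || tnz)
  | _ => false

/-- The checker. -/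
noncomputable def check (Ks : List (List ℕ)) : Tree → List ℕ → List ℕ → Bool
  | .ref i, Z, NZ =>
    match Ks[i]? with
    | some S => (List.range 24).all fun k => if S.contains k then NZ.contains k else Z.contains k
    | none => false
  | .absurd r, Z, NZ => sqOk Z NZ r
  | .sq r k t, Z, NZ => sqOk Z (k :: NZ) r && check Ks t (k :: Z) NZ
  | .split k a b, Z, NZ => decide (k < 24) && check Ks a (k :: Z) NZ && check Ks b Z (k :: NZ)
  | .conj g sub r useL t, Z, NZ =>
    decide (g < 24) && decide (r < 24) && (!useL || isCollected (sqW Z)) &&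
      (match sub with
        | none => true
        | some (j, _) => decide (j < 24) && NZ.contains j && !fixL.contains g) &&
      outsOk (fVars g sub) (collect (cjW Z g sub)) &&
      killOk (fVars g sub) (bif useL then relsOf Z NZ else []) NZ (tFix g sub) r
        (addP (nmP (fVars g sub) (coef (collect (cjW Z g sub)) (root0 r))) (pv r)) &&
      check Ks t (r :: zeroSet (fVars g sub) (bif useL then relsOf Z NZ else []) NZ (collect (cjW Z g sub)))
        ((List.range 24).filter fun k => decide (k ≠ r) &&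
          nzOk NZ (NZ.contains r) (nmP (fVars g sub) (coef (collect (cjW Z g sub)) (root0 k))))
  | .weyl L t, Z, NZ =>
    L.all (fun j => decide (j < 4)) && isCollected (sqW Z) && outsOk fixL (collect (wlW Z L)) &&
      check Ks t (zeroSet fixL (relsOf Z NZ) NZ (collect (wlW Z L)))
        ((List.range 24).filter fun k => nzOk NZ false (nmP fixL (coef (collect (wlW Z L)) (root0 k))))

/-- The roots of the representatives. -/
def reps : List (List ℕ) := [[], [71], [66, 68], [55, 67, 65]]

section Eval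

variable {K : Type*} [Field K] [CharP K 2] {ψ : K →+* K} (hψ : ∀ x, ψ (ψ x) = x)

variable (ψ) in
/-- The element is conjugate in the twisted group to a representative or trivial. -/
def Goal (u : GL chevE6.Idx K) : Prop :=
  ∃ h ∈ (tdE6 ψ).G1, ∃ S ∈ reps, h * u * h⁻¹ = H65.Inv.prodX goodE6 S

variable (ψ) in
/-- Involutions with support exactly `S` reach a representative. -/
def Sol (S : List ℕ) : Prop :=
  ∀ v : ℕ → K, Valid ψ v → (∀ k < 24, (k ∈ S → v k ≠ 0) ∧ (k ∉ S → v k = 0)) → form ψ v * form ψ v = 1 →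
    Goal ψ (form ψ v)

theorem Goal.of_conj {u w h : GL chevE6.Idx K} (hh : h ∈ (tdE6 ψ).G1) (e : h * u * h⁻¹ = w) (g : Goal ψ w) :
    Goal ψ u := by
  obtain ⟨a, ha, S, hS, e'⟩ := g
  refine ⟨a * h, mul_mem ha hh, S, hS, ?_⟩
  rw [← e', ← e]
  group

theorem mul_self_conj {u w h : GL chevE6.Idx K} (e : h * u * h⁻¹ = w) (hu : u * u = 1) : w * w = 1 := by
  rw [← e, show h * u * h⁻¹ * (h * u * h⁻¹) = h * (u * u) * h⁻¹ by group, hu, mul_one, mul_inv_cancel]

theorem evW_reverse (vs : List K) : ∀ w : PWord, evW ψ vs w.reverse = (evW ψ vs w)⁻¹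
  | [] => by simp [evW_nil]
  | e :: w => by
    rw [List.reverse_cons, evW_append, evW_reverse vs w, evW_cons, evW_cons, evW_nil, mul_one, mul_inv_rev,
      goodE6.xg_inv, CharTwo.neg_eq]

theorem swap_ok : (List.range 24).all (fun k => fixL.contains k ||
    decide (collect [((orbs.getD k []).getD 1 0, pv 0), (root0 k, pv 1)] =
      collect [(root0 k, pv 1), ((orbs.getD k []).getD 1 0, pv 0)])) = true := by decide +kernel

theorem gel_facts : ∀ k < 24, root0 k < 72 ∧ (orbs.getD k []).getD 1 0 < 72 ∧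
    chevE6.IsPosRoot (root0 k) ∧
    (fixL.contains k = true → graphE6.S.π (root0 k) = root0 k) ∧
    (fixL.contains k = false → chevE6.IsPosRoot ((orbs.getD k []).getD 1 0) ∧
      graphE6.S.π (root0 k) = (orbs.getD k []).getD 1 0 ∧ graphE6.S.π ((orbs.getD k []).getD 1 0) = root0 k) := by
  decide +kernel

theorem eps_odd : ∀ r < 72, graphE6.S.ε r % 2 ≠ 0 := by decide +kernel

theorem twist_xg {r : ℕ} (hr : r < 72) (t : K) :
    goodE6.twistHom okE6.check ψ (goodE6.xg r t) = goodE6.xg (graphE6.S.π r) (ψ t) := by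
  rw [goodE6.twistHom_xg okE6.check ψ (r := r) hr]
  congr 2
  obtain ⟨k, hk⟩ : ∃ k, graphE6.S.ε r = 2 * k + 1 := ⟨graphE6.S.ε r / 2, by have := eps_odd r hr; omega⟩
  rw [hk]; push_cast; rw [CharTwo.two_eq_zero]; ring

include hψ in
/-- The elements of coordinates lie in the twisted group. -/
theorem gel_mem {k : ℕ} (hk : k < 24) {x : K} (hx : k ∈ fixL → ψ x = x) : gel ψ k x ∈ (tdE6 ψ).G1 := by
  obtain ⟨h0, h1, hp0, hπ, hπ'⟩ := gel_facts k hk
  refine (tdE6 ψ).U1_le_G1 ⟨?_, ?_⟩
  · rw [tdE6, graphE6.tdata_U okE6 coxE6 ψ, gel]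
    refine mul_mem (goodE6.xg_mem_pos hp0 _) ?_
    split
    · exact one_mem _
    · next hf => exact goodE6.xg_mem_pos (hπ' (by simpa using hf)).1 _
  · show goodE6.twistHom okE6.check ψ (gel ψ k x) = gel ψ k x
    by_cases hf : fixL.contains k = true
    · rw [gel, if_pos hf, mul_one, twist_xg h0, hπ hf, hx (by simpa using hf)]
    · obtain ⟨-, e0, e1⟩ := hπ' (by simpa using hf)
      rw [gel, if_neg hf, map_mul, twist_xg h0, twist_xg h1, e0, e1, hψ]
      have hs := List.all_eq_true.1 swap_ok k (List.mem_range.2 hk)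
      rw [Bool.or_eq_true, decide_eq_true_eq] at hs
      have h := evW_eq (ψ := ψ) [ψ x, x] (hs.resolve_left hf)
      simpa [evW_cons, evW_nil, evP_pv] using h

theorem wImg_spec : ∀ (L : List ℕ), (∀ i ∈ L, i < 6) → ∀ r < 72,
    wImg L r < 72 ∧ ∀ t : K,
      (L.map fun i => (goodE6.ng (chevE6.simple i) 1 : GL chevE6.Idx K)).prod * goodE6.xg r t =
        goodE6.xg (wImg L r) t * (L.map fun i => (goodE6.ng (chevE6.simple i) 1 : GL chevE6.Idx K)).prod
  | [], _, r, hr => ⟨hr, fun t => by simp [wImg]⟩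
  | i :: L, hL, r, hr => by
    obtain ⟨hlt, e⟩ := wImg_spec L (fun j hj => hL j (List.mem_cons_of_mem _ hj)) r hr
    have hi : i < chevE6.rank := hL i List.mem_cons_self
    have himg : wImg (i :: L) r = goodE6.tab.refl i (wImg L r) := rfl
    rw [himg]
    refine ⟨?_, fun t => ?_⟩
    · rw [goodE6.refl_eq hi hlt]
      exact goodE6.reflectRoot_lt hi hlt
    · rw [List.map_cons, List.prod_cons, mul_assoc, e, ← mul_assoc, goodE6.ng_simple_mul_xg hi hlt, mul_assoc,
        goodE6.refl_eq hi hlt]
      congr 2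
      rcases goodE6.eta_eq i (wImg L r) with h | h <;> rw [h] <;> simp [CharTwo.neg_eq]

theorem conj_evW {L : List ℕ} (hL : ∀ i ∈ L, i < 6) (vs : List K) : ∀ w : PWord, (∀ e ∈ w, e.1 < 72) →
    (L.map fun i => (goodE6.ng (chevE6.simple i) 1 : GL chevE6.Idx K)).prod * evW ψ vs w *
        ((L.map fun i => (goodE6.ng (chevE6.simple i) 1 : GL chevE6.Idx K)).prod)⁻¹ =
      evW ψ vs (w.map fun e => (wImg L e.1, e.2))
  | [], _ => by simp [evW_nil]
  | e :: w, h => by
    rw [List.map_cons, evW_cons, evW_cons, ← conj_evW hL vs w fun x hx => h x (List.mem_cons_of_mem _ hx),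
      eq_mul_inv_iff_mul_eq.2 ((wImg_spec L hL e.1 (h e List.mem_cons_self)).2 (evP ψ vs e.2)).symm]
    group

theorem orbE6_eq : ∀ j : Fin graphE6.m, (graphE6.orb j).map Fin.val = wGens.getD j.val [] := by decide +kernel

theorem wWord_lt : ∀ j < 4, ∀ i ∈ wGens.getD j [], i < 6 := by decide +kernel

theorem nWord_mem : ∀ L : List ℕ, (∀ j ∈ L, j < 4) →
    ((wWord L).map fun i => (goodE6.ng (chevE6.simple i) 1 : GL chevE6.Idx K)).prod ∈ (tdE6 ψ).G1
  | [], _ => by simp [wWord, one_mem]
  | j :: L, hL => by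
    rw [wWord, List.flatMap_cons, List.map_append, List.prod_append]
    refine mul_mem ?_ (nWord_mem L fun i hi => hL i (List.mem_cons_of_mem _ hi))
    have hj : j < graphE6.m := hL j List.mem_cons_self
    rw [← orbE6_eq ⟨j, hj⟩, List.map_map, tdE6, graphE6.G1_eq_closure okE6 coxE6 ψ]
    exact graphE6.nPar_mem_closure okE6 ψ ⟨j, hj⟩ (graphE6.sat_one okE6 ψ ⟨j, hj⟩)

include hψ in
theorem shW_lt (Z : List ℕ) : ∀ e ∈ shW Z, e.1 < 72 := by
  intro e he
  obtain ⟨k, hk, he⟩ := List.mem_flatMap.1 he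
  obtain ⟨h0, h1, -⟩ := gel_facts k (List.mem_range.1 hk)
  rw [gen, List.mem_cons] at he
  rcases he with rfl | he
  · exact h0
  · split at he
    · simp at he
    · rw [List.mem_singleton] at he; subst he; exact h1

variable [PerfectRing K 2]

theorem exists_sqrt (x : K) : ∃ s : K, s ^ 2 = x ∧ (ψ x = x → ψ s = s) := by
  obtain ⟨s, hs⟩ := (bijective_frobenius K 2).surjective x
  rw [frobenius_def] at hs
  refine ⟨s, hs, fun hx => ?_⟩
  apply (bijective_frobenius K 2).injective
  rw [frobenius_def, frobenius_def, ← map_pow, hs, hx]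

include hψ in
theorem fix_pow {c x : K} (hc : c ≠ 0) (hcx : ψ (x / c) = x / c) {a b : ℕ} (he : a + b ∈ [1, 2]) :
    ∃ s : K, ψ s = s ∧ c * (s ^ a * ψ s ^ b) = x := by
  obtain ⟨s, hs, hsf⟩ := exists_sqrt (ψ := ψ) (x / c)
  simp only [List.mem_cons, List.not_mem_nil, or_false] at he
  rcases he with he | he
  · refine ⟨x / c, hcx, ?_⟩
    rw [hcx, ← pow_add, he, pow_one]
    field_simp
  · refine ⟨s, hsf hcx, ?_⟩
    rw [hsf hcx, ← pow_add, he, hs]
    field_simp

include hψ in
theorem free_pow {c x : K} (hc : c ≠ 0) {e : ℕ × ℕ} (he : e ∈ [(1, 0), (0, 1), (2, 0), (0, 2)]) :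
    ∃ s : K, c * (s ^ e.1 * ψ s ^ e.2) = x := by
  obtain ⟨s, hs, -⟩ := exists_sqrt (ψ := ψ) (x / c)
  simp only [List.mem_cons, List.not_mem_nil, or_false] at he
  rcases he with rfl | rfl | rfl | rfl
  · exact ⟨x / c, by simp; field_simp⟩
  · exact ⟨ψ (x / c), by rw [hψ]; simp; field_simp⟩
  · exact ⟨s, by simp [hs]; field_simp⟩
  · exact ⟨ψ s, by rw [hψ]; simp [hs]; field_simp⟩

include hψ in
theorem trace_pow {c x : K} (hc : c ≠ 0) (hx : ψ x = x) (hw : ∃ w : K, w + ψ w = 1) {e : ℕ × ℕ}
    (he : e ∈ [(1, 0), (0, 1)]) :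
    ∃ s : K, c * (s ^ e.1 * ψ s ^ e.2) + ψ (c * (s ^ e.1 * ψ s ^ e.2)) = x := by
  obtain ⟨w, hw⟩ := hw
  obtain ⟨s, hs⟩ : ∃ s : K, c * (s ^ e.1 * ψ s ^ e.2) = x * w := by
    refine free_pow hψ hc ?_
    simp only [List.mem_cons, List.not_mem_nil, or_false] at he ⊢
    tauto
  refine ⟨s, ?_⟩
  rw [hs, map_mul, hx, ← mul_add, hw, mul_one]

theorem rep_mono (r : ℕ) : (pv r) = [List.replicate r (0, 0) ++ [(1, 0)]] := rfl

include hψ in
theorem kill_spec {F : List ℕ} {L : List Mono} {NZ : List ℕ} {tf : Bool} {r : ℕ} (hr : r < 24)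
    (hw : ∃ w : K, w + ψ w = 1) {v : ℕ → K} (hv : Valid ψ v) (hN : ∀ k ∈ NZ, k < 24 → v k ≠ 0)
    (hL : ∀ t, Rels ψ L (vals v t)) (hF : ∀ s : K, (tf = true → ψ s = s) → FixVals ψ F (vals v s)) :
    ∀ {p : PPoly}, killOk F L NZ tf r p = true →
      ∃ s : K, (tf = true → ψ s = s) ∧ evP ψ (vals v s) p = v r
  | [], h => by simp [killOk] at h
  | [m], h => by
    simp only [killOk, Bool.and_eq_true] at h
    obtain ⟨hm, h⟩ := h
    have hlen : m.length ≤ 25 := by
      simp only [monoOk, Bool.and_eq_true, decide_eq_true_eq] at hm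
      exact hm.1
    have hc : evM ψ (vals v 1) m ≠ 0 := mono_ne_zero hm hN (Or.inr one_ne_zero)
    have hF1 : FixVals ψ (24 :: fixL) (vals v (1 : K)) := fixVals_cons hv (map_one ψ)
    have hsp : ∀ s : K, evP ψ (vals v s) [m] =
        evM ψ (vals v 1) m * (s ^ (m.getD 24 (0, 0)).1 * ψ s ^ (m.getD 24 (0, 0)).2) := fun s => by
      rw [evP_one, mono_last hlen v s]
    by_cases hf : fixL.contains r = true
    · rw [if_pos hf, Bool.and_eq_true] at h
      have hcf := fix_spec hψ hF1 (hL 1) h.1
      have hq : ψ (v r / evM ψ (vals v 1) m) = v r / evM ψ (vals v 1) m := by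
        rw [map_div₀, hv r (by simpa using hf), hcf]
      cases tf with
      | true =>
        obtain ⟨s, hs, e⟩ := fix_pow hψ hc hq (a := (m.getD 24 (0, 0)).1) (b := (m.getD 24 (0, 0)).2)
          (of_decide_eq_true h.2)
        exact ⟨s, fun _ => hs, (hsp s).trans e⟩
      | false =>
        obtain ⟨s, hs, e⟩ := fix_pow hψ hc hq (a := 1) (b := 1) (by simp)
        have he : m.getD 24 (0, 0) = (1, 1) := of_decide_eq_true h.2
        exact ⟨s, fun c => by simp at c, (hsp s).trans (by rw [he]; exact e)⟩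
    · rw [if_neg hf] at h
      cases tf with
      | true =>
        rw [if_pos rfl, Bool.and_eq_true] at h
        have e' := fix_spec hψ hF1 (hL 1) h.2
        rw [evM_mul, evM_sig hψ, ← evP_one (ψ := ψ) (vals v 1) (List.replicate r (0, 0) ++ [(1, 0)]), ← rep_mono,
          evP_var v 1 hr, map_mul, hψ] at e'
        have hq : ψ (v r / evM ψ (vals v 1) m) = v r / evM ψ (vals v 1) m := by
          rw [map_div₀, div_eq_div_iff ((map_ne_zero ψ).2 hc) hc]
          exact e'
        obtain ⟨s, hs, e⟩ := fix_pow hψ hc hq (of_decide_eq_true h.1)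
        exact ⟨s, fun _ => hs, (hsp s).trans e⟩
      | false =>
        simp only [Bool.false_eq_true, if_false] at h
        obtain ⟨s, e⟩ := free_pow hψ hc (x := v r) (of_decide_eq_true h)
        exact ⟨s, fun c => by simp at c, (hsp s).trans e⟩
  | [m, m'], h => by
    simp only [killOk, Bool.and_eq_true, decide_eq_true_eq, Bool.not_eq_true', List.contains_iff_mem] at h
    obtain ⟨⟨⟨⟨hf, htf⟩, hm⟩, hp⟩, he⟩ := h
    have hlen : m.length ≤ 25 := by
      simp only [monoOk, Bool.and_eq_true, decide_eq_true_eq] at hm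
      exact hm.1
    have hc : evM ψ (vals v 1) m ≠ 0 := mono_ne_zero hm hN (Or.inr one_ne_zero)
    obtain ⟨s, e⟩ := trace_pow hψ hc (hv r hf) hw he
    refine ⟨s, fun c => by simp [htf] at c, ?_⟩
    rw [evP_two, partner_eq hψ (hF s fun c => by simp [htf] at c) hp, mono_last hlen v, e]
  | _ :: _ :: _ :: _, h => by simp [killOk] at h

theorem zero_pow_exp (e : ℕ × ℕ) (he : e ≠ (0, 0)) : (0 : K) ^ e.1 * ψ 0 ^ e.2 = 0 := by
  rw [map_zero]
  rcases e with ⟨_ | a, _ | b⟩ <;> simp at he ⊢

include hψ in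
theorem kill_zero {F : List ℕ} {L : List Mono} {NZ : List ℕ} {tf : Bool} {r : ℕ} {v : ℕ → K}
    (hF : FixVals ψ F (vals v (0 : K))) :
    ∀ {p : PPoly}, killOk F L NZ tf r p = true → evP ψ (vals v (0 : K)) p = 0
  | [], _ => rfl
  | [m], h => by
    simp only [killOk, Bool.and_eq_true] at h
    have hlen : m.length ≤ 25 := by
      have := h.1
      simp only [monoOk, Bool.and_eq_true, decide_eq_true_eq] at this
      exact this.1
    have hne : m.getD 24 (0, 0) ≠ (0, 0) := by
      intro c
      rw [c] at h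
      cases tf <;> by_cases hf : r ∈ fixL <;> simp [hf] at h
    rw [evP_one, mono_last hlen, zero_pow_exp _ hne, mul_zero]
  | [m, m'], h => by
    simp only [killOk, Bool.and_eq_true, decide_eq_true_eq, Bool.not_eq_true', List.contains_iff_mem] at h
    obtain ⟨⟨⟨⟨-, -⟩, hm⟩, hp⟩, he⟩ := h
    have hlen : m.length ≤ 25 := by
      simp only [monoOk, Bool.and_eq_true, decide_eq_true_eq] at hm
      exact hm.1
    have hne : m.getD 24 (0, 0) ≠ (0, 0) := by
      intro c
      rw [c] at he
      simp at he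
    rw [evP_two, partner_eq hψ hF hp, mono_last hlen, zero_pow_exp _ hne, mul_zero, map_zero, add_zero]
  | _ :: _ :: _ :: _, h => by simp [killOk] at h

theorem nz_spec {NZ : List ℕ} {tnz : Bool} {v : ℕ → K} {t : K} (hN : ∀ k ∈ NZ, k < 24 → v k ≠ 0)
    (ht : tnz = true → t ≠ 0) : ∀ {p : PPoly}, nzOk NZ tnz p = true → evP ψ (vals v t) p ≠ 0
  | [], h => by simp [nzOk] at h
  | [m], h => by
    simp only [nzOk, Bool.and_eq_true, Bool.or_eq_true] at h
    rw [evP_one]
    exact mono_ne_zero h.1 hN (h.2.imp_right ht)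
  | _ :: _ :: _, h => by simp [nzOk] at h

include hψ in
theorem zeroSet_spec {F : List ℕ} {L : List Mono} {NZ : List ℕ} {w : PWord} {v : ℕ → K} {t : K}
    (hF : FixVals ψ F (vals v t)) (hL : Rels ψ L (vals v t)) {k : ℕ} (hk : k ∈ zeroSet F L NZ w) :
    evP ψ (vals v t) (coef w (root0 k)) = 0 := by
  simp only [zeroSet, List.mem_filter, Bool.or_eq_true, Bool.and_eq_true, decide_eq_true_eq] at hk
  rw [← evP_nmP hF]
  rcases hk.2 with h | h
  · rw [h, evP_nil]
  · exact zero_spec hψ hF hL h.2

include hψ in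
theorem sq_spec {Z NZ : List ℕ} {r : ℕ} (h : sqOk Z NZ r = true) (v : ℕ → K) (hval : Valid ψ v)
    (hZ : ∀ k ∈ Z, k < 24 → v k = 0) (hv : form ψ v * form ψ v = 1) (hN : ∀ k ∈ NZ, k < 24 → v k ≠ 0) : False := by
  simp only [sqOk, Bool.and_eq_true, decide_eq_true_eq] at h
  obtain ⟨⟨hr, hc⟩, hm⟩ := h
  have h0 := coords_zero (ψ := ψ) (vals v 0) hc
    (by rw [evW_append, evW_shW hψ v 0 hZ, hv]) (root0_mem r hr)
  rw [← evP_nmP (fixVals_fixL hval)] at h0
  split at hm
  · next m hp =>
    simp only [Bool.and_eq_true] at hm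
    rw [show collect (shW Z ++ shW Z) = sqW Z from rfl, hp, evP_one] at h0
    exact mono_ne_zero hm.1 hN (Or.inl hm.2) h0
  · simp at hm

include hψ in
theorem check_sound (hw : ∃ w : K, w + ψ w = 1) {Ks : List (List ℕ)} (hKs : ∀ S ∈ Ks, Sol ψ S) :
    ∀ (T : Tree) (Z NZ : List ℕ), check Ks T Z NZ = true →
      ∀ v : ℕ → K, Valid ψ v → (∀ k ∈ Z, k < 24 → v k = 0) → (∀ k ∈ NZ, k < 24 → v k ≠ 0) →
        form ψ v * form ψ v = 1 → Goal ψ (form ψ v)
  | .ref i, Z, NZ, h, v, hval, hZ, hN, hv => by
    simp only [check] at h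
    split at h
    · next S hS =>
      simp only [List.all_eq_true, List.mem_range, List.contains_iff_mem] at h
      refine hKs S (List.mem_of_getElem? hS) v hval (fun k hk => ?_) hv
      have hk' := h k hk
      by_cases hm : k ∈ S
      · rw [if_pos hm] at hk'
        exact ⟨fun _ => hN k (by simpa using hk') hk, fun c => absurd hm c⟩
      · rw [if_neg hm] at hk'
        exact ⟨fun c => absurd c hm, fun _ => hZ k (by simpa using hk') hk⟩
    · simp at h
  | .absurd r, Z, NZ, h, v, hval, hZ, hN, hv => (sq_spec hψ h v hval hZ hv hN).elim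
  | .sq r k t, Z, NZ, h, v, hval, hZ, hN, hv => by
    simp only [check, Bool.and_eq_true] at h
    refine check_sound hw hKs t _ _ h.2 v hval (fun j hj hj' => ?_) hN hv
    rcases List.mem_cons.1 hj with rfl | hj
    · by_contra hne
      exact sq_spec hψ h.1 v hval hZ hv fun i hi hi' =>
        (List.mem_cons.1 hi).elim (fun e => e ▸ hne) fun hi => hN i hi hi'
    · exact hZ j hj hj'
  | .split k a b, Z, NZ, h, v, hval, hZ, hN, hv => by
    simp only [check, Bool.and_eq_true, decide_eq_true_eq] at h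
    by_cases hk : v k = 0
    · exact check_sound hw hKs a _ _ h.1.2 v hval (fun j hj hj' => (List.mem_cons.1 hj).elim (fun e => e ▸ hk)
        fun hj => hZ j hj hj') hN hv
    · exact check_sound hw hKs b _ _ h.2 v hval hZ (fun j hj hj' => (List.mem_cons.1 hj).elim (fun e => e ▸ hk)
        fun hj => hN j hj hj') hv
  | .conj g sub r useL t, Z, NZ, h, v, hval, hZ, hN, hv => by
    simp only [check, Bool.and_eq_true, decide_eq_true_eq] at h
    obtain ⟨⟨⟨⟨⟨⟨hg, hr⟩, hsq⟩, hsub⟩, hout⟩, hkill⟩, hrec⟩ := h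
    set F := fVars g sub with hFdef
    have hL : ∀ t, Rels ψ (bif useL then relsOf Z NZ else []) (vals v t) := by
      intro t
      cases useL with
      | true => exact rels_spec hψ (by simpa [sqW] using hsq) hval hZ hN hv t
      | false => intro l hl; simp at hl
    have hF : ∀ s : K, (tFix g sub = true → ψ s = s) → FixVals ψ F (vals v s) := by
      intro s hs
      rw [hFdef, fVars]
      split
      · next htf => exact fixVals_cons hval (hs htf)
      · exact fixVals_fixL hval
    obtain ⟨s, hs, e⟩ := kill_spec hψ hr hw hval hN hL hF hkill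
    rw [evP_add, evP_var v s hr, evP_nmP (hF s hs)] at e
    set w := collect (cjW Z g sub) with hwdef
    obtain ⟨ew, hval'⟩ := outs_spec hψ (hF s hs) hout
    have hp : gel ψ g (evP ψ (vals v s) (parP sub)) ∈ (tdE6 ψ).G1 := by
      refine gel_mem hψ hg fun hgf => ?_
      rcases sub with - | ⟨j, b⟩
      · rw [parP, evP_par]
        exact hs (by simp [tFix, hgf])
      · simp [hgf] at hsub
    have key : gel ψ g (evP ψ (vals v s) (parP sub)) * form ψ v * (gel ψ g (evP ψ (vals v s) (parP sub)))⁻¹ =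
        form ψ fun k => evP ψ (vals v s) (coef w (root0 k)) := by
      rw [← ew, hwdef, evW_collect, cjW, evW_append, evW_append, evW_reverse, evW_gen hψ, evW_shW hψ v s hZ]
    refine Goal.of_conj hp key (check_sound hw hKs t _ _ hrec _ hval' ?_ ?_ (mul_self_conj key hv))
    · intro k hk hk'
      rcases List.mem_cons.1 hk with rfl | hk
      · simpa using e
      · exact zeroSet_spec hψ (hF s hs) (hL s) hk
    · intro k hk hk'
      simp only [List.mem_filter, Bool.and_eq_true, decide_eq_true_eq] at hk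
      show evP ψ (vals v s) (coef w (root0 k)) ≠ 0
      rw [← evP_nmP (hF s hs)]
      refine nz_spec hN (fun hrN => ?_) hk.2.2
      intro h0
      subst h0
      have hz := kill_zero hψ (hF (0 : K) fun _ => map_zero ψ) hkill
      rw [evP_add, evP_var v (0 : K) hr, evP_nmP (hF (0 : K) fun _ => map_zero ψ)] at hz
      rw [hz] at e
      exact hN r (by simpa using hrN) hr e.symm
  | .weyl L t, Z, NZ, h, v, hval, hZ, hN, hv => by
    simp only [check, Bool.and_eq_true, List.all_eq_true, decide_eq_true_eq] at h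
    obtain ⟨⟨⟨hL', hsq⟩, hout⟩, hrec⟩ := h
    have hF := fixVals_fixL (t := (0 : K)) hval
    obtain ⟨ew, hval'⟩ := outs_spec hψ hF hout
    have hlt : ∀ i ∈ wWord L, i < 6 := by
      intro i hi
      obtain ⟨j, hj, hi⟩ := List.mem_flatMap.1 hi
      exact wWord_lt j (hL' j hj) i hi
    set w := collect (wlW Z L) with hwdef
    have key : ((wWord L).map fun i => (goodE6.ng (chevE6.simple i) 1 : GL chevE6.Idx K)).prod * form ψ v *
        (((wWord L).map fun i => (goodE6.ng (chevE6.simple i) 1 : GL chevE6.Idx K)).prod)⁻¹ =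
          form ψ fun k => evP ψ (vals v 0) (coef w (root0 k)) := by
      rw [← ew, hwdef, evW_collect, wlW, ← conj_evW hlt _ _ (shW_lt hψ Z), evW_shW hψ v 0 hZ]
    refine Goal.of_conj (nWord_mem L hL') key (check_sound hw hKs t _ _ hrec _ hval' ?_ ?_ (mul_self_conj key hv))
    · intro k hk _
      exact zeroSet_spec hψ hF (rels_spec hψ hsq hval hZ hN hv 0) hk
    · intro k hk hk'
      simp only [List.mem_filter] at hk
      show evP ψ (vals v 0) (coef w (root0 k)) ≠ 0
      rw [← evP_nmP hF]
      exact nz_spec hN (fun c => by simp at c) hk.2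

include hψ in
/-- A state checked from earlier states. -/
theorem sol_of_check (hw : ∃ w : K, w + ψ w = 1) {Ks : List (List ℕ)} (hKs : ∀ S ∈ Ks, Sol ψ S) {T : Tree}
    {S : List ℕ} (h : check Ks T ((List.range 24).filter fun k => !S.contains k) S = true) : Sol ψ S :=
  fun v hval hv hv2 => check_sound hψ hw hKs T _ _ h v hval
    (fun k hk hk' => (hv k hk').2 (by simpa using (List.mem_filter.1 hk).2))
    (fun k hk hk' => (hv k hk').1 hk) hv2

end Eval

end Cfsg.Agent.H71.E6Inv
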