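import Cfsg.Agent.H71.E6InvTree
import Cfsg.Agent.H65.Inv.RankE6

/-!
The three classes of involutions of the twisted group of type E₆ in characteristic two.
-/

set_option autoImplicit false
set_option maxRecDepth 100000
set_option linter.unusedSectionVars false

open Cfsg.Lie Cfsg.Agent.H46

namespace Cfsg.Agent.H71.E6Inv

/-- The symbolic word of thirty-six coordinates. -/
def allW : PWord := order.zip ((List.range 36).map pv)

/-- The symbolic image of thirty-six coordinates under the twisting endomorphism. -/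
def sigW : PWord := (List.range 36).map fun i => (graphE6.S.π (order.getD i 0), sigP (pv i))

/-- The coordinates of the image. -/
def sigC : PWord := order.zip (order.map fun r => sigP (pv (order.idxOf (graphE6.S.π r))))

theorem sig_ok : collect sigW = collect sigC := by decide +kernel

theorem left_ok : ∀ i < 36, isCollected (collect ((order.getD i 0, pv 36) :: allW)) = true := by decide +kernel

theorem order_mem : ∀ r ∈ List.range' 36 36, r ∈ order := by decide +kernel

theorem pi_order : ∀ r ∈ order, r < 72 ∧ graphE6.S.π r ∈ order ∧ graphE6.S.π (graphE6.S.π r) = r := by decide +kernel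

theorem cor_facts :
    (∀ k : Fin 6, goodE6.tab.cor 71 (graphE6.ρF k).val = goodE6.tab.cor 71 k.val ∧
      goodE6.tab.cor 65 (graphE6.ρF k).val = goodE6.tab.cor 65 k.val ∧
      goodE6.tab.cor 66 (graphE6.ρF k).val = goodE6.tab.cor 68 k.val ∧
      goodE6.tab.cor 68 (graphE6.ρF k).val = goodE6.tab.cor 66 k.val ∧
      goodE6.tab.cor 55 (graphE6.ρF k).val = goodE6.tab.cor 67 k.val ∧
      goodE6.tab.cor 67 (graphE6.ρF k).val = goodE6.tab.cor 55 k.val) ∧
    (∀ a ∈ [71], ∀ b ∈ [71], goodE6.tab.pair 6 a b = if a = b then 2 else 0) ∧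
    (∀ a ∈ [66, 68], ∀ b ∈ [66, 68], goodE6.tab.pair 6 a b = if a = b then 2 else 0) ∧
    ∀ a ∈ [55, 67, 65], ∀ b ∈ [55, 67, 65], goodE6.tab.pair 6 a b = if a = b then 2 else 0 := by decide +kernel

theorem base_facts :
    ((List.range 24).filter fun k => ([] : List ℕ).contains k) = [] ∧
    ((List.range 24).filter fun k => ([23] : List ℕ).contains k) = [23] ∧
    ((List.range 24).filter fun k => ([20] : List ℕ).contains k) = [20] ∧
    ((List.range 24).filter fun k => ([18, 19] : List ℕ).contains k) = [18, 19] ∧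
    states.take 4 = [[], [23], [20], [18, 19]] := by decide +kernel

section

variable {K : Type*} [Field K] [CharP K 2] {ψ : K →+* K} (hψ : ∀ x, ψ (ψ x) = x)

theorem hg_conj_xg {c r : ℕ} (hc : c < 72) (hr : r < 72) {a : K} (ha : a ≠ 0) (t : K) :
    goodE6.hg c a * goodE6.xg r t * (goodE6.hg c a)⁻¹ = goodE6.xg r (a ^ goodE6.tab.pair 6 c r * t) := by
  rw [goodE6.hg_mul_xg (r := c) (s := r) hc hr ha, mul_inv_cancel_right,
    goodE6.pairing_eq_pair (r := c) (s := r) hc hr]
  rfl

/-- Conjugation of a product over orthogonal roots by the torus. -/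
theorem conj_orth : ∀ (L : List (ℕ × K)) (c : ℕ) (a : K), c < 72 → a ≠ 0 → (∀ e ∈ L, e.1 < 72) →
    goodE6.hg c a * (L.map fun e => goodE6.xg e.1 e.2).prod * (goodE6.hg c a)⁻¹ =
      (L.map fun e => goodE6.xg e.1 (a ^ goodE6.tab.pair 6 c e.1 * e.2)).prod
  | [], c, a, _, _, _ => by simp
  | e :: L, c, a, hc, ha, hL => by
    rw [List.map_cons, List.prod_cons, List.map_cons, List.prod_cons,
      ← conj_orth L c a hc ha fun x hx => hL x (List.mem_cons_of_mem _ hx),
      ← hg_conj_xg hc (hL e List.mem_cons_self) ha e.2]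
    group

include hψ in
theorem pair_torus_mem {r r' : ℕ} (hr : r < 72) (hr' : r' < 72)
    (h : ∀ k : Fin 6, goodE6.tab.cor r (graphE6.ρF k).val = goodE6.tab.cor r' k.val ∧
      goodE6.tab.cor r' (graphE6.ρF k).val = goodE6.tab.cor r k.val) {a : K} (ha : a ≠ 0) :
    goodE6.hg r a * goodE6.hg r' (ψ a) ∈ (tdE6 ψ).G1 := by
  let u : Kˣ := Units.mk0 a ha
  let u' : Kˣ := Units.map ψ.toMonoidHom u
  have e1 := goodE6.hg_eq_torus (F := K) (r := r) hr u
  have e2 := goodE6.hg_eq_torus (F := K) (r := r') hr' u'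
  rw [show goodE6.hg r a = goodE6.hg r (u : K) from rfl, show goodE6.hg r' (ψ a) = goodE6.hg r' (u' : K) from rfl,
    e1, e2, ← map_mul]
  refine ((graphE6.inf_H_G1 okE6 coxE6 ψ).ge ⟨_, fun k => ?_, rfl⟩).2
  have hu : Units.map ψ.toMonoidHom u' = u := Units.ext (hψ a)
  simp only [Pi.mul_apply, map_mul, map_zpow, hu]
  rw [(h k).1, (h k).2]
  exact mul_comm _ _

theorem fix_torus_mem {r : ℕ} (hr : r < 72)
    (h : ∀ k : Fin 6, goodE6.tab.cor r (graphE6.ρF k).val = goodE6.tab.cor r k.val) {a : K} (ha : a ≠ 0)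
    (haf : ψ a = a) : goodE6.hg r a ∈ (tdE6 ψ).G1 := by
  let u : Kˣ := Units.mk0 a ha
  rw [show goodE6.hg r a = goodE6.hg r (u : K) from rfl, goodE6.hg_eq_torus (F := K) (r := r) hr u]
  refine ((graphE6.inf_H_G1 okE6 coxE6 ψ).ge ⟨_, fun k => ?_, rfl⟩).2
  have hu : Units.map ψ.toMonoidHom u = u := Units.ext haf
  simp only [map_zpow, hu]
  rw [h k]

theorem form_supp (v : ℕ → K) {S : List ℕ} (h : ∀ k < 24, k ∉ S → v k = 0) :
    form ψ v = (((List.range 24).filter fun k => S.contains k).map fun k => gel ψ k (v k)).prod := by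
  rw [form]
  have h0 : ∀ k, gel ψ k (0 : K) = 1 := fun k => by simp [gel, goodE6.xg_zero]
  have : ∀ L : List ℕ, (∀ k ∈ L, k < 24) → (L.map fun k => gel ψ k (v k)).prod =
      ((L.filter fun k => S.contains k).map fun k => gel ψ k (v k)).prod := by
    intro L
    induction L with
    | nil => simp
    | cons a L ih =>
      intro hL
      by_cases ha : a ∈ S
      · rw [List.filter_cons_of_pos (by simpa using ha), List.map_cons, List.map_cons, List.prod_cons, List.prod_cons,
          ih fun k hk => hL k (List.mem_cons_of_mem _ hk)]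
      · rw [List.filter_cons_of_neg (by simpa using ha), List.map_cons, List.prod_cons, h a (hL a List.mem_cons_self) ha,
          h0, one_mul, ih fun k hk => hL k (List.mem_cons_of_mem _ hk)]
  exact this _ fun k hk => List.mem_range.1 hk

variable [PerfectRing K 2]

theorem scale {x : K} (hx : x ≠ 0) : ∃ a : K, a ≠ 0 ∧ a ^ (2 : ℤ) * x = 1 ∧ (ψ x = x → ψ a = a) := by
  obtain ⟨a, ha, haf⟩ := exists_sqrt (ψ := ψ) x⁻¹
  refine ⟨a, fun e => by simp [e] at ha; exact hx ha.symm, ?_, fun h => haf (by rw [map_inv₀, h])⟩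
  rw [show (2 : ℤ) = ((2 : ℕ) : ℤ) from rfl, zpow_natCast, ha, inv_mul_cancel₀ hx]

include hψ in
theorem sol_base : ∀ S ∈ states.take 4, Sol ψ S := by
  obtain ⟨f0, f1, f2, f3, hst⟩ := base_facts
  obtain ⟨hcor, p1, p2, p3⟩ := cor_facts
  rw [hst]
  intro S hS v hval hv _
  rw [form_supp v (S := S) fun k hk hm => (hv k hk).2 hm]
  simp only [List.mem_cons, List.not_mem_nil, or_false] at hS
  rcases hS with rfl | rfl | rfl | rfl
  · rw [f0]
    exact ⟨1, one_mem _, [], by decide, by simp [H65.Inv.prodX]⟩
  · rw [f1]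
    have h23 := (hv 23 (by omega)).1 (by simp)
    obtain ⟨a, ha, e, haf⟩ := scale (ψ := ψ) h23
    refine ⟨_, fix_torus_mem (r := 71) (by omega) (fun k => (hcor k).1) ha (haf (hval 23 (by decide))), [71],
      by decide, ?_⟩
    rw [show ([23].map fun k => gel ψ k (v k)).prod = ([(71, v 23)].map fun e => goodE6.xg e.1 e.2).prod by
      simp [gel, fixL, root0, orbs], conj_orth _ 71 a (by omega) ha (by simp)]
    have en : a ^ 2 * v 23 = 1 := by rwa [zpow_ofNat] at e
    simp [H65.Inv.prodX, p1 71 (by simp) 71 (by simp), en]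
  · rw [f2]
    have h20 := (hv 20 (by omega)).1 (by simp)
    obtain ⟨a, ha, e, -⟩ := scale (ψ := ψ) h20
    refine ⟨_, pair_torus_mem hψ (r := 66) (r' := 68) (by omega) (by omega)
      (fun k => ⟨(hcor k).2.2.1, (hcor k).2.2.2.1⟩) ha, [66, 68], by decide, ?_⟩
    have e' : ψ a ^ (2 : ℤ) * ψ (v 20) = 1 := by rw [← map_zpow₀, ← map_mul, e, map_one]
    rw [show ([20].map fun k => gel ψ k (v k)).prod =
        ([(66, v 20), (68, ψ (v 20))].map fun e => goodE6.xg e.1 e.2).prod by simp [gel, fixL, root0, orbs],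
      show ∀ x y z : GL chevE6.Idx K, x * y * z * (x * y)⁻¹ = x * (y * z * y⁻¹) * x⁻¹ from fun x y z => by group,
      conj_orth _ 68 (ψ a) (by omega) ((map_ne_zero ψ).2 ha) (by simp)]
    have key := conj_orth [(66, v 20), (68, (1 : K))] 66 a (by omega) ha (by simp)
    simp only [List.map_cons, List.map_nil, p2 68 (by simp) 66 (by simp), p2 68 (by simp) 68 (by simp),
      show ((68 : ℕ) = 66) = False by simp, if_false, if_true, zpow_zero, one_mul, e'] at key ⊢
    rw [key]
    have en : a ^ 2 * v 20 = 1 := by rwa [zpow_ofNat] at e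
    simp [H65.Inv.prodX, p2 66 (by simp) 66 (by simp), p2 66 (by simp) 68 (by simp), en]
  · rw [f3]
    have h18 := (hv 18 (by omega)).1 (by simp)
    have h19 := (hv 19 (by omega)).1 (by simp)
    obtain ⟨a, ha, e, -⟩ := scale (ψ := ψ) h18
    obtain ⟨b, hb, eb, hbf⟩ := scale (ψ := ψ) h19
    refine ⟨_, mul_mem (pair_torus_mem hψ (r := 55) (r' := 67) (by omega) (by omega)
      (fun k => ⟨(hcor k).2.2.2.2.1, (hcor k).2.2.2.2.2⟩) ha)
      (fix_torus_mem (r := 65) (by omega) (fun k => (hcor k).2.1) hb (hbf (hval 19 (by decide)))), [55, 67, 65],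
      by decide, ?_⟩
    have e' : ψ a ^ (2 : ℤ) * ψ (v 18) = 1 := by rw [← map_zpow₀, ← map_mul, e, map_one]
    rw [show ([18, 19].map fun k => gel ψ k (v k)).prod =
        ([(55, v 18), (67, ψ (v 18)), (65, v 19)].map fun e => goodE6.xg e.1 e.2).prod by
          simp [gel, fixL, root0, orbs, mul_assoc],
      show ∀ x y z w : GL chevE6.Idx K, x * y * z * w * (x * y * z)⁻¹ = x * (y * (z * w * z⁻¹) * y⁻¹) * x⁻¹ from
        fun x y z w => by group,
      conj_orth _ 65 b (by omega) hb (by simp)]
    have k1 := conj_orth [(55, v 18), (67, ψ (v 18)), (65, (1 : K))] 67 (ψ a) (by omega) ((map_ne_zero ψ).2 ha) (by simp)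
    have k2 := conj_orth [(55, v 18), (67, (1 : K)), (65, (1 : K))] 55 a (by omega) ha (by simp)
    simp only [List.map_cons, List.map_nil, p3 65 (by simp) 55 (by simp), p3 65 (by simp) 67 (by simp),
      p3 65 (by simp) 65 (by simp), p3 67 (by simp) 55 (by simp), p3 67 (by simp) 65 (by simp),
      p3 67 (by simp) 67 (by simp), show ((65 : ℕ) = 55) = False by simp, show ((65 : ℕ) = 67) = False by simp,
      show ((67 : ℕ) = 55) = False by simp, show ((67 : ℕ) = 65) = False by simp,
      if_false, if_true, zpow_zero, one_mul, e', eb] at k1 k2 ⊢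
    rw [k1, k2]
    have en : a ^ 2 * v 18 = 1 := by rwa [zpow_ofNat] at e
    simp [H65.Inv.prodX, p3 55 (by simp) 55 (by simp), p3 55 (by simp) 67 (by simp), p3 55 (by simp) 65 (by simp), en]

theorem coords_eq (f g : ℕ → K) : ∀ k, k ≤ 36 →
    ((order.drop k).map fun r => goodE6.xg r (f r)).prod = ((order.drop k).map fun r => goodE6.xg r (g r)).prod →
      ∀ r ∈ order.drop k, f r = g r := by
  obtain ⟨hlen, hnd, hpos⟩ := order_facts
  intro k
  induction hd : 36 - k generalizing k with
  | zero =>
    intro hk _ r hr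
    rw [List.drop_eq_nil_of_le (by omega)] at hr
    simp at hr
  | succ n ih =>
    intro hk he r hr
    have hk' : k < order.length := by omega
    rw [List.drop_eq_getElem_cons hk'] at he hr
    rw [List.map_cons, List.prod_cons, List.map_cons, List.prod_cons] at he
    have hlast : k + 1 < 36 → ∀ a ∈ order.drop (k + 1), ∀ b ∈ order.drop (k + 1), ∀ c ∈ chevE6.commTerms a b,
        c.1 ∈ order.drop (k + 1) := fun h => suffix_closed (k + 1) h
    have hcl : goodE6.PosClosed {x | x ∈ order.drop (k + 1)} := by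
      refine Cfsg.Agent.H65.posClosed_list goodE6 _ fun a ha => ?_
      by_cases h : k + 1 < 36
      · exact hlast h a ha
      · rw [List.drop_eq_nil_of_le (by omega)] at ha
        simp at ha
    have hrest : ∀ f : ℕ → K, ((order.drop (k + 1)).map fun r => goodE6.xg r (f r)).prod ∈
        goodE6.posSub (F := K) {x | x ∈ order.drop (k + 1)} := by
      intro f
      refine Subgroup.list_prod_mem _ fun g hg => ?_
      obtain ⟨a, ha, rfl⟩ := List.mem_map.1 hg
      exact goodE6.xg_mem_posSub (hpos a (List.mem_of_mem_drop ha)) ha _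
    have h0 : f order[k] = g order[k] := by
      have e : goodE6.xg order[k] (f order[k] - g order[k]) =
          ((order.drop (k + 1)).map fun r => goodE6.xg r (g r)).prod *
            (((order.drop (k + 1)).map fun r => goodE6.xg r (f r)).prod)⁻¹ := by
        rw [eq_mul_inv_iff_mul_eq, show f order[k] - g order[k] = -g order[k] + f order[k] by ring, ← goodE6.xg_add,
          mul_assoc, he, ← mul_assoc, goodE6.xg_add, neg_add_cancel, goodE6.xg_zero, one_mul]
      refine sub_eq_zero.1 (Cfsg.Agent.H65.eq_zero_of_xg_mem_posSub goodE6 hcl (hpos _ (List.getElem_mem hk')) ?_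
        (e ▸ mul_mem (hrest g) (inv_mem (hrest f))))
      intro hm
      have hnd' : (order.drop k).Nodup := hnd.sublist (List.drop_sublist _ _)
      rw [List.drop_eq_getElem_cons hk', List.nodup_cons] at hnd'
      exact hnd'.1 hm
    rw [h0] at he
    have he' := mul_left_cancel he
    rcases List.mem_cons.1 hr with rfl | hr
    · exact h0
    · exact ih (k + 1) (by omega) (by omega) he' r hr

theorem evW_allW (y : ℕ → K) (t : K) :
    evW ψ ((order.map y) ++ [t]) allW = (order.map fun r => goodE6.xg r (y r)).prod := by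
  have hl : order.length = 36 := order_facts.1
  rw [evW]
  congr 1
  refine List.ext_getElem (by simp [allW, hl]) fun i h1 h2 => ?_
  have hi : i < 36 := by simpa [hl] using h2
  simp only [allW, List.getElem_map, List.getElem_zip, List.getElem_range, evP_pv]
  rw [List.getD_append _ _ _ _ (by simpa [hl] using hi), List.getD_eq_getElem _ _ (by simpa [hl] using hi),
    List.getElem_map]

include ψ in
/-- Coordinates of a positive unipotent element. -/
theorem exists_coords {u : GL chevE6.Idx K} (hu : u ∈ chevE6.posUnipotent K) :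
    ∃ y : ℕ → K, u = (order.map fun r => goodE6.xg r (y r)).prod := by
  rw [goodE6.posUnipotent_eq] at hu
  have step : ∀ (s : ℕ), chevE6.IsPosRoot s → ∀ (t : K) (y : ℕ → K),
      ∃ y' : ℕ → K, goodE6.xg s t * (order.map fun r => goodE6.xg r (y r)).prod =
        (order.map fun r => goodE6.xg r (y' r)).prod := by
    intro s hs t y
    have h1 : s ∈ chevE6.posRoots := List.mem_filter.2 ⟨List.mem_range.2 hs.1, decide_eq_true hs⟩
    rw [goodE6.posRoots_eq] at h1
    have hmem := order_mem s h1
    have hl : order.length = 36 := order_facts.1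
    have hi : order.idxOf s < 36 := hl ▸ List.idxOf_lt_length_iff.2 hmem
    have hget : order.getD (order.idxOf s) 0 = s := by
      rw [List.getD_eq_getElem _ _ (hl ▸ hi), List.getElem_idxOf]
    have hc := left_ok _ hi
    refine ⟨fun r => evP ψ ((order.map y) ++ [t]) (coef (collect ((order.getD (order.idxOf s) 0, pv 36) :: allW)) r), ?_⟩
    simp only [isCollected, decide_eq_true_eq] at hc
    have e := evW_collect (ψ := ψ) ((order.map y) ++ [t]) ((order.getD (order.idxOf s) 0, pv 36) :: allW)
    rw [evW_cons, evW_allW, hget, evP_pv, List.getD_append_right _ _ _ _ (by simp [hl])] at e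
    simp only [List.length_map, hl, Nat.sub_self, List.getD_cons_zero] at e
    rw [← e]
    rw [hget] at hc ⊢
    conv_lhs => rw [← hc, evW_prune]
    simp [evW, fullW, Function.comp_def, List.map_map, List.zip_eq_zipWith, List.zipWith_map_right,
      List.zipWith_self]
  induction hu using Subgroup.closure_induction_left with
  | one => exact ⟨fun _ => 0, by simp [goodE6.xg_zero]⟩
  | mul_left x hx y _ ih =>
    obtain ⟨s, t, ⟨hs, -⟩, rfl⟩ := hx
    obtain ⟨v, rfl⟩ := ih
    exact step s hs t v
  | inv_mul_cancel x hx y _ ih =>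
    obtain ⟨s, t, ⟨hs, -⟩, rfl⟩ := hx
    obtain ⟨v, rfl⟩ := ih
    rw [goodE6.xg_inv]
    exact step s hs (-t) v

include hψ in
/-- An element of the unipotent subgroup of the twisted group has twenty-four coordinates. -/
theorem exists_form {u : GL chevE6.Idx K} (hu : u ∈ (tdE6 ψ).U1) : ∃ v, Valid ψ v ∧ u = form ψ v := by
  obtain ⟨hU, hfix⟩ := hu
  rw [tdE6, graphE6.tdata_U okE6 coxE6 ψ] at hU
  obtain ⟨y, rfl⟩ := exists_coords (ψ := ψ) hU
  change goodE6.twistHom okE6.check ψ _ = _ at hfix
  have hl : order.length = 36 := order_facts.1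
  have e1 : evW ψ ((order.map y) ++ [0]) sigW =
      goodE6.twistHom okE6.check ψ (order.map fun r => goodE6.xg r (y r)).prod := by
    rw [map_list_prod, List.map_map, evW]
    congr 1
    refine List.ext_getElem (by simp [sigW, hl]) fun i h1 h2 => ?_
    have hi : i < 36 := by simpa [hl] using h2
    simp only [sigW, List.getElem_map, List.getElem_range, evP_sig hψ, evP_pv, Function.comp_apply]
    simp only [List.getD_append _ _ _ _ (show i < (order.map y).length by simpa [hl] using hi),
      List.getD_eq_getElem _ _ (show i < (order.map y).length by simpa [hl] using hi),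
      List.getD_eq_getElem _ _ (show i < order.length by omega), List.getElem_map]
    rw [twist_xg (pi_order _ (List.getElem_mem _)).1]
  have e2 : evW ψ ((order.map y) ++ [0]) sigC =
      (order.map fun r => goodE6.xg r (ψ (y (graphE6.S.π r)))).prod := by
    rw [evW]
    congr 1
    refine List.ext_getElem (by simp [sigC]) fun i h1 h2 => ?_
    have hi : i < 36 := by simpa [hl] using h2
    simp only [sigC, List.getElem_map, List.getElem_zip, evP_sig hψ, evP_pv]
    have hm := (pi_order _ (List.getElem_mem (by omega : i < order.length))).2.1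
    have hj := List.idxOf_lt_length_iff.2 hm
    rw [List.getD_append _ _ _ _ (by simpa using hj), List.getD_eq_getElem _ _ (by simpa using hj),
      List.getElem_map, List.getElem_idxOf]
  have key : ∀ r ∈ order, ψ (y (graphE6.S.π r)) = y r := by
    intro r hr
    refine coords_eq (fun r => ψ (y (graphE6.S.π r))) y 0 (by omega) ?_ r (by simpa using hr)
    rw [List.drop_zero, ← e2, ← evW_eq _ sig_ok, e1, hfix]
    rfl
  refine ⟨fun k => y (root0 k), fun k hk => ?_, ?_⟩
  · obtain ⟨-, -, -, hπ, -⟩ := gel_facts k (fixL_lt k hk)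
    have := key (root0 k) (root0_mem k (fixL_lt k hk))
    rw [hπ (by simpa using hk)] at this
    exact this
  · rw [order_eq, form]
    have : ∀ L : List ℕ, (∀ k ∈ L, k < 24) →
        ((L.flatMap fun k => orbs.getD k []).map fun r => goodE6.xg r (y r)).prod =
          (L.map fun k => gel ψ k (y (root0 k))).prod := by
      intro L
      induction L with
      | nil => simp
      | cons a L ih =>
        intro hL
        have ha := hL a List.mem_cons_self
        rw [List.flatMap_cons, List.map_append, List.prod_append, ih fun k hk => hL k (List.mem_cons_of_mem _ hk),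
          List.map_cons, List.prod_cons]
        congr 1
        by_cases hf : fixL.contains a = true
        · rw [(orbs_facts a ha).1 hf, gel, if_pos hf]
          simp
        · obtain ⟨-, -, -, -, hπ⟩ := gel_facts a ha
          obtain ⟨-, e0, e1⟩ := hπ (by simpa using hf)
          have := key _ (root0_mem a ha)
          rw [e0] at this
          rw [(orbs_facts a ha).2 (by simpa using hf), gel, if_neg hf]
          conv_rhs => rw [show ψ (y (root0 a)) = y ((orbs.getD a []).getD 1 0) by rw [← this, hψ]]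
          simp
    exact this _ fun k hk => List.mem_range.1 hk

end

section

variable {K : Type*} [Field K] [Fintype K] [CharP K 2] {q : ℕ} (f : K →+* K) (hf : ∀ x, f x = x ^ q)
  (hK : Fintype.card K = q ^ 2)

include hf hK

theorem even_q : Even q := by
  obtain ⟨n, hn, hc⟩ := FiniteField.card K 2
  rw [hK] at hc
  have h : Even (q ^ 2) := by rw [hc]; exact even_two.pow_of_ne_zero n.ne_zero
  exact (Nat.even_pow.1 h).1

theorem period_E6' : ∀ x : K, f (f x) = x := fun x => period_E6 f hf hK x

theorem exists_trace : ∃ w : K, w + f w = 1 := by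
  have hq := one_lt_q f hf hK two_pos
  obtain ⟨x, hx⟩ : ∃ x : K, f x ≠ x := by
    by_contra hc
    push_neg at hc
    have h := card_period f hf hK two_pos 1 (one_dvd 2)
    rw [pow_one, Nat.card_congr (Equiv.subtypeUnivEquiv (fun t => by simpa using hc t)), Nat.card_eq_fintype_card,
      hK] at h
    nlinarith
  have hd : x + f x ≠ 0 := fun e => hx (CharTwo.add_eq_zero.1 e).symm
  refine ⟨x / (x + f x), ?_⟩
  rw [map_div₀, map_add, period_E6' f hf hK, add_comm (f x) x, ← add_div, div_self hd]

theorem exists_conj_U1 {g : GL chevE6.Idx K} (hg : g ∈ (tdE6 f).G1) (hsq : g * g = 1) :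
    ∃ x ∈ (tdE6 f).G1, x * g * x⁻¹ ∈ (tdE6 f).U1 := by
  classical
  have hq := one_lt_q f hf hK two_pos
  set G := (tdE6 f).G1 with hG
  set U : Subgroup ↥G := (chevE6.posUnipotent K ⊓ G).subgroupOf G with hU
  have hcardU : Nat.card ↥U = q ^ 36 := by
    rw [hU, Nat.card_congr (Subgroup.subgroupOfEquivOfLe inf_le_right).toEquiv]
    exact card_U1_E6 f hf hK
  haveI : Fact (Nat.Prime 2) := ⟨Nat.prime_two⟩
  have hodd : ¬ 2 ∣ U.index := by
    intro hd
    have hmul := U.card_mul_index
    have hcard := card_twistE6 f hf hK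
    rw [hcardU] at hmul
    rw [← hG, ← hmul, mul_left_comm, mul_assoc, mul_assoc, mul_assoc, mul_assoc, mul_assoc] at hcard
    have hrest := Nat.eq_of_mul_eq_mul_left (pow_pos (by omega) 36) hcard
    have h2 : (2 : ℕ) ∣ Nat.gcd 3 (q + 1) * U.index := dvd_mul_of_dvd_right hd _
    rw [hrest] at h2
    simp only [Nat.prime_two.dvd_mul] at h2
    have he : ∀ n, n ≠ 0 → 2 ∣ q ^ n := fun n hn => (even_iff_two_dvd.1 (even_q f hf hK)).trans (dvd_pow_self q hn)
    have hp : ∀ n, 1 ≤ q ^ n := fun n => Nat.one_le_pow _ _ (by omega)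
    have := he 2 (by omega); have := he 5 (by omega); have := he 6 (by omega); have := he 8 (by omega)
    have := he 9 (by omega); have := he 12 (by omega)
    have := hp 2; have := hp 6; have := hp 8; have := hp 12
    omega
  have hUp : IsPGroup 2 ↥U := by
    obtain ⟨n, -, hn⟩ := FiniteField.card K 2
    obtain ⟨k, hk⟩ : ∃ k, q = 2 ^ k := by
      have : q ∣ 2 ^ (n : ℕ) := by rw [← hn, hK]; exact dvd_pow_self q two_ne_zero
      obtain ⟨k, -, hk⟩ := (Nat.dvd_prime_pow Nat.prime_two).1 this
      exact ⟨k, hk⟩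
    exact IsPGroup.of_card (n := k * 36) (by rw [hcardU, hk, pow_mul])
  let S : Sylow 2 ↥G := hUp.toSylow hodd
  have hgp : IsPGroup 2 ↥(Subgroup.zpowers (⟨g, hg⟩ : ↥G)) := by
    intro y
    refine ⟨1, Subtype.ext ?_⟩
    obtain ⟨y, k, rfl⟩ := y
    change ((⟨g, hg⟩ : ↥G) ^ k) ^ (2 ^ 1) = 1
    rw [pow_one, ← zpow_natCast, ← zpow_mul, mul_comm, zpow_mul, zpow_natCast, sq]
    rw [show (⟨g, hg⟩ : ↥G) * ⟨g, hg⟩ = 1 from Subtype.ext hsq, one_zpow]
  obtain ⟨P, hP⟩ := hgp.exists_le_sylow
  obtain ⟨x, hx⟩ := MulAction.exists_smul_eq ↥G P S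
  refine ⟨x, x.2, ?_⟩
  have hmem : x * ⟨g, hg⟩ * x⁻¹ ∈ (S : Subgroup ↥G) := by
    rw [← hx, Sylow.coe_subgroup_smul, Subgroup.mem_pointwise_smul_iff_inv_smul_mem]
    simpa [MulAut.inv_apply, mul_assoc] using hP (Subgroup.mem_zpowers _)
  rw [← graphE6.inf_U_G1 okE6 coxE6 f]
  exact Subgroup.mem_subgroupOf.1 hmem

theorem exists_conj_reps {g : GL chevE6.Idx K} (hg : g ∈ (tdE6 f).G1) (hsq : g * g = 1) : Goal f g := by
  have hψ : ∀ x, f (f x) = x := period_E6' f hf hK
  have hw := exists_trace f hf hK
  have step : ∀ (i : ℕ) (T : Tree) (S : List ℕ), states[i]? = some S →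
      check (states.take i) T ((List.range 24).filter fun k => !S.contains k) S = true →
      (∀ A ∈ states.take i, Sol f A) → ∀ A ∈ states.take (i + 1), Sol f A := by
    intro i T S hS hT ih A hA
    rw [List.take_add_one, hS, List.mem_append] at hA
    rcases hA with hA | hA
    · exact ih A hA
    · simp only [Option.toList_some, List.mem_singleton] at hA
      exact hA ▸ sol_of_check hψ hw ih hT
  have h4 : ∀ A ∈ states.take 4, Sol f A := sol_base hψ
  have h5 := step 4 tree4 [0, 15] (by decide +kernel) tree4_ok h4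
  have h6 := step 5 tree5 [2, 8] (by decide +kernel) tree5_ok h5
  have h7 := step 6 tree6 [0, 2, 23] (by decide +kernel) tree6_ok h6
  have h8 := step 7 tree7 [0, 2, 15] (by decide +kernel) tree7_ok h7
  have h9 := step 8 tree8 [2, 8, 15] (by decide +kernel) tree8_ok h8
  have h10 := step 9 tree9 [0, 2, 15, 23] (by decide +kernel) tree9_ok h9
  have h11 := step 10 tree10 [2, 8, 15, 23] (by decide +kernel) tree10_ok h10
  have hall : ∀ A ∈ states, Sol f A := fun A hA => h11 A (by rwa [List.take_of_length_le (by decide +kernel)])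
  obtain ⟨x, hx, hxU⟩ := exists_conj_U1 f hf hK hg hsq
  obtain ⟨v, hval, hv⟩ := exists_form hψ hxU
  exact Goal.of_conj hx hv (check_sound hψ hw hall topTree [] [] topTree_ok v hval (by simp) (by simp)
    (mul_self_conj hv hsq))

end

end Cfsg.Agent.H71.E6Inv
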