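import Cfsg.Agent.H71.E6InvCert

/-!
Certificate data for the classes of involutions of the twisted group of type E₆ in characteristic two (generated).
-/

set_option autoImplicit false
set_option maxRecDepth 100000

namespace Cfsg.Agent.H71.E6Inv

/-- The states resolved one after another. -/
def states : List (List ℕ) := [[], [23], [20], [18, 19], [0, 15], [2, 8], [0, 2, 23], [0, 2, 15], [2, 8, 15], [0, 2, 15, 23], [2, 8, 15, 23]]

/-- The reduction of state 4. -/
def tree4 : Tree :=
  
  (.weyl [3,2,1,3] (.conj 7 none 19 false 
  (.weyl [0,1,2,1] (.ref 2))))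

theorem tree4_ok : check (states.take 4) tree4 ((List.range 24).filter fun k => !([0, 15] : List ℕ).contains k) [0, 15] = true := by
  decide +kernel

/-- The reduction of state 5. -/
def tree5 : Tree :=
  (.conj 1 none 8 false 
  (.weyl [1,0,2,1] (.ref 4)))

theorem tree5_ok : check (states.take 5) tree5 ((List.range 24).filter fun k => !([2, 8] : List ℕ).contains k) [2, 8] = true := by
  decide +kernel

/-- The reduction of state 6. -/
def tree6 : Tree :=
  
  (.weyl [0,3,2,1,3] (.conj 1 (some (9, false)) 21 false (.conj 15 none 20 true (.conj 12 none 23 false 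
  (.weyl [1,2,1,0,2,1] (.ref 3))))))

theorem tree6_ok : check (states.take 6) tree6 ((List.range 24).filter fun k => !([0, 2, 23] : List ℕ).contains k) [0, 2, 23] = true := by
  decide +kernel

/-- The reduction of state 7. -/
def tree7 : Tree :=
  
  (.weyl [1,0,3,2,1,2,3] (.conj 0 none 23 false (.conj 0 none 10 false (.sq 18 11 (.sq 20 15 (.conj 10 none 18 false (.conj 20 none 23 false 
  (.split 20 
  (.weyl [2,1,3,2,1,0] (.ref 3)) (.conj 15 none 20 true (.conj 20 none 23 false 
  (.weyl [2,1,3,2,1,0] (.ref 3))))))))))))

theorem tree7_ok : check (states.take 7) tree7 ((List.range 24).filter fun k => !([0, 2, 15] : List ℕ).contains k) [0, 2, 15] = true := by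
  decide +kernel

/-- The reduction of state 8. -/
def tree8 : Tree :=
  
  (.weyl [2,1,0,2,1,2,3] (.conj 0 none 19 false 
  (.weyl [1,0,2,1,3,2,1,0,2,1,2] (.ref 7))))

theorem tree8_ok : check (states.take 8) tree8 ((List.range 24).filter fun k => !([2, 8, 15] : List ℕ).contains k) [2, 8, 15] = true := by
  decide +kernel

/-- The reduction of state 9. -/
def tree9 : Tree :=
  
  (.weyl [3,2,1] (.conj 0 none 17 false (.conj 1 none 13 false 
  (.weyl [1,2,3] (.ref 6)))))

theorem tree9_ok : check (states.take 9) tree9 ((List.range 24).filter fun k => !([0, 2, 15, 23] : List ℕ).contains k) [0, 2, 15, 23] = true := by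
  decide +kernel

/-- The reduction of state 10. -/
def tree10 : Tree :=
  
  (.weyl [3] (.conj 0 none 17 false 
  (.weyl [1,2,1,0,3] (.ref 9))))

theorem tree10_ok : check (states.take 10) tree10 ((List.range 24).filter fun k => !([2, 8, 15, 23] : List ℕ).contains k) [2, 8, 15, 23] = true := by
  decide +kernel

end Cfsg.Agent.H71.E6Inv
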