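import Cfsg.Agent.H71.E6InvCollect

/-!
Elements of the unipotent subgroup of the twisted group of type E₆ in twenty-four coordinates, one for each orbit
of the graph symmetry on the positive roots, and symbolic tests of vanishing and fixedness of their values.
-/

set_option autoImplicit false
set_option maxRecDepth 100000
set_option linter.unusedSectionVars false

open Cfsg.Lie Cfsg.Agent.H46

namespace Cfsg.Agent.H71.E6Inv

/-- The orbits of the graph symmetry on the positive roots. -/
def orbs : List (List ℕ) :=
  [[36, 56], [37, 42], [39], [46], [38, 57], [40, 43], [47], [41, 58], [44], [48, 50], [45, 59], [49, 61],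
   [51], [52, 62], [53], [60], [54, 64], [63], [55, 67], [65], [66, 68], [69], [70], [71]]

/-- The coordinates with values in the fixed field. -/
def fixL : List ℕ := [2, 3, 6, 8, 12, 14, 15, 17, 19, 21, 22, 23]

/-- The first root of a coordinate. -/
def root0 (k : ℕ) : ℕ := (orbs.getD k []).headD 0

/-- The word of a coordinate. -/
def gen (k : ℕ) (p : PPoly) : PWord :=
  (root0 k, p) :: if fixL.contains k then [] else [((orbs.getD k []).getD 1 0, sigP p)]

/-- The word of twenty-four coordinates. -/
def formW (ps : ℕ → PPoly) : PWord := (List.range 24).flatMap fun k => gen k (ps k)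

/-- Coordinates vanishing on `Z`. -/
def shp (Z : List ℕ) (k : ℕ) : PPoly := if Z.contains k then [] else pv k

/-- The symbolic element. -/
def shW (Z : List ℕ) : PWord := formW (shp Z)

/-- Normal form of a monomial for variables fixed on `F`. -/
def nmM (F : List ℕ) : ℕ → Mono → Mono
  | _, [] => []
  | i, e :: m => (if F.contains i then (e.1 + e.2, 0) else e) :: nmM F (i + 1) m

/-- Normal form of a polynomial. -/
def nmP (F : List ℕ) (p : PPoly) : PPoly := addP (p.map (nmM F 0)) []

/-- The value of the monomial is visibly fixed. -/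
def symOk (F : List ℕ) (m : Mono) : Bool :=
  decide (m.length ≤ 25) &&
    (List.range 25).all fun i => F.contains i || decide ((m.getD i (0, 0)).1 = (m.getD i (0, 0)).2)

/-- The monomial involves no variable outside `NZ` other than the last one. -/
def monoOk (NZ : List ℕ) (m : Mono) : Bool :=
  decide (m.length ≤ 25) && (List.range 24).all fun i => decide (m.getD i (0, 0) = (0, 0)) || NZ.contains i

/-- The monomial does not involve the last variable. -/
def noLast (m : Mono) : Bool := decide (m.getD 24 (0, 0) = (0, 0))

/-- The value of the monomial is fixed, given the fixed values `L`. -/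
def fixOk (F : List ℕ) (L : List Mono) (m : Mono) : Bool :=
  symOk F m || L.any fun l => symOk F (mulM m l) || symOk F (mulM m (sigM l))

/-- A fixed monomial from one coordinate of the square. -/
def relOf (NZ : List ℕ) : PPoly → List Mono
  | [m, m'] => if decide (nmP fixL (sigP [m]) = [m']) && monoOk NZ m && noLast m then [m] else []
  | _ => []

/-- The value of the polynomial vanishes. -/
def zeroOk (F : List ℕ) (L : List Mono) (NZ : List ℕ) : PPoly → Bool
  | [] => true
  | [m, m'] => decide (nmP F (sigP [m]) = [m']) && monoOk NZ m && fixOk F L m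
  | _ => false

/-- A collected word has the shape of twenty-four coordinates. -/
def outsOk (F : List ℕ) (w : PWord) : Bool :=
  isCollected w && (List.range 24).all fun k =>
    if fixL.contains k then decide (nmP F (sigP (coef w (root0 k))) = nmP F (coef w (root0 k)))
    else decide (nmP F (sigP (coef w (root0 k))) = nmP F (coef w ((orbs.getD k []).getD 1 0)))

section Eval

variable {K : Type*} [Field K] [CharP K 2] {ψ : K →+* K} (hψ : ∀ x, ψ (ψ x) = x)

/-- The values of the variables. -/
def vals (v : ℕ → K) (t : K) : List K := (List.range 24).map v ++ [t]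

variable (ψ) in
/-- The values of the variables in `F` are fixed. -/
def FixVals (F : List ℕ) (vs : List K) : Prop := ∀ i ∈ F, ψ (vs.getD i 1) = vs.getD i 1

variable (ψ) in
/-- The coordinates of fixed orbits are fixed. -/
def Valid (v : ℕ → K) : Prop := ∀ k ∈ fixL, ψ (v k) = v k

theorem fixL_lt : ∀ k ∈ fixL, k < 24 := by decide +kernel

theorem getD_vals {v : ℕ → K} {t : K} {k : ℕ} (hk : k < 24) : (vals v t).getD k 1 = v k := by
  rw [vals, List.getD_append _ _ _ _ (by simpa using hk), List.getD_eq_getElem _ _ (by simpa using hk),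
    List.getElem_map, List.getElem_range]

theorem getD_vals_last {v : ℕ → K} {t : K} : (vals v t).getD 24 1 = t := by
  rw [vals, List.getD_append_right _ _ _ _ (by simp)]
  simp

theorem fixVals_fixL {v : ℕ → K} {t : K} (hv : Valid ψ v) : FixVals ψ fixL (vals v t) := fun i hi => by
  rw [getD_vals (fixL_lt i hi)]
  exact hv i hi

theorem fixVals_cons {v : ℕ → K} {t : K} (hv : Valid ψ v) (ht : ψ t = t) : FixVals ψ (24 :: fixL) (vals v t) := by
  intro i hi
  rcases List.mem_cons.1 hi with rfl | hi
  · rw [getD_vals_last]; exact ht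
  · exact fixVals_fixL hv i hi

theorem evM_nmM (F : List ℕ) : ∀ (m : Mono) (i : ℕ) (vs : List K),
    (∀ j < vs.length, F.contains (i + j) = true → ψ (vs.getD j 1) = vs.getD j 1) →
      evM ψ vs (nmM F i m) = evM ψ vs m
  | [], _, _, _ => rfl
  | e :: m, i, [], _ => by simp [nmM, evM]
  | e :: m, i, v :: vs, h => by
    have ih := evM_nmM F m (i + 1) vs fun j hj hc => by
      simpa using h (j + 1) (by simpa using hj) (by rw [← Nat.add_assoc, Nat.add_right_comm]; exact hc)
    simp only [nmM, evM, ih]
    congr 1
    by_cases hc : F.contains i = true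
    · have hv : ψ v = v := by simpa using h 0 (by simp) (by simpa using hc)
      have hc' : i ∈ F := by simpa using hc
      simp [hc', hv, pow_add]
    · simp only [hc]
      rfl

theorem evP_nmP {F : List ℕ} {vs : List K} (h : FixVals ψ F vs) (p : PPoly) :
    evP ψ vs (nmP F p) = evP ψ vs p := by
  rw [nmP, evP_add]
  simp only [evP, List.map_nil, List.sum_nil, add_zero, List.map_map]
  congr 1
  refine List.map_congr_left fun m _ => ?_
  exact evM_nmM F m 0 vs fun j _ hc => h j (by simpa using hc)

theorem evM_swap : ∀ (m : Mono) (vs : List K),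
    (∀ i < vs.length, (m.getD i (0, 0)).1 = (m.getD i (0, 0)).2 ∨ ψ (vs.getD i 1) = vs.getD i 1) →
      evM ψ vs (sigM m) = evM ψ vs m
  | [], _, _ => rfl
  | e :: m, [], _ => by simp [sigM, evM]
  | e :: m, v :: vs, h => by
    have ih := evM_swap m vs fun j hj => by simpa using h (j + 1) (by simpa using hj)
    simp only [sigM] at ih
    simp only [sigM, List.map_cons, evM, ih]
    congr 1
    rcases h 0 (by simp) with h0 | h0
    · simp only [List.getD_cons_zero] at h0
      rw [h0]
    · simp only [List.getD_cons_zero] at h0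
      rw [h0, ← pow_add, ← pow_add, Nat.add_comm]

theorem length_vals (v : ℕ → K) (t : K) : (vals v t).length = 25 := by simp [vals]

include hψ in
theorem sym_spec {F : List ℕ} {v : ℕ → K} {t : K} (hF : FixVals ψ F (vals v t)) {m : Mono}
    (h : symOk F m = true) : ψ (evM ψ (vals v t) m) = evM ψ (vals v t) m := by
  simp only [symOk, Bool.and_eq_true, decide_eq_true_eq, List.all_eq_true, List.mem_range, Bool.or_eq_true,
    List.contains_iff_mem] at h
  rw [← evM_sig hψ]
  refine evM_swap m _ fun i hi => ?_
  rw [length_vals] at hi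
  rcases h.2 i hi with h | h
  · exact Or.inr (hF i h)
  · exact Or.inl h

variable (ψ) in
/-- The monomials in `L` have nonzero fixed values. -/
def Rels (L : List Mono) (vs : List K) : Prop := ∀ l ∈ L, evM ψ vs l ≠ 0 ∧ ψ (evM ψ vs l) = evM ψ vs l

include hψ in
theorem fix_spec {F : List ℕ} {L : List Mono} {v : ℕ → K} {t : K} (hF : FixVals ψ F (vals v t))
    (hL : Rels ψ L (vals v t)) {m : Mono} (h : fixOk F L m = true) :
    ψ (evM ψ (vals v t) m) = evM ψ (vals v t) m := by
  simp only [fixOk, Bool.or_eq_true, List.any_eq_true] at h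
  rcases h with h | ⟨l, hl, h | h⟩
  · exact sym_spec hψ hF h
  all_goals
    obtain ⟨hne, hfix⟩ := hL l hl
    have e := sym_spec hψ hF h
    rw [evM_mul, map_mul] at e
  · rw [hfix] at e
    exact mul_right_cancel₀ hne e
  · rw [evM_sig hψ, hψ, hfix] at e
    exact mul_right_cancel₀ hne e

theorem evM_ne_zero : ∀ (l : List K) (m : Mono),
    (∀ i < l.length, m.getD i (0, 0) ≠ (0, 0) → l.getD i 1 ≠ 0) → evM ψ l m ≠ 0
  | [], m, _ => by cases m <;> simp [evM]
  | _ :: _, [], _ => by simp [evM]
  | v :: l, e :: m, h => by
    have ih := evM_ne_zero l m fun i hi he => by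
      simpa using h (i + 1) (by simpa using hi) (by simpa using he)
    rw [evM]
    refine mul_ne_zero ?_ ih
    by_cases he : e = (0, 0)
    · simp [he]
    · have hv : v ≠ 0 := by simpa using h 0 (by simp) (by simpa using he)
      exact mul_ne_zero (pow_ne_zero _ hv) (pow_ne_zero _ ((map_ne_zero ψ).2 hv))

theorem mono_ne_zero {NZ : List ℕ} {m : Mono} (h : monoOk NZ m = true) {v : ℕ → K} {t : K}
    (hv : ∀ k ∈ NZ, k < 24 → v k ≠ 0) (ht : noLast m = true ∨ t ≠ 0) : evM ψ (vals v t) m ≠ 0 := by
  simp only [monoOk, Bool.and_eq_true, decide_eq_true_eq, List.all_eq_true, List.mem_range, Bool.or_eq_true,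
    List.contains_iff_mem] at h
  refine evM_ne_zero _ _ fun i hi he => ?_
  rw [length_vals] at hi
  by_cases h24 : i = 24
  · subst h24
    rw [getD_vals_last]
    refine ht.resolve_left fun c => he ?_
    simpa [noLast] using c
  · rw [getD_vals (by omega)]
    exact hv i ((h.2 i (by omega)).resolve_left he) (by omega)

theorem evM_last : ∀ (l : List K) (m : Mono) (t : K), m.length ≤ l.length + 1 →
    evM ψ (l ++ [t]) m =
      evM ψ l m * (t ^ (m.getD l.length (0, 0)).1 * ψ t ^ (m.getD l.length (0, 0)).2)
  | [], [], t, _ => by simp [evM]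
  | [], [e], t, _ => by simp [evM]
  | [], _ :: _ :: _, _, h => by simp at h
  | _ :: _, [], t, _ => by simp [evM]
  | v :: l, e :: m, t, h => by
    have ih := evM_last l m t (by simpa using h)
    simp only [List.cons_append, evM, ih, List.length_cons, List.getD_cons_succ]
    ring

/-- Separation of the last variable. -/
theorem mono_last {m : Mono} (h : m.length ≤ 25) (v : ℕ → K) (t : K) :
    evM ψ (vals v t) m =
      evM ψ (vals v 1) m * (t ^ (m.getD 24 (0, 0)).1 * ψ t ^ (m.getD 24 (0, 0)).2) := by
  rw [vals, vals, evM_last _ _ t (by simpa using h), evM_last _ _ (1 : K) (by simpa using h)]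
  simp

theorem evP_pv (vs : List K) : ∀ k, evP ψ vs (pv k) = vs.getD k 1 := by
  suffices h : ∀ (k : ℕ) (vs : List K), evM ψ vs (List.replicate k (0, 0) ++ [(1, 0)]) = vs.getD k 1 by
    intro k; simp [evP, pv, h]
  intro k
  induction k with
  | zero => intro vs; cases vs <;> simp [evM]
  | succ n ih =>
    intro vs
    cases vs with
    | nil => simp [evM]
    | cons a t => rw [List.replicate_succ, List.cons_append, evM, ih]; simp

theorem evP_nil (vs : List K) : evP ψ vs [] = 0 := rfl

theorem evP_one (vs : List K) (m : Mono) : evP ψ vs [m] = evM ψ vs m := by simp [evP]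

theorem evP_two (vs : List K) (m m' : Mono) : evP ψ vs [m, m'] = evM ψ vs m + evM ψ vs m' := by simp [evP]

include hψ in
theorem partner_eq {F : List ℕ} {vs : List K} (hF : FixVals ψ F vs) {m m' : Mono}
    (h : nmP F (sigP [m]) = [m']) : evM ψ vs m' = ψ (evM ψ vs m) := by
  rw [← evP_one, ← h, evP_nmP hF, evP_sig hψ, evP_one]

include hψ in
theorem zero_spec {F : List ℕ} {L : List Mono} {NZ : List ℕ} {v : ℕ → K} {t : K}
    (hF : FixVals ψ F (vals v t)) (hL : Rels ψ L (vals v t)) :
    ∀ {p : PPoly}, zeroOk F L NZ p = true → evP ψ (vals v t) p = 0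
  | [], _ => rfl
  | [_], h => by simp [zeroOk] at h
  | [m, m'], h => by
    simp only [zeroOk, Bool.and_eq_true, decide_eq_true_eq] at h
    obtain ⟨⟨hp, -⟩, hf⟩ := h
    rw [evP_two, partner_eq hψ hF hp, fix_spec hψ hF hL hf, CharTwo.add_self_eq_zero]
  | _ :: _ :: _ :: _, h => by simp [zeroOk] at h

variable (ψ) in
/-- An element of a coordinate. -/
noncomputable def gel (k : ℕ) (x : K) : GL chevE6.Idx K :=
  goodE6.xg (root0 k) x * if fixL.contains k then 1 else goodE6.xg ((orbs.getD k []).getD 1 0) (ψ x)

variable (ψ) in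
/-- The element with twenty-four coordinates. -/
noncomputable def form (v : ℕ → K) : GL chevE6.Idx K := ((List.range 24).map fun k => gel ψ k (v k)).prod

include hψ in
theorem evW_gen (vs : List K) (k : ℕ) (p : PPoly) : evW ψ vs (gen k p) = gel ψ k (evP ψ vs p) := by
  unfold gen gel
  by_cases h : k ∈ fixL <;> simp [evW_cons, evW_nil, evP_sig hψ, h]

include hψ in
theorem evW_formW (vs : List K) (ps : ℕ → PPoly) :
    evW ψ vs (formW ps) = form ψ fun k => evP ψ vs (ps k) := by
  simp only [formW, form]
  induction List.range 24 with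
  | nil => rfl
  | cons a L ih => rw [List.flatMap_cons, evW_append, evW_gen hψ, ih, List.map_cons, List.prod_cons]

theorem evP_var (v : ℕ → K) (t : K) {k : ℕ} (hk : k < 24) : evP ψ (vals v t) (pv k) = v k := by
  rw [evP_pv, getD_vals hk]

theorem evP_par (v : ℕ → K) (t : K) : evP ψ (vals v t) (pv 24) = t := by rw [evP_pv, getD_vals_last]

include hψ in
theorem evW_shW (v : ℕ → K) (t : K) {Z : List ℕ} (hZ : ∀ k ∈ Z, k < 24 → v k = 0) :
    evW ψ (vals v t) (shW Z) = form ψ v := by
  rw [shW, evW_formW hψ, form, form]
  congr 1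
  refine List.map_congr_left fun k hk => ?_
  rw [List.mem_range] at hk
  simp only [shp, List.contains_iff_mem]
  split
  · next h => rw [evP_nil, hZ k h hk]
  · rw [evP_var v t hk]

theorem order_eq : order = (List.range 24).flatMap fun k => orbs.getD k [] := by decide +kernel

theorem orbs_facts : ∀ k < 24, (fixL.contains k = true → orbs.getD k [] = [root0 k]) ∧
    (fixL.contains k = false → orbs.getD k [] = [root0 k, (orbs.getD k []).getD 1 0]) := by decide +kernel

include hψ in
theorem outs_spec {F : List ℕ} {vs : List K} (hF : FixVals ψ F vs) {w : PWord} (h : outsOk F w = true) :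
    evW ψ vs w = form ψ (fun k => evP ψ vs (coef w (root0 k))) ∧
      Valid ψ fun k => evP ψ vs (coef w (root0 k)) := by
  simp only [outsOk, Bool.and_eq_true, List.all_eq_true, List.mem_range] at h
  obtain ⟨hc, hk⟩ := h
  simp only [isCollected, decide_eq_true_eq] at hc
  constructor
  · have e : evW ψ vs w = (order.map fun r => goodE6.xg r (evP ψ vs (coef w r))).prod := by
      conv_lhs => rw [← hc, evW_prune]
      simp [evW, fullW, Function.comp_def, List.map_map, List.zip_eq_zipWith, List.zipWith_map_right,
        List.zipWith_self]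
    rw [e, order_eq, form]
    have : ∀ L : List ℕ, (∀ k ∈ L, k < 24) →
        ((L.flatMap fun k => orbs.getD k []).map fun r => goodE6.xg r (evP ψ vs (coef w r))).prod =
          (L.map fun k => gel ψ k (evP ψ vs (coef w (root0 k)))).prod := by
      intro L
      induction L with
      | nil => simp
      | cons a L ih =>
        intro hL
        have ha := hL a List.mem_cons_self
        rw [List.flatMap_cons, List.map_append, List.prod_append, ih fun k hk => hL k (List.mem_cons_of_mem _ hk),
          List.map_cons, List.prod_cons]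
        congr 1
        have hka := hk a ha
        by_cases hf : fixL.contains a = true
        · rw [(orbs_facts a ha).1 hf, gel, if_pos hf]
          simp
        · rw [if_neg hf, decide_eq_true_eq] at hka
          rw [(orbs_facts a ha).2 (by simpa using hf), gel, if_neg hf, ← evP_sig hψ, ← evP_nmP hF (sigP _),
            hka, evP_nmP hF]
          simp
    exact this _ fun k hk => List.mem_range.1 hk
  · intro k hkf
    have hk' := hk k (fixL_lt k hkf)
    rw [if_pos (by simpa using hkf), decide_eq_true_eq] at hk'
    show ψ (evP ψ vs (coef w (root0 k))) = evP ψ vs (coef w (root0 k))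
    rw [← evP_sig hψ, ← evP_nmP hF, hk', evP_nmP hF]

theorem root0_mem : ∀ k < 24, root0 k ∈ order := by decide +kernel

include hψ in
/-- Fixed values from the square of an involution. -/
theorem rels_spec {Z NZ : List ℕ} (hc : isCollected (collect (shW Z ++ shW Z)) = true) {v : ℕ → K}
    (hv : Valid ψ v) (hZ : ∀ k ∈ Z, k < 24 → v k = 0) (hN : ∀ k ∈ NZ, k < 24 → v k ≠ 0)
    (h2 : form ψ v * form ψ v = 1) (t : K) :
    Rels ψ (fixL.flatMap fun k => relOf NZ (nmP fixL (coef (collect (shW Z ++ shW Z)) (root0 k))))
      (vals v t) := by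
  intro l hl
  obtain ⟨k, hk, hlk⟩ := List.mem_flatMap.1 hl
  have hF := fixVals_fixL (t := t) hv
  have h0 := coords_zero (ψ := ψ) (vals v t) hc
    (by rw [evW_append, evW_shW hψ v t hZ, h2]) (root0_mem k (fixL_lt k hk))
  rw [← evP_nmP hF] at h0
  generalize nmP fixL (coef (collect (shW Z ++ shW Z)) (root0 k)) = p at hlk h0
  rcases p with - | ⟨m, - | ⟨m', - | ⟨m'', p⟩⟩⟩
  · simp [relOf] at hlk
  · simp [relOf] at hlk
  · simp only [relOf] at hlk
    split at hlk
    · next hc' =>
      simp only [Bool.and_eq_true, decide_eq_true_eq] at hc'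
      obtain ⟨⟨hp, hm⟩, hn⟩ := hc'
      rw [List.mem_singleton] at hlk
      subst hlk
      refine ⟨mono_ne_zero hm hN (Or.inl hn), ?_⟩
      rw [evP_two, partner_eq hψ hF hp, CharTwo.add_eq_zero] at h0
      exact h0.symm
    · simp at hlk
  · simp [relOf] at hlk

end Eval

end Cfsg.Agent.H71.E6Inv
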