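import Cfsg.Agent.H71.E6InvData

/-!
Certificate data for the classes of involutions of the twisted group of type E₆ in characteristic two (generated).
-/

set_option autoImplicit false
set_option maxRecDepth 100000

namespace Cfsg.Agent.H71.E6Inv

/-- The reduction of part 10. -/
def part10 : Tree :=
  (.sq 20 11 (.conj 9 none 18 false (.conj 11 none 20 false (.conj 13 none 21 false (.conj 16 none 22 false 
  (.split 12 (.conj 0 none 15 false (.conj 16 none 22 false 
  (.split 13 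
  (.split 14 
  (.split 16 
  (.split 17 
  (.split 19 
  (.split 23 
  (.weyl [0,1,2,3] (.ref 2)) 
  (.weyl [1,2,3] (.ref 3))) (.conj 12 none 23 false 
  (.weyl [2,1,2,3] (.ref 3)))) (.conj 2 none 19 false (.conj 14 none 23 false 
  (.weyl [2,1,3,2,3] (.ref 3))))) (.conj 6 none 16 true (.conj 16 none 22 false 
  (.split 17 
  (.split 19 
  (.split 23 
  (.weyl [0,1,2,3] (.ref 2)) 
  (.weyl [1,2,3] (.ref 3))) (.conj 12 none 23 false 
  (.weyl [2,1,2,3] (.ref 3)))) (.conj 2 none 19 false (.conj 14 none 23 false 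
  (.weyl [2,1,3,2,3] (.ref 3)))))))) (.sq 23 17 (.conj 17 none 23 false 
  (.split 16 
  (.split 19 
  (.weyl [2,1,0,2,3] (.ref 3)) 
  (.weyl [1,3,2,1] (.ref 6))) (.conj 6 none 16 true (.conj 15 none 22 false 
  (.split 19 
  (.weyl [2,1,0,2,3] (.ref 3)) 
  (.weyl [1,3,2,1] (.ref 6))))))))) (.conj 3 none 13 true (.conj 13 none 21 false 
  (.split 14 
  (.split 16 
  (.split 17 
  (.split 19 
  (.split 23 
  (.weyl [0,1,2,3] (.ref 2)) 
  (.weyl [1,2,3] (.ref 3))) (.conj 12 none 23 false 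
  (.weyl [2,1,2,3] (.ref 3)))) (.conj 2 none 19 false (.conj 14 none 23 false 
  (.weyl [2,1,3,2,3] (.ref 3))))) (.conj 6 none 16 true (.conj 16 none 22 false 
  (.split 17 
  (.split 19 
  (.split 23 
  (.weyl [0,1,2,3] (.ref 2)) 
  (.weyl [1,2,3] (.ref 3))) (.conj 12 none 23 false 
  (.weyl [2,1,2,3] (.ref 3)))) (.conj 2 none 19 false (.conj 14 none 23 false 
  (.weyl [2,1,3,2,3] (.ref 3)))))))) (.sq 23 17 (.conj 17 none 23 false 
  (.split 16 
  (.split 19 
  (.weyl [2,1,0,2,3] (.ref 3)) 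
  (.weyl [1,3,2,1] (.ref 6))) (.conj 6 none 16 true (.conj 15 none 22 false 
  (.split 19 
  (.weyl [2,1,0,2,3] (.ref 3)) 
  (.weyl [1,3,2,1] (.ref 6)))))))))))))) (.conj 0 none 13 false (.sq 21 15 (.conj 2 none 14 false (.sq 23 19 (.conj 13 none 21 false (.conj 16 none 22 false (.conj 19 none 23 false 
  (.split 16 
  (.split 17 
  (.weyl [2,1,0,3,2,3] (.ref 3)) 
  (.weyl [1,3,2,1,2] (.ref 6))) (.conj 6 none 16 true (.conj 16 none 22 false 
  (.split 17 
  (.weyl [2,1,0,3,2,3] (.ref 3)) 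
  (.weyl [1,3,2,1,2] (.ref 6)))))))))))))))))))

theorem part10_ok : check states part10 [9, 8, 7, 6, 5, 4, 3, 2, 1, 0] [10] = true := by
  decide +kernel

end Cfsg.Agent.H71.E6Inv
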