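import Cfsg.Agent.H71.E6InvData

/-!
Certificate data for the classes of involutions of the twisted group of type E₆ in characteristic two (generated).
-/

set_option autoImplicit false
set_option maxRecDepth 100000

namespace Cfsg.Agent.H71.E6Inv

/-- The reduction of part 12. -/
def part12 : Tree :=
  (.sq 21 15 (.conj 0 none 13 false (.conj 2 none 14 false (.sq 23 19 (.conj 7 none 18 false (.conj 15 none 21 false (.conj 19 none 23 false 
  (.split 16 
  (.split 17 
  (.split 20 
  (.split 22 
  (.weyl [3,2,1,0,2] (.ref 1)) 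
  (.weyl [0,1,3,2,1,2] (.ref 5))) (.conj 5 none 22 false 
  (.weyl [0,2] (.ref 3)))) (.conj 5 none 20 false 
  (.split 22 
  (.weyl [0,1,3] (.ref 5)) 
  (.weyl [3,2,1,0,2,1] (.ref 8))))) (.conj 4 none 20 false (.conj 10 none 22 false 
  (.split 17 
  (.weyl [2,1,0] (.ref 3)) 
  (.weyl [1,3,2,1,3,2] (.ref 6)))))))))))))

theorem part12_ok : check states part12 [11, 10, 9, 8, 7, 6, 5, 4, 3, 2, 1, 0] [12] = true := by
  decide +kernel

end Cfsg.Agent.H71.E6Inv
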