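import Cfsg.Agent.H71.E6InvData

/-!
Certificate data for the classes of involutions of the twisted group of type E₆ in characteristic two (generated).
-/

set_option autoImplicit false
set_option maxRecDepth 100000

namespace Cfsg.Agent.H71.E6Inv

/-- The reduction of part 14. -/
def part14 : Tree :=
  
  (.split 14 
  (.split 15 
  (.split 16 
  (.split 17 
  (.split 18 
  (.split 19 
  (.split 20 
  (.split 21 
  (.split 22 
  (.split 23 (.ref 0) (.ref 1)) (.conj 3 none 23 false 
  (.weyl [3] (.ref 1)))) (.conj 2 none 22 false (.conj 6 none 23 false 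
  (.weyl [3,2] (.ref 1))))) (.conj 1 none 21 false (.conj 5 none 22 false (.conj 9 none 23 false (.ref 2))))) (.conj 1 none 20 false (.conj 8 none 22 false (.conj 12 none 23 false 
  (.split 21 
  (.weyl [3,2,1] (.ref 1)) 
  (.weyl [0,1,3,2,1,0] (.ref 5))))))) (.conj 0 none 20 false (.conj 4 none 21 false (.conj 7 none 22 false (.conj 11 none 23 false 
  (.split 19 
  (.weyl [0] (.ref 2)) (.ref 3))))))) (.conj 2 none 19 false (.conj 5 none 20 false (.conj 8 none 21 false (.conj 14 none 23 false 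
  (.split 18 
  (.split 22 
  (.weyl [3,2,1,2] (.ref 1)) 
  (.weyl [0,1,3,2,1,0,2] (.ref 5))) (.conj 7 none 22 false 
  (.weyl [2] (.ref 3))))))))) (.conj 1 none 18 false (.conj 0 none 19 false (.conj 4 none 20 false (.conj 10 none 22 false (.conj 13 none 23 false 
  (.split 17 
  (.split 21 
  (.weyl [0,1] (.ref 2)) 
  (.weyl [1] (.ref 3))) (.conj 8 none 21 false 
  (.weyl [2,1] (.ref 3)))))))))) (.conj 3 none 17 false (.conj 6 none 19 false (.conj 9 none 20 false (.conj 12 none 21 false (.conj 14 none 22 false 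
  (.split 16 
  (.split 18 
  (.split 23 
  (.weyl [3,2,1,2,3] (.ref 1)) 
  (.weyl [0,1,3,2,1,0,2,3] (.ref 5))) (.conj 11 none 23 false 
  (.weyl [2,3] (.ref 3)))) (.conj 1 none 18 false (.conj 13 none 23 false 
  (.weyl [2,1,3] (.ref 3))))))))))) (.sq 22 15 (.sq 23 17 (.conj 0 none 16 false (.conj 4 none 18 false (.conj 15 none 22 false (.conj 17 none 23 false 
  (.split 19 
  (.split 20 
  (.split 21 
  (.weyl [3,2,1,0] (.ref 1)) 
  (.weyl [0,1,3,2,1] (.ref 5))) (.conj 1 none 21 false 
  (.weyl [0] (.ref 3)))) (.conj 1 none 20 false 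
  (.split 21 
  (.weyl [0,1,3,2] (.ref 5)) 
  (.weyl [3,2,1,0,2,1,2] (.ref 8))))))))))))

theorem part14_ok : check states part14 [13, 12, 11, 10, 9, 8, 7, 6, 5, 4, 3, 2, 1, 0] [] = true := by
  decide +kernel

end Cfsg.Agent.H71.E6Inv
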