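import Cfsg.Agent.H71.E6InvData

/-!
Certificate data for the classes of involutions of the twisted group of type E₆ in characteristic two (generated).
-/

set_option autoImplicit false
set_option maxRecDepth 100000

namespace Cfsg.Agent.H71.E6Inv

/-- The reduction of part 2. -/
def part2 : Tree :=
  (.sq 6 3 (.sq 7 4 (.conj 1 none 5 false (.conj 3 none 6 false (.sq 14 12 (.conj 4 none 7 false (.sq 16 13 (.sq 19 17 (.conj 12 none 14 false (.conj 13 none 16 false (.conj 17 none 19 false (.sq 22 21 (.conj 21 none 22 false 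
  (.split 8 
  (.split 9 
  (.split 10 
  (.split 11 
  (.split 15 
  (.split 18 
  (.split 20 
  (.split 23 
  (.weyl [3,2,1,0,2,1,3] (.ref 1)) 
  (.weyl [0,3,2,1,2,3] (.ref 5))) (.conj 9 none 23 false 
  (.weyl [0,2,1,3] (.ref 3)))) (.conj 0 none 20 false (.conj 11 none 23 false 
  (.weyl [2,1,0,1,3] (.ref 3))))) (.conj 9 none 20 false 
  (.split 18 
  (.split 23 
  (.weyl [0] (.ref 5)) 
  (.weyl [3,2,1,0,2,3] (.ref 8))) (.conj 11 none 23 false 
  (.weyl [1,2,1,3,2,1,2,3] (.ref 6)))))) (.conj 10 none 20 false (.conj 18 none 23 false 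
  (.split 15 
  (.split 18 
  (.weyl [2,1,0,3,2,1] (.ref 3)) (.conj 8 none 18 true (.conj 18 none 23 false 
  (.weyl [2,1,0,3,2,1] (.ref 3))))) 
  (.split 18 
  (.weyl [3,2,1,2,3] (.ref 6)) (.conj 8 none 18 true (.conj 18 none 23 false 
  (.weyl [3,2,1,2,3] (.ref 6))))))))) (.sq 20 11 (.conj 0 none 15 false (.conj 9 none 18 false (.conj 11 none 20 false 
  (.split 23 
  (.weyl [2,1,0,1,2,1,2,3] (.ref 3)) 
  (.weyl [1,2,1] (.ref 6)))))))) (.sq 18 10 (.sq 20 15 (.conj 0 none 11 false (.conj 10 none 18 false (.conj 20 none 23 false 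
  (.split 20 
  (.weyl [2,1,3,2,1,0,1] (.ref 3)) (.conj 15 none 20 true (.conj 20 none 23 false 
  (.weyl [2,1,3,2,1,0,1] (.ref 3))))))))))) (.conj 0 none 10 false (.sq 18 11 (.conj 11 none 18 false 
  (.split 9 
  (.split 15 
  (.split 20 
  (.split 23 (.ref 5) 
  (.weyl [3,2,1,2,3] (.ref 8))) (.conj 9 none 23 false 
  (.weyl [1,2,1,3,2,1,0,2,3] (.ref 6)))) (.conj 9 none 20 false 
  (.split 23 (.ref 8) (.ref 10)))) (.sq 20 15 (.conj 20 none 23 false 
  (.split 20 
  (.weyl [3,2,1,0,2,3] (.ref 6)) (.conj 15 none 20 true (.conj 20 none 23 false 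
  (.weyl [3,2,1,0,2,3] (.ref 6)))))))))))))))))))))))))

theorem part2_ok : check states part2 [1, 0] [2] = true := by
  decide +kernel

end Cfsg.Agent.H71.E6Inv
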