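import Cfsg.Agent.H71.E6InvData

/-!
Certificate data for the classes of involutions of the twisted group of type E₆ in characteristic two (generated).
-/

set_option autoImplicit false
set_option maxRecDepth 100000

namespace Cfsg.Agent.H71.E6Inv

/-- The reduction of part 3. -/
def part3 : Tree :=
  (.sq 9 5 (.sq 12 8 (.conj 2 none 6 false (.sq 11 7 (.conj 5 none 9 false (.sq 13 10 (.conj 7 none 11 false (.sq 17 15 (.conj 8 none 12 false (.conj 10 none 13 false (.conj 15 none 17 false (.sq 23 22 (.conj 22 none 23 false 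
  (.split 4 
  (.split 14 
  (.split 16 
  (.split 18 
  (.split 19 
  (.split 20 
  (.split 21 
  (.weyl [3,2,1,0,2,1,2] (.ref 1)) 
  (.weyl [0,3,2,1] (.ref 5))) (.conj 1 none 21 false 
  (.weyl [0,2,1,2] (.ref 3)))) (.conj 1 none 20 false 
  (.split 21 
  (.weyl [0,3,2] (.ref 5)) 
  (.weyl [3,2,1,0] (.ref 8))))) (.conj 0 none 20 false (.conj 4 none 21 false 
  (.split 19 
  (.weyl [2,1,0,1,2] (.ref 3)) 
  (.weyl [1,2,1,3,2,1] (.ref 6)))))) (.conj 1 none 18 false (.conj 0 none 19 false (.conj 4 none 20 false 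
  (.split 21 
  (.weyl [2,1,0,1,2,1] (.ref 3)) 
  (.weyl [1,2,1,3,2] (.ref 6))))))) (.conj 0 none 16 false (.conj 4 none 18 false 
  (.split 19 
  (.split 20 
  (.split 21 
  (.weyl [3,2] (.ref 5)) 
  (.weyl [3,2,1] (.ref 8))) (.conj 1 none 21 false 
  (.weyl [1,2,1,3,2,1,0] (.ref 6)))) (.conj 1 none 20 false 
  (.split 21 
  (.weyl [3,2] (.ref 8)) 
  (.weyl [3,2] (.ref 10)))))))) (.sq 18 14 (.sq 20 16 (.conj 16 none 20 false (.conj 18 none 21 false 
  (.split 18 
  (.split 19 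
  (.weyl [2,1,0,3,2,1,3,2] (.ref 3)) 
  (.weyl [3,2,1] (.ref 6))) (.conj 14 none 18 true (.conj 18 none 21 false 
  (.split 19 
  (.weyl [2,1,0,3,2,1,3,2] (.ref 3)) 
  (.weyl [3,2,1] (.ref 6))))))))))))))))))))))))

theorem part3_ok : check states part3 [2, 1, 0] [3] = true := by
  decide +kernel

end Cfsg.Agent.H71.E6Inv
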