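import Cfsg.Agent.H71.E6InvData

/-!
Certificate data for the classes of involutions of the twisted group of type E₆ in characteristic two (generated).
-/

set_option autoImplicit false
set_option maxRecDepth 100000

namespace Cfsg.Agent.H71.E6Inv

/-- The reduction of part 6. -/
def part6 : Tree :=
  (.sq 14 8 (.conj 1 none 9 false (.sq 16 10 (.conj 4 none 11 false (.sq 19 15 (.conj 8 none 14 false (.conj 10 none 16 false (.conj 15 none 19 false (.sq 23 21 (.conj 21 none 23 false 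
  (.split 7 
  (.split 12 
  (.split 13 
  (.split 17 
  (.split 18 
  (.split 20 
  (.split 22 
  (.weyl [3,2,1,0,2,1] (.ref 1)) 
  (.weyl [0,3,2,1,2] (.ref 5))) (.conj 5 none 22 false 
  (.weyl [0,2,1] (.ref 3)))) (.conj 0 none 20 false (.conj 7 none 22 false 
  (.weyl [2,1,0,1] (.ref 3))))) (.conj 5 none 20 false 
  (.split 18 
  (.split 22 
  (.weyl [0,3] (.ref 5)) 
  (.weyl [3,2,1,0,2] (.ref 8))) (.conj 7 none 22 false 
  (.weyl [1,2,1,3,2,1,2] (.ref 6)))))) (.conj 0 none 17 false (.conj 5 none 18 false (.conj 7 none 20 false 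
  (.split 22 
  (.weyl [2,1,0,1,2,1,2] (.ref 3)) 
  (.weyl [1,2,1,3] (.ref 6))))))) (.conj 0 none 13 false (.conj 7 none 18 false 
  (.split 17 
  (.split 20 
  (.split 22 
  (.weyl [3] (.ref 5)) 
  (.weyl [3,2,1,2] (.ref 8))) (.conj 5 none 22 false 
  (.weyl [1,2,1,3,2,1,0,2] (.ref 6)))) (.conj 5 none 20 false 
  (.split 22 
  (.weyl [3] (.ref 8)) 
  (.weyl [3] (.ref 10)))))))) (.sq 18 12 (.sq 20 13 (.conj 13 none 20 false (.conj 18 none 22 false 
  (.split 17 
  (.split 18 
  (.weyl [2,1,0,3,2,1,3] (.ref 3)) (.conj 12 none 18 true (.conj 18 none 22 false 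
  (.weyl [2,1,0,3,2,1,3] (.ref 3))))) 
  (.split 18 
  (.weyl [3,2,1,2] (.ref 6)) (.conj 12 none 18 true (.conj 18 none 22 false 
  (.weyl [3,2,1,2] (.ref 6)))))))))))))))))))))

theorem part6_ok : check states part6 [5, 4, 3, 2, 1, 0] [6] = true := by
  decide +kernel

end Cfsg.Agent.H71.E6Inv
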