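import Cfsg.Agent.H71.E6InvData

/-!
Certificate data for the classes of involutions of the twisted group of type E₆ in characteristic two (generated).
-/

set_option autoImplicit false
set_option maxRecDepth 100000

namespace Cfsg.Agent.H71.E6Inv

/-- The reduction of part 7. -/
def part7 : Tree :=
  (.sq 16 9 (.conj 1 none 10 false (.sq 20 13 (.conj 4 none 15 false (.conj 9 none 16 false (.conj 13 none 20 false (.conj 18 none 22 false 
  (.split 8 (.sq 18 12 (.conj 11 none 19 false 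
  (.split 11 
  (.split 14 
  (.split 17 
  (.split 18 
  (.split 21 
  (.split 23 
  (.weyl [0,1,2,1,3] (.ref 2)) 
  (.weyl [1,2,1,3] (.ref 3))) (.conj 6 none 23 false 
  (.weyl [1,2,1,2,3] (.ref 3)))) (.conj 12 none 18 true (.conj 18 none 22 false 
  (.split 21 
  (.split 23 
  (.weyl [0,1,2,1,3] (.ref 2)) 
  (.weyl [1,2,1,3] (.ref 3))) (.conj 6 none 23 false 
  (.weyl [1,2,1,2,3] (.ref 3))))))) (.conj 8 none 21 false (.conj 14 none 23 false 
  (.split 18 
  (.weyl [2,1,3,2,1,3] (.ref 3)) (.conj 12 none 18 true (.conj 18 none 22 false 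
  (.weyl [2,1,3,2,1,3] (.ref 3)))))))) (.sq 23 17 (.conj 17 none 23 false 
  (.split 18 
  (.split 21 
  (.weyl [2,1,0,2,1,3] (.ref 3)) 
  (.weyl [1,3,2] (.ref 6))) (.conj 12 none 18 true (.conj 15 none 22 false 
  (.split 21 
  (.weyl [2,1,0,2,1,3] (.ref 3)) 
  (.weyl [1,3,2] (.ref 6))))))))) (.conj 3 none 11 true (.conj 11 none 19 false 
  (.split 14 
  (.split 17 
  (.split 18 
  (.split 21 
  (.split 23 
  (.weyl [0,1,2,1,3] (.ref 2)) 
  (.weyl [1,2,1,3] (.ref 3))) (.conj 6 none 23 false 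
  (.weyl [1,2,1,2,3] (.ref 3)))) (.conj 12 none 18 true (.conj 18 none 22 false 
  (.split 21 
  (.split 23 
  (.weyl [0,1,2,1,3] (.ref 2)) 
  (.weyl [1,2,1,3] (.ref 3))) (.conj 6 none 23 false 
  (.weyl [1,2,1,2,3] (.ref 3))))))) (.conj 8 none 21 false (.conj 14 none 23 false 
  (.split 18 
  (.weyl [2,1,3,2,1,3] (.ref 3)) (.conj 12 none 18 true (.conj 18 none 22 false 
  (.weyl [2,1,3,2,1,3] (.ref 3)))))))) (.sq 23 17 (.conj 17 none 23 false 
  (.split 18 
  (.split 21 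
  (.weyl [2,1,0,2,1,3] (.ref 3)) 
  (.weyl [1,3,2] (.ref 6))) (.conj 12 none 18 true (.conj 15 none 22 false 
  (.split 21 
  (.weyl [2,1,0,2,1,3] (.ref 3)) 
  (.weyl [1,3,2] (.ref 6)))))))))))))) (.sq 21 17 (.conj 6 none 14 false (.conj 11 none 18 false (.conj 17 none 21 false (.conj 18 none 22 false 
  (.split 11 (.sq 18 12 (.sq 22 19 
  (.split 23 
  (.weyl [2,1,0,2,1,2,3] (.ref 3)) 
  (.weyl [1,2] (.ref 6))))) (.conj 3 none 11 true (.sq 18 12 (.conj 11 none 18 false (.sq 22 19 (.conj 18 none 22 false 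
  (.split 23 
  (.weyl [2,1,0,2,1,2,3] (.ref 3)) 
  (.weyl [1,2] (.ref 6))))))))))))))))))))))

theorem part7_ok : check states part7 [6, 5, 4, 3, 2, 1, 0] [7] = true := by
  decide +kernel

end Cfsg.Agent.H71.E6Inv
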