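import Cfsg.Agent.H71.E6InvData

/-!
Certificate data for the classes of involutions of the twisted group of type E₆ in characteristic two (generated).
-/

set_option autoImplicit false
set_option maxRecDepth 100000

namespace Cfsg.Agent.H71.E6Inv

/-- The reduction of part 8. -/
def part8 : Tree :=
  (.conj 0 none 10 false (.sq 18 11 (.conj 3 none 12 false (.sq 21 17 (.conj 6 none 14 false (.sq 22 19 (.conj 11 none 18 false (.conj 17 none 21 false (.conj 19 none 22 false 
  (.split 9 
  (.split 13 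
  (.split 15 
  (.split 16 
  (.split 20 
  (.split 23 
  (.weyl [3,2,1,0,2,3] (.ref 1)) 
  (.weyl [0,1,3,2,1,2,3] (.ref 5))) (.conj 9 none 23 false 
  (.weyl [0,2,3] (.ref 3)))) (.conj 4 none 20 false (.conj 13 none 23 false 
  (.weyl [2,1,0,3] (.ref 3))))) (.conj 9 none 20 false 
  (.split 16 
  (.split 23 
  (.weyl [0,1] (.ref 5)) 
  (.weyl [3,2,1,0,2,1,3] (.ref 8))) (.conj 13 none 23 false 
  (.weyl [1,3,2,1,3,2,3] (.ref 6)))))) (.conj 7 none 20 false (.conj 16 none 23 false 
  (.split 15 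
  (.split 16 
  (.weyl [2,1,0,3,2] (.ref 3)) (.conj 2 none 16 true (.conj 16 none 23 false 
  (.weyl [2,1,0,3,2] (.ref 3))))) 
  (.split 16 
  (.weyl [1,3,2,1,2,3] (.ref 6)) (.conj 2 none 16 true (.conj 16 none 23 false 
  (.weyl [1,3,2,1,2,3] (.ref 6))))))))) (.sq 20 15 (.conj 4 none 13 false (.conj 7 none 16 false (.conj 20 none 23 false 
  (.split 20 
  (.weyl [2,1,3,2,1,0] (.ref 3)) (.conj 15 none 20 true (.conj 20 none 23 false 
  (.weyl [2,1,3,2,1,0] (.ref 3)))))))))))))))))))

theorem part8_ok : check states part8 [7, 6, 5, 4, 3, 2, 1, 0] [8] = true := by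
  decide +kernel

end Cfsg.Agent.H71.E6Inv
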