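import Cfsg.Agent.H71.E6InvData

/-!
Certificate data for the classes of involutions of the twisted group of type E₆ in characteristic two (generated).
-/

set_option autoImplicit false
set_option maxRecDepth 100000

namespace Cfsg.Agent.H71.E6Inv

/-- The reduction of part 9. -/
def part9 : Tree :=
  (.sq 18 10 (.sq 20 15 (.conj 0 none 11 false (.conj 1 none 12 false (.conj 4 none 13 false (.conj 5 none 14 false (.conj 7 none 16 false (.conj 10 none 18 false (.conj 20 none 23 false 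
  (.split 17 
  (.split 19 
  (.split 20 
  (.split 21 
  (.split 22 
  (.weyl [0,1,2,1,0] (.ref 2)) 
  (.weyl [1,2,1,0] (.ref 3))) (.conj 2 none 22 false 
  (.weyl [1,2,1,0,2] (.ref 3)))) (.conj 15 none 20 true (.conj 20 none 23 false 
  (.split 21 
  (.split 22 
  (.weyl [0,1,2,1,0] (.ref 2)) 
  (.weyl [1,2,1,0] (.ref 3))) (.conj 2 none 22 false 
  (.weyl [1,2,1,0,2] (.ref 3))))))) (.conj 8 none 22 false 
  (.split 20 
  (.split 21 
  (.weyl [1,2,1,0,2,1] (.ref 3)) 
  (.weyl [1,0,3,2,3] (.ref 6))) (.conj 15 none 20 true (.conj 12 none 23 false 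
  (.split 21 
  (.weyl [1,2,1,0,2,1] (.ref 3)) 
  (.weyl [1,0,3,2,3] (.ref 6)))))))) (.conj 2 none 19 false (.conj 8 none 21 false 
  (.split 20 
  (.split 22 
  (.weyl [1,2,1,0,2,1,2] (.ref 3)) 
  (.weyl [1,0,2,3] (.ref 6))) (.conj 15 none 20 true (.conj 14 none 23 false 
  (.split 22 
  (.weyl [1,2,1,0,2,1,2] (.ref 3)) 
  (.weyl [1,0,2,3] (.ref 6))))))))))))))))))

theorem part9_ok : check states part9 [8, 7, 6, 5, 4, 3, 2, 1, 0] [9] = true := by
  decide +kernel

end Cfsg.Agent.H71.E6Inv
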