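import Cfsg.Agent.H71.ReeF4Forms
import Cfsg.Agent.H65.Inv.Final
import Mathlib.FieldTheory.Perfect

/-!
A certificate checker for the reduction of involutions in the unipotent subgroup of type F₄ in characteristic two:
a tree of case splits on the vanishing of coordinates, with squaring, conjugation and reflection steps.
-/

set_option autoImplicit false
set_option maxRecDepth 100000
set_option linter.unusedSectionVars false

open Cfsg.Lie Cfsg.Agent.H46
open Cfsg.Agent.H71.ReeF4

namespace Cfsg.Agent.H71.F4Inv

/-- The root of a position. -/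
def rootAt (k : ℕ) : ℕ := order.getD k 0

/-- The symbolic element with coordinates vanishing on `Z`. -/
def shW (Z : List ℕ) : PWord := (List.range 24).map fun k => (rootAt k, if Z.contains k then [] else pv k)

/-- The symbolic conjugate by a root element with parameter the last variable. -/
def cjW (Z : List ℕ) (g : ℕ) : PWord := (rootAt g, pv 24) :: (shW Z ++ [(rootAt g, pv 24)])

/-- The image of a root under a product of simple reflections. -/
noncomputable def wImg (L : List ℕ) (r : ℕ) : ℕ := L.foldr (fun i s => goodF4.tab.refl i s) r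

/-- The symbolic image under a product of simple reflections. -/
noncomputable def wlW (Z L : List ℕ) : PWord := (shW Z).map fun e => (wImg L e.1, e.2)

/-- The monomial involves no variable outside `NZ` other than the last one. -/
def monoOk (NZ : List ℕ) (m : Mono) : Bool :=
  decide (m.length ≤ 25) && (List.range 24).all fun i => decide (m.getD i (0, 0) = (0, 0)) || NZ.contains i

/-- The exponent of the last variable. -/
def lastExp (m : Mono) : ℕ := (m.getD 24 (0, 0)).1 + (m.getD 24 (0, 0)).2

/-- A reduction tree. -/
inductive Tree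
  /-- an earlier state -/
  | ref (i : ℕ)
  /-- a contradiction from the square -/
  | absurd (r : ℕ)
  /-- a coordinate killed by the square -/
  | sq (r k : ℕ) (t : Tree)
  /-- a case split -/
  | split (k : ℕ) (zero nonzero : Tree)
  /-- a conjugation killing a coordinate -/
  | conj (g r : ℕ) (t : Tree)
  /-- a product of reflections -/
  | weyl (L : List ℕ) (t : Tree)

/-- The checks of a collected square coordinate. -/
def sqOk (NZ : List ℕ) (w : PWord) (r : ℕ) : Bool :=
  decide (r < 24) && isCollected w &&
    match coef w (rootAt r) with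
    | [m] => monoOk NZ m && decide (lastExp m = 0)
    | _ => false

/-- The checks of a collected conjugate. -/
def conjOk (NZ : List ℕ) (w : PWord) (r : ℕ) : Bool :=
  decide (r < 24) && isCollected w &&
    match addP (coef w (rootAt r)) (pv r) with
    | [m] => monoOk NZ m && (decide (lastExp m = 1) || decide (lastExp m = 2))
    | _ => false

/-- The vanishing coordinates of a collected word. -/
def zeroOf (w : PWord) : List ℕ := (List.range 24).filter fun k => decide (coef w (rootAt k) = [])

/-- The checker. -/
noncomputable def check (Ks : List (List ℕ)) : Tree → List ℕ → List ℕ → Bool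
  | .ref i, Z, NZ =>
    match Ks[i]? with
    | some S => (List.range 24).all fun k => if S.contains k then NZ.contains k else Z.contains k
    | none => false
  | .absurd r, Z, NZ => sqOk NZ (collect (shW Z ++ shW Z)) r
  | .sq r k t, Z, NZ => sqOk (k :: NZ) (collect (shW Z ++ shW Z)) r && check Ks t (k :: Z) NZ
  | .split k a b, Z, NZ => decide (k < 24) && check Ks a (k :: Z) NZ && check Ks b Z (k :: NZ)
  | .conj g r t, Z, NZ =>
    decide (g < 24) && conjOk NZ (collect (cjW Z g)) r &&
      check Ks t (r :: zeroOf (collect (cjW Z g)))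
        (NZ.filter fun k => decide (k ≠ r) && decide (k < 24) && decide (coef (collect (cjW Z g)) (rootAt k) = pv k))
  | .weyl L t, Z, NZ =>
    L.all (fun i => decide (i < 4)) && isCollected (collect (wlW Z L)) &&
      check Ks t (zeroOf (collect (wlW Z L)))
        ((List.range 24).filter fun k => NZ.any fun j => decide (j < 24) && decide (coef (collect (wlW Z L)) (rootAt k) = pv j))

/-- The supports of the representatives and of the identity. -/
def base : List (List ℕ) := [[], [11], [10], [10, 11], [12, 13]]

/-- The roots of the representatives. -/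
def reps : List (List ℕ) := [[], [47], [44], [44, 47], [39, 45]]

section Eval

variable {K : Type*} [Field K] [CharP K 2]

/-- The values of the variables. -/
def vals (v : ℕ → K) (t : K) : List K := (List.range 24).map v ++ [t]

/-- The element with twenty-four coordinates. -/
noncomputable def form (v : ℕ → K) : GL chevF4.Idx K :=
  ((List.range 24).map fun k => goodF4.xg (rootAt k) (v k)).prod

variable (K) in
/-- The element is conjugate to a representative or trivial. -/
def Goal (u : GL chevF4.Idx K) : Prop :=
  ∃ h ∈ chevF4.group K, ∃ S ∈ reps, h * u * h⁻¹ = H65.Inv.prodX goodF4 S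

variable (K) in
/-- Involutions with support exactly `S` reach a representative. -/
def Sol (S : List ℕ) : Prop :=
  ∀ v : ℕ → K, (∀ k < 24, (k ∈ S → v k ≠ 0) ∧ (k ∉ S → v k = 0)) → form v * form v = 1 → Goal K (form v)

theorem Goal.of_conj {u w h : GL chevF4.Idx K} (hh : h ∈ chevF4.group K) (e : h * u * h⁻¹ = w) (g : Goal K w) :
    Goal K u := by
  obtain ⟨a, ha, S, hS, e'⟩ := g
  refine ⟨a * h, mul_mem ha hh, S, hS, ?_⟩
  rw [← e', ← e]
  group

theorem mul_self_conj {u w h : GL chevF4.Idx K} (e : h * u * h⁻¹ = w) (hu : u * u = 1) : w * w = 1 := by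
  rw [← e, show h * u * h⁻¹ * (h * u * h⁻¹) = h * (u * u) * h⁻¹ by group, hu, mul_one, mul_inv_cancel]

theorem evM_last : ∀ (l : List K) (m : Mono) (t : K), m.length ≤ l.length + 1 →
    evM (RingHom.id K) (l ++ [t]) m =
      evM (RingHom.id K) l m * t ^ ((m.getD l.length (0, 0)).1 + (m.getD l.length (0, 0)).2)
  | [], [], t, _ => by simp [evM]
  | [], [e], t, _ => by simp [evM, pow_add]
  | [], _ :: _ :: _, _, h => by simp at h
  | _ :: _, [], t, _ => by simp [evM]
  | v :: l, e :: m, t, h => by
    have ih := evM_last l m t (by simpa using h)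
    simp only [List.cons_append, evM, ih, List.length_cons, List.getD_cons_succ]
    ring

theorem evM_ne_zero : ∀ (l : List K) (m : Mono),
    (∀ i < l.length, m.getD i (0, 0) ≠ (0, 0) → l.getD i 0 ≠ 0) → evM (RingHom.id K) l m ≠ 0
  | [], m, _ => by cases m <;> simp [evM]
  | _ :: _, [], _ => by simp [evM]
  | v :: l, e :: m, h => by
    have ih := evM_ne_zero l m fun i hi he => by
      simpa using h (i + 1) (by simpa using hi) (by simpa using he)
    rw [evM]
    refine mul_ne_zero ?_ ih
    by_cases he : e = (0, 0)
    · simp [he]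
    · have hv := h 0 (by simp) (by simpa using he)
      simp only [List.getD_cons_zero] at hv
      exact mul_ne_zero (pow_ne_zero _ hv) (pow_ne_zero _ (by simpa using hv))

/-- A monomial over nonzero coordinates is a nonzero multiple of a power of the parameter. -/
theorem mono_spec {NZ : List ℕ} {m : Mono} (h : monoOk NZ m = true) (v : ℕ → K) (t : K)
    (hv : ∀ k ∈ NZ, k < 24 → v k ≠ 0) :
    evM (RingHom.id K) (vals v t) m = evM (RingHom.id K) ((List.range 24).map v) m * t ^ lastExp m ∧
      evM (RingHom.id K) ((List.range 24).map v) m ≠ 0 := by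
  simp only [monoOk, Bool.and_eq_true, decide_eq_true_eq, List.all_eq_true, List.mem_range, Bool.or_eq_true,
    List.contains_iff_mem] at h
  refine ⟨?_, evM_ne_zero _ _ fun i hi he => ?_⟩
  · rw [vals, evM_last _ _ _ (by simpa using h.1)]
    simp [lastExp]
  · simp only [List.length_map, List.length_range] at hi
    rw [List.getD_eq_getElem _ _ (by simpa using hi), List.getElem_map, List.getElem_range]
    exact hv i ((h.2 i hi).resolve_left he) hi

theorem evP_var (v : ℕ → K) (t : K) {k : ℕ} (hk : k < 24) : evP (RingHom.id K) (vals v t) (pv k) = v k := by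
  rw [evP_pv, vals, List.getD_append _ _ _ _ (by simpa using hk), List.getD_eq_getElem _ _ (by simpa using hk),
    List.getElem_map, List.getElem_range]

theorem evP_par (v : ℕ → K) (t : K) : evP (RingHom.id K) (vals v t) (pv 24) = t := by
  rw [evP_pv, vals, List.getD_append_right _ _ _ _ (by simp)]
  simp

theorem evW_shW (v : ℕ → K) (t : K) {Z : List ℕ} (hZ : ∀ k ∈ Z, k < 24 → v k = 0) :
    evW (RingHom.id K) (vals v t) (shW Z) = form v := by
  rw [evW, shW, form, List.map_map]
  congr 1
  refine List.map_congr_left fun k hk => ?_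
  rw [List.mem_range] at hk
  simp only [Function.comp_apply, List.contains_iff_mem]
  split
  · next h => rw [evP_nil, hZ k h hk]
  · rw [evP_var v t hk]

theorem order_eq : order = (List.range 24).map rootAt := by decide +kernel

theorem evW_outs (vs : List K) {w : PWord} (h : isCollected w = true) :
    evW (RingHom.id K) vs w = form fun k => evP (RingHom.id K) vs (coef w (rootAt k)) := by
  simp only [isCollected, decide_eq_true_eq] at h
  conv_lhs => rw [← h, evW_prune, fullW, order_eq]
  simp [evW, form, Function.comp_def, List.map_map, List.zip_eq_zipWith, List.zipWith_map_left,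
    List.zipWith_map_right, List.zipWith_self]

theorem rootAt_mem {k : ℕ} (hk : k < 24) : rootAt k ∈ order := by
  rw [order_eq]
  exact List.mem_map.2 ⟨k, List.mem_range.2 hk, rfl⟩

theorem rootAt_lt : ∀ k < 24, rootAt k < 48 := by decide +kernel

theorem sq_spec {Z NZ : List ℕ} {r : ℕ} (h : sqOk NZ (collect (shW Z ++ shW Z)) r = true) (v : ℕ → K)
    (hZ : ∀ k ∈ Z, k < 24 → v k = 0) (hv : form v * form v = 1) (hN : ∀ k ∈ NZ, k < 24 → v k ≠ 0) : False := by
  simp only [sqOk, Bool.and_eq_true, decide_eq_true_eq] at h
  obtain ⟨⟨hr, hc⟩, hm⟩ := h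
  have h0 := coords_zero (ψ := RingHom.id K) (vals v 0) hc
    (by rw [evW_append, evW_shW v 0 hZ, hv]) (rootAt_mem hr)
  split at hm
  · next m hp =>
    simp only [Bool.and_eq_true, decide_eq_true_eq] at hm
    obtain ⟨hm, he⟩ := hm
    obtain ⟨e, hne⟩ := mono_spec hm v 0 hN
    rw [hp, show evP (RingHom.id K) (vals v 0) [m] = evM (RingHom.id K) (vals v 0) m by simp [evP], e, he,
      pow_zero, mul_one] at h0
    exact hne h0
  · simp at hm

theorem wImg_spec : ∀ (L : List ℕ), (∀ i ∈ L, i < 4) → ∀ r < 48,
    wImg L r < 48 ∧ ∀ t : K,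
      (L.map fun i => (goodF4.ng (chevF4.simple i) 1 : GL chevF4.Idx K)).prod * goodF4.xg r t =
        goodF4.xg (wImg L r) t * (L.map fun i => (goodF4.ng (chevF4.simple i) 1 : GL chevF4.Idx K)).prod
  | [], _, r, hr => ⟨hr, fun t => by simp [wImg]⟩
  | i :: L, hL, r, hr => by
    obtain ⟨hlt, e⟩ := wImg_spec L (fun j hj => hL j (List.mem_cons_of_mem _ hj)) r hr
    have hi : i < chevF4.rank := hL i List.mem_cons_self
    have himg : wImg (i :: L) r = goodF4.tab.refl i (wImg L r) := rfl
    rw [himg]
    refine ⟨?_, fun t => ?_⟩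
    · rw [goodF4.refl_eq hi hlt]
      exact goodF4.reflectRoot_lt hi hlt
    · rw [List.map_cons, List.prod_cons, mul_assoc, e, ← mul_assoc, goodF4.ng_simple_mul_xg hi hlt, mul_assoc,
        goodF4.refl_eq hi hlt]
      congr 2
      rcases goodF4.eta_eq i (wImg L r) with h | h <;> rw [h] <;> simp [CharTwo.neg_eq]

theorem conj_evW {L : List ℕ} (hL : ∀ i ∈ L, i < 4) (vs : List K) : ∀ w : PWord, (∀ e ∈ w, e.1 < 48) →
    (L.map fun i => (goodF4.ng (chevF4.simple i) 1 : GL chevF4.Idx K)).prod * evW (RingHom.id K) vs w *
        ((L.map fun i => (goodF4.ng (chevF4.simple i) 1 : GL chevF4.Idx K)).prod)⁻¹ =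
      evW (RingHom.id K) vs (w.map fun e => (wImg L e.1, e.2))
  | [], _ => by simp [evW_nil]
  | e :: w, h => by
    rw [List.map_cons, evW_cons, evW_cons, ← conj_evW hL vs w fun x hx => h x (List.mem_cons_of_mem _ hx),
      eq_mul_inv_iff_mul_eq.2 ((wImg_spec L hL e.1 (h e List.mem_cons_self)).2 (evP (RingHom.id K) vs e.2)).symm]
    group

theorem nProd_mem {L : List ℕ} (hL : ∀ i ∈ L, i < 4) :
    (L.map fun i => (goodF4.ng (chevF4.simple i) 1 : GL chevF4.Idx K)).prod ∈ chevF4.group K :=
  Subgroup.list_prod_mem _ fun x hx => by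
    obtain ⟨i, hi, rfl⟩ := List.mem_map.1 hx
    exact mul_mem (mul_mem (goodF4.xg_mem_group _ _) (goodF4.xg_mem_group _ _)) (goodF4.xg_mem_group _ _)

variable [PerfectRing K 2]

theorem exists_root {c b : K} (hc : c ≠ 0) {e : ℕ} (he : e = 1 ∨ e = 2) : ∃ t : K, c * t ^ e = b := by
  rcases he with rfl | rfl
  · exact ⟨b / c, by field_simp⟩
  · obtain ⟨t, ht⟩ := (bijective_frobenius K 2).surjective (b / c)
    rw [frobenius_def] at ht
    exact ⟨t, by rw [ht]; field_simp⟩

theorem check_sound {Ks : List (List ℕ)} (hKs : ∀ S ∈ Ks, Sol K S) :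
    ∀ (T : Tree) (Z NZ : List ℕ), check Ks T Z NZ = true →
      ∀ v : ℕ → K, (∀ k ∈ Z, k < 24 → v k = 0) → (∀ k ∈ NZ, k < 24 → v k ≠ 0) → form v * form v = 1 →
        Goal K (form v)
  | .ref i, Z, NZ, h, v, hZ, hN, hv => by
    simp only [check] at h
    split at h
    · next S hS =>
      simp only [List.all_eq_true, List.mem_range, List.contains_iff_mem] at h
      refine hKs S (List.mem_of_getElem? hS) v (fun k hk => ?_) hv
      have hk' := h k hk
      by_cases hm : k ∈ S
      · rw [if_pos hm] at hk'
        exact ⟨fun _ => hN k (by simpa using hk') hk, fun c => absurd hm c⟩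
      · rw [if_neg hm] at hk'
        exact ⟨fun c => absurd c hm, fun _ => hZ k (by simpa using hk') hk⟩
    · simp at h
  | .absurd r, Z, NZ, h, v, hZ, hN, hv => (sq_spec h v hZ hv hN).elim
  | .sq r k t, Z, NZ, h, v, hZ, hN, hv => by
    simp only [check, Bool.and_eq_true] at h
    refine check_sound hKs t _ _ h.2 v (fun j hj hj' => ?_) hN hv
    rcases List.mem_cons.1 hj with rfl | hj
    · by_contra hne
      exact sq_spec h.1 v hZ hv fun i hi hi' => (List.mem_cons.1 hi).elim (fun e => e ▸ hne) fun hi => hN i hi hi'
    · exact hZ j hj hj'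
  | .split k a b, Z, NZ, h, v, hZ, hN, hv => by
    simp only [check, Bool.and_eq_true, decide_eq_true_eq] at h
    by_cases hk : v k = 0
    · exact check_sound hKs a _ _ h.1.2 v (fun j hj hj' => (List.mem_cons.1 hj).elim (fun e => e ▸ hk)
        fun hj => hZ j hj hj') hN hv
    · exact check_sound hKs b _ _ h.2 v hZ (fun j hj hj' => (List.mem_cons.1 hj).elim (fun e => e ▸ hk)
        fun hj => hN j hj hj') hv
  | .conj g r t, Z, NZ, h, v, hZ, hN, hv => by
    simp only [check, Bool.and_eq_true, decide_eq_true_eq] at h
    obtain ⟨⟨hg, hok⟩, hrec⟩ := h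
    simp only [conjOk, Bool.and_eq_true, decide_eq_true_eq] at hok
    obtain ⟨⟨hr, hc⟩, hm⟩ := hok
    set w := collect (cjW Z g) with hw
    split at hm
    · next m hp =>
      simp only [Bool.and_eq_true, Bool.or_eq_true, decide_eq_true_eq] at hm
      obtain ⟨hm, he⟩ := hm
      obtain ⟨s, hs⟩ := exists_root (mono_spec hm v 0 hN).2 (b := v r) he
      have key : (goodF4.xg (rootAt g) s : GL chevF4.Idx K) * form v * (goodF4.xg (rootAt g) s)⁻¹ =
          form fun k => evP (RingHom.id K) (vals v s) (coef w (rootAt k)) := by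
        rw [← evW_outs _ hc, hw, evW_collect, cjW, evW_cons, evW_append, evW_cons, evW_nil, mul_one, evP_par,
          evW_shW v s hZ, goodF4.xg_inv, CharTwo.neg_eq, mul_assoc]
      refine Goal.of_conj (goodF4.xg_mem_group _ _) key (check_sound hKs t _ _ hrec _ ?_ ?_ (mul_self_conj key hv))
      · intro k hk hk'
        rcases List.mem_cons.1 hk with rfl | hk
        · have e : evP (RingHom.id K) (vals v s) (addP (coef w (rootAt k)) (pv k)) =
              evM (RingHom.id K) (vals v s) m := by rw [hp]; simp [evP]
          rw [evP_add, evP_var v s hk', (mono_spec hm v s hN).1, hs] at e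
          simpa using e
        · simp only [zeroOf, List.mem_filter, decide_eq_true_eq] at hk
          show evP (RingHom.id K) (vals v s) (coef w (rootAt k)) = 0
          rw [hk.2, evP_nil]
      · intro k hk hk'
        simp only [List.mem_filter, Bool.and_eq_true, decide_eq_true_eq] at hk
        show evP (RingHom.id K) (vals v s) (coef w (rootAt k)) ≠ 0
        rw [hk.2.2, evP_var v s hk']
        exact hN k hk.1 hk'
    · simp at hm
  | .weyl L t, Z, NZ, h, v, hZ, hN, hv => by
    simp only [check, Bool.and_eq_true, List.all_eq_true, decide_eq_true_eq] at h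
    obtain ⟨⟨hL, hc⟩, hrec⟩ := h
    set w := collect (wlW Z L) with hw
    have key : (L.map fun i => (goodF4.ng (chevF4.simple i) 1 : GL chevF4.Idx K)).prod * form v *
        ((L.map fun i => (goodF4.ng (chevF4.simple i) 1 : GL chevF4.Idx K)).prod)⁻¹ =
          form fun k => evP (RingHom.id K) (vals v 0) (coef w (rootAt k)) := by
      rw [← evW_outs _ hc, hw, evW_collect, wlW, ← conj_evW hL _ _ ?_, evW_shW v 0 hZ]
      intro e he
      obtain ⟨k, hk, rfl⟩ := List.mem_map.1 he
      exact rootAt_lt k (List.mem_range.1 hk)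
    refine Goal.of_conj (nProd_mem hL) key (check_sound hKs t _ _ hrec _ ?_ ?_ (mul_self_conj key hv))
    · intro k hk _
      simp only [zeroOf, List.mem_filter, decide_eq_true_eq] at hk
      show evP (RingHom.id K) (vals v 0) (coef w (rootAt k)) = 0
      rw [hk.2, evP_nil]
    · intro k hk hk'
      simp only [List.mem_filter, List.any_eq_true, Bool.and_eq_true, decide_eq_true_eq] at hk
      obtain ⟨-, j, hj, hj24, e⟩ := hk
      show evP (RingHom.id K) (vals v 0) (coef w (rootAt k)) ≠ 0
      rw [e]
      rw [evP_var v 0 hj24]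
      exact hN j hj hj24

/-- A state checked from earlier states. -/
theorem sol_of_check {Ks : List (List ℕ)} (hKs : ∀ S ∈ Ks, Sol K S) {T : Tree} {S : List ℕ}
    (h : check Ks T ((List.range 24).filter fun k => !S.contains k) S = true) : Sol K S := fun v hv hv2 =>
  check_sound hKs T _ _ h v
    (fun k hk hk' => (hv k hk').2 (by simpa using (List.mem_filter.1 hk).2))
    (fun k hk hk' => (hv k hk').1 hk) hv2

end Eval

end Cfsg.Agent.H71.F4Inv
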