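import Cfsg.Agent.H71.F4InvTree
import Cfsg.Agent.H65.Chev.Central
import Cfsg.Agent.H65.Inv.Rank

/-!
The four classes of involutions of type F₄ in characteristic two.
-/

set_option autoImplicit false
set_option maxRecDepth 100000
set_option linter.unusedSectionVars false

open Cfsg.Lie Cfsg.Agent.H46
open Cfsg.Agent.H71.ReeF4

namespace Cfsg.Agent.H71.F4Inv

/-- Columns for the highest root. -/
def colsR : List ℕ := [0x0, 0x0, 0x0, 0x8000000000000, 0x8000000000005, 0x10000000, 0x40000000, 0x200000000, 0x800000000, 0x1000000000, 0x0, 0x10000000000, 0x40000000000, 0x80000000000, 0x0, 0x100000000000, 0x0, 0x0, 0x0, 0x400000000000, 0x800000000000, 0x0, 0x1000000000000, 0x0, 0x0, 0x2000000000000, 0x0, 0x4000000000000, 0x0, 0x0, 0x0, 0x0, 0x0, 0x0, 0x0, 0x0, 0x0, 0x0, 0x0, 0x0, 0x0, 0x0, 0x0, 0x0, 0x0, 0x0, 0x0, 0x0, 0x0, 0x0, 0x0, 0x0]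

/-- Pivots for the highest root. -/
def pivR : List (ℕ × List ℕ) := [(51, [3]), (2, [3, 4]), (28, [5]), (30, [6]), (33, [7]), (35, [8]), (36, [9]), (40, [11]), (42, [12]), (43, [13]), (44, [15]), (46, [19]), (47, [20]), (48, [22]), (49, [25]), (50, [27])]

/-- Columns for the highest short root. -/
def colsS : List ℕ := [0x1000000000000, 0x0, 0x0, 0x0, 0x200000400000, 0x400000800000, 0x800001000000, 0x1000000000002, 0x2000080000000, 0x4000100000000, 0x8000200000000, 0x2000000000, 0x4000000000, 0x8000000000, 0x10000000000, 0x20000000000, 0x40000000000, 0x80000000000, 0x100000000000, 0x0, 0x0, 0x0, 0x0, 0x0, 0x0, 0x0, 0x0, 0x0, 0x0, 0x0, 0x0, 0x0, 0x0, 0x0, 0x0, 0x0, 0x0, 0x0, 0x0, 0x0, 0x0, 0x0, 0x0, 0x0, 0x0, 0x0, 0x0, 0x0, 0x0, 0x0, 0x0, 0x0]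

/-- Pivots for the highest short root. -/
def pivS : List (ℕ × List ℕ) := [(48, [0]), (45, [4]), (46, [5]), (47, [6]), (1, [0, 7]), (49, [8]), (50, [9]), (51, [10]), (37, [11]), (38, [12]), (39, [13]), (40, [14]), (41, [15]), (42, [16]), (43, [17]), (44, [18])]

/-- Columns for the adjacent pair. -/
def colsC : List ℕ := [0x1000000000000, 0x0, 0x0, 0x8000000000000, 0x9200000400005, 0x400010800000, 0x800041000000, 0x1000200000002, 0x2000880000000, 0x4001100000000, 0x8000200000000, 0x12000000000, 0x44000000000, 0x88000000000, 0x10000000000, 0x120000000000, 0x40000000000, 0x80000000000, 0x100000000000, 0x400000000000, 0x800000000000, 0x0, 0x1000000000000, 0x0, 0x0, 0x2000000000000, 0x0, 0x4000000000000, 0x0, 0x0, 0x0, 0x0, 0x0, 0x0, 0x0, 0x0, 0x0, 0x0, 0x0, 0x0, 0x0, 0x0, 0x0, 0x0, 0x0, 0x0, 0x0, 0x0, 0x0, 0x0, 0x0, 0x0]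

/-- Pivots for the adjacent pair. -/
def pivC : List (ℕ × List ℕ) := [(48, [0]), (51, [3]), (45, [0, 3, 4]), (46, [19]), (47, [20]), (33, [3, 10]), (49, [25]), (50, [27]), (1, [0, 3, 7, 10]), (40, [14]), (42, [16]), (43, [17]), (37, [11, 14]), (44, [18]), (38, [12, 16]), (39, [13, 17]), (41, [15, 18]), (28, [5, 19]), (30, [6, 20]), (35, [8, 25]), (36, [9, 27])]

/-- Columns for the orthogonal pair. -/
def colsA : List ℕ := [0x0, 0x80000000000, 0x2080000000000, 0x0, 0x4020022002000, 0x8040044004000, 0x2000000000009, 0x100080020000, 0x1000040000, 0x400000000, 0x800000000, 0x1004001000000, 0x80000000001, 0x20000000000, 0x40000000000, 0x100000000, 0x200000000, 0x100000000000, 0x0, 0x802000000000, 0x200000000000, 0x400000000000, 0x8000000000, 0x10000000000, 0x1000000000000, 0x4020000000000, 0x8040000000000, 0x0, 0x0, 0x4000000000000, 0x8000000000000, 0x100000000000, 0x0, 0x0, 0x0, 0x0, 0x0, 0x0, 0x1000000000000, 0x0, 0x0, 0x0, 0x0, 0x0, 0x0, 0x0, 0x0,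 0x0, 0x0, 0x0, 0x0, 0x0]

/-- Pivots for the orthogonal pair. -/
def pivA : List (ℕ × List ℕ) := [(43, [1]), (49, [1, 2]), (50, [13, 25]), (51, [14, 26]), (3, [2, 6, 12]), (44, [17]), (36, [8]), (34, [9]), (35, [10]), (48, [24]), (0, [1, 12]), (41, [13]), (42, [14]), (32, [15]), (33, [16]), (31, [7, 17]), (47, [19]), (45, [20]), (46, [21]), (39, [22]), (40, [23]), (38, [11, 24]), (29, [4, 25]), (30, [5, 26])]

theorem rank_ok :
    (H65.Inv.colsOk chevF4 goodF4.tab [47] colsR = true ∧ H65.Inv.basisOk chevF4 colsR pivR = true) ∧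
    (H65.Inv.colsOk chevF4 goodF4.tab [44] colsS = true ∧ H65.Inv.basisOk chevF4 colsS pivS = true) ∧
    (H65.Inv.colsOk chevF4 goodF4.tab [44, 47] colsC = true ∧ H65.Inv.basisOk chevF4 colsC pivC = true) ∧
    H65.Inv.colsOk chevF4 goodF4.tab [39, 45] colsA = true ∧ H65.Inv.basisOk chevF4 colsA pivA = true := by
  decide +kernel

section

variable {K : Type*} [Field K] [CharP K 2]

theorem rank_reps :
    (((H65.Inv.prodX goodF4 [47] : GL chevF4.Idx K) : Matrix chevF4.Idx chevF4.Idx K) - 1).rank = 16 ∧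
    (((H65.Inv.prodX goodF4 [44] : GL chevF4.Idx K) : Matrix chevF4.Idx chevF4.Idx K) - 1).rank = 16 ∧
    (((H65.Inv.prodX goodF4 [44, 47] : GL chevF4.Idx K) : Matrix chevF4.Idx chevF4.Idx K) - 1).rank = 21 ∧
    (((H65.Inv.prodX goodF4 [39, 45] : GL chevF4.Idx K) : Matrix chevF4.Idx chevF4.Idx K) - 1).rank = 24 := by
  obtain ⟨⟨a, a'⟩, ⟨b, b'⟩, ⟨c, c'⟩, d, d'⟩ := rank_ok
  exact ⟨H65.Inv.rank_sub_one goodF4 a a', H65.Inv.rank_sub_one goodF4 b b', H65.Inv.rank_sub_one goodF4 c c',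
    H65.Inv.rank_sub_one goodF4 d d'⟩

theorem pair_facts :
    (goodF4.tab.pair 4 47 47 = 2 ∧ goodF4.tab.pair 4 44 44 = 2) ∧
    (goodF4.tab.pair 4 39 39 = 2 ∧ goodF4.tab.pair 4 39 45 = 0 ∧ goodF4.tab.pair 4 45 45 = 2 ∧
      goodF4.tab.pair 4 45 39 = 0) ∧
    (∀ s < 48, goodF4.tab.pair 4 47 s = 2 → s = 47) ∧ (∃ s : Fin 48, s.val ≠ 44 ∧ goodF4.tab.pair 4 44 s = 2) ∧
    (∃ c : Fin 48, goodF4.tab.pair 4 c 44 = 1 ∧ goodF4.tab.pair 4 c 47 = 0) ∧
    (∃ c : Fin 48, goodF4.tab.pair 4 c 47 = 1 ∧ goodF4.tab.pair 4 c 44 = 0) := by decide +kernel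

theorem central_facts : ∀ r, r = 47 ∨ r = 44 → ∀ s ∈ List.range' 24 24, s ≠ chevF4.neg r ∧
    ∀ c ∈ chevF4.commTerms r s, c.2.1 % 2 = 0 := by
  rintro r (rfl | rfl) <;> decide +kernel

theorem hg_conj_xg {c r : ℕ} (hc : c < 48) (hr : r < 48) {a : K} (ha : a ≠ 0) (t : K) :
    goodF4.hg c a * goodF4.xg r t * (goodF4.hg c a)⁻¹ = goodF4.xg r (a ^ goodF4.tab.pair 4 c r * t) := by
  rw [goodF4.hg_mul_xg (r := c) (s := r) hc hr ha, mul_inv_cancel_right,
    goodF4.pairing_eq_pair (r := c) (s := r) hc hr]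
  rfl

theorem form_supp (v : ℕ → K) {S : List ℕ} (h : ∀ k < 24, k ∉ S → v k = 0) :
    form v = (((List.range 24).filter fun k => S.contains k).map fun k => goodF4.xg (rootAt k) (v k)).prod := by
  rw [form]
  have : ∀ L : List ℕ, (∀ k ∈ L, k < 24) → (L.map fun k => goodF4.xg (rootAt k) (v k)).prod =
      ((L.filter fun k => S.contains k).map fun k => goodF4.xg (rootAt k) (v k)).prod := by
    intro L
    induction L with
    | nil => simp
    | cons a L ih =>
      intro hL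
      by_cases ha : a ∈ S
      · rw [List.filter_cons_of_pos (by simpa using ha), List.map_cons, List.map_cons, List.prod_cons, List.prod_cons,
          ih fun k hk => hL k (List.mem_cons_of_mem _ hk)]
      · rw [List.filter_cons_of_neg (by simpa using ha), List.map_cons, List.prod_cons, h a (hL a List.mem_cons_self) ha,
          goodF4.xg_zero, one_mul, ih fun k hk => hL k (List.mem_cons_of_mem _ hk)]
  exact this _ fun k hk => List.mem_range.1 hk

theorem base_filters :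
    ((List.range 24).filter fun k => ([] : List ℕ).contains k) = [] ∧
    ((List.range 24).filter fun k => ([11] : List ℕ).contains k) = [11] ∧
    ((List.range 24).filter fun k => ([10] : List ℕ).contains k) = [10] ∧
    ((List.range 24).filter fun k => ([10, 11] : List ℕ).contains k) = [10, 11] ∧
    ((List.range 24).filter fun k => ([12, 13] : List ℕ).contains k) = [12, 13] ∧
    rootAt 11 = 47 ∧ rootAt 10 = 44 ∧ rootAt 12 = 39 ∧ rootAt 13 = 45 := by decide +kernel

variable [PerfectRing K 2]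

theorem exists_sq {b : K} (hb : b ≠ 0) : ∃ a : K, a ≠ 0 ∧ a ^ (2 : ℤ) * b = 1 := by
  obtain ⟨a, ha⟩ := exists_root (b := (1 : K)) hb (Or.inr rfl : (2 : ℕ) = 1 ∨ (2 : ℕ) = 2)
  refine ⟨a, fun e => by simp [e] at ha, ?_⟩
  rw [show (2 : ℤ) = ((2 : ℕ) : ℤ) from rfl, zpow_natCast, mul_comm]
  exact ha

theorem goal_single {r : ℕ} (hr : r = 47 ∨ r = 44) {t : K} (ht : t ≠ 0) : Goal K (goodF4.xg r t) := by
  obtain ⟨⟨h47, h44⟩, -⟩ := pair_facts
  obtain ⟨a, ha, e⟩ := exists_sq ht
  refine ⟨goodF4.hg r a, goodF4.hg_mem_group _ _, [r], by rcases hr with rfl | rfl <;> decide, ?_⟩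
  rw [hg_conj_xg (by omega) (by omega) ha]
  rcases hr with rfl | rfl
  · rw [h47, e]; simp [H65.Inv.prodX]
  · rw [h44, e]; simp [H65.Inv.prodX]

theorem goal_two {r s c d : ℕ} (hS : [r, s] ∈ reps) (hr : r < 48) (hs : s < 48) (hc : c < 48) (hd : d < 48)
    {t u a b : K} (ha : a ≠ 0) (hb : b ≠ 0)
    (e1 : a ^ goodF4.tab.pair 4 c r * t = 1) (e2 : goodF4.tab.pair 4 c s = 0)
    (e3 : b ^ goodF4.tab.pair 4 d s * u = 1) (e4 : goodF4.tab.pair 4 d r = 0) :
    Goal K (goodF4.xg r t * goodF4.xg s u) := by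
  refine ⟨goodF4.hg d b * goodF4.hg c a, mul_mem (goodF4.hg_mem_group _ _) (goodF4.hg_mem_group _ _), [r, s], hS, ?_⟩
  rw [show goodF4.hg d b * goodF4.hg c a * (goodF4.xg r t * goodF4.xg s u) * (goodF4.hg d b * goodF4.hg c a)⁻¹ =
    goodF4.hg d b * ((goodF4.hg c a * goodF4.xg r t * (goodF4.hg c a)⁻¹) *
      (goodF4.hg c a * goodF4.xg s u * (goodF4.hg c a)⁻¹)) * (goodF4.hg d b)⁻¹ by group,
    hg_conj_xg hc hr ha, hg_conj_xg hc hs ha, e1, e2, zpow_zero, one_mul,
    show goodF4.hg d b * (goodF4.xg r 1 * goodF4.xg s u) * (goodF4.hg d b)⁻¹ =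
      (goodF4.hg d b * goodF4.xg r 1 * (goodF4.hg d b)⁻¹) * (goodF4.hg d b * goodF4.xg s u * (goodF4.hg d b)⁻¹) by
      group, hg_conj_xg hd hr hb, hg_conj_xg hd hs hb, e3, e4, zpow_zero, one_mul]
  simp [H65.Inv.prodX]

theorem sol_base : ∀ S ∈ base, Sol K S := by
  intro S hS v hv _
  obtain ⟨f0, f1, f2, f3, f4, r11, r10, r12, r13⟩ := base_filters
  rw [form_supp v (S := S) fun k hk hm => (hv k hk).2 hm]
  simp only [base, List.mem_cons, List.not_mem_nil, or_false] at hS
  rcases hS with rfl | rfl | rfl | rfl | rfl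
  · rw [f0]
    exact ⟨1, one_mem _, [], by decide, by simp [H65.Inv.prodX]⟩
  · rw [f1]
    simpa [r11] using goal_single (Or.inl rfl) ((hv 11 (by omega)).1 (by simp))
  · rw [f2]
    simpa [r10] using goal_single (Or.inr rfl) ((hv 10 (by omega)).1 (by simp))
  · rw [f3]
    obtain ⟨-, -, -, -, ⟨c, c1, c2⟩, d, d1, d2⟩ := pair_facts
    have h10 := (hv 10 (by omega)).1 (by simp)
    have h11 := (hv 11 (by omega)).1 (by simp)
    simpa [r10, r11] using goal_two (r := 44) (s := 47) (t := v 10) (u := v 11) (by decide) (by omega) (by omega) c.2 d.2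
      (inv_ne_zero h10) (inv_ne_zero h11) (by rw [c1, zpow_one, inv_mul_cancel₀ h10]) c2
      (by rw [d1, zpow_one, inv_mul_cancel₀ h11]) d2
  · rw [f4]
    obtain ⟨-, ⟨p1, p2, p3, p4⟩, -⟩ := pair_facts
    obtain ⟨a, ha, ea⟩ := exists_sq ((hv 12 (by omega)).1 (by simp))
    obtain ⟨b, hb, eb⟩ := exists_sq ((hv 13 (by omega)).1 (by simp))
    simpa [r12, r13] using goal_two (r := 39) (s := 45) (c := 39) (d := 45) (t := v 12) (u := v 13) (by decide)
      (by omega) (by omega) (by omega) (by omega) ha hb (by rw [p1, ea]) p2 (by rw [p3, eb]) p4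

theorem left_ok : ∀ i < 24, isCollected (collect ((rootAt i, pv 24) :: shW [])) = true := by decide +kernel

theorem states_take : states.take 5 = base ∧ states.length = 5 + trees.length := by decide +kernel

end

section

variable {K : Type*} [Field K] [CharP K 2]

theorem commute_pos {r : ℕ} (hr : r = 47 ∨ r = 44) (t : K) {u : GL chevF4.Idx K} (hu : u ∈ chevF4.posUnipotent K) :
    u * goodF4.xg r t = goodF4.xg r t * u := by
  rw [goodF4.posUnipotent_eq] at hu
  have hle : goodF4.posSub (F := K) Set.univ ≤ Subgroup.centralizer {goodF4.xg r t} := by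
    refine (Subgroup.closure_le _).2 ?_
    rintro g ⟨s, x, ⟨hs, -⟩, rfl⟩
    rw [SetLike.mem_coe, Subgroup.mem_centralizer_singleton_iff]
    by_cases hsr : s = r
    · subst hsr
      rw [goodF4.xg_add, goodF4.xg_add, add_comm]
    · have hs' : s ∈ List.range' 24 24 := by
        have h1 : s ∈ chevF4.posRoots := List.mem_filter.2 ⟨List.mem_range.2 hs.1, decide_eq_true hs⟩
        rw [goodF4.posRoots_eq] at h1
        exact h1
      obtain ⟨hn, hc⟩ := central_facts r hr s hs'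
      exact (H65.xg_commute goodF4 (r := r) (s := s) (show r < 48 by omega) hs.1 hsr hn
        (fun c hc' => (CharP.intCast_eq_zero_iff K 2 _).2 (Int.dvd_of_emod_eq_zero (hc c hc'))) t x).symm
  exact Subgroup.mem_centralizer_singleton_iff.1 (hle hu)

theorem borel_conj {r : ℕ} (hr : r = 47 ∨ r = 44) {b : GL chevF4.Idx K} (hb : b ∈ chevF4.borelSubgroup K) :
    ∃ c : Kˣ, ∀ t : K, b * goodF4.xg r t * b⁻¹ = goodF4.xg r ((c : K) * t) := by
  obtain ⟨v, hv, h, hh, rfl⟩ := goodF4.mem_borel.1 hb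
  obtain ⟨z, rfl⟩ := goodF4.mem_diagonal.1 hh
  refine ⟨goodF4.torusVal z r, fun t => ?_⟩
  rw [show v * goodF4.torus z * goodF4.xg r t * (v * goodF4.torus z)⁻¹ =
    v * (goodF4.torus z * goodF4.xg r t * (goodF4.torus z)⁻¹) * v⁻¹ by group,
    goodF4.torus_conj_xg z (show r < 48 by omega), mul_inv_eq_iff_eq_mul]
  exact commute_pos hr _ hv

/-- Long and short root elements are not conjugate. -/
theorem not_conj {h : GL chevF4.Idx K} (hh : h ∈ chevF4.group K) :
    h * goodF4.xg 47 1 * h⁻¹ ≠ goodF4.xg 44 1 := by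
  intro e
  obtain ⟨n, hn, hc⟩ := goodF4.bruhat hh
  obtain ⟨b, hb, b', hb', rfl⟩ := goodF4.mem_bruhatCell.1 hc
  obtain ⟨c, hc'⟩ := borel_conj (Or.inl rfl) hb'
  obtain ⟨d, hd⟩ := borel_conj (Or.inr rfl) (inv_mem hb)
  obtain ⟨k, hk⟩ := goodF4.conj_xg_eq hn (⟨47, by decide⟩ : Fin chevF4.nroots)
  have key : goodF4.xg (goodF4.perm n ⟨47, by decide⟩).val ((k : K) * ((c : K) * 1)) =
      goodF4.xg (⟨44, by decide⟩ : Fin chevF4.nroots).val ((d : K) * 1) := by
    rw [← hk, ← hc', ← hd, ← e]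
    group
  have hp : goodF4.perm n ⟨47, by decide⟩ = (⟨44, by decide⟩ : Fin chevF4.nroots) := by
    by_contra hne
    exact goodF4.xg_ne_of_ne hne (mul_ne_zero k.ne_zero (mul_ne_zero c.ne_zero one_ne_zero)) _ key
  obtain ⟨-, -, h47, ⟨s, hs, h44⟩, -, -⟩ := pair_facts
  let s' : Fin chevF4.nroots := s
  have happ : goodF4.perm n ((goodF4.perm n).symm s') = s' := Equiv.apply_symm_apply _ _
  have hinv := H65.pairing_perm goodF4 hn (⟨47, by decide⟩ : Fin chevF4.nroots) ((goodF4.perm n).symm s')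
  rw [happ, hp, goodF4.pairing_eq_pair (Fin.isLt _) (Fin.isLt _),
    goodF4.pairing_eq_pair (Fin.isLt _) (Fin.isLt _)] at hinv
  have h2 := h47 _ ((goodF4.perm n).symm s').2 (hinv.symm.trans h44)
  refine hs ?_
  have h3 : (goodF4.perm n).symm s' = (⟨47, by decide⟩ : Fin chevF4.nroots) := Fin.ext h2
  have h4 := congrArg (goodF4.perm n) h3
  rw [happ, hp] at h4
  exact congrArg Fin.val h4

end

section

variable {K : Type*} [Field K] [Fintype K] [CharP K 2]

theorem sol_states : ∀ S ∈ states, Sol K S := by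
  have step : ∀ (i : ℕ) (T : Tree) (S : List ℕ), states[i]? = some S →
      check (states.take i) T ((List.range 24).filter fun k => !S.contains k) S = true →
      (∀ A ∈ states.take i, Sol K A) → ∀ A ∈ states.take (i + 1), Sol K A := by
    intro i T S hS hT ih A hA
    rw [List.take_add_one, hS, List.mem_append] at hA
    rcases hA with hA | hA
    · exact ih A hA
    · simp only [Option.toList_some, List.mem_singleton] at hA
      exact hA ▸ sol_of_check ih hT
  have h5 : ∀ A ∈ states.take 5, Sol K A := by rw [states_take.1]; exact sol_base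
  have h6 := step 5 tree5 [1, 13, 20] (by decide +kernel) tree5_ok h5
  have h7 := step 6 tree6 [1, 3, 12, 15] (by decide +kernel) tree6_ok h6
  have h8 := step 7 tree7 [1, 3, 6] (by decide +kernel) tree7_ok h7
  have h9 := step 8 tree8 [1, 8, 20] (by decide +kernel) tree8_ok h8
  have h10 := step 9 tree9 [1, 19, 20] (by decide +kernel) tree9_ok h9
  have h11 := step 10 tree10 [1, 8, 13, 20] (by decide +kernel) tree10_ok h10
  have h12 := step 11 tree11 [1, 13, 19, 20] (by decide +kernel) tree11_ok h11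
  have h13 := step 12 tree12 [1, 19] (by decide +kernel) tree12_ok h12
  have h14 := step 13 tree13 [1, 7, 19] (by decide +kernel) tree13_ok h13
  have h15 := step 14 tree14 [1, 7, 13, 19] (by decide +kernel) tree14_ok h14
  intro A hA
  exact h15 A (by rwa [List.take_of_length_le (by decide +kernel)])

theorem form_exists {u : GL chevF4.Idx K} (hu : u ∈ chevF4.posUnipotent K) : ∃ v : ℕ → K, u = form v := by
  rw [goodF4.posUnipotent_eq] at hu
  have step : ∀ (s : ℕ), chevF4.IsPosRoot s → ∀ (t : K) (v : ℕ → K), ∃ v', goodF4.xg s t * form v = form v' := by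
    intro s hs t v
    have hmem : s ∈ order := by
      have h1 : s ∈ chevF4.posRoots := List.mem_filter.2 ⟨List.mem_range.2 hs.1, decide_eq_true hs⟩
      rw [goodF4.posRoots_eq] at h1
      exact (show ∀ x ∈ List.range' 24 24, x ∈ order by decide +kernel) s h1
    rw [order_eq] at hmem
    obtain ⟨i, hi, rfl⟩ := List.mem_map.1 hmem
    refine ⟨_, Eq.trans ?_ (evW_outs (vals v t) (left_ok i (List.mem_range.1 hi)))⟩
    rw [evW_collect, evW_cons, evP_par, evW_shW v t (by simp)]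
  induction hu using Subgroup.closure_induction_left with
  | one => exact ⟨fun _ => 0, by simp [form, goodF4.xg_zero]⟩
  | mul_left x hx y _ ih =>
    obtain ⟨s, t, ⟨hs, -⟩, rfl⟩ := hx
    obtain ⟨v, rfl⟩ := ih
    exact step s hs t v
  | inv_mul_cancel x hx y _ ih =>
    obtain ⟨s, t, ⟨hs, -⟩, rfl⟩ := hx
    obtain ⟨v, rfl⟩ := ih
    rw [goodF4.xg_inv]
    exact step s hs (-t) v

theorem exists_conj_reps {g : GL chevF4.Idx K} (hg : g ∈ chevF4.group K) (h2 : g * g = 1) : Goal K g := by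
  obtain ⟨k, hk, hku⟩ := H65.exists_conj_mem_pos goodF4 hg h2
  obtain ⟨v, hv⟩ := form_exists hku
  refine Goal.of_conj hk hv (check_sound sol_states topTree [] [] topTree_ok v (by simp) (by simp) ?_)
  exact mul_self_conj hv h2

end

end Cfsg.Agent.H71.F4Inv
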