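/-
Groups of order 7920 with disconnected prime graph are simple.
-/
import Cfsg.Agent.H30.Order7920Sylow
import Cfsg.Agent.H19.Cores

set_option autoImplicit false
set_option synthInstance.maxSize 1024

open Subgroup MulAction

namespace Cfsg.Agent.H71.Order7920Graph

universe u

/-- No simple group of order 3960 has a Sylow 11-normalizer of order 88. -/
theorem no_simple_3960 {G : Type u} [Group G] [Finite G] [IsSimpleGroup G] (h : Nat.card G = 3960)
    [Fact (Nat.Prime 11)] (P : Sylow 11 G)
    (hN88 : Nat.card (normalizer ((P : Subgroup G) : Set G)) = 88) : False := by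
  classical
  have : Fact (Nat.Prime 2) := ⟨Nat.prime_two⟩
  have hG : ¬ IsMulCommutative G := H30.not_comm_of_not_prime (by rw [h]; norm_num)
  have hP : Nat.card (P : Subgroup G) = 11 := by
    simpa using H30.card_sylow_subgroup (a := 1) (m := 360) P (by rw [h]; norm_num) (by norm_num)
  obtain ⟨e, c, he, h1e, hN, hC⟩ := H30.exists_automizer_of_prime_order hG 11 P hP
  obtain ⟨rfl, rfl⟩ : e = 2 ∧ c = 4 := by
    have hle : e ≤ 10 := Nat.le_of_dvd (by norm_num) he
    rw [hN88] at hN
    interval_cases e <;> omega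
  set N := normalizer ((P : Subgroup G) : Set G) with hNdef
  set C := centralizer ((P : Subgroup G) : Set G) with hCdef
  have hmul := H30.card_sylow_mul_normalizer 11 P
  have hn : Nat.card (Sylow 11 G) = 45 := by rw [← hNdef, hN, h] at hmul; omega
  have hidx : N.index = 45 := P.card_eq_index_normalizer.symm.trans hn
  let SC : Sylow 2 C := default
  have hSC : Nat.card (SC : Subgroup C) = 2 ^ 2 :=
    H30.card_sylow_subgroup SC (m := 11) (by rw [hC]; norm_num) (by norm_num)
  have hCN : C ≤ N := H30.centralizer_le_normalizer _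
  obtain ⟨T, hT⟩ := ((SC.2.map C.subtype).comap_subtype (K := N)).exists_le_sylow
  set T' : Subgroup G := (T : Subgroup N).map N.subtype with hT'
  have hTc : Nat.card T' = 2 ^ 3 := by
    rw [hT', ← Nat.card_congr ((T : Subgroup N).equivMapOfInjective N.subtype
      N.subtype_injective).toEquiv]
    exact H30.card_sylow_subgroup T (m := 11) (by rw [hN]; norm_num) (by norm_num)
  have hT'p : IsPGroup 2 T' := IsPGroup.of_card hTc
  have hT'N : T' ≤ N := map_subtype_le _
  let T₀ : Sylow 2 G := Sylow.ofCard T' (by
    rw [hTc]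
    exact (H30.card_sylow_subgroup (default : Sylow 2 G) (m := 495) (by rw [h]; norm_num)
      (by norm_num)).symm.trans (Sylow.card_eq_multiplicity _))
  -- `C ⊓ T'` is nontrivial and normal in `T'`
  have hne : C.subgroupOf T' ≠ ⊥ := by
    intro hb
    have hle : (SC : Subgroup C).map C.subtype ≤ ⊥ := by
      intro x hx
      have hxC : x ∈ C := map_subtype_le _ hx
      have hxT : x ∈ T' := ⟨⟨x, hCN hxC⟩, hT (by simpa [mem_subgroupOf] using hx), rfl⟩
      have : (⟨x, hxT⟩ : T') ∈ C.subgroupOf T' := mem_subgroupOf.mpr hxC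
      rw [hb, mem_bot] at this
      exact mem_bot.mpr (congrArg Subtype.val this)
    have h8 := card_le_of_le hle
    rw [← Nat.card_congr ((SC : Subgroup C).equivMapOfInjective C.subtype
      C.subtype_injective).toEquiv, hSC, card_bot] at h8
    norm_num at h8
  have hCnorm : (C.subgroupOf N).Normal := by
    rw [hCdef, hNdef, ← normalizerMonoidHom_ker]
    exact MonoidHom.normal_ker _
  have hnorm : (C.subgroupOf T').Normal := ⟨fun x hx g => mem_subgroupOf.mpr
    (mem_subgroupOf.mp (hCnorm.conj_mem ⟨(x : G), hT'N x.2⟩ (mem_subgroupOf.mpr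
      (mem_subgroupOf.mp hx)) ⟨(g : G), hT'N g.2⟩))⟩
  have hmeet := H27.inf_center_ne_bot hT'p (C.subgroupOf T') hne
  obtain ⟨v, ⟨hvC, hvZ⟩, hv1⟩ :=
    ((Subgroup.bot_or_exists_ne_one _).resolve_left hmeet)
  -- an involution among the powers of `v`
  obtain ⟨j, hj⟩ := hT'p v
  have hv' : orderOf v ∣ 2 ^ j := orderOf_dvd_of_pow_eq_one hj
  obtain ⟨i, -, hi⟩ := (Nat.dvd_prime_pow Nat.prime_two).mp hv'
  have hi0 : i ≠ 0 := fun e0 => hv1 (orderOf_eq_one_iff.mp (by rw [hi, e0, pow_zero]))
  set w : T' := v ^ 2 ^ (i - 1) with hw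
  have hwo : orderOf w = 2 := by
    rw [hw, orderOf_pow' v (pow_ne_zero _ two_ne_zero), hi,
      Nat.gcd_eq_right (pow_dvd_pow 2 (by omega)), Nat.pow_div (by omega) two_pos]
    rw [show i - (i - 1) = 1 by omega, pow_one]
  have hwC : (w : G) ∈ C := by
    have := pow_mem hvC (2 ^ (i - 1)); exact mem_subgroupOf.mp this
  have hwZ : w ∈ center T' := pow_mem hvZ _
  have huo : orderOf (w : G) = 2 := by rw [Subgroup.orderOf_coe, hwo]
  set u : G := (w : G) with hu
  set CU := centralizer ({u} : Set G) with hCU
  have hPC : (P : Subgroup G) ≤ CU := fun x hx => mem_centralizer_singleton_iff.mpr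
    (mem_centralizer_iff.mp hwC x hx)
  have hTC : T' ≤ CU := fun x hx => mem_centralizer_singleton_iff.mpr
    (congrArg Subtype.val (mem_center_iff.mp hwZ ⟨x, hx⟩))
  have h88 : 88 ∣ Nat.card CU :=
    Nat.Coprime.mul_dvd_of_dvd_of_dvd (by norm_num : Nat.Coprime 11 8)
      (hP ▸ card_dvd_of_le hPC) ((by rw [hTc]; norm_num : Nat.card T' = 8) ▸ card_dvd_of_le hTC)
  have hu1 : u ≠ 1 := fun e1 => by rw [e1, orderOf_one] at huo; norm_num at huo
  have hci := card_mul_index CU
  rw [h] at hci
  obtain ⟨k, hk⟩ := h88
  have hCUN : CU = N := by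
    have hne9 := H30.index_centralizer_ne_prime_pow hG (q := 3) Nat.prime_three hu1
    have hne5 := H30.index_centralizer_ne_prime_pow hG (q := 5) (by norm_num) hu1
    have h45 : CU.index ∣ 45 := ⟨k, by rw [hk] at hci; nlinarith⟩
    have hmem : CU.index ∈ Nat.divisors 45 := Nat.mem_divisors.mpr ⟨h45, by norm_num⟩
    rcases (by decide : ∀ j ∈ Nat.divisors 45,
      j = 1 ∨ j = 3 ∨ j = 5 ∨ j = 9 ∨ j = 15 ∨ j = 45) _ hmem with e1 | e1 | e1 | e1 | e1 | e1
    · exact absurd e1 (hne9 0)
    · exact absurd e1 (hne9 1)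
    · exact absurd e1 (hne5 1)
    · exact absurd e1 (hne9 2)
    · exfalso
      -- the Sylow subgroup of `CU` would have twelve conjugates in a group of order 264
      have hCUc : Nat.card CU = 264 := by rw [e1] at hci; omega
      let P₁ : Sylow 11 CU := P.subtype hPC
      have hmod : Nat.card (Sylow 11 CU) % 11 = 1 := card_sylow_modEq_one 11 CU
      have hdiv : Nat.card (Sylow 11 CU) ∣ 24 :=
        H30.card_sylow_dvd (a := 1) (by rw [hCUc]; norm_num) (by norm_num)
      have hmul' := H30.card_sylow_mul_normalizer 11 P₁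
      have hle : (N ⊓ CU).subgroupOf CU ≤ normalizer ((P₁ : Subgroup CU) : Set CU) := by
        intro x hx
        rw [mem_normalizer_iff]
        intro y
        exact (mem_normalizer_iff.mp hx.1 (y : G))
      have hdle := card_dvd_of_le hle
      rw [Nat.card_congr (subgroupOfEquivOfLe inf_le_right).toEquiv] at hdle
      have hge : Nat.card (normalizer ((P₁ : Subgroup CU) : Set CU)) ∣ Nat.card N := by
        rw [Nat.card_congr ((normalizer ((P₁ : Subgroup CU) : Set CU)).equivMapOfInjective
          CU.subtype CU.subtype_injective).toEquiv]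
        refine card_dvd_of_le ?_
        refine (le_normalizer_map _).trans (le_of_eq ?_)
        congr
        simp [P₁, map_subgroupOf_eq_of_le hPC]
      have h88' : 88 ∣ Nat.card (N ⊓ CU : Subgroup G) :=
        Nat.Coprime.mul_dvd_of_dvd_of_dvd (by norm_num : Nat.Coprime 11 8)
          (hP ▸ card_dvd_of_le (le_inf le_normalizer hPC))
          ((by rw [hTc]; norm_num : Nat.card T' = 8) ▸ card_dvd_of_le (le_inf hT'N hTC))
      have := h88'.trans hdle
      rw [hN] at hge
      rcases (by decide +kernel : ∀ j ∈ Nat.divisors 24, j % 11 = 1 → j = 1 ∨ j = 12) _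
        (Nat.mem_divisors.mpr ⟨hdiv, by norm_num⟩) hmod with e2 | e2 <;>
        rw [e2, hCUc] at hmul'
      · rw [show Nat.card (normalizer ((P₁ : Subgroup CU) : Set CU)) = 264 by omega] at hge
        norm_num at hge
      · rw [show Nat.card (normalizer ((P₁ : Subgroup CU) : Set CU)) = 22 by omega] at this
        norm_num at this
    · have hCUc : Nat.card CU = 88 := by rw [e1] at hci; omega
      have hle : N ≤ CU := by
        have hNeq : (P : Subgroup G) ⊔ T' = N := by
          refine eq_of_le_of_card_ge (sup_le le_normalizer hT'N) (Nat.le_of_dvd Nat.card_pos ?_)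
          rw [hN, show (11 : ℕ) * 4 * 2 = 11 * 8 by norm_num]
          exact Nat.Coprime.mul_dvd_of_dvd_of_dvd (by norm_num : Nat.Coprime 11 8)
            (hP.symm.dvd.trans (card_dvd_of_le (le_sup_left : (P : Subgroup G) ≤ (P : Subgroup G) ⊔ T')))
            ((show 8 = Nat.card T' by rw [hTc]; norm_num).dvd.trans
              (card_dvd_of_le (le_sup_right : T' ≤ (P : Subgroup G) ⊔ T')))
        exact hNeq ▸ sup_le hPC hTC
      exact (eq_of_le_of_card_ge hle (by rw [hCUc, hN])).symm
  -- `u` is isolated
  have hiso : ∀ g : G, g * u * g⁻¹ ∈ T₀ → g * u * g⁻¹ = u := by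
    intro g hg
    have hgN : g * u * g⁻¹ ∈ N := hT'N hg
    have hcoset : u • ((g : G) : G ⧸ N) = ((g : G) : G ⧸ N) := by
      have hc : u * (g * u * g⁻¹) = (g * u * g⁻¹) * u := by
        rw [← hCUN, hCU, mem_centralizer_singleton_iff] at hgN
        exact hgN.symm
      rw [MulAction.Quotient.smul_coe, smul_eq_mul]
      refine QuotientGroup.eq.mpr ?_
      rw [← hCUN, hCU, mem_centralizer_singleton_iff]
      have hc' := congrArg (fun t => g⁻¹ * t * g) hc
      simp only [mul_assoc, inv_mul_cancel_left, inv_mul_cancel, mul_one] at hc'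
      calc (u * g)⁻¹ * g * u = g⁻¹ * u⁻¹ * (g * u) := by group
        _ = g⁻¹ * u * (g * u) := by
          rw [inv_eq_of_mul_eq_one_right (show u * u = 1 by
            rw [← pow_two, ← huo, pow_orderOf_eq_one])]
        _ = g⁻¹ * (u * (g * u)) := by group
        _ = u * (g⁻¹ * u * g) := by rw [hc']; group
        _ = u * ((u * g)⁻¹ * g) := by
          rw [mul_inv_rev, inv_eq_of_mul_eq_one_right (show u * u = 1 by
            rw [← pow_two, ← huo, pow_orderOf_eq_one])]
    -- `P` moves the fixed cosets other than the base one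
    have hfix : Nat.card (fixedBy (G ⧸ N) u) = 1 := by
      let _ : MulAction (P : Subgroup G) (fixedBy (G ⧸ N) u) :=
        { smul := fun y c => ⟨(y : G) • c.1, by
            have h1 : u * (y : G) = (y : G) * u :=
              (mem_centralizer_iff.mp hwC y.1 y.2).symm
            show u • ((y : G) • c.1) = (y : G) • c.1
            rw [smul_smul, h1, ← smul_smul, (c.2 : u • c.1 = c.1)]⟩
          one_smul := fun c => Subtype.ext (one_smul G c.1)
          mul_smul := fun a b c => Subtype.ext (mul_smul (a : G) (b : G) c.1) }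
      have hm := P.2.card_modEq_card_fixedPoints (fixedBy (G ⧸ N) u)
      have hu1' : u • ((1 : G) : G ⧸ N) = ((1 : G) : G ⧸ N) := by
        rw [MulAction.Quotient.smul_coe, smul_eq_mul, mul_one]
        exact QuotientGroup.eq.mpr (by simpa using inv_mem (hCN hwC))
      have h1' : Nat.card (fixedPoints (P : Subgroup G) (fixedBy (G ⧸ N) u)) = 1 := by
        rw [Nat.card_eq_one_iff_exists]
        refine ⟨⟨⟨_, hu1'⟩, fun y => Subtype.ext ?_⟩, fun c => ?_⟩
        · show (y : G) • ((1 : G) : G ⧸ N) = _
          rw [MulAction.Quotient.smul_coe, smul_eq_mul, mul_one]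
          exact QuotientGroup.eq.mpr (by simpa using inv_mem (show (y : G) ∈ N from le_normalizer y.2))
        · obtain ⟨⟨c, hcu⟩, hcP⟩ := c
          refine Subtype.ext (Subtype.ext ?_)
          show c = ((1 : G) : G ⧸ N)
          induction c using QuotientGroup.induction_on with
          | H x =>
            have h1 : ((x⁻¹ • P : Sylow 11 G) : Subgroup G) ≤ N := by
              intro a ha
              rw [Sylow.coe_subgroup_smul] at ha
              obtain ⟨b, hb, rfl⟩ := ha
              have h2 : b • ((x : G) : G ⧸ N) = ((x : G) : G ⧸ N) :=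
                congrArg Subtype.val (hcP ⟨b, hb⟩)
              rw [MulAction.Quotient.smul_coe, smul_eq_mul] at h2
              simpa [MulAut.conj_apply, mul_assoc] using QuotientGroup.eq.mp h2.symm
            have h4 : (x⁻¹ • P : Sylow 11 G) = P := by
              apply Sylow.ext
              have h5 : ((x⁻¹ • P : Sylow 11 G) : Subgroup G) ≤ (P : Subgroup G) := by
                have := IsPGroup.inf_normalizer_sylow (x⁻¹ • P : Sylow 11 G).2 P
                change ((x⁻¹ • P : Sylow 11 G) : Subgroup G) ⊓ N = _ at this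
                rw [inf_eq_left.mpr h1] at this
                exact this.le.trans inf_le_right
              exact ((x⁻¹ • P : Sylow 11 G).3 P.2 h5).symm
            have h6 := Sylow.smul_eq_iff_mem_normalizer.mp h4
            exact QuotientGroup.eq.mpr (show x⁻¹ * 1 ∈ N from (mul_one x⁻¹).symm ▸ (show x⁻¹ ∈ N from h6))
      have hmod4 := H30.card_fixedBy_involution_mod_four hG N
        (show u ^ 2 = 1 by rw [← huo, pow_orderOf_eq_one])
      rw [hidx] at hmod4
      rw [h1'] at hm
      have hle : Nat.card (fixedBy (G ⧸ N) u) ≤ 45 := by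
        rw [← hidx, N.index_eq_card]; exact Finite.card_subtype_le _
      have hne45 : Nat.card (fixedBy (G ⧸ N) u) ≠ 45 := by
        intro e45
        have hall : ∀ x : G ⧸ N, u • x = x := by
          intro x
          have := Set.eq_of_subset_of_ncard_le (Set.subset_univ (fixedBy (G ⧸ N) u))
            (by rw [Set.ncard_univ, ← Nat.card_coe_set_eq, e45, ← N.index_eq_card, hidx])
          exact (show x ∈ fixedBy (G ⧸ N) u from this.symm ▸ Set.mem_univ x)
        have hcore : u ∈ N.normalCore := by
          intro x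
          have := hall ((x⁻¹ : G) : G ⧸ N)
          rw [MulAction.Quotient.smul_coe, smul_eq_mul] at this
          simpa [mul_assoc] using inv_mem (QuotientGroup.eq.mp this)
        rcases IsSimpleGroup.eq_bot_or_eq_top_of_normal N.normalCore inferInstance with h' | h'
        · rw [h', mem_bot] at hcore; exact hu1 hcore
        · have := top_le_iff.mp (h' ▸ N.normalCore_le)
          rw [this, index_top] at hidx; norm_num at hidx
      exact (by decide : ∀ f ≤ 45, f ≠ 45 → f % 11 = 1 → f % 4 = 45 % 4 → f = 1) _ hle hne45 hm hmod4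
    obtain ⟨c0, hc0⟩ := Nat.card_eq_one_iff_exists.mp hfix
    have e1 := congrArg Subtype.val ((hc0 ⟨_, hcoset⟩).trans (hc0 ⟨((1 : G) : G ⧸ N), by
      show u • _ = _
      rw [MulAction.Quotient.smul_coe, smul_eq_mul, mul_one]
      exact QuotientGroup.eq.mpr (by simpa using inv_mem (hCN hwC))⟩).symm)
    have hg' : g ∈ N := by simpa using QuotientGroup.eq.mp e1.symm
    rw [← hCUN, hCU, mem_centralizer_singleton_iff] at hg'
    rw [hg', mul_assoc, mul_inv_cancel, mul_one]
  have hzst := H28.zStar (H28.isIsolatedInvolution_of_sylow T₀ huo hiso)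
  have hcore : Cfsg.pPrimeCore 2 G = ⊥ := by
    have := H19.pPrimeCore_normal 2 G
    refine (IsSimpleGroup.eq_bot_or_eq_top_of_normal _ this).resolve_right fun ht => ?_
    have hcop := H19.pPrimeCore_coprime (G := G) 2
    rw [ht, card_top, h] at hcop
    norm_num at hcop
  have hcen : u ∈ center G := mem_center_iff.mpr fun g => by
    have h2 := hzst g
    rw [hcore, mem_bot, mul_inv_eq_one, mul_inv_eq_iff_eq_mul] at h2
    exact h2.symm
  rcases IsSimpleGroup.eq_bot_or_eq_top_of_normal (center G) inferInstance with h' | h'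
  · rw [h', mem_bot] at hcen; exact hu1 hcen
  · exact hG ⟨⟨fun a b => mem_center_iff.mp (h' ▸ mem_top b) a⟩⟩

variable {G : Type u} [Group G] [Finite G]

/-- Fixed points of an element of prime order on a subgroup it normalises. -/
theorem fix_mod (p : ℕ) [hp : Fact p.Prime] {z : G} (hz : orderOf z = p) (R : Subgroup G)
    (hn : z ∈ normalizer (R : Set G)) :
    Nat.card (R ⊓ centralizer {z} : Subgroup G) % p = Nat.card R % p := by
  classical
  let φ : zpowers z →* MulAut R := R.normalizerMonoidHom.comp (inclusion (zpowers_le.mpr hn))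
  let _ : MulAction (zpowers z) R := MulAction.compHom R φ
  have hZ : IsPGroup p (zpowers z) :=
    IsPGroup.of_card (n := 1) (by rw [Nat.card_zpowers, hz, pow_one])
  have h := hZ.card_modEq_card_fixedPoints R
  rw [show Nat.card (R ⊓ centralizer {z} : Subgroup G) = Nat.card (fixedPoints (zpowers z) R) from ?_]
  · exact h.symm
  have hsmul : ∀ (a : zpowers z) (r : R), ((a • r : R) : G) = (a : G) * r * (a : G)⁻¹ := fun a r => rfl
  refine Nat.card_congr
    { toFun := fun r => ⟨⟨r.1, r.2.1⟩, fun a => Subtype.ext ?_⟩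
      invFun := fun r => ⟨r.1.1, r.1.2, mem_centralizer_singleton_iff.mpr ?_⟩
      left_inv := fun r => rfl
      right_inv := fun r => rfl }
  · rw [hsmul]
    obtain ⟨k, hk⟩ := mem_zpowers_iff.mp a.2
    rw [← hk, mul_inv_eq_iff_eq_mul]
    exact ((show Commute r.1 z from mem_centralizer_singleton_iff.mp r.2.2).zpow_right k).symm.eq
  · have h1 := congrArg Subtype.val (r.2 ⟨z, mem_zpowers z⟩)
    rw [hsmul, mul_inv_eq_iff_eq_mul] at h1
    exact h1.symm

omit [Finite G] in
/-- An element commuting with a generator lies in the centralizer. -/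
theorem centralizer_zpowers_eq (z : G) : centralizer (zpowers z : Set G) = centralizer {z} := by
  ext g
  constructor
  · intro h
    exact mem_centralizer_singleton_iff.mpr (mem_centralizer_iff.mp h z (mem_zpowers z)).symm
  · intro h
    refine mem_centralizer_iff.mpr fun x hx => ?_
    obtain ⟨k, rfl⟩ := mem_zpowers_iff.mp hx
    exact ((show Commute g z from mem_centralizer_singleton_iff.mp h).zpow_right k).symm.eq

/-- The centralizer of an element has bounded index in the normalizer of what it generates. -/
theorem card_normalizer_dvd (p : ℕ) [hp : Fact p.Prime] {z : G} (hz : orderOf z = p) :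
    Nat.card (centralizer {z} : Subgroup G) ∣ Nat.card (normalizer (zpowers z : Set G)) ∧
      Nat.card (normalizer (zpowers z : Set G)) ∣ Nat.card (centralizer {z} : Subgroup G) * (p - 1) := by
  have hle : centralizer {z} ≤ normalizer (zpowers z : Set G) :=
    centralizer_zpowers_eq z ▸ centralizer_le_normalizer _
  have hc : Nat.card (zpowers z) = p := by rw [Nat.card_zpowers, hz]
  have : IsCyclic (zpowers z) := isCyclic_of_prime_card hc
  have h1 := H30.relIndex_centralizer_dvd_card_mulAut (zpowers z)
  rw [IsCyclic.card_mulAut, hc, Nat.totient_prime hp.out, centralizer_zpowers_eq] at h1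
  have h2 : Nat.card (centralizer {z} : Subgroup G) * (centralizer {z}).relIndex (normalizer (zpowers z : Set G)) =
      Nat.card (normalizer (zpowers z : Set G)) := by
    rw [← relIndex_bot_left, ← relIndex_bot_left, relIndex_mul_relIndex _ _ _ bot_le hle]
  exact ⟨card_dvd_of_le hle, h2 ▸ mul_dvd_mul_left _ h1⟩

/-- Burnside's transfer, relative to a normal subgroup. -/
theorem exists_complement (M : Subgroup G) [M.Normal] (p : ℕ) [hp : Fact p.Prime] {z : G} (hzM : z ∈ M)
    (hz : orderOf z = p) (hp2 : ¬ p * p ∣ Nat.card M)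
    (hcent : ∀ w ∈ M, w ∈ normalizer (zpowers z : Set G) → Commute w z) :
    ∃ K : Subgroup G, K.Normal ∧ Nat.card K * p = Nat.card M := by
  classical
  let z' : M := ⟨z, hzM⟩
  obtain ⟨m, hm⟩ : p ∣ Nat.card M := hz ▸ (Subgroup.orderOf_mk z hzM).symm ▸ orderOf_dvd_natCard z'
  have hpm : ¬ p ∣ m := fun ⟨t, ht⟩ => hp2 ⟨t, by rw [hm, ht]; ring⟩
  let Q : Sylow p M := Sylow.ofCard (zpowers z') (by
    rw [Nat.card_zpowers, Subgroup.orderOf_mk, hz]
    have h1 := H30.card_sylow_subgroup (a := 1) (m := m) (default : Sylow p M) (by rw [pow_one]; exact hm) hpm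
    rw [pow_one] at h1
    exact h1.symm.trans (Sylow.card_eq_multiplicity _))
  have hQ : (Q : Subgroup M) = zpowers z' := rfl
  have hNC : normalizer ((Q : Subgroup M) : Set M) ≤ centralizer ((Q : Subgroup M) : Set M) := by
    intro w hw
    rw [hQ] at hw ⊢
    rw [centralizer_zpowers_eq, mem_centralizer_singleton_iff]
    have hmem : ∀ x : M, x ∈ zpowers z' ↔ (x : G) ∈ zpowers z := by
      intro x
      simp only [mem_zpowers_iff]
      exact ⟨fun ⟨k, hk⟩ => ⟨k, by rw [← hk]; rfl⟩, fun ⟨k, hk⟩ => ⟨k, Subtype.ext (by rw [← hk]; rfl)⟩⟩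
    refine Subtype.ext (hcent w.1 w.2 (mem_normalizer_iff.mpr fun x => ?_)).eq
    constructor
    · intro hx
      have hxM : x ∈ M := (zpowers_le.mpr hzM) hx
      exact (hmem _).mp ((mem_normalizer_iff.mp hw ⟨x, hxM⟩).mp ((hmem _).mpr hx))
    · intro hx
      have hxM : (w : G) * x * (w : G)⁻¹ ∈ M := (zpowers_le.mpr hzM) hx
      have hxM' : x ∈ M := by
        have := M.mul_mem (M.mul_mem (M.inv_mem w.2) hxM) w.2
        simpa [mul_assoc] using this
      exact (hmem _).mp ((mem_normalizer_iff.mp hw ⟨x, hxM'⟩).mpr ((hmem (w * ⟨x, hxM'⟩ * w⁻¹)).mpr hx))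
  set K₀ := (MonoidHom.transferSylow Q hNC).ker with hK₀
  have hc : Nat.card K₀ * p = Nat.card M := by
    have := (MonoidHom.ker_transferSylow_isComplement' Q hNC).card_mul_card
    have hQc : Nat.card (Q : Subgroup M) = p := by rw [hQ, Nat.card_zpowers, Subgroup.orderOf_mk, hz]
    rwa [hQc] at this
  have hk : Nat.card K₀ = m := Nat.eq_of_mul_eq_mul_right hp.out.pos (hc.trans (hm.trans (mul_comm _ _)))
  have hchar : ∀ x : M, x ∈ K₀ ↔ x ^ m = 1 := by
    intro x
    constructor
    · intro hx
      have := pow_card_eq_one' (G := K₀) (x := ⟨x, hx⟩)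
      rw [hk] at this
      exact congrArg Subtype.val this
    · intro hx
      rw [← QuotientGroup.eq_one_iff, ← orderOf_eq_one_iff]
      have hi : K₀.index = p := by
        have := K₀.card_mul_index
        rw [hm, hk] at this
        refine Nat.eq_of_mul_eq_mul_left (Nat.pos_of_ne_zero fun h0 => hpm ?_) (this.trans (mul_comm _ _))
        rw [h0]; exact dvd_zero _
      have h2 : orderOf (x : M ⧸ K₀) ∣ p := by
        conv_rhs => rw [← hi]
        rw [K₀.index_eq_card]
        exact orderOf_dvd_natCard _
      have h3 : orderOf (x : M ⧸ K₀) ∣ m :=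
        orderOf_dvd_of_pow_eq_one (by rw [← QuotientGroup.mk_pow, hx, QuotientGroup.mk_one])
      exact Nat.eq_one_of_dvd_coprimes (hp.out.coprime_iff_not_dvd.mpr hpm) h2 h3
  refine ⟨K₀.map M.subtype, ⟨fun x hx g => ?_⟩, ?_⟩
  · obtain ⟨a, ha, rfl⟩ := hx
    refine ⟨⟨g * a * g⁻¹, ‹M.Normal›.conj_mem a a.2 g⟩, (hchar _).mpr (Subtype.ext ?_), rfl⟩
    rw [SubgroupClass.coe_pow, conj_pow]
    have := congrArg Subtype.val ((hchar a).mp ha)
    rw [SubgroupClass.coe_pow, OneMemClass.coe_one] at this
    simp [this]
  · rw [← hc]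
    congr 1
    exact (Nat.card_congr (K₀.equivMapOfInjective _ M.subtype_injective).toEquiv).symm

/-- A normalizer covering the group modulo a normal subgroup. -/
theorem index_dvd_card {M H : Subgroup G} [M.Normal] (h : H ⊔ M = ⊤) : M.index ∣ Nat.card H := by
  rw [← relIndex_top_right M, ← h, relIndex_sup_right]
  exact relIndex_dvd_card M H

theorem card_inf_mul_index {M H : Subgroup G} [M.Normal] (h : H ⊔ M = ⊤) :
    Nat.card (M ⊓ H : Subgroup G) * M.index = Nat.card H := by
  rw [← relIndex_top_right M, ← h, relIndex_sup_right, ← inf_relIndex_right, ← relIndex_bot_left,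
    relIndex_mul_relIndex _ _ _ bot_le inf_le_right, relIndex_bot_left]

/-- The Sylow data of a prime `p` with `p ^ 2` not dividing the order. -/
theorem sylow_zpowers (p : ℕ) [hp : Fact p.Prime] {m : ℕ} (hG : Nat.card G = p * m) (hpm : ¬ p ∣ m)
    {z : G} (hz : orderOf z = p) :
    ∃ P : Sylow p G, (P : Subgroup G) = zpowers z ∧
      Nat.card (Sylow p G) * Nat.card (normalizer (zpowers z : Set G)) = Nat.card G := by
  let P : Sylow p G := Sylow.ofCard (zpowers z) (by
    rw [Nat.card_zpowers, hz]
    have h1 := H30.card_sylow_subgroup (a := 1) (m := m) (default : Sylow p G) (by rw [pow_one]; exact hG) hpm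
    rw [pow_one] at h1
    exact h1.symm.trans (Sylow.card_eq_multiplicity _))
  exact ⟨P, rfl, H30.card_sylow_mul_normalizer p P⟩

theorem primeFactors_mem {q : ℕ} (hq : q.Prime) (h : q ∣ 7920) : q = 2 ∨ q = 3 ∨ q = 5 ∨ q = 11 := by
  have h' : q ∣ 2 ^ 4 * 3 ^ 2 * 5 * 11 := by norm_num; exact h
  rcases (Nat.Prime.dvd_mul hq).mp h' with h' | h'
  · rcases (Nat.Prime.dvd_mul hq).mp h' with h' | h'
    · rcases (Nat.Prime.dvd_mul hq).mp h' with h' | h'
      · exact Or.inl ((Nat.prime_dvd_prime_iff_eq hq Nat.prime_two).mp (hq.dvd_of_dvd_pow h'))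
      · exact Or.inr (Or.inl ((Nat.prime_dvd_prime_iff_eq hq Nat.prime_three).mp (hq.dvd_of_dvd_pow h')))
    · exact Or.inr (Or.inr (Or.inl ((Nat.prime_dvd_prime_iff_eq hq (by norm_num)).mp h')))
  · exact Or.inr (Or.inr (Or.inr ((Nat.prime_dvd_prime_iff_eq hq (by norm_num)).mp h')))

/-- Two primes joined in the prime graph. -/
theorem exists_orderOf_mul {p q : ℕ} (hp : p.Prime) (hq : q.Prime) (hpq : p ≠ q) {x : G}
    (hx : orderOf x = p) (h : q ∣ Nat.card (centralizer {x} : Subgroup G)) :
    ∃ g : G, orderOf g = p * q := by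
  have := Fact.mk hq
  obtain ⟨y, hy⟩ := exists_prime_orderOf_dvd_card' q h
  have hc : Commute x (y : G) := (show Commute (y : G) x from mem_centralizer_singleton_iff.mp y.2).symm
  exact ⟨x * y, by rw [hc.orderOf_mul_eq_mul_orderOf_of_coprime (by
    rw [hx, Subgroup.orderOf_coe, hy]; exact (Nat.coprime_primes hp hq).mpr hpq), hx, Subgroup.orderOf_coe, hy]⟩

/-- The main theorem. -/
theorem isSimple (hord : Nat.card G = 7920) (A : Set ℕ)
    (ha : ∃ a ∈ A, a.Prime ∧ a ∣ Nat.card G) (hb : ∃ b ∉ A, b.Prime ∧ b ∣ Nat.card G)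
    (hno : ∀ a ∈ A, ∀ b ∉ A, a.Prime → b.Prime → a ∣ Nat.card G → b ∣ Nat.card G →
      ¬ ∃ g : G, orderOf g = a * b) : IsSimpleGroup G := by
  classical
  have f2 : Fact (Nat.Prime 2) := ⟨Nat.prime_two⟩
  have f3 : Fact (Nat.Prime 3) := ⟨Nat.prime_three⟩
  have f5 : Fact (Nat.Prime 5) := ⟨by norm_num⟩
  have f11 : Fact (Nat.Prime 11) := ⟨by norm_num⟩
  have link : ∀ p q : ℕ, p.Prime → q.Prime → p ≠ q → ∀ x : G, orderOf x = p →
      q ∣ Nat.card (centralizer {x} : Subgroup G) → (p ∈ A ↔ q ∈ A) := by
    intro p q hp hq hpq x hx h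
    have hpG : p ∣ Nat.card G := hx ▸ orderOf_dvd_natCard x
    have hqG : q ∣ Nat.card G := h.trans (card_subgroup_dvd_card _)
    obtain ⟨g, hg⟩ := exists_orderOf_mul hp hq hpq hx h
    constructor
    · intro hpA; by_contra hqA
      exact hno p hpA q hqA hp hq hpG hqG ⟨g, hg⟩
    · intro hqA; by_contra hpA
      exact hno q hqA p hpA hq hp hqG hpG ⟨g, by rw [hg, mul_comm]⟩
  have conn : (2 ∈ A ↔ 11 ∈ A) → (2 ∈ A ↔ 3 ∈ A) → (2 ∈ A ↔ 5 ∈ A) → False := by
    intro h11 h3 h5
    obtain ⟨a, haA, hap, haG⟩ := ha
    obtain ⟨b, hbA, hbp, hbG⟩ := hb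
    have key : ∀ c : ℕ, c.Prime → c ∣ Nat.card G → (c ∈ A ↔ 2 ∈ A) := by
      intro c hc hcG
      rcases primeFactors_mem hc (hord ▸ hcG) with rfl | rfl | rfl | rfl
      exacts [Iff.rfl, h3.symm, h5.symm, h11.symm]
    exact hbA ((key b hbp hbG).mpr ((key a hap haG).mp haA))
  have hG11 : Nat.card G = 11 * 720 := hord.trans (by norm_num)
  have hG5 : Nat.card G = 5 * 1584 := hord.trans (by norm_num)
  have : Nontrivial G := Finite.one_lt_card_iff_nontrivial.mp (by rw [hord]; norm_num)
  refine ⟨fun M hM => ?_⟩
  by_contra hcon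
  rw [not_or] at hcon
  obtain ⟨hMb, hMt⟩ := hcon
  -- the Sylow 11-subgroups
  obtain ⟨z, hz⟩ := exists_prime_orderOf_dvd_card' (G := G) 11 (by rw [hord]; norm_num)
  set n := Nat.card (Sylow 11 G) with hn
  have hnorm : ∀ w : G, orderOf w = 11 → n * Nat.card (normalizer (zpowers w : Set G)) = 7920 := fun w hw => by
    obtain ⟨-, -, h⟩ := sylow_zpowers 11 hG11 (by norm_num) hw
    rw [hn, h, hord]
  have hncase : n = 1 ∨ n = 12 ∨ n = 45 ∨ n = 144 :=
    (by decide +kernel : ∀ j ∈ Nat.divisors 720, j % 11 = 1 → j = 1 ∨ j = 12 ∨ j = 45 ∨ j = 144)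
      _ (Nat.mem_divisors.mpr ⟨H30.card_sylow_dvd (a := 1) (by rw [pow_one]; exact hG11) (by norm_num),
        by norm_num⟩) (card_sylow_modEq_one 11 G)
  -- a normal subgroup of order prime to `11`
  have hA : ∀ K : Subgroup G, K.Normal → ¬ 11 ∣ Nat.card K → ∀ q : ℕ, q.Prime → q ∣ Nat.card K →
      ∃ w : G, orderOf w = 11 ∧ q ∣ Nat.card (centralizer {w} : Subgroup G) := by
    intro K hK h11 q hq hqK
    have := Fact.mk hq
    have hsup := Sylow.normalizer_sup_eq_top (default : Sylow q K)
    set R : Subgroup G := ((default : Sylow q K) : Subgroup K).map K.subtype with hR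
    have hd : 11 ∣ Nat.card (normalizer (R : Set G)) := by
      refine dvd_trans ?_ (index_dvd_card hsup)
      have := K.card_mul_index
      rw [hG11] at this
      exact ((show Nat.Prime 11 by norm_num).dvd_mul.mp ⟨720, this⟩).resolve_left h11
    obtain ⟨w, hw⟩ := exists_prime_orderOf_dvd_card' 11 hd
    refine ⟨w, by rw [Subgroup.orderOf_coe, hw], ?_⟩
    have hfix := fix_mod 11 (show orderOf (w : G) = 11 by rw [Subgroup.orderOf_coe, hw]) R w.2
    have hRK : Nat.card R = Nat.card ((default : Sylow q K) : Subgroup K) :=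
      (Nat.card_congr (((default : Sylow q K) : Subgroup K).equivMapOfInjective _ K.subtype_injective).toEquiv).symm
    have hRp : IsPGroup q R := (default : Sylow q K).2.map _
    have hqR : q ∣ Nat.card R := hRK ▸ (default : Sylow q K).dvd_card_of_dvd_card hqK
    have hmem : Nat.card R ∈ Nat.divisors 7920 :=
      Nat.mem_divisors.mpr ⟨hord ▸ card_subgroup_dvd_card R, by norm_num⟩
    obtain ⟨a, ha'⟩ := IsPGroup.iff_card.mp hRp
    have hmod : Nat.card R % 11 ≠ 1 := by
      intro h1
      rcases primeFactors_mem hq (hord ▸ hqR.trans (card_subgroup_dvd_card R)) with rfl | rfl | rfl | rfl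
      · rw [ha'] at hmem h1
        exact (by decide +kernel : ∀ j ∈ Nat.divisors 7920, j % 11 = 1 → 2 ∣ j → 3 ∣ j ∨ 5 ∣ j ∨ 11 ∣ j) _ hmem h1
          (ha' ▸ hqR) |>.elim (fun h => by have := (Nat.prime_dvd_prime_iff_eq Nat.prime_three Nat.prime_two).mp (Nat.prime_three.dvd_of_dvd_pow h); omega)
          (fun h => h.elim
            (fun h => by have := (Nat.prime_dvd_prime_iff_eq (show Nat.Prime 5 by norm_num) Nat.prime_two).mp ((show Nat.Prime 5 by norm_num).dvd_of_dvd_pow h); omega)
            (fun h => by have := (Nat.prime_dvd_prime_iff_eq (show Nat.Prime 11 by norm_num) Nat.prime_two).mp ((show Nat.Prime 11 by norm_num).dvd_of_dvd_pow h); omega))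
      · have : a ≤ 2 := by
          by_contra h
          have h27 : 3 ^ 3 ∣ 7920 := (pow_dvd_pow 3 (by omega)).trans (ha' ▸ (Nat.mem_divisors.mp hmem).1)
          norm_num at h27
        rw [ha'] at h1 hqR
        interval_cases a <;> omega
      · have : a ≤ 1 := by
          by_contra h
          have h25 : 5 ^ 2 ∣ 7920 := (pow_dvd_pow 5 (by omega)).trans (ha' ▸ (Nat.mem_divisors.mp hmem).1)
          norm_num at h25
        rw [ha'] at h1 hqR
        interval_cases a <;> omega
      · exact h11 hqK
    have hne : Nat.card (R ⊓ centralizer {(w : G)} : Subgroup G) ≠ 1 := fun h => by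
      rw [h] at hfix; omega
    refine (dvd_trans ?_ (card_dvd_of_le (inf_le_right : R ⊓ centralizer {(w : G)} ≤ _)))
    obtain ⟨b, hb'⟩ := IsPGroup.iff_card.mp (hRp.to_le (inf_le_left : R ⊓ centralizer {(w : G)} ≤ R))
    rw [hb'] at hne ⊢
    exact dvd_pow_self q (fun h => hne (by rw [h, pow_zero]))
  have h11C : ∀ w : G, orderOf w = 11 → 11 ∣ Nat.card (centralizer {w} : Subgroup G) := fun w hw => by
    rw [← hw, ← Subgroup.orderOf_mk w (mem_centralizer_singleton_iff.mpr rfl : w ∈ centralizer {w})]
    exact orderOf_dvd_natCard _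
  have hbound : ∀ w : G, orderOf w = 11 →
      Nat.card (centralizer {w} : Subgroup G) ∣ Nat.card (normalizer (zpowers w : Set G)) ∧
      Nat.card (normalizer (zpowers w : Set G)) ∣ Nat.card (centralizer {w} : Subgroup G) * 10 :=
    fun w hw => card_normalizer_dvd 11 hw
  have hcentral : ∀ w : G, orderOf w = 11 →
      Nat.card (centralizer {w} : Subgroup G) = Nat.card (normalizer (zpowers w : Set G)) →
      ∃ v : G, orderOf v = 11 ∧ 3 ∣ Nat.card (centralizer {v} : Subgroup G) := by
    intro w hw he
    have heq := eq_of_le_of_card_ge (centralizer_zpowers_eq w ▸ centralizer_le_normalizer _) he.ge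
    obtain ⟨K, hK, hKc⟩ := exists_complement (⊤ : Subgroup G) 11 (mem_top w) hw
      (by rw [card_top, hord]; norm_num) (fun x _ hx => by
        rw [← heq, mem_centralizer_singleton_iff] at hx; exact hx)
    rw [card_top, hord] at hKc
    have hK720 : Nat.card K = 720 := by omega
    exact hA K hK (by rw [hK720]; norm_num) 3 Nat.prime_three (by rw [hK720]; norm_num)
  rcases (show (n = 1 ∨ n = 12) ∨ n = 45 ∨ n = 144 by omega) with hsmall | hn45 | hn144
  · -- few Sylow 11-subgroups
    have hN := hnorm z hz
    obtain ⟨hCN, hNC⟩ := hbound z hz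
    set N := normalizer (zpowers z : Set G) with hNdef
    set c := Nat.card (centralizer {z} : Subgroup G) with hc
    have hNcard : Nat.card N = 7920 ∨ Nat.card N = 660 := by rcases hsmall with h | h <;> rw [h] at hN <;> omega
    have h66 : 66 ∣ c := by
      refine Nat.Coprime.mul_dvd_of_dvd_of_dvd (show Nat.Coprime 11 6 by norm_num) (h11C z hz) ?_
      have h60 : 60 ∣ c * 10 := by
        refine dvd_trans ?_ hNC
        rcases hNcard with h | h <;> rw [h] <;> norm_num
      exact Nat.dvd_of_mul_dvd_mul_right (show 0 < 10 by norm_num) h60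
    have l2 := link 11 2 (by norm_num) Nat.prime_two (by norm_num) z hz (dvd_trans (by norm_num) h66)
    have l3 := link 11 3 (by norm_num) Nat.prime_three (by norm_num) z hz (dvd_trans (by norm_num) h66)
    obtain ⟨y, hy⟩ := exists_prime_orderOf_dvd_card' (G := N) 5 (by rcases hNcard with h | h <;> rw [h] <;> norm_num)
    have hy' : orderOf (y : G) = 5 := by rw [Subgroup.orderOf_coe, hy]
    set cy := Nat.card (centralizer {(y : G)} : Subgroup G) with hcy
    have hnl : ∀ q : ℕ, q.Prime → q ∣ cy → q = 5 := by
      intro q hq hqc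
      by_contra h5q
      have l := link 5 q (by norm_num) hq (Ne.symm h5q) _ hy' hqc
      rcases primeFactors_mem hq (hord ▸ hqc.trans (card_subgroup_dvd_card _)) with rfl | rfl | rfl | rfl
      · exact conn l2.symm (l2.symm.trans l3) l.symm
      · exact conn l2.symm (l2.symm.trans l3) ((l.trans (l3.symm.trans l2)).symm)
      · exact h5q rfl
      · exact conn l2.symm (l2.symm.trans l3) ((l.trans l2).symm)
    have hcy5 : cy ∣ 5 := by
      have hd : cy ∣ 5 * (16 * 9 * 11) := by
        have := card_subgroup_dvd_card (centralizer {(y : G)} : Subgroup G)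
        rw [hord] at this; exact this
      refine Nat.Coprime.dvd_of_dvd_mul_right ?_ hd
      refine Nat.coprime_of_dvd fun q hq hqc hqd => ?_
      rw [hnl q hq hqc] at hqd
      norm_num at hqd
    -- the normalizer of `⟨y⟩` in `N` centralises it
    have hyC : ¬ (y : G) ∈ centralizer ({z} : Set G) := fun h => by
      have h' := mem_centralizer_singleton_iff.mp h
      have hzc : z ∈ centralizer ({(y : G)} : Set G) := mem_centralizer_singleton_iff.mpr h'.symm
      have := (hz ▸ Subgroup.orderOf_mk z hzc ▸ orderOf_dvd_natCard (⟨z, hzc⟩ : (centralizer {(y : G)} : Subgroup G))).trans hcy5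
      norm_num at this
    let f := (zpowers z).normalizerMonoidHom
    have hker : ∀ w : N, f w = 1 → (w : G) ∈ centralizer ({z} : Set G) := by
      intro w hw
      have : w ∈ f.ker := hw
      rw [normalizerMonoidHom_ker, mem_subgroupOf, centralizer_zpowers_eq] at this
      exact this
    have : IsCyclic (zpowers z) := isCyclic_of_prime_card (by rw [Nat.card_zpowers, hz] : Nat.card (zpowers z) = 11)
    obtain ⟨Q, hQ, hQN⟩ := sylow_zpowers (G := N) 5 (m := Nat.card N / 5)
      (by rcases hNcard with h | h <;> rw [h]) (by rcases hNcard with h | h <;> rw [h] <;> norm_num) hy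
    have hsub : Nat.card (normalizer (zpowers y : Set N)) ∣ 5 := by
      refine dvd_trans ?_ hcy5
      rw [Nat.card_congr ((normalizer (zpowers y : Set N)).equivMapOfInjective _ N.subtype_injective).toEquiv]
      refine card_dvd_of_le ?_
      rintro _ ⟨w, hw, rfl⟩
      rw [mem_centralizer_singleton_iff]
      by_contra hne
      set v := w * y * w⁻¹ * y⁻¹ with hv
      have hvQ : v ∈ zpowers y :=
        mul_mem ((mem_normalizer_iff.mp hw y).mp (mem_zpowers y)) (inv_mem (mem_zpowers y))
      have hv1 : v ≠ 1 := fun e => hne (by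
        rw [hv, mul_inv_eq_one, mul_inv_eq_iff_eq_mul] at e
        exact congrArg Subtype.val e)
      have hvC : (v : G) ∈ centralizer ({z} : Set G) := hker v (by
        rw [hv, map_mul, map_mul, map_mul, map_inv, map_inv]
        have hcomm : ∀ a b : MulAut (zpowers z), a * b = b * a := fun a b =>
          (IsCyclic.mulAutMulEquiv (zpowers z)).injective (by rw [map_mul, map_mul, mul_comm])
        rw [hcomm (f w) (f y)]
        group)
      have hgen : zpowers v = zpowers y := eq_of_le_of_card_ge (zpowers_le.mpr hvQ) (by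
        rw [Nat.card_zpowers, Nat.card_zpowers, hy]
        have hd : orderOf v ∣ 5 := by
          have := orderOf_dvd_natCard (⟨v, hvQ⟩ : zpowers y)
          rwa [Subgroup.orderOf_mk, Nat.card_zpowers, hy] at this
        rcases (Nat.dvd_prime (by norm_num)).mp hd with h | h
        · exact absurd (orderOf_eq_one_iff.mp h) hv1
        · omega)
      refine hyC ?_
      obtain ⟨k, hk⟩ := mem_zpowers_iff.mp (hgen ▸ mem_zpowers y : y ∈ zpowers v)
      rw [← hk, SubgroupClass.coe_zpow]
      exact zpow_mem hvC k
    have hmodn : Nat.card (Sylow 5 N) % 5 = 1 := card_sylow_modEq_one 5 N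
    rcases (Nat.dvd_prime (by norm_num)).mp hsub with h1 | h1
    · have h5 := card_dvd_of_le (le_normalizer : zpowers y ≤ normalizer (zpowers y : Set N))
      rw [Nat.card_zpowers, hy, h1] at h5
      norm_num at h5
    · rw [h1] at hQN
      rcases hNcard with h | h <;> rw [h] at hQN <;> omega
  · -- forty-five Sylow 11-subgroups
    have hN176 : ∀ w : G, orderOf w = 11 → Nat.card (normalizer (zpowers w : Set G)) = 176 := fun w hw => by
      have := hnorm w hw; rw [hn45] at this; omega
    have hC88 : ∀ w : G, orderOf w = 11 → Nat.card (centralizer {w} : Subgroup G) = 88 := by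
      intro w hw
      obtain ⟨h1, h2⟩ := hbound w hw
      rw [hN176 w hw] at h1 h2
      rcases (by decide +kernel : ∀ j ∈ Nat.divisors 176, 176 ∣ j * 10 → j = 88 ∨ j = 176) _
        (Nat.mem_divisors.mpr ⟨h1, by norm_num⟩) h2 with h | h
      · exact h
      · obtain ⟨v, hv, hv3⟩ := hcentral w hw (by rw [h, hN176 w hw])
        have := hv3.trans ((hbound v hv).1)
        rw [hN176 v hv] at this; norm_num at this
    have l2 := link 11 2 (by norm_num) Nat.prime_two (by norm_num) z hz (by rw [hC88 z hz]; norm_num)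
    -- every proper nontrivial normal subgroup has order 3960
    have hall : ∀ K : Subgroup G, K.Normal → K ≠ ⊥ → K ≠ ⊤ → Nat.card K = 3960 := by
      intro K hK hKb hKt
      have hKd : Nat.card K ∣ 7920 := hord ▸ card_subgroup_dvd_card K
      have hK1 : Nat.card K ≠ 1 := fun h => hKb (eq_bot_of_card_eq K h)
      have h11K : 11 ∣ Nat.card K := by
        by_contra h11
        -- `K` is a normal 2-subgroup
        have honly : ∀ q : ℕ, q.Prime → q ∣ Nat.card K → q = 2 := fun q hq hqK => by
          obtain ⟨w, hw, hqw⟩ := hA K hK h11 q hq hqK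
          rw [hC88 w hw] at hqw
          rcases primeFactors_mem hq (dvd_trans hqK hKd) with rfl | rfl | rfl | rfl
          exacts [rfl, absurd hqw (by norm_num), absurd hqw (by norm_num), absurd hqK h11]
        have h16 : Nat.card K ∣ 16 := by
          refine Nat.Coprime.dvd_of_dvd_mul_right (k := Nat.card K) (n := 495) ?_ (hKd.trans (by norm_num))
          exact Nat.coprime_of_dvd fun q hq hqK hqd => by rw [honly q hq hqK] at hqd; norm_num at hqd
        rcases (by decide +kernel : ∀ j ∈ Nat.divisors 16, j = 1 ∨ j = 2 ∨ j = 4 ∨ j = 8 ∨ j = 16) _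
          (Nat.mem_divisors.mpr ⟨h16, by norm_num⟩) with h | h | h | h | h
        · exact hK1 h
        rotate_right
        · -- order sixteen
          have hfix := fix_mod 11 hz K (by rw [normalizer_eq_top_iff.mpr hK]; exact mem_top z)
          have hdd : Nat.card (K ⊓ centralizer {z} : Subgroup G) ∣ 16 := h ▸ card_dvd_of_le inf_le_left
          rw [h] at hfix
          have h16' := (by decide +kernel : ∀ j ∈ Nat.divisors 16, j % 11 = 16 % 11 → j = 16) _
            (Nat.mem_divisors.mpr ⟨hdd, by norm_num⟩) hfix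
          have h2 : Nat.card (K ⊓ centralizer {z} : Subgroup G) ∣ Nat.card (centralizer {z} : Subgroup G) :=
            card_dvd_of_le inf_le_right
          rw [h16', hC88 z hz] at h2
          norm_num at h2
        all_goals
          have l5 : 5 ∈ A ↔ 2 ∈ A := by
            obtain ⟨y, hy⟩ := exists_prime_orderOf_dvd_card' (G := G) 5 (by rw [hord]; norm_num)
            refine link 5 2 (by norm_num) Nat.prime_two (by norm_num) y hy ?_
            have hfix := fix_mod 5 hy K (by rw [normalizer_eq_top_iff.mpr hK]; exact mem_top y)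
            rw [h] at hfix
            have hdd : Nat.card (K ⊓ centralizer {y} : Subgroup G) ∣ 8 :=
              (card_dvd_of_le inf_le_left).trans (h ▸ by norm_num)
            refine dvd_trans ?_ (card_dvd_of_le (inf_le_right : K ⊓ centralizer {y} ≤ _))
            exact (by decide +kernel : ∀ j ∈ Nat.divisors 8, j % 5 ≠ 1 → 2 ∣ j) _
              (Nat.mem_divisors.mpr ⟨hdd, by norm_num⟩) (by omega)
          have l3 : 3 ∈ A ↔ 2 ∈ A := by
            by_cases hinj : ∃ s : G, orderOf s = 3 ∧ 2 ∣ Nat.card (K ⊓ centralizer {s} : Subgroup G)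
            · obtain ⟨s, hs, hs2⟩ := hinj
              exact link 3 2 Nat.prime_three Nat.prime_two (by norm_num) s hs
                (hs2.trans (card_dvd_of_le inf_le_right))
            exfalso
            push Not at hinj
            let S : Sylow 3 G := default
            have hS : Nat.card (S : Subgroup G) = 9 := by
              simpa using H30.card_sylow_subgroup (a := 2) (m := 880) S (by rw [hord]; norm_num) (by norm_num)
            let φ : (S : Subgroup G) →* Equiv.Perm K :=
              ((MulAut.toPerm K).comp K.normalizerMonoidHom).comp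
                (inclusion (by rw [normalizer_eq_top_iff.mpr hK]; exact le_top))
            have hφ : Function.Injective φ := by
              rw [injective_iff_map_eq_one]
              intro s hs
              by_contra hs1
              obtain ⟨i, hi⟩ : 3 ∣ orderOf s := by
                have hd : orderOf s ∣ 3 ^ 2 := by rw [← show Nat.card (S : Subgroup G) = 3 ^ 2 by rw [hS]; norm_num]; exact orderOf_dvd_natCard s
                obtain ⟨j, -, hj⟩ := (Nat.dvd_prime_pow Nat.prime_three).mp hd
                rcases j with - | j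
                · exact absurd (orderOf_eq_one_iff.mp (hj.trans (pow_zero 3))) hs1
                · rw [hj]; exact dvd_pow_self 3 (Nat.succ_ne_zero j)
              have hsi : orderOf ((s ^ i : (S : Subgroup G)) : G) = 3 := by
                rw [Subgroup.orderOf_coe]
                have hi0 : i ≠ 0 := fun e => by rw [e, mul_zero] at hi; exact (orderOf_pos s).ne' hi
                rw [orderOf_pow' s hi0, hi, Nat.gcd_mul_left_left, Nat.mul_div_cancel _ (Nat.pos_of_ne_zero hi0)]
              refine hinj _ hsi ?_
              have hle : K ≤ centralizer {((s ^ i : (S : Subgroup G)) : G)} := by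
                intro k hk
                rw [mem_centralizer_singleton_iff]
                have h1 : φ (s ^ i) = 1 := by rw [map_pow, hs, one_pow]
                have h2 : ((s ^ i : (S : Subgroup G)) : G) * k * ((s ^ i : (S : Subgroup G)) : G)⁻¹ = k :=
                  congrArg Subtype.val (Equiv.Perm.ext_iff.mp h1 ⟨k, hk⟩)
                exact (mul_inv_eq_iff_eq_mul.mp h2).symm
              rw [inf_eq_left.mpr hle, h]
              all_goals norm_num
            have h9 := card_dvd_of_injective φ hφ
            rw [hS, Nat.card_perm, h] at h9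
            first
            | (obtain ⟨s, hs⟩ := exists_prime_orderOf_dvd_card' (G := G) 3 (by rw [hord]; norm_num)
               have hfix := fix_mod 3 hs K (by rw [normalizer_eq_top_iff.mpr hK]; exact mem_top s)
               rw [h] at hfix
               refine hinj s hs ?_
               exact (by decide +kernel : ∀ j ∈ Nat.divisors 8, j % 3 = 2 → 2 ∣ j) _
                 (Nat.mem_divisors.mpr ⟨(card_dvd_of_le inf_le_left).trans (h ▸ by norm_num), by norm_num⟩) (by omega))
            | (norm_num [Nat.factorial] at h9)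
          exact conn l2.symm l3.symm l5.symm
      -- `11` divides the order of `K`
      have hzK : ∀ w : G, orderOf w = 11 → w ∈ K := by
        intro w hw
        rw [← QuotientGroup.eq_one_iff]
        have h1 : orderOf (w : G ⧸ K) ∣ Nat.gcd 11 K.index :=
          Nat.dvd_gcd (hw ▸ orderOf_map_dvd (QuotientGroup.mk' K) w) (K.index_eq_card ▸ orderOf_dvd_natCard _)
        have h2 : Nat.gcd 11 K.index = 1 := by
          refine (Nat.Prime.coprime_iff_not_dvd (by norm_num)).mpr fun hd => ?_
          have := Nat.mul_dvd_mul h11K hd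
          rw [K.card_mul_index, hord] at this
          norm_num at this
        rw [h2, Nat.dvd_one, orderOf_eq_one_iff] at h1
        exact h1
      have hsupN : normalizer (zpowers z : Set G) ⊔ K = ⊤ := by
        obtain ⟨P, hP, -⟩ := sylow_zpowers 11 hG11 (by norm_num) hz
        rw [← hP]
        exact Sylow.normalizer_sup_eq_top' P (hP ▸ zpowers_le.mpr (hzK z hz))
      have hi176 : K.index ∣ 176 := hN176 z hz ▸ index_dvd_card hsupN
      have hKi := K.card_mul_index
      rw [hord] at hKi
      have hi1 : K.index ≠ 1 := fun h => hKt (index_eq_one.mp h)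
      have hi : K.index = 2 ∨ K.index = 4 ∨ K.index = 8 ∨ K.index = 16 := by
        have h11i : ¬ 11 ∣ K.index := fun hd => by
          have := Nat.mul_dvd_mul h11K hd
          rw [hKi] at this; norm_num at this
        exact (by decide +kernel : ∀ j ∈ Nat.divisors 176, j ≠ 1 → ¬ 11 ∣ j → j = 2 ∨ j = 4 ∨ j = 8 ∨ j = 16) _
          (Nat.mem_divisors.mpr ⟨hi176, by norm_num⟩) hi1 h11i
      -- an element of order five
      obtain ⟨y, hy⟩ := exists_prime_orderOf_dvd_card' (G := K) 5 (by
        rcases hi with h | h | h | h <;> rw [h] at hKi <;> omega)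
      have hy' : orderOf (y : G) = 5 := by rw [Subgroup.orderOf_coe, hy]
      obtain ⟨hCN5, hNC5⟩ := card_normalizer_dvd 5 hy'
      obtain ⟨P5, hP5, hn5⟩ := sylow_zpowers 5 hG5 (by norm_num) hy'
      rw [hord] at hn5
      have hsup5 : normalizer (zpowers (y : G) : Set G) ⊔ K = ⊤ := by
        rw [← hP5]
        exact Sylow.normalizer_sup_eq_top' P5 (hP5 ▸ zpowers_le.mpr y.2)
      set c5 := Nat.card (centralizer {(y : G)} : Subgroup G) with hc5
      set d5 := Nat.card (normalizer (zpowers (y : G) : Set G)) with hd5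
      have hno11 : ¬ 11 ∣ c5 := fun hd => by
        obtain ⟨w, hw⟩ := exists_prime_orderOf_dvd_card' 11 hd
        have hwo : orderOf (w : G) = 11 := by rw [Subgroup.orderOf_coe, hw]
        have hmem : (y : G) ∈ centralizer ({(w : G)} : Set G) :=
          mem_centralizer_singleton_iff.mpr (mem_centralizer_singleton_iff.mp w.2).symm
        have := orderOf_dvd_natCard (⟨_, hmem⟩ : (centralizer {(w : G)} : Subgroup G))
        rw [Subgroup.orderOf_mk, hy', hC88 _ hwo] at this
        norm_num at this
      have hd20 : d5 = 20 := by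
        have h2d : 2 ∣ d5 := by
          refine dvd_trans ?_ (index_dvd_card hsup5)
          rcases hi with h | h | h | h <;> rw [h] <;> norm_num
        have h11d : ¬ 11 ∣ d5 := fun hd =>
          hno11 (((show Nat.Prime 11 by norm_num).dvd_mul.mp (hd.trans hNC5)).resolve_right (by norm_num))
        have h5d : 5 ∣ d5 := by
          rw [← hy', ← Subgroup.orderOf_mk (y : G) (le_normalizer (mem_zpowers (y : G)) : (y : G) ∈ normalizer (zpowers (y : G) : Set G))]
          exact orderOf_dvd_natCard _
        have hmod : (7920 / d5) % 5 = 1 := by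
          have := card_sylow_modEq_one 5 G
          rw [Nat.div_eq_of_eq_mul_left (Nat.card_pos) hn5.symm]
          exact this
        rcases (by decide +kernel : ∀ j ∈ Nat.divisors 7920, 2 ∣ j → ¬ 11 ∣ j → 5 ∣ j → (7920 / j) % 5 = 1 →
          j = 20 ∨ j = 120 ∨ j = 720) _ (Nat.mem_divisors.mpr ⟨Dvd.intro_left _ hn5, by norm_num⟩) h2d h11d h5d hmod
          with h | h | h
        · exact h
        all_goals
          exfalso
          rw [h] at hNC5
          have h30 : 30 ∣ c5 := Nat.dvd_of_mul_dvd_mul_right (show 0 < 4 by norm_num) (dvd_trans (by norm_num) hNC5)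
          have l52 := link 5 2 (by norm_num) Nat.prime_two (by norm_num) _ hy' (dvd_trans (by norm_num) h30)
          have l53 := link 5 3 (by norm_num) Nat.prime_three (by norm_num) _ hy' (dvd_trans (by norm_num) h30)
          exact conn l2.symm (l52.symm.trans l53) l52.symm
      have hd5' : K.index ∣ 20 := hd20 ▸ index_dvd_card hsup5
      rcases hi with h | h | h | h
      · rw [h] at hKi; omega
      · -- index four
        exfalso
        have hinf := card_inf_mul_index hsup5
        rw [h, ← hd5, hd20] at hinf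
        have h5 : Nat.card (K ⊓ normalizer (zpowers (y : G) : Set G) : Subgroup G) = 5 := by omega
        have heq : zpowers (y : G) = K ⊓ normalizer (zpowers (y : G) : Set G) :=
          eq_of_le_of_card_ge (le_inf (zpowers_le.mpr y.2) le_normalizer) (by rw [h5, Nat.card_zpowers, hy'])
        obtain ⟨L, hL, hLc⟩ := exists_complement K 5 y.2 hy' (by
          intro hd
          have := hd.trans hKd
          norm_num at this) (fun w hw hwn => by
          have hm : w ∈ zpowers (y : G) := heq ▸ mem_inf.mpr ⟨hw, hwn⟩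
          obtain ⟨k, rfl⟩ := mem_zpowers_iff.mp hm
          exact (Commute.refl (y : G)).zpow_left k)
        rw [h] at hKi
        have hL396 : Nat.card L = 396 := by omega
        -- `L` contains `z`, so its index divides 176
        have hzL : z ∈ L := by
          rw [← QuotientGroup.eq_one_iff]
          have hLi := L.card_mul_index
          rw [hord, hL396] at hLi
          have hd1 : orderOf (z : G ⧸ L) ∣ 11 := hz ▸ orderOf_map_dvd (QuotientGroup.mk' L) z
          have hd2 : orderOf (z : G ⧸ L) ∣ 20 := by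
            rw [show 20 = L.index by omega]; exact L.index_eq_card ▸ orderOf_dvd_natCard _
          exact orderOf_eq_one_iff.mp (Nat.eq_one_of_dvd_coprimes (by norm_num) hd1 hd2)
        obtain ⟨P, hP, -⟩ := sylow_zpowers 11 hG11 (by norm_num) hz
        have := index_dvd_card (Sylow.normalizer_sup_eq_top' (N := L) P (hP ▸ zpowers_le.mpr hzL))
        have hLi := L.card_mul_index
        rw [hord, hL396] at hLi
        rw [← Sylow.coe_coe, hP, hN176 z hz, show L.index = 20 by omega] at this
        norm_num at this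
      all_goals
        rw [h] at hd5'; norm_num at hd5'
    -- `M` is simple of order 3960
    have hM' := hall M hM hMb hMt
    have hMi : M.index = 2 := by
      have := M.card_mul_index
      rw [hM', hord] at this; omega
    have : Nontrivial M := Finite.one_lt_card_iff_nontrivial.mp (by rw [hM']; norm_num)
    have hsimple : IsSimpleGroup M := by
      refine ⟨fun K hK => ?_⟩
      by_contra hK'
      rw [not_or] at hK'
      obtain ⟨hKb, hKt⟩ := hK'
      set K₁ := K.map M.subtype with hK₁
      have hK₁M : K₁ ≤ M := map_subtype_le K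
      have hconjM : ∀ m ∈ M, ∀ x ∈ K₁, m * x * m⁻¹ ∈ K₁ := by
        rintro m hm _ ⟨x, hx, rfl⟩
        exact ⟨_, hK.conj_mem x hx ⟨m, hm⟩, rfl⟩
      obtain ⟨g, hg⟩ : ∃ g : G, g ∉ M := by
        by_contra h; push Not at h; exact hMt (eq_top_iff.mpr fun x _ => h x)
      set K₂ := K₁.map (MulAut.conj g).toMonoidHom with hK₂
      have hmem₂ : ∀ x, x ∈ K₂ ↔ g⁻¹ * x * g ∈ K₁ := by
        intro x
        constructor
        · rintro ⟨a, ha, rfl⟩; simpa [MulAut.conj_apply, mul_assoc] using ha
        · intro hx; exact ⟨_, hx, by simp [MulAut.conj_apply, mul_assoc]⟩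
      have hdec : ∀ x : G, x ∈ M ∨ ∃ m ∈ M, x = g * m := by
        intro x
        by_cases hx : x ∈ M
        · exact Or.inl hx
        · refine Or.inr ⟨g⁻¹ * x, ?_, by group⟩
          have := (Subgroup.mul_mem_iff_of_index_two hMi (a := g⁻¹) (b := x)).mpr
            (by simp [hx, hg])
          exact this
      have hgg : g * g ∈ M := Subgroup.mul_self_mem_of_index_two hMi g
      have hconjM₂ : ∀ m ∈ M, ∀ x ∈ K₂, m * x * m⁻¹ ∈ K₂ := by
        intro m hm x hx
        rw [hmem₂] at hx ⊢
        have h1 : g⁻¹ * m * g ∈ M := by simpa using hM.conj_mem m hm g⁻¹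
        have h2 := hconjM _ h1 _ hx
        convert h2 using 1
        group
      have hswap₁ : ∀ x ∈ K₁, g * x * g⁻¹ ∈ K₂ := fun x hx => (hmem₂ _).mpr (by simpa [mul_assoc] using hx)
      have hswap₂ : ∀ x ∈ K₂, g * x * g⁻¹ ∈ K₁ := fun x hx => by
        have h2 := hconjM _ hgg _ ((hmem₂ x).mp hx)
        convert h2 using 1
        group
      have hI : (K₁ ⊓ K₂).Normal := ⟨fun x hx a => by
        rcases hdec a with ha | ⟨m, hm, rfl⟩
        · exact ⟨hconjM a ha x hx.1, hconjM₂ a ha x hx.2⟩
        · have h1 := hswap₂ _ (hconjM₂ m hm x hx.2)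
          have h2 := hswap₁ _ (hconjM m hm x hx.1)
          refine ⟨?_, ?_⟩
          · simpa [mul_assoc] using h1
          · simpa [mul_assoc] using h2⟩
      have hJ : (K₁ ⊔ K₂).Normal := by
        rw [← normalizer_eq_top_iff, eq_top_iff]
        intro a _
        have hMle : M ≤ normalizer ((K₁ ⊔ K₂ : Subgroup G) : Set G) := by
          refine le_trans (le_inf ?_ ?_) (Subgroup.normalizer_inf_normalizer_le_normalizer_sup _ _)
          · exact fun m hm => Subgroup.mem_normalizer_iff'.mpr fun x => ⟨fun hx => by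
              have := hconjM m hm _ hx; simpa [mul_assoc] using this, fun hx => by
              have := hconjM m⁻¹ (inv_mem hm) _ hx; simpa [mul_assoc] using this⟩
          · exact fun m hm => Subgroup.mem_normalizer_iff'.mpr fun x => ⟨fun hx => by
              have := hconjM₂ m hm _ hx; simpa [mul_assoc] using this, fun hx => by
              have := hconjM₂ m⁻¹ (inv_mem hm) _ hx; simpa [mul_assoc] using this⟩
        have hgN : g ∈ normalizer ((K₁ ⊔ K₂ : Subgroup G) : Set G) := by
          refine Subgroup.mem_normalizer_iff_map_conj_eq.mpr ?_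
          change Subgroup.map (MulAut.conj g).toMonoidHom _ = _
          rw [Subgroup.map_sup]
          have e1 : K₁.map (MulAut.conj g).toMonoidHom = K₂ := hK₂.symm
          have e2 : K₂.map (MulAut.conj g).toMonoidHom = K₁ := by
            refine eq_of_le_of_card_ge ?_ ?_
            · rintro _ ⟨x, hx, rfl⟩; exact hswap₂ x hx
            · rw [← Nat.card_congr (K₂.equivMapOfInjective _ (MulAut.conj g).injective).toEquiv, hK₂,
                ← Nat.card_congr (K₁.equivMapOfInjective _ (MulAut.conj g).injective).toEquiv]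
          rw [e1, e2, sup_comm]
        rcases hdec a with ha | ⟨m, hm, rfl⟩
        · exact hMle ha
        · exact mul_mem hgN (hMle hm)
      have hK₁card : Nat.card K₁ = Nat.card K :=
        (Nat.card_congr (K.equivMapOfInjective _ M.subtype_injective).toEquiv).symm
      have hK₁b : K₁ ≠ ⊥ := fun h => hKb (eq_bot_of_card_eq K (by rw [← hK₁card, h, card_bot]))
      have hKlt : Nat.card K < 3960 := by
        rw [← hM']
        refine lt_of_le_of_ne (Nat.le_of_dvd Nat.card_pos (card_subgroup_dvd_card K)) fun h => hKt ?_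
        exact eq_top_of_card_eq K h
      have hIb : K₁ ⊓ K₂ = ⊥ := by
        by_contra h
        have hle : Nat.card (K₁ ⊓ K₂ : Subgroup G) ≤ Nat.card K₁ :=
          Nat.le_of_dvd Nat.card_pos (card_dvd_of_le inf_le_left)
        have := hall _ hI h (fun e => by rw [e, card_top, hord] at hle; omega)
        omega
      have hK₂M : K₂ ≤ M := fun x hx => by
        have := hM.conj_mem _ (hK₁M ((hmem₂ x).mp hx)) g
        simpa [mul_assoc] using this
      have hJle : K₁ ⊔ K₂ ≤ M := sup_le hK₁M hK₂M
      have hJc := hall _ hJ (fun e => hK₁b (le_bot_iff.mp (e ▸ le_sup_left)))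
        (fun e => hMt (top_le_iff.mp (e ▸ hJle)))
      have hn2 : (K₂.subgroupOf (K₁ ⊔ K₂)).Normal := by
        refine (Subgroup.normal_subgroupOf_iff le_sup_right).mpr fun x a hx ha => ?_
        exact hconjM₂ a (hJle ha) x hx
      have hsq : Nat.card K * Nat.card K = 3960 := by
        rw [← hJc, ← relIndex_bot_left (K₁ ⊔ K₂), ← relIndex_mul_relIndex ⊥ K₂ (K₁ ⊔ K₂) bot_le le_sup_right,
          relIndex_bot_left]
        have hc2 : Nat.card K₂ = Nat.card K := by
          rw [hK₂, ← Nat.card_congr (K₁.equivMapOfInjective _ (MulAut.conj g).injective).toEquiv, hK₁card]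
        rw [hc2]
        congr 1
        have : (K₂.subgroupOf M).Normal :=
          (Subgroup.normal_subgroupOf_iff hK₂M).mpr fun x a hx ha => hconjM₂ a ha x hx
        rw [← relIndex_subgroupOf hJle, subgroupOf_sup hK₁M hK₂M, relIndex_sup_right,
          relIndex_subgroupOf hK₁M, ← inf_relIndex_right, inf_comm, hIb, relIndex_bot_left, hK₁card]
      have h62 : Nat.card K ≤ 62 ∨ 63 ≤ Nat.card K := by omega
      rcases h62 with h | h <;> nlinarith
    have hzM : z ∈ M := by
      rw [← QuotientGroup.eq_one_iff, ← orderOf_eq_one_iff]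
      exact Nat.eq_one_of_dvd_coprimes (show Nat.Coprime 11 2 by norm_num)
        (hz ▸ orderOf_map_dvd (QuotientGroup.mk' M) z) (hMi ▸ (M.index_eq_card ▸ orderOf_dvd_natCard _))
    obtain ⟨P, hP, -⟩ := sylow_zpowers 11 hG11 (by norm_num) hz
    let P' : Sylow 11 M := P.subtype (hP ▸ zpowers_le.mpr hzM)
    refine no_simple_3960 hM' P' ?_
    have hsupN : normalizer ((P : Subgroup G) : Set G) ⊔ M = ⊤ :=
      Sylow.normalizer_sup_eq_top' P (hP ▸ zpowers_le.mpr hzM)
    have hinf := card_inf_mul_index hsupN
    rw [hMi, hP, hN176 z hz] at hinf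
    have heq : (normalizer ((P' : Subgroup M) : Set M)).map M.subtype = M ⊓ normalizer (zpowers z : Set G) := by
      ext x
      constructor
      · rintro ⟨w, hw, rfl⟩
        refine ⟨w.2, mem_normalizer_iff.mpr fun a => ?_⟩
        rw [← hP]
        constructor
        · intro ha'
          exact (mem_normalizer_iff.mp hw ⟨a, (hP ▸ zpowers_le.mpr hzM : (P : Subgroup G) ≤ M) ha'⟩).mp ha'
        · intro ha'
          have haM : a ∈ M := by
            have := hM.conj_mem _ ((hP ▸ zpowers_le.mpr hzM : (P : Subgroup G) ≤ M) ha') (w : G)⁻¹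
            simpa [mul_assoc] using this
          exact (mem_normalizer_iff.mp hw ⟨a, haM⟩).mpr ha'
      · rintro ⟨hxM, hx⟩
        refine ⟨⟨x, hxM⟩, mem_normalizer_iff.mpr fun a => ?_, rfl⟩
        rw [← hP] at hx
        exact mem_normalizer_iff.mp hx a.1
    rw [Nat.card_congr ((normalizer ((P' : Subgroup M) : Set M)).equivMapOfInjective _ M.subtype_injective).toEquiv,
      heq]
    omega
  · -- one hundred and forty-four Sylow 11-subgroups
    have hN55 : ∀ w : G, orderOf w = 11 → Nat.card (normalizer (zpowers w : Set G)) = 55 := fun w hw => by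
      have := hnorm w hw; rw [hn144] at this; omega
    have hC11 : ∀ w : G, orderOf w = 11 → Nat.card (centralizer {w} : Subgroup G) = 11 := by
      intro w hw
      obtain ⟨h1, -⟩ := hbound w hw
      rw [hN55 w hw] at h1
      rcases (by decide +kernel : ∀ j ∈ Nat.divisors 55, 11 ∣ j → j = 11 ∨ j = 55) _
        (Nat.mem_divisors.mpr ⟨h1, by norm_num⟩) (h11C w hw) with h | h
      · exact h
      · obtain ⟨v, hv, hv3⟩ := hcentral w hw (by rw [h, hN55 w hw])
        have := hv3.trans (hbound v hv).1
        rw [hN55 v hv] at this; norm_num at this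
    have h11 : ∀ K : Subgroup G, K.Normal → K ≠ ⊥ → 11 ∣ Nat.card K := by
      intro K hK hKb
      by_contra h11
      have hK1 : Nat.card K ≠ 1 := fun h => hKb (eq_bot_of_card_eq K h)
      obtain ⟨q, hq, hqK⟩ := Nat.exists_prime_and_dvd hK1
      obtain ⟨w, hw, hqw⟩ := hA K hK h11 q hq hqK
      rw [hC11 w hw, Nat.prime_dvd_prime_iff_eq hq (by norm_num)] at hqw
      exact h11 (hqw ▸ hqK)
    have hM11 := h11 M hM hMb
    have hMi11 : ¬ 11 ∣ M.index := fun hd => by
      have := Nat.mul_dvd_mul hM11 hd
      rw [M.card_mul_index, hord] at this; norm_num at this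
    have hzM : z ∈ M := by
      rw [← QuotientGroup.eq_one_iff, ← orderOf_eq_one_iff]
      exact Nat.eq_one_of_dvd_coprimes ((Nat.Prime.coprime_iff_not_dvd (by norm_num)).mpr hMi11)
        (hz ▸ orderOf_map_dvd (QuotientGroup.mk' M) z) (M.index_eq_card ▸ orderOf_dvd_natCard _)
    obtain ⟨P, hP, -⟩ := sylow_zpowers 11 hG11 (by norm_num) hz
    have hsupN : normalizer (zpowers z : Set G) ⊔ M = ⊤ :=
      hP ▸ Sylow.normalizer_sup_eq_top' P (hP ▸ zpowers_le.mpr hzM)
    have h5i : M.index = 5 := by
      have hd : M.index ∣ 55 := hN55 z hz ▸ index_dvd_card hsupN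
      refine (by decide +kernel : ∀ j ∈ Nat.divisors 55, j ≠ 1 → ¬ 11 ∣ j → j = 5) _
        (Nat.mem_divisors.mpr ⟨hd, by norm_num⟩) (fun h => hMt (index_eq_one.mp h)) hMi11
    have hinf := card_inf_mul_index hsupN
    rw [h5i, hN55 z hz] at hinf
    have heq : zpowers z = M ⊓ normalizer (zpowers z : Set G) :=
      eq_of_le_of_card_ge (le_inf (zpowers_le.mpr hzM) le_normalizer) (by rw [Nat.card_zpowers, hz]; omega)
    have hMc : Nat.card M = 1584 := by
      have := M.card_mul_index
      rw [h5i, hord] at this; omega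
    obtain ⟨K, hK, hKc⟩ := exists_complement M 11 hzM hz (by rw [hMc]; norm_num) (fun w hw hwn => by
      obtain ⟨k, rfl⟩ := mem_zpowers_iff.mp (heq ▸ mem_inf.mpr ⟨hw, hwn⟩ : w ∈ zpowers z)
      exact (Commute.refl z).zpow_left k)
    rw [hMc] at hKc
    have hK144 : Nat.card K = 144 := by omega
    have := h11 K hK (fun e => by rw [e, card_bot] at hK144; norm_num at hK144)
    rw [hK144] at this
    norm_num at this

end Cfsg.Agent.H71.Order7920Graph

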