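/-
Sylow `2`-subgroups of `PGL₂(q)`, `q + 1` a power of `2`, pairwise meet non-trivially.
-/
import Cfsg.Agent.H1.Orders

set_option autoImplicit false

open Matrix
open scoped Pointwise

namespace Cfsg.Agent.H71.PGLTwoMersenne

variable {q : ℕ} [Fact q.Prime]

local notation "M₂" => Matrix (Fin 2) (Fin 2) (ZMod q)
local notation "G₂" => GL (Fin 2) (ZMod q)

/-- The square root of `-1`. -/
def rootMat : M₂ := !![0, -1; 1, 0]

theorem rootMat_sq : (rootMat : M₂) * rootMat = -1 := by
  ext i j; fin_cases i <;> fin_cases j <;> simp [rootMat]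

/-- The normaliser of the non-split torus. -/
def torusNormalizer : Subgroup G₂ where
  carrier := {g | (g : M₂) * rootMat = rootMat * (g : M₂) ∨ (g : M₂) * rootMat = -(rootMat * (g : M₂))}
  one_mem' := Or.inl (by simp)
  mul_mem' := by
    intro g h hg hh
    simp only [Set.mem_ofPred_eq, Units.val_mul] at hg hh ⊢
    rcases hg with hg | hg <;> rcases hh with hh | hh
    · exact Or.inl (by rw [Matrix.mul_assoc, hh, ← Matrix.mul_assoc, hg, Matrix.mul_assoc])
    · exact Or.inr (by rw [Matrix.mul_assoc, hh, Matrix.mul_neg, ← Matrix.mul_assoc, hg, Matrix.mul_assoc])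
    · exact Or.inr (by rw [Matrix.mul_assoc, hh, ← Matrix.mul_assoc, hg, Matrix.neg_mul, Matrix.mul_assoc])
    · exact Or.inl (by
        rw [Matrix.mul_assoc, hh, Matrix.mul_neg, ← Matrix.mul_assoc, hg, Matrix.neg_mul, neg_neg,
          Matrix.mul_assoc])
  inv_mem' := by
    intro g hg
    simp only [Set.mem_ofPred_eq] at hg ⊢
    rcases hg with hg | hg
    · left
      calc ((g⁻¹ : G₂) : M₂) * rootMat
          = ((g⁻¹ : G₂) : M₂) * (rootMat * (g : M₂)) * ((g⁻¹ : G₂) : M₂) := by
            rw [Matrix.mul_assoc, Matrix.mul_assoc rootMat, Units.mul_inv, Matrix.mul_one]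
        _ = rootMat * ((g⁻¹ : G₂) : M₂) := by
            rw [← hg, ← Matrix.mul_assoc, Units.inv_mul, Matrix.one_mul]
    · right
      calc ((g⁻¹ : G₂) : M₂) * rootMat
          = ((g⁻¹ : G₂) : M₂) * (rootMat * (g : M₂)) * ((g⁻¹ : G₂) : M₂) := by
            rw [Matrix.mul_assoc, Matrix.mul_assoc rootMat, Units.mul_inv, Matrix.mul_one]
        _ = -(rootMat * ((g⁻¹ : G₂) : M₂)) := by
            rw [show rootMat * (g : M₂) = -((g : M₂) * rootMat) by rw [hg, neg_neg], Matrix.mul_neg,
              ← Matrix.mul_assoc, Units.inv_mul, Matrix.one_mul, Matrix.neg_mul]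

theorem sum_sq_ne_zero (hns : ¬ IsSquare (-1 : ZMod q)) {a b : ZMod q} (h : a ≠ 0 ∨ b ≠ 0) :
    a * a + b * b ≠ 0 := by
  intro h0
  by_cases hb : b = 0
  · rcases h with h | h
    · exact h (by simpa [hb] using h0)
    · exact h hb
  · exact hns ⟨a / b, by field_simp; linear_combination -h0⟩

theorem card_torusNormalizer (hns : ¬ IsSquare (-1 : ZMod q)) :
    Nat.card (torusNormalizer (q := q)) = 2 * (q ^ 2 - 1) := by
  classical
  have hq2 : (2 : ZMod q) ≠ 0 := by
    intro h
    exact hns ⟨1, by linear_combination -h⟩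
  let pos : Fin 2 → ZMod q → ZMod q → M₂ := fun i a b => if i = 0 then !![a, -b; b, a] else !![a, b; b, -a]
  have hdet : ∀ i (v : Fin 2 → ZMod q), v ≠ 0 → IsUnit (pos i (v 0) (v 1)).det := by
    intro i v hv
    have h := sum_sq_ne_zero hns (a := v 0) (b := v 1) (by
      by_contra h
      simp only [not_or, not_not] at h
      exact hv (funext fun j => by fin_cases j <;> simp [h.1, h.2]))
    rw [isUnit_iff_ne_zero]
    fin_cases i <;> simp [pos, Matrix.det_fin_two_of] <;> intro h0 <;> apply h <;>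
      first | linear_combination h0 | linear_combination -h0
  have hmem : ∀ i (v : Fin 2 → ZMod q) (h : v ≠ 0),
      ((Matrix.isUnit_iff_isUnit_det _).mpr (hdet i v h)).unit ∈ torusNormalizer (q := q) := by
    intro i v h
    show pos i (v 0) (v 1) * rootMat = _ ∨ pos i (v 0) (v 1) * rootMat = _
    fin_cases i
    · left
      show pos 0 (v 0) (v 1) * rootMat = rootMat * pos 0 (v 0) (v 1)
      ext a b; fin_cases a <;> fin_cases b <;> simp [pos, rootMat]
    · right
      show pos 1 (v 0) (v 1) * rootMat = -(rootMat * pos 1 (v 0) (v 1))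
      ext a b; fin_cases a <;> fin_cases b <;> simp [pos, rootMat]
  let f : Fin 2 × {v : Fin 2 → ZMod q // v ≠ 0} → torusNormalizer (q := q) :=
    fun x => ⟨_, hmem x.1 x.2.1 x.2.2⟩
  have hbij : Function.Bijective f := by
    constructor
    · rintro ⟨i, v, hv⟩ ⟨j, w, hw⟩ h
      have h' : pos i (v 0) (v 1) = pos j (w 0) (w 1) := congrArg (fun g : torusNormalizer (q := q) => ((g : G₂) : M₂)) h
      have e00 := congrFun (congrFun h' 0) 0
      have e10 := congrFun (congrFun h' 1) 0
      have e01 := congrFun (congrFun h' 0) 1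
      have e11 := congrFun (congrFun h' 1) 1
      have hvw : v = w := by
        funext k
        fin_cases i <;> fin_cases j <;> fin_cases k <;> simp [pos] at e00 e10 ⊢ <;> assumption
      subst hvw
      have hij : i = j := by
        by_contra hne
        have : v 0 = 0 ∧ v 1 = 0 := by
          fin_cases i <;> fin_cases j <;> simp [pos] at e01 e11 hne <;>
            constructor <;> apply mul_left_cancel₀ hq2 <;>
            first
              | linear_combination e11 | linear_combination -e11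
              | linear_combination e01 | linear_combination -e01
        exact hv (funext fun k => by fin_cases k <;> simp [this.1, this.2])
      subst hij
      rfl
    · rintro ⟨g, hg⟩
      have hne : (fun i => (g : M₂) i 0) ≠ 0 := by
        intro h0
        have : (g : M₂).det = 0 := Matrix.det_eq_zero_of_column_eq_zero 0 fun i => congrFun h0 i
        exact ((Matrix.isUnit_iff_isUnit_det _).mp g.isUnit).ne_zero this
      rcases hg with hg | hg
      · refine ⟨(0, ⟨fun i => (g : M₂) i 0, hne⟩), Subtype.ext (Units.ext ?_)⟩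
        show pos 0 _ _ = (g : M₂)
        have h0 := congrFun (congrFun hg 0) 0
        have h1 := congrFun (congrFun hg 1) 0
        simp [rootMat, Matrix.mul_apply, Fin.sum_univ_two] at h0 h1
        ext a b; fin_cases a <;> fin_cases b <;> simp [pos, h0, h1]
      · refine ⟨(1, ⟨fun i => (g : M₂) i 0, hne⟩), Subtype.ext (Units.ext ?_)⟩
        show pos 1 _ _ = (g : M₂)
        have h0 := congrFun (congrFun hg 0) 0
        have h1 := congrFun (congrFun hg 1) 0
        simp [rootMat, Matrix.mul_apply, Matrix.vecMul, dotProduct, Fin.sum_univ_two] at h0 h1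
        ext a b; fin_cases a <;> fin_cases b <;> simp [pos, h0, h1]
  rw [← Nat.card_congr (Equiv.ofBijective f hbij), Nat.card_prod, Nat.card_fin,
    Nat.card_eq_fintype_card, Fintype.card_subtype_compl, Fintype.card_subtype_eq,
    Fintype.card_fun, ZMod.card, Fintype.card_fin]

/-- Two Sylow `2`-subgroups of `PGL₂(q)` meet non-trivially. -/
theorem inf_ne_bot {k : ℕ} (hk : q + 1 = 2 ^ k) (hq : 7 ≤ q)
    (P₁ P₂ : Sylow 2 (G₂ ⧸ Subgroup.center G₂)) :
    (P₁ : Subgroup (G₂ ⧸ Subgroup.center G₂)) ⊓ P₂ ≠ ⊥ := by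
  classical
  have hk3 : 3 ≤ k := by
    by_contra h
    have := Nat.pow_le_pow_right (show 0 < 2 by norm_num) (show k ≤ 2 by omega)
    omega
  have h8 : 8 ∣ q + 1 := hk ▸ (show (8 : ℕ) = 2 ^ 3 by norm_num) ▸ pow_dvd_pow 2 hk3
  have hns : ¬ IsSquare (-1 : ZMod q) := by
    rw [ZMod.exists_sq_eq_neg_one_iff, not_not]
    omega
  have hq1 : 1 < q := by omega
  have h2 : (2 : ZMod q) ≠ 0 := by
    intro h
    have h' : ((2 : ℕ) : ZMod q) = 0 := by exact_mod_cast h
    have := Nat.le_of_dvd (by norm_num) ((ZMod.natCast_eq_zero_iff _ _).mp h')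
    omega
  set C := Subgroup.center G₂ with hC
  set K := torusNormalizer (q := q) with hK
  have hCK : C ≤ K := by
    intro z hz
    have hz' := Subgroup.mem_center_iff.mp hz
    let r : G₂ := Matrix.GeneralLinearGroup.mkOfDetNeZero rootMat (by simp [rootMat, Matrix.det_fin_two_of])
    exact Or.inl (congrArg Units.val (hz' r)).symm
  have hcardC : Nat.card C = q - 1 := by
    rw [hC, Cfsg.Agent.H1.card_center_GL, Cfsg.Agent.H1.natCard_units (ZMod.card q)]
  let π := QuotientGroup.mk' C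
  have hcardKC : Nat.card (K.map π) * (q - 1) = 2 * (q ^ 2 - 1) := by
    have h1 : Nat.card (C.subgroupOf K) = q - 1 := by
      rw [Nat.card_congr (Subgroup.subgroupOfEquivOfLe hCK).toEquiv, hcardC]
    have h3 : Nat.card (K.map π) = Nat.card (K ⧸ (π.comp K.subtype).ker) := by
      rw [Nat.card_congr (QuotientGroup.quotientKerEquivRange _).toEquiv, MonoidHom.range_eq_map,
        ← Subgroup.map_map, ← MonoidHom.range_eq_map, K.range_subtype]
    have hker : (π.comp K.subtype).ker = C.subgroupOf K := by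
      ext x
      simp [π, Subgroup.mem_subgroupOf]
    rw [h3, ← card_torusNormalizer hns, Subgroup.card_eq_card_quotient_mul_card_subgroup (π.comp K.subtype).ker,
      hker, h1]
  have hsq : q ^ 2 - 1 = (q + 1) * (q - 1) := by simpa using Nat.sq_sub_sq q 1
  have hcardK : Nat.card (K.map π) = 2 ^ (k + 1) := by
    rw [hsq, ← mul_assoc] at hcardKC
    rw [Nat.eq_of_mul_eq_mul_right (by omega) hcardKC, pow_succ, hk, mul_comm]
  have hcardG : Nat.card (G₂ ⧸ C) = q * (q - 1) * (q + 1) := by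
    have h := Subgroup.card_eq_card_quotient_mul_card_subgroup C
    rw [hcardC, Matrix.card_GL_field, ZMod.card, Fin.prod_univ_two] at h
    simp only [Fin.val_zero, Fin.val_one, pow_zero, pow_one] at h
    rw [hsq, show q ^ 2 - q = q * (q - 1) by rw [Nat.mul_sub_one, pow_two]] at h
    refine Nat.eq_of_mul_eq_mul_right (show 0 < q - 1 by omega) (h.symm.trans ?_)
    ring
  have hodd : ¬ 2 ∣ (K.map π).index := by
    intro hd
    obtain ⟨t, ht⟩ := hd
    have h := (K.map π).card_mul_index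
    rw [hcardK, ht, hcardG, pow_succ, ← hk] at h
    have h' : (q + 1) * (4 * t) = (q + 1) * (q * (q - 1)) := by
      calc (q + 1) * (4 * t) = (q + 1) * 2 * (2 * t) := by ring
        _ = q * (q - 1) * (q + 1) := h
        _ = _ := by ring
    have h4 := Nat.eq_of_mul_eq_mul_left (by omega) h'
    obtain ⟨u, hu⟩ : ∃ u, q = 4 * u + 3 := ⟨q / 4, by omega⟩
    have hq' : q - 1 = 4 * u + 2 := by omega
    rw [hq', hu] at h4
    have : (4 * u + 3) * (4 * u + 2) = 4 * (4 * u * u + 5 * u + 1) + 2 := by ring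
    omega
  let P₀ : Sylow 2 (G₂ ⧸ C) := (IsPGroup.of_card hcardK).toSylow hodd
  have hconj : ∀ P : Sylow 2 (G₂ ⧸ C), ∃ g : G₂, ∀ z : G₂, g⁻¹ * z * g ∈ K →
      π z ∈ (P : Subgroup (G₂ ⧸ C)) := by
    intro P
    obtain ⟨γ, hγ⟩ := MulAction.exists_smul_eq (G₂ ⧸ C) P₀ P
    obtain ⟨g, rfl⟩ := QuotientGroup.mk'_surjective C γ
    refine ⟨g, fun z hz => ?_⟩
    rw [← hγ]
    show π z ∈ MulAut.conj (π g) • (P₀ : Subgroup (G₂ ⧸ C))
    refine ⟨π (g⁻¹ * z * g), Subgroup.mem_map_of_mem π hz, ?_⟩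
    show π g * π (g⁻¹ * z * g) * (π g)⁻¹ = π z
    rw [← map_mul, ← map_inv, ← map_mul]
    congr 1
    group
  obtain ⟨g₁, hg₁⟩ := hconj P₁
  obtain ⟨g₂, hg₂⟩ := hconj P₂
  -- a trace zero matrix anticommuting with both roots
  let a₁ : M₂ := (g₁ : M₂) * rootMat * ((g₁⁻¹ : G₂) : M₂)
  let a₂ : M₂ := (g₂ : M₂) * rootMat * ((g₂⁻¹ : G₂) : M₂)
  let Ψ : M₂ →ₗ[ZMod q] ZMod q × ZMod q × ZMod q :=
    (Matrix.traceLinearMap (Fin 2) (ZMod q) (ZMod q)).prod
      (((Matrix.traceLinearMap (Fin 2) (ZMod q) (ZMod q)).comp (LinearMap.mulLeft (ZMod q) a₁)).prod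
        ((Matrix.traceLinearMap (Fin 2) (ZMod q) (ZMod q)).comp (LinearMap.mulLeft (ZMod q) a₂)))
  have hker : LinearMap.ker Ψ ≠ ⊥ := by
    intro h
    have h1 := Ψ.finrank_range_add_finrank_ker
    have h3 := Submodule.finrank_le (LinearMap.range Ψ)
    rw [h, finrank_bot, Module.finrank_matrix, Fintype.card_fin, Module.finrank_self] at h1
    rw [Module.finrank_prod, Module.finrank_prod, Module.finrank_self] at h3
    omega
  obtain ⟨M, hM, hM0⟩ := Submodule.exists_mem_ne_zero_of_ne_bot hker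
  rw [LinearMap.mem_ker] at hM
  have t0 : M.trace = 0 := congrArg Prod.fst hM
  have t1 : (a₁ * M).trace = 0 := congrArg (fun x : ZMod q × ZMod q × ZMod q => x.2.1) hM
  have t2 : (a₂ * M).trace = 0 := congrArg (fun x : ZMod q × ZMod q × ZMod q => x.2.2) hM
  have htr : ∀ g : G₂, ((g : M₂) * rootMat * ((g⁻¹ : G₂) : M₂)).trace = 0 := fun g => by
    rw [Matrix.trace_mul_cycle, Units.inv_mul, Matrix.one_mul]
    simp [rootMat, Matrix.trace_fin_two]
  have hanti : ∀ X : M₂, X.trace = 0 → (X * M).trace = 0 → M * X = -(X * M) := by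
    intro X hX hXM
    simp only [Matrix.trace_fin_two] at hX t0
    simp only [Matrix.trace_fin_two, Matrix.mul_apply, Fin.sum_univ_two] at hXM
    ext i j
    fin_cases i <;> fin_cases j <;> simp [Matrix.mul_apply, Fin.sum_univ_two]
    · linear_combination hXM + X 0 0 * t0 - M 1 1 * hX
    · linear_combination X 0 1 * t0 + M 0 1 * hX
    · linear_combination X 1 0 * t0 + M 1 0 * hX
    · linear_combination hXM + X 1 1 * t0 - M 0 0 * hX
  have hMdet : M.det ≠ 0 := by
    intro hdet
    obtain ⟨v, hv0, hv⟩ := Matrix.exists_mulVec_eq_zero_iff.mpr hdet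
    have h1 := hanti a₁ (htr g₁) t1
    have h2' : M *ᵥ (a₁ *ᵥ v) = 0 := by
      rw [Matrix.mulVec_mulVec, h1, Matrix.neg_mulVec, ← Matrix.mulVec_mulVec, hv, Matrix.mulVec_zero, neg_zero]
    by_cases hli : LinearIndependent (ZMod q) ![v, a₁ *ᵥ v]
    · refine hM0 (Matrix.toLin'.injective ((basisOfLinearIndependentOfCardEqFinrank hli (by simp)).ext fun i => ?_))
      rw [coe_basisOfLinearIndependentOfCardEqFinrank, Matrix.toLin'_apply, map_zero, LinearMap.zero_apply]
      fin_cases i
      · exact hv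
      · exact h2'
    · rw [LinearIndependent.pair_iff' hv0] at hli
      simp only [not_forall, not_not] at hli
      obtain ⟨c, hc⟩ := hli
      have ha : a₁ * a₁ = -1 := by
        calc a₁ * a₁ = (g₁ : M₂) * rootMat * (((g₁⁻¹ : G₂) : M₂) * (g₁ : M₂)) * rootMat * ((g₁⁻¹ : G₂) : M₂) := by
              simp only [a₁, Matrix.mul_assoc]
          _ = (g₁ : M₂) * (rootMat * rootMat) * ((g₁⁻¹ : G₂) : M₂) := by
              rw [Units.inv_mul, Matrix.mul_one, Matrix.mul_assoc (g₁ : M₂)]
          _ = -1 := by rw [rootMat_sq, Matrix.mul_neg, Matrix.mul_one, Matrix.neg_mul, Units.mul_inv]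
      have h3 : (c * c) • v = (-1 : ZMod q) • v := by
        rw [mul_smul, hc, ← Matrix.mulVec_smul, hc, Matrix.mulVec_mulVec, ha, Matrix.neg_mulVec,
          Matrix.one_mulVec, neg_smul, one_smul]
      exact hns ⟨c, (smul_left_injective _ hv0 h3).symm⟩
  let z : G₂ := Matrix.GeneralLinearGroup.mkOfDetNeZero M hMdet
  have hzK : ∀ g : G₂, M * ((g : M₂) * rootMat * ((g⁻¹ : G₂) : M₂)) =
      -((g : M₂) * rootMat * ((g⁻¹ : G₂) : M₂) * M) → g⁻¹ * z * g ∈ K := by
    intro g hg
    right
    show ((g⁻¹ : G₂) : M₂) * M * (g : M₂) * rootMat = -(rootMat * (((g⁻¹ : G₂) : M₂) * M * (g : M₂)))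
    have h := congrArg (fun X : M₂ => ((g⁻¹ : G₂) : M₂) * X * (g : M₂)) hg
    simp only [Matrix.mul_neg, Matrix.neg_mul, Matrix.mul_assoc, Units.inv_mul_cancel_left,
      Units.inv_mul, Matrix.mul_one] at h ⊢
    exact h
  refine fun hbot => ?_
  have hz1 : π z ∈ (P₁ : Subgroup (G₂ ⧸ C)) ⊓ P₂ :=
    ⟨hg₁ z (hzK g₁ (hanti _ (htr g₁) t1)), hg₂ z (hzK g₂ (hanti _ (htr g₂) t2))⟩
  rw [hbot, Subgroup.mem_bot, QuotientGroup.mk'_apply, QuotientGroup.eq_one_iff, hC,
    Matrix.GeneralLinearGroup.center_eq_range_scalar] at hz1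
  obtain ⟨c, hc⟩ := hz1
  have hcM : M = Matrix.scalar (Fin 2) (c : ZMod q) := (congrArg Units.val hc).symm
  rw [hcM, Matrix.trace_fin_two] at t0
  simp at t0
  have : (c : ZMod q) * 2 = 0 := by linear_combination t0
  exact c.ne_zero ((mul_eq_zero.mp this).resolve_right h2)

end Cfsg.Agent.H71.PGLTwoMersenne
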