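/-
Orders of semisimple elements of finite general linear groups, and cyclic tori.
-/
import Mathlib

set_option autoImplicit false

open Polynomial

namespace Cfsg.Agent.H71

variable {F : Type*} [Field F]

/-- A squarefree element all of whose irreducible factors divide `b` divides `b`. -/
theorem squarefree_dvd_of_forall_irreducible {R : Type*} [CommMonoidWithZero R] [Nontrivial R]
    [UniqueFactorizationMonoid R] {a b : R} (ha : Squarefree a)
    (h : ∀ p, Irreducible p → p ∣ a → p ∣ b) : a ∣ b := by
  induction a using UniqueFactorizationMonoid.induction_on_prime with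
  | h₁ => exact absurd ha not_squarefree_zero
  | h₂ u hu => exact hu.dvd
  | h₃ a p ha0 hp ih =>
      have hab : a ∣ b := ih ha.of_mul_right fun q hq hqa => h q hq (hqa.mul_left p)
      obtain ⟨c, rfl⟩ := hab
      have hpc : p ∣ a * c := h p hp.irreducible (dvd_mul_right p a)
      have hpa : ¬ p ∣ a := fun hd =>
        hp.not_isUnit (ha p (mul_dvd_mul_left p hd))
      rw [mul_comm p a]
      exact mul_dvd_mul_left a ((hp.dvd_mul.mp hpc).resolve_left hpa)

/-- An element of order prime to the characteristic in `GL_n` of a finite field satisfies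
`g ^ L = 1` whenever all `q ^ d - 1`, `1 ≤ d ≤ n`, divide `L`. -/
theorem pow_eq_one_of_semisimple [Finite F] {n : Type*} [Fintype n] [DecidableEq n]
    (g : Matrix n n F) {k L : ℕ} (hk : (k : F) ≠ 0) (hg : g ^ k = 1)
    (hL : ∀ d, 1 ≤ d → d ≤ Fintype.card n → Nat.card F ^ d - 1 ∣ L) :
    g ^ L = 1 := by
  have hsep : (X ^ k - C (1 : F)).Separable := separable_X_pow_sub_C 1 hk one_ne_zero
  have hmk : minpoly F g ∣ X ^ k - C (1 : F) := minpoly.dvd F g (by simp [hg])
  have hsq : Squarefree (minpoly F g) := hsep.squarefree.squarefree_of_dvd hmk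
  have hdvd : minpoly F g ∣ X ^ L - 1 := by
    refine squarefree_dvd_of_forall_irreducible hsq fun p hp hpd => ?_
    have hdeg : p.natDegree ≤ Fintype.card n := by
      calc p.natDegree ≤ g.charpoly.natDegree :=
            natDegree_le_of_dvd (hpd.trans (Matrix.minpoly_dvd_charpoly g))
              g.charpoly_monic.ne_zero
        _ = _ := g.charpoly_natDegree_eq_dim
    have h1 : p ∣ X ^ (Nat.card F) ^ p.natDegree - X :=
      hp.natDegree_dvd_iff_dvd_X_pow_card_pow_sub_X.mp dvd_rfl
    have hq1 : 1 ≤ Nat.card F ^ p.natDegree := Nat.one_le_pow _ _ Nat.card_pos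
    rw [← Nat.sub_add_cancel hq1, pow_succ,
      show X ^ (Nat.card F ^ p.natDegree - 1) * X - X =
        (X ^ (Nat.card F ^ p.natDegree - 1) - 1) * (X : F[X]) by ring] at h1
    rcases hp.prime.dvd_mul.mp h1 with h2 | h2
    · obtain ⟨c, hc⟩ := hL p.natDegree hp.natDegree_pos hdeg
      refine h2.trans ?_
      rw [hc]
      exact pow_one_sub_dvd_pow_mul_sub_one _ _ _
    · exfalso
      have hX : p ∣ X ^ k - C (1 : F) := hpd.trans hmk
      have hk0 : k ≠ 0 := fun h => hk (by simp [h])
      have : p ∣ C (1 : F) := by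
        have h3 : p ∣ X ^ k := h2.trans (dvd_pow_self X hk0)
        simpa using dvd_sub h3 hX
      exact hp.not_isUnit (isUnit_of_dvd_one (by simpa using this))
  obtain ⟨c, hc⟩ := hdvd
  have := congrArg (aeval g) hc
  simpa [sub_eq_zero] using this

/-- `GL_n` of a finite field contains an element of order `q ^ j - 1` for `1 ≤ j ≤ n`. -/
theorem exists_orderOf_card_pow_sub_one [Finite F] {n j : ℕ} (hj : 1 ≤ j) (hjn : j ≤ n) :
    ∃ g : GL (Fin n) F, orderOf g = Nat.card F ^ j - 1 := by
  classical
  obtain ⟨p, hpc⟩ := CharP.exists F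
  have : Fact p.Prime := ⟨CharP.char_is_prime F p⟩
  have : NeZero j := ⟨by omega⟩
  let K := FiniteField.Extension F p j
  obtain ⟨ζ, hζ⟩ := IsCyclic.exists_generator (α := Kˣ)
  have hord : orderOf ζ = Nat.card F ^ j - 1 := by
    rw [orderOf_eq_card_of_forall_mem_zpowers hζ, Nat.card_units,
      FiniteField.natCard_extension]
  let b := Module.finBasisOfFinrankEq F K (FiniteField.finrank_extension F p j)
  let e : Fin j ⊕ Fin (n - j) ≃ Fin n := finSumFinEquiv.trans (finCongr (by omega))
  let φ : K →* Matrix (Fin n) (Fin n) F :=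
    { toFun := fun x => Matrix.reindex e e (Matrix.fromBlocks (Algebra.leftMulMatrix b x) 0 0 1)
      map_one' := by simp [Matrix.fromBlocks_one]
      map_mul' := fun x y => by
        simp [Matrix.submatrix_mul_equiv, Matrix.fromBlocks_multiply] }
  have hinj : Function.Injective φ := fun x y h => by
    have h' := (Matrix.reindex e e).injective h
    exact Algebra.leftMulMatrix_injective b (Matrix.fromBlocks_inj.mp h').1
  refine ⟨Units.map φ ζ, ?_⟩
  rw [orderOf_injective _ (Units.map_injective hinj), hord]

end Cfsg.Agent.H71
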