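/-
Sourour's factorisation in dimension three: a non-scalar invertible matrix is similar to a
product of a lower and an upper triangular matrix with prescribed diagonals.
-/
import Mathlib

set_option autoImplicit false

open Matrix

namespace Cfsg.Agent.H71

variable {F : Type*} [Field F]

/-- A non-scalar 3x3 matrix has a vector which is not an eigenvector, extended to a basis
whose second vector is an arbitrary shift of its image. -/
theorem exists_cyclic_start (A : Matrix (Fin 3) (Fin 3) F) (hA : ¬ ∃ c : F, A = c • 1) (a : F) :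
    ∃ P : GL (Fin 3) F, ∃ b1 b2 d11 d12 d21 d22 : F,
      A * (P : Matrix (Fin 3) (Fin 3) F) = P * !![a, b1, b2; 1, d11, d12; 0, d21, d22] := by
  obtain ⟨v, hv⟩ : ∃ v : Fin 3 → F, ∀ c : F, A *ᵥ v ≠ c • v := by
    by_contra! h
    apply hA
    obtain ⟨c0, h0⟩ := h (Pi.single 0 1)
    obtain ⟨c1, h1⟩ := h (Pi.single 1 1)
    obtain ⟨c2, h2⟩ := h (Pi.single 2 1)
    obtain ⟨c01, h01⟩ := h (Pi.single 0 1 + Pi.single 1 1)
    obtain ⟨c02, h02⟩ := h (Pi.single 0 1 + Pi.single 2 1)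
    refine ⟨c0, ?_⟩
    have e00 := congrFun h0 0; have e10 := congrFun h0 1; have e20 := congrFun h0 2
    have e01 := congrFun h1 0; have e11 := congrFun h1 1; have e21 := congrFun h1 2
    have e02 := congrFun h2 0; have e12 := congrFun h2 1; have e22 := congrFun h2 2
    have f0 := congrFun h01 0; have f1 := congrFun h01 1
    have g0 := congrFun h02 0; have g2 := congrFun h02 2
    simp [Matrix.mulVec, dotProduct, Fin.sum_univ_three] at e00 e10 e20 e01 e11 e21 e02 e12 e22 f0 f1 g0 g2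
    ext i j
    fin_cases i <;> fin_cases j <;> simp <;> grind
  set w := A *ᵥ v - a • v with hw
  obtain ⟨u, hu⟩ : ∃ u : Fin 3 → F,
      (Matrix.of fun i => ![v i, w i, u i] : Matrix (Fin 3) (Fin 3) F).det ≠ 0 := by
    by_contra! h
    have k0 := h (Pi.single 0 1); have k1 := h (Pi.single 1 1); have k2 := h (Pi.single 2 1)
    simp [Matrix.det_fin_three] at k0 k1 k2
    rcases em (v = 0) with hv0 | hv0
    · exact hv 0 (by simp [hv0])
    obtain ⟨i, hi⟩ : ∃ i, v i ≠ 0 := Function.ne_iff.mp hv0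
    have hAv : ∀ j, (A *ᵥ v) j = w j + a * v j := fun j => by simp [hw]
    refine hv (w i / v i + a) (funext fun j => ?_)
    rw [hAv, Pi.smul_apply, smul_eq_mul]
    fin_cases i <;> simp at hi ⊢ <;> fin_cases j <;> simp <;> field_simp <;> grind
  set Pm : Matrix (Fin 3) (Fin 3) F := Matrix.of fun i => ![v i, w i, u i] with hPm
  have hP : IsUnit Pm := (Matrix.isUnit_iff_isUnit_det _).mpr (isUnit_iff_ne_zero.mpr hu)
  set M := (↑hP.unit⁻¹ : Matrix (Fin 3) (Fin 3) F) * A * Pm with hM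
  have hPM : A * Pm = Pm * M := by
    rw [hM, ← Matrix.mul_assoc, ← Matrix.mul_assoc, IsUnit.mul_val_inv, one_mul]
  refine ⟨hP.unit, M 0 1, M 0 2, M 1 1, M 1 2, M 2 1, M 2 2, ?_⟩
  rw [IsUnit.unit_spec, hPM]
  congr 1
  have hcol : M *ᵥ (Pi.single 0 1) = ![a, 1, 0] := by
    have h1 : Pm *ᵥ (M *ᵥ Pi.single 0 1) = Pm *ᵥ ![a, 1, 0] := by
      rw [Matrix.mulVec_mulVec, ← hPM, ← Matrix.mulVec_mulVec]
      have e1 : Pm *ᵥ (Pi.single 0 1) = v := by ext i; simp [hPm]
      have e2 : Pm *ᵥ ![a, 1, 0] = A *ᵥ v := by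
        ext i
        simp [hPm, Matrix.mulVec, dotProduct, Fin.sum_univ_three, hw]
        ring
      rw [e1, e2]
    exact Matrix.mulVec_injective_iff_isUnit.mpr hP h1
  have c0 := congrFun hcol 0; have c1 := congrFun hcol 1; have c2 := congrFun hcol 2
  simp at c0 c1 c2
  ext i j
  fin_cases i <;> fin_cases j <;> simp [c0, c1, c2]

/-- Sourour's theorem for 2x2 matrices, in the form used below. -/
theorem exists_lu_two (S : Matrix (Fin 2) (Fin 2) F) (hS : ¬ ∃ c : F, S = c • 1) {b2 b3 g2 g3 : F}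
    (hb2 : b2 ≠ 0) (hg2 : g2 ≠ 0) (hdet : b2 * g2 * (b3 * g3) = S.det) :
    ∃ R : GL (Fin 2) F, ∃ l r : F,
      S * (R : Matrix (Fin 2) (Fin 2) F) = R * (!![b2, 0; l, b3] * !![g2, r; 0, g3]) := by
  obtain ⟨v0, v1, hv⟩ : ∃ v0 v1 : F,
      v0 * (S 1 0 * v0 + S 1 1 * v1) - v1 * (S 0 0 * v0 + S 0 1 * v1) ≠ 0 := by
    by_contra! h
    apply hS
    have h10 := h 1 0; have h01 := h 0 1; have h11 := h 1 1
    simp at h10 h01 h11
    refine ⟨S 0 0, ?_⟩
    ext i j
    fin_cases i <;> fin_cases j <;> simp <;> grind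
  set a := b2 * g2
  have ha : a ≠ 0 := mul_ne_zero hb2 hg2
  let R : Matrix (Fin 2) (Fin 2) F :=
    !![v0, S 0 0 * v0 + S 0 1 * v1 - a * v0; v1, S 1 0 * v0 + S 1 1 * v1 - a * v1]
  have hR : IsUnit R := (Matrix.isUnit_iff_isUnit_det _).mpr (isUnit_iff_ne_zero.mpr (by
    simp [R, Matrix.det_fin_two]; intro h; apply hv; linear_combination h))
  set M := (↑hR.unit⁻¹ : Matrix (Fin 2) (Fin 2) F) * S * R with hM
  have hRM : S * R = R * M := by
    rw [hM, ← Matrix.mul_assoc, ← Matrix.mul_assoc, IsUnit.mul_val_inv, one_mul]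
  have hcol : M *ᵥ (Pi.single 0 1) = ![a, 1] := by
    apply Matrix.mulVec_injective_iff_isUnit.mpr hR
    rw [Matrix.mulVec_mulVec, ← hRM, ← Matrix.mulVec_mulVec]
    ext i
    fin_cases i <;> simp [R, Matrix.mulVec, dotProduct, Fin.sum_univ_two] <;> ring
  have c0 := congrFun hcol 0; have c1 := congrFun hcol 1
  simp at c0 c1
  have hd : M.det = S.det := by
    rw [hM, Matrix.det_mul, Matrix.det_mul, mul_right_comm, ← Matrix.det_mul, IsUnit.val_inv_mul,
      Matrix.det_one, one_mul]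
  rw [Matrix.det_fin_two, c0, c1, mul_one, ← hdet] at hd
  refine ⟨hR.unit, g2⁻¹, M 0 1 / b2, ?_⟩
  rw [IsUnit.unit_spec, hRM]
  congr 1
  ext i j
  fin_cases i <;> fin_cases j <;> simp [c0, c1, a, hg2]
  · field_simp
  · field_simp
    linear_combination hd

/-- A lower triangular matrix with distinct diagonal is similar to its diagonal. -/
theorem lower_conj_diag (b1 b2 b3 x y z : F) (h12 : b1 ≠ b2) (h13 : b1 ≠ b3) (h23 : b2 ≠ b3) :
    ∃ X : GL (Fin 3) F,
      !![b1, 0, 0; x, b2, 0; y, z, b3] * (X : Matrix (Fin 3) (Fin 3) F)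
        = X * Matrix.diagonal ![b1, b2, b3] := by
  let a := x / (b1 - b2)
  let c := z / (b2 - b3)
  let d := (y + z * a) / (b1 - b3)
  have hX : IsUnit (!![1, 0, 0; a, 1, 0; d, c, 1] : Matrix (Fin 3) (Fin 3) F) :=
    (Matrix.isUnit_iff_isUnit_det _).mpr (by simp [Matrix.det_fin_three])
  refine ⟨hX.unit, ?_⟩
  rw [IsUnit.unit_spec]
  have e12 := sub_ne_zero.mpr h12; have e13 := sub_ne_zero.mpr h13; have e23 := sub_ne_zero.mpr h23
  ext i j
  fin_cases i <;> fin_cases j <;>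
    simp [Matrix.mul_apply, Fin.sum_univ_three, a, c, d] <;> field_simp <;> ring

/-- An upper triangular matrix with distinct diagonal is similar to its diagonal. -/
theorem upper_conj_diag (b1 b2 b3 x y z : F) (h12 : b1 ≠ b2) (h13 : b1 ≠ b3) (h23 : b2 ≠ b3) :
    ∃ X : GL (Fin 3) F,
      !![b1, x, y; 0, b2, z; 0, 0, b3] * (X : Matrix (Fin 3) (Fin 3) F)
        = X * Matrix.diagonal ![b1, b2, b3] := by
  let a := x / (b2 - b1)
  let c := z / (b3 - b2)
  let d := (y + x * c) / (b3 - b1)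
  have hX : IsUnit (!![1, a, d; 0, 1, c; 0, 0, 1] : Matrix (Fin 3) (Fin 3) F) :=
    (Matrix.isUnit_iff_isUnit_det _).mpr (by simp [Matrix.det_fin_three])
  refine ⟨hX.unit, ?_⟩
  rw [IsUnit.unit_spec]
  have e12 := sub_ne_zero.mpr h12.symm; have e13 := sub_ne_zero.mpr h13.symm
  have e23 := sub_ne_zero.mpr h23.symm
  ext i j
  fin_cases i <;> fin_cases j <;>
    simp [Matrix.mul_apply, Fin.sum_univ_three, a, c, d] <;> field_simp <;> ring

/-- A non-scalar matrix in `GL_3` is a product of conjugates of two regular diagonal matrices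
with the same determinant product. -/
theorem exists_product_of_diagonal_conjugates (A : GL (Fin 3) F)
    (hA : ¬ ∃ c : F, (A : Matrix (Fin 3) (Fin 3) F) = c • 1) (D E : GL (Fin 3) F)
    (β γ : Fin 3 → F) (hD : (D : Matrix (Fin 3) (Fin 3) F) = Matrix.diagonal β)
    (hE : (E : Matrix (Fin 3) (Fin 3) F) = Matrix.diagonal γ)
    (hβ : Function.Injective β) (hγ : Function.Injective γ)
    (hdet : (β 0 * γ 0) * ((β 1 * γ 1) * (β 2 * γ 2)) = (A : Matrix (Fin 3) (Fin 3) F).det) :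
    ∃ X Y : GL (Fin 3) F, A = (X * D * X⁻¹) * (Y * E * Y⁻¹) := by
  have hA0 : (A : Matrix (Fin 3) (Fin 3) F).det ≠ 0 := (Matrix.GeneralLinearGroup.det A).ne_zero
  rw [← hdet] at hA0
  simp only [mul_ne_zero_iff] at hA0
  obtain ⟨⟨hb0, hg0⟩, ⟨hb1, hg1⟩, hb2, hg2⟩ := hA0
  set a := β 0 * γ 0
  have ha : a ≠ 0 := mul_ne_zero hb0 hg0
  obtain ⟨P, b1, b2, d11, d12, d21, d22, hP⟩ := exists_cyclic_start _ hA a
  set S0 : Matrix (Fin 2) (Fin 2) F := !![d11 - b1 / a, d12 - b2 / a; d21, d22] with hS0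
  have hdS0 : a * S0.det = (A : Matrix (Fin 3) (Fin 3) F).det := by
    have h := congrArg Matrix.det hP
    rw [Matrix.det_mul, Matrix.det_mul, mul_comm] at h
    rw [mul_left_cancel₀ (Matrix.GeneralLinearGroup.det P).ne_zero h]
    simp [hS0, Matrix.det_fin_three, Matrix.det_fin_two]
    field_simp
    ring
  -- make the Schur complement non-scalar
  obtain ⟨P, b1, b2, d11, d12, d21, d22, hP, hns⟩ : ∃ (P : GL (Fin 3) F) (b1 b2 d11 d12 d21 d22 : F),
      (A : Matrix (Fin 3) (Fin 3) F) * (P : Matrix (Fin 3) (Fin 3) F)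
        = P * !![a, b1, b2; 1, d11, d12; 0, d21, d22] ∧
      ¬ ∃ c : F, (!![d11 - b1 / a, d12 - b2 / a; d21, d22] : Matrix (Fin 2) (Fin 2) F) = c • 1 := by
    by_cases hs : ∃ c : F, S0 = c • (1 : Matrix (Fin 2) (Fin 2) F)
    · obtain ⟨c, hc⟩ := hs
      have e01 := congrFun (congrFun hc 0) 1; have e10 := congrFun (congrFun hc 1) 0
      have e11 := congrFun (congrFun hc 1) 1
      simp [hS0] at e01 e10 e11
      subst e10
      have hd22 : d22 ≠ 0 := by
        intro h0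
        have hA0' : (A : Matrix (Fin 3) (Fin 3) F).det ≠ 0 := (Matrix.GeneralLinearGroup.det A).ne_zero
        apply hA0'
        rw [← hdS0]
        simp [hS0, Matrix.det_fin_two, h0]
      have hT : IsUnit (!![1, 0, 1; 0, 1, 0; 0, 0, 1] : Matrix (Fin 3) (Fin 3) F) :=
        (Matrix.isUnit_iff_isUnit_det _).mpr (by simp [Matrix.det_fin_three])
      refine ⟨P * hT.unit, b1, b2 + a - d22, d11, d12 + 1, 0, d22, ?_, ?_⟩
      · rw [Units.val_mul, IsUnit.unit_spec, ← Matrix.mul_assoc, hP, Matrix.mul_assoc, Matrix.mul_assoc]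
        congr 1
        ext i j
        fin_cases i <;> fin_cases j <;> simp [Matrix.mul_apply, Fin.sum_univ_three] <;> ring
      · rintro ⟨c', hc'⟩
        have h := congrFun (congrFun hc' 0) 1
        simp at h
        field_simp at h e01
        exact hd22 (by linear_combination h - e01)
    · exact ⟨P, b1, b2, d11, d12, d21, d22, hP, hs⟩
  have hdS : a * (!![d11 - b1 / a, d12 - b2 / a; d21, d22] : Matrix (Fin 2) (Fin 2) F).det
      = (A : Matrix (Fin 3) (Fin 3) F).det := by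
    have h := congrArg Matrix.det hP
    rw [Matrix.det_mul, Matrix.det_mul, mul_comm] at h
    rw [mul_left_cancel₀ (Matrix.GeneralLinearGroup.det P).ne_zero h]
    simp [Matrix.det_fin_three, Matrix.det_fin_two]
    field_simp
    ring
  obtain ⟨R, l, r, hR⟩ := exists_lu_two _ hns hb1 hg1 (b3 := β 2) (g3 := γ 2)
    (mul_left_cancel₀ ha (by rw [hdS, ← hdet]))
  set Rm : Matrix (Fin 2) (Fin 2) F := (R : Matrix (Fin 2) (Fin 2) F) with hRm
  set Q : Matrix (Fin 3) (Fin 3) F := !![1, 0, 0; 0, Rm 0 0, Rm 0 1; 0, Rm 1 0, Rm 1 1] with hQ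
  have hQu : IsUnit Q := (Matrix.isUnit_iff_isUnit_det _).mpr (by
    rw [show Q.det = Rm.det by simp [hQ, Matrix.det_fin_three, Matrix.det_fin_two]]
    exact (Matrix.GeneralLinearGroup.det R).isUnit)
  set Ri : Matrix (Fin 2) (Fin 2) F := ((R⁻¹ : GL (Fin 2) F) : Matrix (Fin 2) (Fin 2) F) with hRi
  have hRR : Rm * Ri = 1 := by rw [hRm, hRi, ← Units.val_mul, mul_inv_cancel, Units.val_one]
  let L : Matrix (Fin 3) (Fin 3) F :=
    !![β 0, 0, 0; Ri 0 0 / γ 0, β 1, 0; Ri 1 0 / γ 0, l, β 2]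
  let U : Matrix (Fin 3) (Fin 3) F :=
    !![γ 0, (b1 * Rm 0 0 + b2 * Rm 1 0) / β 0, (b1 * Rm 0 1 + b2 * Rm 1 1) / β 0;
       0, γ 1, r; 0, 0, γ 2]
  have hAQ : (A : Matrix (Fin 3) (Fin 3) F) * ((P : Matrix (Fin 3) (Fin 3) F) * Q)
      = ((P : Matrix (Fin 3) (Fin 3) F) * Q) * (L * U) := by
    rw [← Matrix.mul_assoc, hP, Matrix.mul_assoc, Matrix.mul_assoc]
    congr 1
    have r00 := congrFun (congrFun hRR 0) 0; have r10 := congrFun (congrFun hRR 1) 0
    have s00 := congrFun (congrFun hR 0) 0; have s01 := congrFun (congrFun hR 0) 1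
    have s10 := congrFun (congrFun hR 1) 0; have s11 := congrFun (congrFun hR 1) 1
    simp [Matrix.mul_apply, Fin.sum_univ_two, ← hRm] at r00 r10 s00 s01 s10 s11
    ext i j
    fin_cases i <;> fin_cases j <;>
      simp [hQ, L, U, a, Matrix.mul_apply, Fin.sum_univ_three] <;> field_simp <;>
      simp only [a] at * <;> field_simp at * <;> grind
  obtain ⟨X, hX⟩ := lower_conj_diag (β 0) (β 1) (β 2) (Ri 0 0 / γ 0) (Ri 1 0 / γ 0) l
    (hβ.ne (by decide)) (hβ.ne (by decide)) (hβ.ne (by decide))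
  obtain ⟨Y, hY⟩ := upper_conj_diag (γ 0) (γ 1) (γ 2) ((b1 * Rm 0 0 + b2 * Rm 1 0) / β 0)
    ((b1 * Rm 0 1 + b2 * Rm 1 1) / β 0) r
    (hγ.ne (by decide)) (hγ.ne (by decide)) (hγ.ne (by decide))
  set W : GL (Fin 3) F := P * hQu.unit
  have eL : ((X * D * X⁻¹ : GL (Fin 3) F) : Matrix (Fin 3) (Fin 3) F) = L := by
    have : Matrix.diagonal ![β 0, β 1, β 2] = (D : Matrix (Fin 3) (Fin 3) F) := by
      rw [hD]; congr 1; funext i; fin_cases i <;> rfl
    rw [Units.val_mul, Units.val_mul, ← this, ← hX, Matrix.mul_assoc, ← Units.val_mul,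
      mul_inv_cancel, Units.val_one, mul_one]
  have eU : ((Y * E * Y⁻¹ : GL (Fin 3) F) : Matrix (Fin 3) (Fin 3) F) = U := by
    have : Matrix.diagonal ![γ 0, γ 1, γ 2] = (E : Matrix (Fin 3) (Fin 3) F) := by
      rw [hE]; congr 1; funext i; fin_cases i <;> rfl
    rw [Units.val_mul, Units.val_mul, ← this, ← hY, Matrix.mul_assoc, ← Units.val_mul,
      mul_inv_cancel, Units.val_one, mul_one]
  refine ⟨W * X, W * Y, ?_⟩
  have h : A * W = W * ((X * D * X⁻¹) * (Y * E * Y⁻¹)) := Units.ext (by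
    rw [Units.val_mul A W, Units.val_mul W _, Units.val_mul (X * D * X⁻¹) (Y * E * Y⁻¹), eL, eU]
    exact hAQ)
  calc A = A * W * W⁻¹ := by simp
    _ = _ := by rw [h]; simp [mul_assoc]

end Cfsg.Agent.H71
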