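/-
Lower bound for the degree of a representation of a Suzuki group in which the centre of a
Sylow 2-subgroup acts non-trivially.
-/
import Cfsg.Agent.H71.SuzukiElements

set_option autoImplicit false

open Matrix Finset

namespace Cfsg.Agent.H71.Suz

variable {F : Type*} [Field F] [Fintype F] {e : ℕ}

/-- `x ↦ x ^ e + x` as an additive map. -/
def artinMap (h : IsTwist F e) : F →+ F :=
  AddMonoidHom.mk' (fun x => x ^ e + x) fun x y => by simp only [h.add]; ring

omit [Fintype F] in
theorem eq_zero_or_one_of_pow_eq (h : IsTwist F e) {x : F} (hx : x ^ e = x) : x = 0 ∨ x = 1 := by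
  have h1 := h.twice x
  rw [hx, hx] at h1
  have : x * (x - 1) = 0 := by linear_combination -h1
  rcases mul_eq_zero.mp this with h2 | h2
  · exact Or.inl h2
  · exact Or.inr (sub_eq_zero.mp h2)

theorem artinMap_range_index (h : IsTwist F e) : (artinMap h).range.index = 2 := by
  classical
  have h2 := h.two
  have hker : Nat.card (artinMap h).ker = 2 := by
    have : ((artinMap h).ker : Set F) = {0, 1} := by
      ext x
      simp only [SetLike.mem_coe, AddMonoidHom.mem_ker, artinMap, AddMonoidHom.mk'_apply,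
        Set.mem_insert_iff, Set.mem_singleton_iff]
      refine ⟨fun hx => eq_zero_or_one_of_pow_eq h ?_, ?_⟩
      · grind
      · rintro (rfl | rfl)
        · simp [zero_pow h.ne_zero]
        · simp; grind
    rw [← SetLike.coe_sort_coe, Nat.card_coe_set_eq, this, Set.ncard_pair zero_ne_one]
  have h1 := AddSubgroup.card_eq_card_quotient_mul_card_addSubgroup (artinMap h).ker
  have e1 := Nat.card_congr (QuotientAddGroup.quotientKerEquivRange (artinMap h)).toEquiv
  rw [e1, hker] at h1
  have h3 := AddSubgroup.index_mul_card (artinMap h).range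
  have hpos : 0 < Nat.card (artinMap h).range := Nat.card_pos
  rw [h1] at h3
  have h4 : (artinMap h).range.index * Nat.card (artinMap h).range
      = 2 * Nat.card (artinMap h).range := by rw [h3, mul_comm]
  exact Nat.eq_of_mul_eq_mul_right hpos h4

omit [Fintype F] in
theorem pow_succ_injective (h : IsTwist F e) {a a' : F} (ha' : a' ≠ 0)
    (hh : a ^ e * a = a' ^ e * a') : a = a' := by
  have h2 := h.two
  have ht : (a / a') ^ e * (a / a') = 1 := by
    rw [div_pow, div_mul_div_comm, hh, div_self (mul_ne_zero (pow_ne_zero _ ha') ha')]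
  have hne : a / a' ≠ 0 := fun h0 => by simp [h0] at ht
  have h1 : (a / a') ^ e = (a / a')⁻¹ := eq_inv_of_mul_eq_one_left ht
  have h3 := h.twice (a / a')
  rw [h1, inv_pow, h1, inv_inv] at h3
  have : (a / a') * (a / a' - 1) = 0 := by linear_combination -h3
  have h4 : a / a' = 1 := sub_eq_zero.mp ((mul_eq_zero.mp this).resolve_left hne)
  exact (div_eq_one_iff_eq ha').mp h4

/-- The commutator pairing attached to a character. -/
def pairing (h : IsTwist F e) (l : AddChar F ℂ) (a : F) : AddChar F ℂ :=
  l.compAddMonoidHom (AddMonoidHom.mk' (fun c => c ^ e * a + a ^ e * c)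
    fun x y => by simp only [h.add]; ring)

omit [Fintype F] in
theorem pairing_add (h : IsTwist F e) (l : AddChar F ℂ) (a a' : F) (c : F) :
    pairing h l (a + a') c = pairing h l a c * pairing h l a' c := by
  simp only [pairing, AddChar.compAddMonoidHom_apply, AddMonoidHom.mk'_apply, h.add]
  rw [← AddChar.map_add_eq_mul]
  ring_nf

omit [Fintype F] in
theorem char_sq (h : IsTwist F e) (l : AddChar F ℂ) (x : F) : l x * l x = 1 := by
  rw [← AddChar.map_add_eq_mul, show x + x = 0 by linear_combination x * h.two,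
    AddChar.map_zero_eq_one]

/-- The radical of the pairing of a nontrivial character has at most two elements. -/
theorem radical_eq (h : IsTwist F e) {l : AddChar F ℂ} (hl : l ≠ 1) {a a' : F} (ha : a ≠ 0)
    (ha' : a' ≠ 0) (hr : pairing h l a = 1) (hr' : pairing h l a' = 1) : a = a' := by
  classical
  refine pow_succ_injective h ha' ?_
  by_contra hne
  have hkey : ∀ b : F, b ≠ 0 → pairing h l b = 1 →
      ∀ y ∈ (artinMap h).range, l (b ^ e * b * y) = 1 := by
    rintro b hb hb1 y ⟨x, rfl⟩
    have := DFunLike.congr_fun hb1 (b * x)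
    simp only [pairing, AddChar.compAddMonoidHom_apply, AddMonoidHom.mk'_apply,
      AddChar.one_apply] at this
    simp only [artinMap, AddMonoidHom.mk'_apply]
    rw [← this, mul_pow]
    ring_nf
  have hidx := artinMap_range_index h
  have hneg : ∀ b : F, b ≠ 0 → pairing h l b = 1 →
      ∀ y ∉ (artinMap h).range, l (b ^ e * b * y) = -1 := by
    intro b hb hb1 y hy
    rcases mul_self_eq_one_iff.mp (char_sq h l (b ^ e * b * y)) with h1 | h1
    · exfalso
      refine hl (DFunLike.ext _ _ fun x => ?_)
      have hb3 : b ^ e * b ≠ 0 := mul_ne_zero (pow_ne_zero _ hb) hb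
      rw [AddChar.one_apply, show x = b ^ e * b * (x / (b ^ e * b)) by field_simp]
      set z := x / (b ^ e * b)
      by_cases hz : z ∈ (artinMap h).range
      · exact hkey b hb hb1 z hz
      · have hmem : y + z ∈ (artinMap h).range :=
          (AddSubgroup.add_mem_iff_of_index_two hidx).mpr ⟨fun h' => absurd h' hy, fun h' => absurd h' hz⟩
        have := hkey b hb hb1 _ hmem
        rw [mul_add, AddChar.map_add_eq_mul, h1, one_mul] at this
        exact this
    · exact h1
  refine hl (DFunLike.ext _ _ fun x => ?_)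
  have hd : a ^ e * a - a' ^ e * a' ≠ 0 := sub_ne_zero.mpr hne
  rw [AddChar.one_apply,
    show x = (a ^ e * a) * (x / (a ^ e * a - a' ^ e * a')) + (a' ^ e * a') * (x / (a ^ e * a - a' ^ e * a')) by
      field_simp; linear_combination -(x * (a' ^ e * a')) * h.two,
    AddChar.map_add_eq_mul]
  set z := x / (a ^ e * a - a' ^ e * a')
  by_cases hz : z ∈ (artinMap h).range
  · rw [hkey a ha hr z hz, hkey a' ha' hr' z hz, one_mul]
  · rw [hneg a ha hr z hz, hneg a' ha' hr' z hz]; norm_num

/-- Twisted-commuting invertible operators are many only in high dimension. -/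
theorem card_le_two_mul_finrank_sq (h : IsTwist F e) {l : AddChar F ℂ} (hl : l ≠ 1)
    {W : Type*} [AddCommGroup W] [Module ℂ W] [FiniteDimensional ℂ W] [Nontrivial W]
    (U U' : F → Module.End ℂ W) (hU : ∀ a, U a * U' a = 1)
    (hc : ∀ a c, U c * U a = pairing h l a c • (U a * U c)) :
    Fintype.card F ≤ 2 * Module.finrank ℂ W ^ 2 := by
  classical
  let S := (Finset.univ : Finset F).image (pairing h l)
  have hfib : ∀ ψ ∈ S, #{a ∈ (Finset.univ : Finset F) | pairing h l a = ψ} ≤ 2 := by
    intro ψ hψ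
    obtain ⟨a0, -, rfl⟩ := Finset.mem_image.mp hψ
    by_cases hex : ∃ r : F, r ≠ 0 ∧ pairing h l r = 1
    · obtain ⟨r, hr, hr1⟩ := hex
      refine (Finset.card_le_card (t := {a0, a0 + r}) fun a ha => ?_).trans Finset.card_le_two
      simp only [Finset.mem_filter, Finset.mem_univ, true_and] at ha
      by_cases h0 : a = a0
      · simp [h0]
      · have hne : a + a0 ≠ 0 := fun h' => h0 (by linear_combination h' - a0 * h.two)
        have h1 : pairing h l (a + a0) = 1 := DFunLike.ext _ _ fun c => by
          rw [pairing_add, ha]; exact char_sq h l _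
        have := radical_eq h hl hne hr h1 hr1
        simp only [Finset.mem_insert, Finset.mem_singleton]
        exact Or.inr (by linear_combination this - a0 * h.two)
    · refine (Finset.card_le_one.mpr fun a ha a' ha' => ?_).trans (by norm_num)
      simp only [Finset.mem_filter, Finset.mem_univ, true_and] at ha ha'
      by_contra h0
      refine hex ⟨a + a', fun h' => h0 (by linear_combination h' - a' * h.two), DFunLike.ext _ _ fun c => ?_⟩
      rw [pairing_add, ha, ha']; exact char_sq h l _
  have hcard : Fintype.card F ≤ 2 * #S := by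
    simpa using Finset.card_le_mul_card_image (Finset.univ : Finset F) 2 hfib
  have hrep : ∀ ψ : S, ∃ a, pairing h l a = ψ.1 := fun ψ => by
    obtain ⟨a, -, ha⟩ := Finset.mem_image.mp ψ.2
    exact ⟨a, ha⟩
  choose rep hrep using hrep
  have hne : ∀ a, U a ≠ 0 := fun a h0 => one_ne_zero (α := Module.End ℂ W) (by rw [← hU a, h0, zero_mul])
  have hli : LinearIndependent ℂ fun ψ : S => U (rep ψ) := by
    rw [Fintype.linearIndependent_iff]
    intro g hg ψ0
    have hg' : ∑ ψ, g ψ • U (rep ψ) = 0 := hg
    have hsum : ∑ c : F, pairing h l (rep ψ0) c • (U c * (∑ ψ, g ψ • U (rep ψ)) * U' c) = 0 := by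
      simp only [hg', mul_zero, zero_mul, smul_zero, Finset.sum_const_zero]
    have hconj : ∀ a c, U c * U a * U' c = pairing h l a c • U a := fun a c => by
      rw [hc, smul_mul_assoc, mul_assoc, hU, mul_one]
    simp only [Finset.mul_sum, Finset.sum_mul, mul_smul_comm, smul_mul_assoc, hconj,
      Finset.smul_sum, smul_smul] at hsum
    rw [Finset.sum_comm] at hsum
    simp only [← Finset.sum_smul] at hsum
    rw [Finset.sum_eq_single ψ0 ?_ (fun h' => absurd (Finset.mem_univ ψ0) h')] at hsum
    · have hs : ∑ c : F, pairing h l (rep ψ0) c * (g ψ0 * pairing h l (rep ψ0) c)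
          = (Fintype.card F : ℂ) * g ψ0 := by
        have : ∀ c, pairing h l (rep ψ0) c * (g ψ0 * pairing h l (rep ψ0) c) = g ψ0 := fun c => by
          have hsq : pairing h l (rep ψ0) c * pairing h l (rep ψ0) c = 1 := char_sq h l _
          linear_combination g ψ0 * hsq
        simp [this]
      rw [hs, smul_eq_zero] at hsum
      rcases hsum with h1 | h1
      · exact (mul_eq_zero.mp h1).resolve_left (by simp [Fintype.card_ne_zero])
      · exact absurd h1 (hne _)
    · intro ψ _ hψ
      have h0 : pairing h l (rep ψ0 + rep ψ) ≠ 1 := fun h1 => hψ (by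
        apply Subtype.ext
        rw [← hrep ψ, ← hrep ψ0]
        refine DFunLike.ext _ _ fun c => ?_
        have h3 := DFunLike.congr_fun h1 c
        rw [pairing_add, AddChar.one_apply] at h3
        have hsq : pairing h l (rep ψ) c * pairing h l (rep ψ) c = 1 := char_sq h l _
        linear_combination -(pairing h l (rep ψ) c) * h3 + (pairing h l (rep ψ0) c) * hsq)
      have hs : ∑ c : F, pairing h l (rep ψ0) c * (g ψ * pairing h l (rep ψ) c) = 0 := by
        have h1 := AddChar.sum_eq_zero_of_ne_one h0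
        simp only [pairing_add] at h1
        calc _ = g ψ * ∑ c : F, pairing h l (rep ψ0) c * pairing h l (rep ψ) c := by
              rw [Finset.mul_sum]; exact Finset.sum_congr rfl fun c _ => by ring
          _ = 0 := by rw [h1, mul_zero]
      rw [hs, zero_smul]
  have h5 := hli.fintype_card_le_finrank
  rw [Fintype.card_coe, Module.finrank_linearMap] at h5
  calc Fintype.card F ≤ 2 * #S := hcard
    _ ≤ _ := by rw [sq]; omega

/-- A representation of `Sz(q)` in which the Sylow centre acts nontrivially has degree at least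
`2 ^ m * (q - 1)`. -/
theorem degree_bound {m : ℕ} (hF : Fintype.card F = 2 ^ (2 * m + 1)) {V : Type*} [AddCommGroup V]
    [Module ℂ V] [FiniteDimensional ℂ V]
    (ρ : ↥(Cfsg.Lie.Sz F (2 ^ (m + 1))) →* Module.End ℂ V) {b₀ : F}
    (hb₀ : ρ ⟨u (isTwist_of_card m hF) 0 b₀, u_mem _ _ _⟩ ≠ 1) :
    2 ^ m * (2 ^ (2 * m + 1) - 1) ≤ Module.finrank ℂ V := by
  classical
  set hT := isTwist_of_card m hF with hTdef
  clear_value hT
  let uG : F → F → ↥(Cfsg.Lie.Sz F (2 ^ (m + 1))) := fun a b => ⟨u hT a b, u_mem hT a b⟩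
  have hmul : ∀ a b c d, uG a b * uG c d = uG (a + c) (b + d + a ^ (2 ^ (m + 1)) * c) :=
    fun a b c d => Subtype.ext (u_mul hT a b c d)
  let Z : F → Module.End ℂ V := fun b => ρ (uG 0 b)
  have hZ0 : Z 0 = 1 := by
    rw [show Z 0 = ρ (uG 0 0) from rfl, show uG 0 0 = 1 from Subtype.ext (u_zero hT), map_one]
  have hZadd : ∀ b d, Z b * Z d = Z (b + d) := fun b d => by
    simp [Z, ← map_mul, hmul, zero_pow hT.ne_zero]
  have hcent : ∀ a b c, uG 0 b * uG a c = uG a c * uG 0 b := fun a b c => by
    simp only [hmul, zero_pow hT.ne_zero]; ring_nf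
  -- a nontrivial eigen-character
  obtain ⟨l, hl, v₀, hv₀, hev₀⟩ : ∃ l : AddChar F ℂ, l ≠ 1 ∧ ∃ v : V, v ≠ 0 ∧ ∀ b, Z b v = l b • v := by
    obtain ⟨v, hv⟩ : ∃ v, Z b₀ v ≠ v := by
      by_contra! hall
      exact hb₀ (LinearMap.ext hall)
    let P : AddChar F ℂ → V := fun μ => ∑ b, μ b • Z b v
    have hP : ∀ μ b, Z b (P μ) = μ b • P μ := by
      intro μ b
      simp only [P, map_sum, map_smul, ← Module.End.mul_apply, hZadd, Finset.smul_sum, smul_smul]
      refine Fintype.sum_equiv (Equiv.addLeft b) _ _ fun x => ?_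
      simp only [Equiv.coe_addLeft]
      rw [AddChar.map_add_eq_mul, ← mul_assoc, char_sq hT, one_mul]
    have hsum : ∑ μ, P μ = (Fintype.card F : ℂ) • v := by
      simp only [P]
      rw [Finset.sum_comm]
      simp only [← Finset.sum_smul, AddChar.sum_apply_eq_ite]
      simp [ite_smul, hZ0]
    by_contra! hall
    have hz : ∀ μ : AddChar F ℂ, μ ≠ 1 → P μ = 0 := fun μ hμ => by
      by_contra h0
      obtain ⟨b, hb⟩ := hall μ hμ (P μ) h0
      exact hb (hP μ b)
    rw [Finset.sum_eq_single 1 (fun μ _ hμ => hz μ hμ) (fun h' => absurd (Finset.mem_univ _) h')] at hsum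
    have := hP 1 b₀
    rw [AddChar.one_apply, one_smul, hsum, map_smul] at this
    exact hv ((smul_right_inj (Nat.cast_ne_zero.mpr Fintype.card_ne_zero)).mp this)
  let W : Submodule ℂ V := ⨅ b, LinearMap.ker (Z b - l b • (1 : Module.End ℂ V))
  have hmemW : ∀ v, v ∈ W ↔ ∀ b, Z b v = l b • v := fun v => by
    simp [W, sub_eq_zero]
  have : Nontrivial W := ⟨⟨⟨v₀, (hmemW _).mpr hev₀⟩, 0, fun h' => hv₀ (congrArg Subtype.val h')⟩⟩
  have hstab : ∀ a c, ∀ v ∈ W, ρ (uG a c) v ∈ W := by
    intro a c v hv
    rw [hmemW] at hv ⊢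
    intro b
    show (ρ (uG 0 b) * ρ (uG a c)) v = _
    rw [← map_mul, hcent, map_mul, Module.End.mul_apply, hv b, map_smul]
  have hdimW : 2 ^ m ≤ Module.finrank ℂ W := by
    have hq := card_le_two_mul_finrank_sq hT hl (W := W)
      (fun a => (ρ (uG a 0)).restrict (hstab a 0))
      (fun a => (ρ (uG a (a ^ (2 ^ (m + 1)) * a))).restrict (hstab a _))
      (fun a => by
        refine LinearMap.ext fun v => Subtype.ext ?_
        show (ρ (uG a 0) * ρ (uG a (a ^ (2 ^ (m + 1)) * a))) v = v
        rw [← map_mul, hmul, show a + a = 0 by linear_combination a * hT.two,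
          show 0 + a ^ (2 ^ (m + 1)) * a + a ^ (2 ^ (m + 1)) * a = 0 by
            linear_combination a ^ (2 ^ (m + 1)) * a * hT.two]
        exact congrArg (fun f : Module.End ℂ V => f v) hZ0)
      (fun a c => by
        refine LinearMap.ext fun v => Subtype.ext ?_
        show (ρ (uG c 0) * ρ (uG a 0)) v
          = pairing hT l a c • (ρ (uG a 0) * ρ (uG c 0)) v
        have hid : uG c 0 * uG a 0
            = uG 0 (c ^ (2 ^ (m + 1)) * a + a ^ (2 ^ (m + 1)) * c) * (uG a 0 * uG c 0) := by
          rw [hmul, hmul, hmul]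
          congr 1
          · ring
          · rw [zero_pow hT.ne_zero]
            linear_combination -(a ^ (2 ^ (m + 1)) * c) * hT.two
        rw [← map_mul, hid, map_mul, map_mul, Module.End.mul_apply]
        exact (hmemW _).mp (hstab a 0 _ (hstab c 0 _ v.2)) _)
    rw [hF, pow_succ, show (2 : ℕ) ^ (2 * m) = (2 ^ m) ^ 2 by rw [← pow_mul]; ring_nf] at hq
    exact (Nat.pow_le_pow_iff_left (two_ne_zero)).mp (by omega)
  -- the torus translates of `W` are independent
  let hG : Fˣ → ↥(Cfsg.Lie.Sz F (2 ^ (m + 1))) := fun t => ⟨torus _ t, torus_mem hT t⟩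
  have htor : ∀ (t : Fˣ), ∀ v ∈ W, ∀ b, Z b (ρ (hG t) v) = l (b * (t : F) ^ (2 ^ (m + 1))) • ρ (hG t) v := by
    intro t v hv b
    have hid : uG 0 b * hG t = hG t * uG 0 (b * (t : F) ^ (2 ^ (m + 1))) := by
      refine Subtype.ext ?_
      show u hT 0 b * torus _ t = torus _ t * u hT 0 _
      rw [torus_conj_center hT, mul_div_cancel_right₀ _ (pow_ne_zero _ t.ne_zero)]
    show (ρ (uG 0 b) * ρ (hG t)) v = _
    rw [← map_mul, hid, map_mul, Module.End.mul_apply, (hmemW v).mp hv, map_smul]
  let Φ : (Fˣ → W) →ₗ[ℂ] V := ∑ t, (ρ (hG t)).comp (W.subtype.comp (LinearMap.proj t))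
  have hΦ : Function.Injective Φ := by
    rw [← LinearMap.ker_eq_bot, Submodule.eq_bot_iff]
    intro f hf
    funext s
    rw [LinearMap.mem_ker] at hf
    have hf' : ∑ t, ρ (hG t) (f t : V) = 0 := by simpa [Φ] using hf
    have h1 : ∑ b : F, l (b * (s : F) ^ (2 ^ (m + 1))) • Z b (∑ t, ρ (hG t) (f t : V)) = 0 := by
      simp [hf']
    simp only [map_sum, htor _ _ (f _).2, Finset.smul_sum, smul_smul] at h1
    rw [Finset.sum_comm] at h1
    simp only [← Finset.sum_smul] at h1
    rw [Finset.sum_eq_single s ?_ (fun h' => absurd (Finset.mem_univ s) h')] at h1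
    · simp only [char_sq hT, Finset.sum_const, Finset.card_univ, nsmul_eq_mul, mul_one] at h1
      have h2 := (smul_eq_zero.mp h1).resolve_left (Nat.cast_ne_zero.mpr Fintype.card_ne_zero)
      have h3 := congrArg (ρ (hG s)⁻¹) h2
      rw [← Module.End.mul_apply, ← map_mul, inv_mul_cancel, map_one, map_zero] at h3
      exact Subtype.ext h3
    · intro t _ hts
      have hne : (s : F) ^ (2 ^ (m + 1)) + (t : F) ^ (2 ^ (m + 1)) ≠ 0 := by
        rw [← hT.add]
        refine pow_ne_zero _ fun h' => hts (Units.ext ?_)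
        linear_combination h' - (s : F) * hT.two
      have hψ : (l.compAddMonoidHom
          (AddMonoidHom.mulRight ((s : F) ^ (2 ^ (m + 1)) + (t : F) ^ (2 ^ (m + 1))))) ≠ 1 := by
        intro h'
        refine hl (DFunLike.ext _ _ fun x => ?_)
        have := DFunLike.congr_fun h' (x / ((s : F) ^ (2 ^ (m + 1)) + (t : F) ^ (2 ^ (m + 1))))
        simpa [AddChar.compAddMonoidHom_apply, div_mul_cancel₀ _ hne] using this
      have h4 := AddChar.sum_eq_zero_of_ne_one hψ
      simp only [AddChar.compAddMonoidHom_apply, AddMonoidHom.coe_mulRight, mul_add,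
        AddChar.map_add_eq_mul] at h4
      rw [h4, zero_smul]
  have := LinearMap.finrank_le_finrank_of_injective hΦ
  rw [Module.finrank_pi_fintype, Finset.sum_const, Finset.card_univ, Fintype.card_units, hF,
    smul_eq_mul] at this
  calc 2 ^ m * (2 ^ (2 * m + 1) - 1) ≤ Module.finrank ℂ W * (2 ^ (2 * m + 1) - 1) :=
        Nat.mul_le_mul_right _ hdimW
    _ ≤ _ := by rw [mul_comm]; exact this

end Cfsg.Agent.H71.Suz
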