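/-
Free subgroups of Suzuki-type matrix groups over polynomial rings.
-/
import Cfsg.Agent.H71.SuzukiElements

set_option autoImplicit false

open Matrix Polynomial

namespace Cfsg.Agent.H71.Suz

variable {R : Type*} [CommRing R]

/-- Matrix of the central unipotent element with parameter `b`. -/
def zMat (e : ℕ) (b : R) : Matrix (Fin 4) (Fin 4) R :=
  !![1, 0, 0, 0; 0, 1, 0, 0; b, 0, 1, 0; b ^ e, b, 0, 1]

theorem uMat_zero_eq_zMat {e : ℕ} (he : e ≠ 0) (b : R) : uMat e 0 b = zMat e b := by
  ext i j
  fin_cases i <;> fin_cases j <;> simp [uMat, zMat, zero_pow he]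

theorem zMat_map {S : Type*} [CommRing S] (f : R →+* S) (e : ℕ) (b : R) :
    (zMat e b).map f = zMat e (f b) := by
  ext i j
  fin_cases i <;> fin_cases j <;> simp [zMat]

theorem wMat_map {S : Type*} [CommRing S] (f : R →+* S) :
    (wMat : Matrix (Fin 4) (Fin 4) R).map f = wMat := by
  ext i j
  fin_cases i <;> fin_cases j <;> simp [wMat]

theorem zMat_mul' {e : ℕ} (hadd : ∀ b d : R, (b + d) ^ e = b ^ e + d ^ e) (b d : R) :
    zMat e b * zMat e d = zMat e (b + d) := by
  ext i j
  fin_cases i <;> fin_cases j <;>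
    simp [zMat, Matrix.mul_apply, Fin.sum_univ_four, hadd]

theorem zMat_mul {e : ℕ} (h : IsTwist R e) (b d : R) :
    zMat e b * zMat e d = zMat e (b + d) := by
  rw [← uMat_zero_eq_zMat h.ne_zero, ← uMat_zero_eq_zMat h.ne_zero, uMat_mul h,
    ← uMat_zero_eq_zMat h.ne_zero]
  simp [zero_pow h.ne_zero]

/-- Left exponent polynomial of a letter. -/
noncomputable def lft (F : Type*) [CommRing F] (x : ℕ × Bool) : F[X] :=
  X ^ (x.1 + 2) + if x.2 then X else 0

/-- Right exponent polynomial of a letter. -/
noncomputable def rgt (F : Type*) [CommRing F] (x : ℕ × Bool) : F[X] :=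
  X ^ (x.1 + 2) + if x.2 then 0 else X

theorem junction_ne_zero {F : Type*} [Field F] (h2 : (2 : F) = 0) (x y : ℕ × Bool)
    (hxy : x.1 = y.1 → x.2 = y.2) : rgt F x + lft F y ≠ 0 := by
  intro h
  obtain ⟨i, s⟩ := x
  obtain ⟨j, t⟩ := y
  simp only [rgt, lft] at h hxy
  by_cases hij : i = j
  · subst hij
    obtain rfl := hxy rfl
    have h1 := congrArg (fun p : F[X] => p.coeff 1) h
    cases s <;> simp [coeff_X_pow] at h1
  · have h1 := congrArg (fun p : F[X] => p.coeff (i + 2)) h
    cases s <;> cases t <;> simp [coeff_X_pow, coeff_X, hij] at h1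

theorem junction_degree {F : Type*} [Field F] (x y : ℕ × Bool) {N : ℕ} (hx : x.1 ≤ N) (hy : y.1 ≤ N) :
    (rgt F x + lft F y).natDegree ≤ N + 2 := by
  refine natDegree_add_le_of_degree_le ?_ ?_ <;>
    refine natDegree_add_le_of_degree_le ?_ ?_
  · simp; omega
  · split_ifs <;> simp
  · simp; omega
  · split_ifs <;> simp

/-- A vector whose last coordinate is nonzero and has largest degree, bounded by `D`. -/
def Dominant {F : Type*} [Field F] (D : ℕ) (v : Fin 4 → F[X]) : Prop :=
  v 3 ≠ 0 ∧ (v 3).natDegree ≤ D ∧ ∀ k, (v k).natDegree ≤ (v 3).natDegree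

theorem dominant_step {F : Type*} [Field F] {e D d : ℕ} (he : 2 ≤ e) {b : F[X]} (hb : b ≠ 0)
    (hb0 : 0 < b.natDegree) (hbd : b.natDegree ≤ d) {v : Fin 4 → F[X]} (hv : Dominant D v) :
    Dominant (D + e * d) ((zMat e b * wMat) *ᵥ v) := by
  obtain ⟨h3, hD, hk⟩ := hv
  have e0 : ((zMat e b * wMat) *ᵥ v) = ![v 3, v 2, b * v 3 + v 1, b ^ e * v 3 + (b * v 2 + v 0)] := by
    funext i
    fin_cases i <;>
      simp [zMat, wMat, Matrix.mulVec, dotProduct, Matrix.mul_apply, Fin.sum_univ_four] <;> ring
  rw [e0]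
  set n := b.natDegree with hn
  set M := (v 3).natDegree with hM
  have hlt : n + M < e * n + M := by nlinarith
  have hbe : (b ^ e * v 3).natDegree = e * n + M := by
    rw [natDegree_mul (pow_ne_zero _ hb) h3, natDegree_pow]
  have hrest : (b * v 2 + v 0).natDegree ≤ n + M := by
    refine natDegree_add_le_of_degree_le (natDegree_mul_le.trans ?_) ?_
    · have := hk 2; omega
    · have := hk 0; omega
  have htop : (b ^ e * v 3 + (b * v 2 + v 0)).natDegree = e * n + M := by
    rw [natDegree_add_eq_left_of_natDegree_lt (by omega), hbe]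
  refine ⟨?_, ?_, fun k => ?_⟩
  · intro h
    simp at h
    rw [h] at htop
    simp at htop
    omega
  · simp [htop]
    nlinarith
  · simp only [show ![v 3, v 2, b * v 3 + v 1, b ^ e * v 3 + (b * v 2 + v 0)] 3
      = b ^ e * v 3 + (b * v 2 + v 0) from rfl, htop]
    fin_cases k
    · simp; omega
    · have := hk 2; simp; omega
    · simp
      refine natDegree_add_le_of_degree_le (natDegree_mul_le.trans ?_) ?_
      · omega
      · have := hk 1; omega
    · simp [htop]

/-- The matrix attached to a word. -/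
noncomputable def wordMat (F : Type*) [CommRing F] (e : ℕ) (l : List (ℕ × Bool)) :
    Matrix (Fin 4) (Fin 4) F[X] :=
  (l.map fun x => zMat e (lft F x) * wMat * zMat e (rgt F x)).prod

/-- A reduced nonempty word has matrix `z * w * P * z'` with `P` dominant. -/
theorem wordMat_shape' {F : Type*} [Field F] {e : ℕ}
    (hadd : ∀ b d : F[X], (b + d) ^ e = b ^ e + d ^ e) (h2 : (2 : F) = 0) (he : 2 ≤ e) {N : ℕ} : ∀ (l : List (ℕ × Bool)) (x : ℕ × Bool),
      FreeGroup.IsReduced (x :: l) → (∀ y ∈ x :: l, y.1 ≤ N) →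
      ∃ (P : Matrix (Fin 4) (Fin 4) F[X]) (r : F[X]),
        wordMat F e (x :: l) = zMat e (lft F x) * wMat * P * zMat e r ∧
        Dominant (l.length * (e * (N + 2))) (fun k => P k 3) := by
  intro l
  induction l with
  | nil =>
      intro x _ _
      refine ⟨1, rgt F x, by simp [wordMat], by simp, by simp, fun k => ?_⟩
      fin_cases k <;> simp [Matrix.one_apply]
  | cons y l ih =>
      intro x hred hN
      obtain ⟨hxy, hred'⟩ := List.isChain_cons_cons.mp hred
      obtain ⟨P, r, hP, hdom⟩ := ih y hred' fun z hz => hN z (List.mem_cons_of_mem _ hz)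
      refine ⟨zMat e (rgt F x + lft F y) * wMat * P, r, ?_, ?_⟩
      · have : wordMat F e (x :: y :: l)
            = zMat e (lft F x) * wMat * zMat e (rgt F x) * wordMat F e (y :: l) := by
          simp [wordMat]
        rw [this, hP, ← zMat_mul' hadd]
        simp [Matrix.mul_assoc]
      · have hne := junction_ne_zero h2 x y hxy
        have hpos : 0 < (rgt F x + lft F y).natDegree := by
          refine Nat.pos_of_ne_zero fun h0 => ?_
          obtain ⟨i, s⟩ := x
          obtain ⟨j, t⟩ := y
          refine hne ?_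
          rw [eq_C_of_natDegree_eq_zero h0]
          cases s <;> cases t <;> simp [rgt, lft, coeff_X_pow]
        have := dominant_step he hne hpos
          (junction_degree x y (hN x (by simp)) (hN y (by simp))) hdom
        convert this using 1
        · simp; ring
        · funext k
          simp [Matrix.mul_assoc, Matrix.mulVec, dotProduct, Matrix.mul_apply]

end Cfsg.Agent.H71.Suz
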