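/-
A fixed-point-free isometry of odd order of a symplectic space whose `g - g⁻¹` has square
determinant commutes with a non-scalar isometry whose square is `±1`.
-/
import Cfsg.Agent.H71.IsometryTwist
import Cfsg.Agent.H2.Decomp

set_option autoImplicit false

namespace Cfsg.Agent.H71.TwistInvolution

open LinearMap (BilinForm)
open Polynomial IsometryTwist

variable {F V : Type*} [Field F] [AddCommGroup V] [Module F V]

theorem toLinearMap_pow (g : V ≃ₗ[F] V) :
    ∀ i : ℕ, (g.toLinearMap : Module.End F V) ^ i = (g ^ i).toLinearMap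
  | 0 => rfl
  | i + 1 => by rw [pow_succ, toLinearMap_pow g i, pow_succ]; rfl

theorem aeval_mem {f : Module.End F V} {U : Submodule F V} (h : ∀ v ∈ U, f v ∈ U) (P : F[X]) :
    ∀ v ∈ U, aeval f P v ∈ U := by
  induction P using Polynomial.induction_on with
  | C a => intro v hv; rw [aeval_C, Module.algebraMap_end_apply]; exact U.smul_mem a hv
  | add p q hp hq => intro v hv; rw [map_add]; exact U.add_mem (hp v hv) (hq v hv)
  | monomial n a ih =>
    intro v hv
    rw [pow_succ, ← mul_assoc, map_mul, aeval_X]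
    exact ih (f v) (h v hv)

theorem aeval_restrict {f : Module.End F V} {U : Submodule F V} (h : ∀ v ∈ U, f v ∈ U) (P : F[X])
    (x : U) : ((aeval (f.restrict h : Module.End F U) P x : U) : V) = aeval f P x := by
  induction P using Polynomial.induction_on generalizing x with
  | C a => rw [aeval_C, aeval_C, Module.algebraMap_end_apply, Module.algebraMap_end_apply]; rfl
  | add p q hp hq => rw [map_add, map_add, LinearMap.add_apply, Submodule.coe_add, hp, hq]; rfl
  | monomial n a ih =>
    rw [pow_succ, ← mul_assoc, map_mul (aeval (f.restrict h : Module.End F U)), map_mul (aeval f),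
      aeval_X, aeval_X]
    exact ih _

theorem commute_aeval {f g : Module.End F V} (h : Commute f g) (P : F[X]) :
    Commute (aeval f P) g := by
  induction P using Polynomial.induction_on' with
  | add p q hp hq => rw [map_add]; exact hp.add_left hq
  | monomial i a =>
    rw [aeval_monomial]
    exact (Algebra.commute_algebraMap_left a _).mul_left (h.pow_left i)

theorem aeval_adjoint (B : BilinForm F V) {f f' : Module.End F V}
    (h : ∀ x y, B (f x) y = B x (f' y)) (P : F[X]) :
    ∀ x y, B (aeval f P x) y = B x (aeval f' P y) := by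
  induction P using Polynomial.induction_on with
  | C a =>
    intro x y
    rw [aeval_C, aeval_C, Module.algebraMap_end_apply, Module.algebraMap_end_apply]
    simp
  | add p q hp hq => intro x y; simp [hp, hq]
  | monomial n a ih =>
    intro x y
    conv_lhs => rw [pow_succ, ← mul_assoc, mul_comm (C a * X ^ n), map_mul, aeval_X]
    conv_rhs => rw [pow_succ, ← mul_assoc, map_mul, aeval_X]
    rw [Module.End.mul_apply, Module.End.mul_apply, h, ih]

/-- The map `x ↦ u x` with `u ^ 2 = -1` as an equivalence. -/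
def sqNegEquiv (u : Module.End F V) (hu : u * u = -1) : V ≃ₗ[F] V :=
  LinearEquiv.ofLinearMap u (-u)
    (by rw [← Module.End.mul_eq_comp, mul_neg, hu, neg_neg]; rfl)
    (by rw [← Module.End.mul_eq_comp, neg_mul, hu, neg_neg]; rfl)

section irreducible

variable [FiniteDimensional F V] [Nontrivial V] {f : Module.End F V}
  (hirr : ∀ W : Submodule F V, (∀ w ∈ W, f w ∈ W) → W = ⊥ ∨ W = ⊤)

include hirr

theorem irreducible_minpoly : Irreducible (minpoly F f) := by
  have hint : IsIntegral F f := Algebra.IsIntegral.isIntegral f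
  refine irreducible_iff.2 ⟨minpoly.not_isUnit F f, fun {a b} hab => ?_⟩
  have hu : ∀ {c d : F[X]}, minpoly F f = c * d → aeval f c = 0 → IsUnit d := by
    intro c d hcd hc
    obtain ⟨e, he⟩ := minpoly.dvd F f hc
    have h1 : minpoly F f * 1 = minpoly F f * (e * d) := by
      rw [mul_one, ← mul_assoc, ← he, ← hcd]
    exact IsUnit.of_mul_eq_one_right e (mul_left_cancel₀ (minpoly.ne_zero hint) h1).symm
  rcases hirr (LinearMap.ker (aeval f b)) (fun w hw => by
    rw [LinearMap.mem_ker] at hw ⊢
    have hc : Commute (aeval f b) f := commute_aeval (Commute.refl f) b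
    rw [show aeval f b (f w) = f (aeval f b w) from LinearMap.congr_fun hc.eq w, hw, map_zero])
    with hk | hk
  · refine Or.inr (hu hab (LinearMap.ext fun v => LinearMap.ker_eq_bot.mp hk ?_))
    rw [LinearMap.zero_apply, map_zero]
    have h0 := LinearMap.congr_fun (minpoly.aeval F f) v
    rw [hab, mul_comm, map_mul] at h0
    exact h0
  · exact Or.inl (hu (hab.trans (mul_comm a b)) (LinearMap.ker_eq_top.mp hk))

omit hirr in
/-- `F[X] / (μ)` acting on the space. -/
noncomputable def jEnd (f : Module.End F V) : AdjoinRoot (minpoly F f) →ₐ[F] Module.End F V :=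
  Ideal.Quotient.liftₐ (Ideal.span {minpoly F f}) (aeval f) fun a ha => by
    obtain ⟨c, rfl⟩ := Ideal.mem_span_singleton.mp ha
    rw [map_mul, minpoly.aeval, zero_mul]

omit hirr [FiniteDimensional F V] [Nontrivial V] in
theorem jEnd_mk (P : F[X]) : jEnd f (AdjoinRoot.mk _ P) = aeval f P := rfl

omit [FiniteDimensional F V] [Nontrivial V] in
theorem jEnd_bijective [Fact (Irreducible (minpoly F f))] {w₀ : V} (hw : w₀ ≠ 0) :
    Function.Bijective ((LinearMap.applyₗ w₀).comp (jEnd f).toLinearMap) := by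
  constructor
  · rw [injective_iff_map_eq_zero]
    intro x hx
    by_contra hx0
    refine hw ?_
    have h1 : jEnd f x⁻¹ (jEnd f x w₀) = w₀ := by
      rw [← Module.End.mul_apply, ← map_mul, inv_mul_cancel₀ hx0, map_one]; rfl
    rw [← h1, show jEnd f x w₀ = 0 from hx, map_zero]
  · rw [← LinearMap.range_eq_top]
    refine (hirr _ ?_).resolve_left fun h => hw ?_
    · rintro _ ⟨x, rfl⟩
      refine ⟨AdjoinRoot.root _ * x, ?_⟩
      show jEnd f (AdjoinRoot.root _ * x) w₀ = f (jEnd f x w₀)
      rw [map_mul, show AdjoinRoot.root (minpoly F f) = AdjoinRoot.mk _ X from rfl, jEnd_mk, aeval_X]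
      rfl
    · rw [← Submodule.mem_bot F, ← h]
      exact ⟨1, by show jEnd f 1 w₀ = w₀; rw [map_one]; rfl⟩

/-- An irreducible endomorphism has a square root of minus one among its polynomials if
`q ^ dim` is not `3` modulo `4`. -/
theorem exists_sq_eq_neg_one [Fintype F]
    (h : Fintype.card F ^ Module.finrank F V % 4 ≠ 3) : ∃ P : F[X], aeval f P * aeval f P = -1 := by
  classical
  have := Fact.mk (irreducible_minpoly hirr)
  obtain ⟨w, hw⟩ := exists_ne (0 : V)
  let e := LinearEquiv.ofBijective _ (jEnd_bijective hirr hw)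
  have : Module.Finite F (AdjoinRoot (minpoly F f)) := Module.Finite.equiv e.symm
  have : Finite (AdjoinRoot (minpoly F f)) := Module.finite_of_finite F
  have := Fintype.ofFinite (AdjoinRoot (minpoly F f))
  have hcard : Fintype.card (AdjoinRoot (minpoly F f)) = Fintype.card F ^ Module.finrank F V := by
    rw [Module.card_eq_pow_finrank (K := F), e.finrank_eq]
  obtain ⟨c, hc⟩ := FiniteField.isSquare_neg_one_iff.mpr (hcard ▸ h)
  obtain ⟨P, rfl⟩ := AdjoinRoot.mk_surjective c
  exact ⟨P, by rw [← jEnd_mk, ← map_mul, ← hc, map_neg, map_one]⟩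

end irreducible

/-- The irreducible case. -/
theorem exists_of_irreducible [Fintype F] [FiniteDimensional F V] [Nontrivial V]
    (hodd : Odd (Fintype.card F)) {B : BilinForm F V} (hB : B.Nondegenerate) {N : ℕ} (hN : Odd N)
    {g : V ≃ₗ[F] V} (hg : g ∈ H2.isometries B) (hf : Fpf N g)
    (hirr : ∀ W : Submodule F V, (∀ w ∈ W, g w ∈ W) → W = ⊥ ∨ W = ⊤) :
    (∃ u : Module.End F V, u * u = -1 ∧ (∀ x y, B (u x) (u y) = B x y) ∧
      u * g.toLinearMap = g.toLinearMap * u) ∨ ¬ IsSquare (LinearMap.det (dlt g)) := by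
  classical
  set f : Module.End F V := g.toLinearMap with hfdef
  have := Fact.mk (irreducible_minpoly (f := f) hirr)
  obtain ⟨w₀, hw⟩ := exists_ne (0 : V)
  set μ := minpoly F f
  let K := AdjoinRoot μ
  let e : K ≃ₗ[F] V := LinearEquiv.ofBijective _ (jEnd_bijective (f := f) hirr hw)
  have : Module.Finite F K := Module.Finite.equiv e.symm
  have : Finite K := Module.finite_of_finite F
  have hjinj : Function.Injective (jEnd f) := fun a b hab =>
    e.injective (LinearMap.congr_fun hab w₀)
  set f' : Module.End F V := g.symm.toLinearMap with hf'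
  have hadj : ∀ x y, B (f x) y = B x (f' y) := fun x y => by
    conv_lhs => rw [← g.apply_symm_apply y]
    exact hg _ _
  have hff : f * f' = 1 := LinearMap.ext g.apply_symm_apply
  set ρ : K := AdjoinRoot.root μ with hρ
  set ρ' : K := ρ ^ (N - 1) with hρ'
  have hNpos : N - 1 + 1 = N := by have := hN.pos; omega
  have hjρ : jEnd f ρ = f := (jEnd_mk X).trans (aeval_X f)
  have hjρ' : jEnd f ρ' = f' := by
    rw [hρ', map_pow, hjρ]
    refine LinearMap.ext fun v => g.injective ?_
    rw [hfdef, toLinearMap_pow]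
    show g ((g ^ (N - 1)) v) = g (g.symm v)
    rw [← LinearEquiv.mul_apply, ← pow_succ', hNpos, hf.pow, g.apply_symm_apply]
    rfl
  have hμ' : aeval ρ' μ = 0 := by
    refine hjinj ?_
    rw [map_zero, ← aeval_algHom_apply, hjρ']
    refine LinearMap.ext fun y => hB.2 _ fun x => ?_
    rw [← aeval_adjoint B hadj μ x y, minpoly.aeval]
    simp
  let ψ : K →ₐ[F] K := AdjoinRoot.liftAlgHom μ (Algebra.ofId F K) ρ' hμ'
  have hψρ : ψ ρ = ρ' := AdjoinRoot.liftAlgHom_root _ _ _ hμ'
  have hρρ : ρ * ρ' = 1 := hjinj (by rw [map_mul, hjρ, hjρ', hff, map_one])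
  have hψρ' : ψ ρ' = ρ := by
    have h1 := congrArg ψ hρρ
    rw [map_mul, map_one, hψρ] at h1
    exact mul_left_cancel₀ (fun h0 => by rw [h0, mul_zero] at hρρ; exact zero_ne_one hρρ)
      (h1.trans (by rw [mul_comm, hρρ]))
  have hψadj : ∀ (c : K) x y, B (jEnd f c x) y = B x (jEnd f (ψ c) y) := by
    intro c x y
    obtain ⟨P, rfl⟩ := AdjoinRoot.mk_surjective c
    rw [← AdjoinRoot.aeval_eq P, ← aeval_algHom_apply ψ, hψρ, ← aeval_algHom_apply (jEnd f),
      ← aeval_algHom_apply (jEnd f), hjρ, hjρ']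
    exact aeval_adjoint B hadj P x y
  let ψe : K ≃ₐ[F] K := AlgEquiv.ofBijective ψ (Finite.injective_iff_bijective.mp ψ.toRingHom.injective)
  obtain ⟨⟨m, hm⟩, he⟩ :=
    (FiniteField.bijective_frobeniusAlgEquivOfAlgebraic_pow F K).surjective ψe
  set q := Fintype.card F
  set M := q ^ m with hM
  have hψpow : ∀ c : K, ψ c = c ^ M := by
    intro c
    have h := congrArg (fun e : K ≃ₐ[F] K => e c) he
    simp only [AlgEquiv.coe_pow, FiniteField.coe_frobeniusAlgEquivOfAlgebraic, pow_iterate] at h
    exact h.symm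
  set δ : K := ρ - ρ' with hδ
  have hjδ : jEnd f δ = dlt g := by rw [hδ, map_sub, hjρ, hjρ']; rfl
  have hδ0 : δ ≠ 0 := by
    intro h0
    rw [h0, map_zero] at hjδ
    exact hw (dlt_injective hN hf (by rw [← hjδ]; simp))
  have hψδ : ψ δ = -δ := by rw [hδ, map_sub, hψρ, hψρ', neg_sub]
  have hd : Module.finrank F K = 2 * m := by
    have h2 : ψe * ψe = 1 := by
      refine AlgEquiv.coe_toAlgHom_injective (AdjoinRoot.algHom_ext ?_)
      show ψ (ψ ρ) = ρ
      rw [hψρ, hψρ']
    rw [← he, ← pow_add] at h2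
    have h3 := orderOf_dvd_of_pow_eq_one h2
    rw [FiniteField.orderOf_frobeniusAlgEquivOfAlgebraic] at h3
    have hm0 : m ≠ 0 := by
      rintro rfl
      rw [hψpow, hM, pow_zero, pow_one] at hψρ
      exact hδ0 (by rw [hδ, ← hψρ, sub_self])
    change m < Module.finrank F K at hm
    change Module.finrank F K ∣ m + m at h3
    obtain ⟨c, hc⟩ := h3
    rcases c with _ | _ | c
    · omega
    · omega
    · nlinarith
  have hMpos : 1 ≤ M := Nat.one_le_pow _ _ Fintype.card_pos
  have hMo : Odd M := hodd.pow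
  have hδM : δ ^ (M - 1) = -1 := by
    refine mul_left_cancel₀ hδ0 ?_
    rw [← pow_succ', Nat.sub_add_cancel hMpos, ← hψpow, hψδ, mul_neg, mul_one]
  by_cases h4 : M % 4 = 3
  · left
    set u : K := δ ^ ((M - 1) / 2) with hu
    have hu2 : u * u = -1 := by
      rw [hu, ← pow_add, show (M - 1) / 2 + (M - 1) / 2 = M - 1 by omega, hδM]
    have huu : ψ u * u = 1 := by
      rw [hψpow, ← pow_succ, show M + 1 = 2 * ((M + 1) / 2) by omega, pow_mul, pow_two, hu2]
      exact (Nat.even_iff.mpr (by omega)).neg_one_pow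
    refine ⟨jEnd f u, by rw [← map_mul, hu2, map_neg, map_one], fun x y => ?_, ?_⟩
    · rw [hψadj, ← Module.End.mul_apply, ← map_mul, huu, map_one]
      rfl
    · calc jEnd f u * f = jEnd f u * jEnd f ρ := by rw [hjρ]
        _ = jEnd f ρ * jEnd f u := by rw [← map_mul, ← map_mul, mul_comm]
        _ = f * jEnd f u := by rw [hjρ]
  · right
    intro hsq
    have hdet : LinearMap.det (dlt g) = Algebra.norm F δ := by
      rw [Algebra.norm_apply, ← LinearMap.det_conj (Algebra.lmul F K δ) e, ← hjδ]
      congr 1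
      refine LinearMap.ext fun v => ?_
      obtain ⟨c, rfl⟩ := e.surjective v
      show jEnd f δ (jEnd f c w₀) = e (δ * e.symm (e c))
      rw [e.symm_apply_apply, ← Module.End.mul_apply, ← map_mul]
      rfl
    obtain ⟨s, hs⟩ := hsq
    have hs0 : s ≠ 0 := by
      rintro rfl
      rw [mul_zero, hdet, Algebra.norm_eq_zero_iff] at hs
      exact hδ0 hs
    have hq3 : 1 < q := Fintype.one_lt_card
    have hkey : δ ^ ((Nat.card K - 1) / 2) = 1 := by
      have h1 : LinearMap.det (dlt g) ^ ((q - 1) / 2) = 1 := by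
        rw [hs, ← pow_two, ← pow_mul, show 2 * ((q - 1) / 2) = q - 1 by
          have := Nat.odd_iff.mp hodd; omega]
        exact FiniteField.pow_card_sub_one_eq_one s hs0
      have h2 := congrArg (algebraMap F K) h1
      rw [map_pow, map_one, hdet, FiniteField.algebraMap_norm_eq_pow, ← pow_mul,
        Nat.card_eq_fintype_card (α := F)] at h2
      convert h2 using 2
      obtain ⟨c, hc⟩ : q - 1 ∣ Nat.card K - 1 := by
        rw [Module.natCard_eq_pow_finrank (K := F), Nat.card_eq_fintype_card]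
        exact Nat.sub_one_dvd_pow_sub_one _ _
      rw [hc, Nat.mul_div_cancel_left _ (by omega)]
      obtain ⟨j, hj⟩ := hodd
      rw [show q - 1 = 2 * j by omega, Nat.mul_assoc, Nat.mul_div_cancel_left _ two_pos,
        Nat.mul_div_cancel_left _ two_pos, mul_comm]
    have hQ : (Nat.card K - 1) / 2 = (M - 1) * ((M + 1) / 2) := by
      rw [Module.natCard_eq_pow_finrank (K := F), Nat.card_eq_fintype_card, hd, mul_comm 2 m,
        pow_mul, ← hM]
      obtain ⟨j, hj⟩ := hMo
      rw [hj, show (2 * j + 1) ^ 2 - 1 = 2 * (2 * j * (j + 1)) by ring_nf; omega,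
        Nat.mul_div_cancel_left _ two_pos, show (2 * j + 1 + 1) / 2 = j + 1 by omega,
        Nat.add_sub_cancel]
    rw [hQ, pow_mul, hδM, (Nat.odd_iff.mpr (by have := Nat.odd_iff.mp hMo; omega) :
      Odd ((M + 1) / 2)).neg_one_pow] at hkey
    have h2 : ringChar K ≠ 2 := by
      have : ringChar K = ringChar F := (Algebra.ringChar_eq F K).symm
      rw [this]
      intro hc
      have := FiniteField.even_card_of_char_two hc
      have := Nat.odd_iff.mp hodd
      omega
    exact Ring.neg_one_ne_one_of_char_ne_two h2 hkey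

/-- The main lemma. -/
theorem exists_small_commuting [Fintype F] [FiniteDimensional F V] [Nontrivial V]
    (hodd : Odd (Fintype.card F)) (h2 : (2 : F) ≠ 0) {B : BilinForm F V} (hB : B.Nondegenerate)
    (hA : B.IsAlt) {N : ℕ} (hN : Odd N) (hNF : (N : F) ≠ 0) {g : V ≃ₗ[F] V}
    (hg : g ∈ H2.isometries B) (hf : Fpf N g) (hsq : IsSquare (LinearMap.det (dlt g))) :
    ∃ z : H2.isometries B, Commute (z : V ≃ₗ[F] V) g ∧ z ≠ 1 ∧ z ≠ neg B ∧
      (z * z = 1 ∨ z * z = neg B) := by
  classical
  obtain ⟨v₀, hv₀⟩ := exists_ne (0 : V)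
  have hne : neg B ≠ 1 := neg_ne_one B h2 hv₀
  have hfin : ∀ u : Module.End F V, u * u = -1 → (∀ x y, B (u x) (u y) = B x y) →
      u * g.toLinearMap = g.toLinearMap * u → ∃ z : H2.isometries B, Commute (z : V ≃ₗ[F] V) g ∧
        z ≠ 1 ∧ z ≠ neg B ∧ (z * z = 1 ∨ z * z = neg B) := by
    intro u hu hiso hc
    let z : H2.isometries B := ⟨sqNegEquiv u hu, hiso⟩
    have hz : z * z = neg B := iso_ext fun x => LinearMap.congr_fun hu x
    refine ⟨z, LinearEquiv.ext fun x => LinearMap.congr_fun hc x, fun h => hne ?_, fun h => hne ?_,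
      Or.inr hz⟩
    · rw [← hz, h, one_mul]
    · rw [← hz, h, neg_mul_self]
  let inv : Submodule F V → Prop := fun U => ∀ u ∈ U, g u ∈ U
  have hsymm : ∀ {U}, inv U → ∀ u ∈ U, g.symm u ∈ U := by
    intro U hU u hu
    have hp : ∀ i : ℕ, (g ^ i) u ∈ U := by
      intro i
      induction i with
      | zero => exact hu
      | succ i ih => rw [pow_succ', LinearEquiv.mul_apply]; exact hU _ ih
    have : g.symm u = (g ^ (N - 1)) u := by
      rw [g.symm_apply_eq, ← LinearEquiv.mul_apply, ← pow_succ',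
        show N - 1 + 1 = N by have := hN.pos; omega, hf.pow]
      rfl
    rw [this]; exact hp _
  have hinvo : ∀ {U}, inv U → inv (H2.orth B U) := by
    intro U hU u hu x hx
    rw [← g.apply_symm_apply x, hg]
    exact hu _ (hsymm hU x hx)
  have hinf : ∀ {U W}, inv U → inv W → inv (U ⊓ W) := fun hU hW u hu => ⟨hU u hu.1, hW u hu.2⟩
  by_cases hcase : ∃ U, inv U ∧ U ≠ ⊥ ∧ U ≠ ⊤ ∧ U ⊓ H2.orth B U = ⊥
  · obtain ⟨U, hU, hU0, hU1, hUd⟩ := hcase
    have hc : IsCompl U (H2.orth B U) := H2.isCompl_orth B hA fun u hu h => by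
      have : u ∈ U ⊓ H2.orth B U := ⟨hu, fun z hz => by rw [← hA.neg_eq, h z hz, neg_zero]⟩
      rwa [hUd, Submodule.mem_bot] at this
    let z := H2.extendIso B hA hc (1, neg _)
    have hzc : ∀ (a : U) (c : H2.orth B U), (z : V ≃ₗ[F] V) ((a : V) + c) = (a : V) - c := by
      intro a c
      simp [z, H2.extendIso_apply, sub_eq_add_neg]
    refine ⟨z, LinearEquiv.ext fun x => ?_, fun h => ?_, fun h => ?_, Or.inl ?_⟩
    · obtain ⟨⟨a, c⟩, rfl⟩ := (Submodule.prodEquivOfIsCompl U _ hc).surjective x
      rw [Submodule.coe_prodEquivOfIsCompl', LinearEquiv.mul_apply, LinearEquiv.mul_apply, map_add,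
        hzc a c, map_sub]
      exact hzc ⟨_, hU a a.2⟩ ⟨_, hinvo hU c c.2⟩
    · suffices hbot : H2.orth B U = ⊥ from hU1 (by simpa [hbot] using hc.sup_eq_top)
      rw [Submodule.eq_bot_iff]
      intro c hc'
      have h' := LinearEquiv.congr_fun (congrArg Subtype.val h) c
      have h3 := hzc 0 ⟨c, hc'⟩
      simp at h3 h'
      rw [h3] at h'
      have : (2 : F) • c = 0 := by rw [two_smul]; nth_rw 1 [← h']; exact neg_add_cancel c
      exact (smul_eq_zero.mp this).resolve_left h2
    · refine hU0 ((Submodule.eq_bot_iff _).mpr fun a ha => ?_)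
      have h' := LinearEquiv.congr_fun (congrArg Subtype.val h) a
      have h3 := hzc ⟨a, ha⟩ 0
      simp at h3 h'
      rw [h3] at h'
      have : (2 : F) • a = 0 := by rw [two_smul]; nth_rw 1 [h']; exact neg_add_cancel a
      exact (smul_eq_zero.mp this).resolve_left h2
    · show H2.extendIso B hA hc (1, neg _) * H2.extendIso B hA hc (1, neg _) = 1
      rw [← map_mul, Prod.mk_mul_mk, one_mul, neg_mul_self]
      exact map_one _
  push Not at hcase
  obtain ⟨S, hS⟩ := exists_minimal_of_wellFoundedLT (fun U => inv U ∧ U ≠ ⊥)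
    ⟨⊤, fun _ _ => trivial, by simp⟩
  have hSmin : ∀ U ≤ S, inv U → U = ⊥ ∨ U = S := fun U hle hU => by
    by_cases h : U = ⊥
    · exact Or.inl h
    · exact Or.inr (le_antisymm hle (hS.2 ⟨hU, h⟩ hle))
  by_cases hStop : S = ⊤
  · rcases exists_of_irreducible hodd hB hN hg hf
      (fun W hW => hStop ▸ hSmin W (hStop ▸ le_top) hW) with ⟨u, hu, hiso, hc⟩ | hn
    · exact hfin u hu hiso hc
    · exact absurd hsq hn
  have hSiso : S ≤ H2.orth B S := by
    rcases hSmin (S ⊓ H2.orth B S) inf_le_left (hinf hS.1.1 (hinvo hS.1.1)) with h | h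
    · exact absurd h (hcase S hS.1.1 hS.1.2 hStop)
    · exact inf_eq_left.mp h
  have hss : Module.End.IsSemisimple (g.toLinearMap : Module.End F V) := by
    refine Module.End.isSemisimple_of_squarefree_aeval_eq_zero
      (p := (X : F[X]) ^ N - C 1) (separable_X_pow_sub_C (1 : F) hNF one_ne_zero).squarefree ?_
    rw [map_sub, map_pow, aeval_X, aeval_C, map_one, toLinearMap_pow, hf.pow]
    exact sub_eq_zero.mpr rfl
  obtain ⟨C, hCinv, hC⟩ := Module.End.isSemisimple_iff.mp hss (H2.orth B S)
    ((Module.End.mem_invtSubmodule _).mpr fun u hu => hinvo hS.1.1 u hu)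
  have hCinv' : inv C := fun u hu => (Module.End.mem_invtSubmodule _).mp hCinv hu
  have horth : ∀ U : Submodule F V,
      Module.finrank F (H2.orth B U) + Module.finrank F U = Module.finrank F V := fun U => by
    rw [H2.orth_eq_orthogonal, LinearMap.BilinForm.finrank_orthogonal hB]
    have := U.finrank_le
    omega
  have hdimC : Module.finrank F C = Module.finrank F S := by
    have := horth S
    have := Submodule.finrank_add_eq_of_isCompl hC
    omega
  have hCd : ∀ u ∈ C, u ∈ H2.orth B S → u = 0 := fun u hu hu' =>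
    Submodule.disjoint_def.mp hC.disjoint u hu' hu
  have hCmin : ∀ U ≤ C, inv U → U = ⊥ ∨ U = C := by
    intro U hle hU
    rcases hSmin (S ⊓ H2.orth B U) inf_le_left (hinf hS.1.1 (hinvo hU)) with h | h
    · refine Or.inr (Submodule.eq_of_le_of_finrank_le hle ?_)
      have h1 := Submodule.finrank_sup_add_finrank_inf_eq S (H2.orth B U)
      rw [h, finrank_bot, add_zero] at h1
      have := horth U
      have := (S ⊔ H2.orth B U).finrank_le
      omega
    · refine Or.inl ((Submodule.eq_bot_iff _).mpr fun u hu => hCd u (hle hu) fun s hs => ?_)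
      have hs' : s ∈ H2.orth B U := (inf_eq_left.mp h) hs
      rw [← hA.neg_eq, hs' u hu, neg_zero]
  have hS1 : 1 ≤ Module.finrank F S :=
    Nat.pos_of_ne_zero fun h => hS.1.2 (Submodule.finrank_eq_zero.mp h)
  have hC0 : C ≠ ⊥ := fun h => by rw [h, finrank_bot] at hdimC; omega
  have hC1 : C ≠ ⊤ := fun h => hS.1.2 ((Submodule.eq_bot_iff _).mpr fun s hs =>
    hCd s (h ▸ trivial) (hSiso hs))
  have hCiso : C ≤ H2.orth B C := by
    rcases hCmin (C ⊓ H2.orth B C) inf_le_left (hinf hCinv' (hinvo hCinv')) with h | h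
    · exact absurd h (hcase C hCinv' hC0 hC1)
    · exact inf_eq_left.mp h
  have hSC : IsCompl S C := by
    have hd : Disjoint S C := Submodule.disjoint_def.mpr fun u hu hu' => hCd u hu' (hSiso hu)
    refine ⟨hd, codisjoint_iff.mpr ?_⟩
    by_contra htop
    refine hcase (S ⊔ C) ?_ (fun h => hS.1.2 (eq_bot_iff.mpr (h ▸ le_sup_left))) htop ?_
    · intro u hu
      obtain ⟨s, hs, c, hc, rfl⟩ := Submodule.mem_sup.mp hu
      rw [map_add]
      exact Submodule.add_mem_sup (hS.1.1 s hs) (hCinv' c hc)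
    rw [Submodule.eq_bot_iff]
    rintro u ⟨hu, hu'⟩
    obtain ⟨s, hs, c, hc, rfl⟩ := Submodule.mem_sup.mp hu
    have hc0 : c = 0 := hCd c hc fun z hz => by
      have h := hu' z (Submodule.mem_sup_left hz)
      rwa [map_add, hSiso hs z hz, zero_add] at h
    subst hc0
    rw [add_zero] at hu' ⊢
    refine hB.1 s fun v => ?_
    obtain ⟨w, hw, c, hc', rfl⟩ : ∃ w ∈ H2.orth B S, ∃ c ∈ C, w + c = v :=
      Submodule.mem_sup.mp (by rw [hC.sup_eq_top]; trivial)
    rw [map_add, hw s hs, ← hA.neg_eq, hu' c (Submodule.mem_sup_right hc'), neg_zero, add_zero]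
  let π : C →ₗ[F] Module.Dual F S := (B.flip ∘ₗ C.subtype).compl₂ S.subtype
  have hπ : ∀ (c : C) (s : S), π c s = B (s : V) (c : V) := fun c s => rfl
  have hπi : Function.Injective π := by
    rw [injective_iff_map_eq_zero]
    intro c hc
    exact Subtype.ext (hCd c c.2 fun z hz => (hπ c ⟨z, hz⟩).symm.trans (by rw [hc]; rfl))
  let πe := LinearMap.linearEquivOfInjective π hπi (by rw [hdimC, Subspace.dual_finrank_eq])
  have hdS : ∀ v ∈ S, dlt g v ∈ S := fun v hv => S.sub_mem (hS.1.1 v hv) (hsymm hS.1.1 v hv)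
  have hdC : ∀ v ∈ C, dlt g v ∈ C := fun v hv => C.sub_mem (hCinv' v hv) (hsymm hCinv' v hv)
  have hdetC : LinearMap.det ((dlt g).restrict hdC) =
      (-1) ^ Module.finrank F S * LinearMap.det ((dlt g).restrict hdS) := by
    rw [← LinearMap.det_conj ((dlt g).restrict hdC) πe]
    have hrw : (πe : C →ₗ[F] Module.Dual F S) ∘ₗ (dlt g).restrict hdC ∘ₗ πe.symm.toLinearMap =
        (-1 : F) • ((dlt g).restrict hdS).dualMap := by
      refine LinearMap.ext fun φ => ?_
      obtain ⟨c, rfl⟩ := πe.surjective φ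
      refine LinearMap.ext fun s => ?_
      simp only [LinearMap.comp_apply, LinearEquiv.coe_coe, LinearEquiv.symm_apply_apply,
        LinearMap.smul_apply, LinearMap.dualMap_apply, smul_eq_mul]
      show B (s : V) (dlt g c) = (-1 : F) * B (dlt g s) c
      rw [dlt_adjoint hg]; ring
    rw [hrw, LinearMap.det_smul, LinearMap.det_dualMap, Subspace.dual_finrank_eq]
  let E := Submodule.prodEquivOfIsCompl S C hSC
  have hdet : LinearMap.det (dlt g) =
      LinearMap.det ((dlt g).restrict hdS) * LinearMap.det ((dlt g).restrict hdC) := by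
    rw [← LinearMap.det_prodMap, ← LinearMap.det_conj (LinearMap.prodMap _ _) E]
    congr 1
    refine LinearMap.ext fun v => ?_
    obtain ⟨⟨s, c⟩, rfl⟩ := E.surjective v
    simp [E, map_add]
  have hirrS : ∀ W : Submodule F S,
      (∀ w ∈ W, (g.toLinearMap : Module.End F V).restrict hS.1.1 w ∈ W) → W = ⊥ ∨ W = ⊤ := by
    intro W hW
    have hle : W.map S.subtype ≤ S := by
      rintro _ ⟨x, -, rfl⟩; exact x.2
    rcases hSmin (W.map S.subtype) hle (by
      rintro _ ⟨x, hx, rfl⟩
      exact ⟨_, hW x hx, rfl⟩) with h | h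
    · left
      apply Submodule.map_injective_of_injective S.injective_subtype
      rw [h, Submodule.map_bot]
    · right
      apply Submodule.map_injective_of_injective S.injective_subtype
      rw [h, Submodule.map_subtype_top]
  have : Nontrivial S := (Submodule.nontrivial_iff_ne_bot).mpr hS.1.2
  by_cases h4 : Fintype.card F ^ Module.finrank F S % 4 = 3
  · exfalso
    set a := LinearMap.det ((dlt g).restrict hdS) with ha
    rw [hdet, hdetC] at hsq
    have ha0 : a ≠ 0 := fun h0 => by
      obtain ⟨v, hv⟩ := Submodule.exists_mem_ne_zero_of_ne_bot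
        (ne_of_gt (LinearMap.bot_lt_ker_of_det_eq_zero h0))
      exact hv.2 (Subtype.ext (dlt_injective hN hf
        (by simpa using congrArg Subtype.val (LinearMap.mem_ker.mp hv.1))))
    have hd : Odd (Module.finrank F S) := by
      by_contra he
      obtain ⟨j, hj⟩ := Nat.not_odd_iff_even.mp he
      rw [hj, ← two_mul, pow_mul] at h4
      have hq2 : Fintype.card F ^ 2 % 4 = 1 := by
        obtain ⟨i, hi⟩ := hodd
        rw [hi]
        ring_nf
        omega
      rw [Nat.pow_mod, hq2, one_pow] at h4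
      omega
    obtain ⟨s, hs⟩ := hsq
    have hm1 : IsSquare (-1 : F) := ⟨s / a, by
      rw [hd.neg_one_pow] at hs
      field_simp
      linear_combination hs⟩
    rw [FiniteField.isSquare_neg_one_iff] at hm1
    rw [Nat.pow_mod] at h4
    have : Fintype.card F % 4 = 1 := by have := Nat.odd_iff.mp hodd; omega
    rw [this, one_pow] at h4
    omega
  · obtain ⟨P, hP⟩ := exists_sq_eq_neg_one hirrS h4
    set u₁ : Module.End F V := aeval (g.toLinearMap : Module.End F V) P with hu₁
    set u₂ : Module.End F V := aeval (g.symm.toLinearMap : Module.End F V) P with hu₂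
    have hadj : ∀ x y, B (u₁ x) y = B x (u₂ y) := aeval_adjoint B (fun x y => by
      show B (g x) y = _
      conv_lhs => rw [← g.apply_symm_apply y]
      exact hg _ _) P
    have h1S : ∀ s : S, u₁ (u₁ s) = -(s : V) := fun s => by
      have h := congrArg Subtype.val (LinearMap.congr_fun hP s)
      rw [Module.End.mul_apply, aeval_restrict, aeval_restrict] at h
      exact h
    have hmS : ∀ v ∈ S, u₁ v ∈ S := aeval_mem hS.1.1 P
    have hmC : ∀ v ∈ C, u₂ v ∈ C := aeval_mem (fun v hv => hsymm hCinv' v hv) P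
    have h2C : ∀ c : C, u₂ (u₂ c) = -(c : V) := fun c => by
      have h : (⟨u₂ (u₂ c), hmC _ (hmC _ c.2)⟩ : C) = -c := hπi (LinearMap.ext fun s => by
        rw [map_neg, LinearMap.neg_apply, hπ, hπ]
        show B (s : V) (u₂ (u₂ c)) = _
        rw [← hadj, ← hadj, h1S, map_neg, LinearMap.neg_apply])
      exact congrArg Subtype.val h
    let u : Module.End F V := E.toLinearMap ∘ₗ
      ((u₁.restrict hmS).prodMap (-(u₂.restrict hmC))) ∘ₗ E.symm.toLinearMap
    have hu : ∀ (s : S) (c : C), u ((s : V) + c) = u₁ s - u₂ c := fun s c => by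
      show E (((u₁.restrict hmS).prodMap (-(u₂.restrict hmC))) (E.symm (E (s, c)))) = _
      rw [E.symm_apply_apply]
      simp [E, sub_eq_add_neg]
    refine hfin u ?_ ?_ ?_
    · refine LinearMap.ext fun v => ?_
      obtain ⟨⟨s, c⟩, rfl⟩ := E.surjective v
      show u (u ((s : V) + c)) = -((s : V) + c)
      rw [hu, sub_eq_add_neg, ← map_neg]
      refine (hu ⟨_, hmS _ s.2⟩ ⟨_, hmC _ (C.neg_mem c.2)⟩).trans ?_
      show u₁ (u₁ s) - u₂ (u₂ (-c : C)) = _
      rw [h1S, h2C]
      simp [sub_eq_add_neg, add_comm]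
    · intro x y
      obtain ⟨⟨s, c⟩, rfl⟩ := E.surjective x
      obtain ⟨⟨s', c'⟩, rfl⟩ := E.surjective y
      show B (u ((s : V) + c)) (u ((s' : V) + c')) = B ((s : V) + c) ((s' : V) + c')
      have k1 : B (u₁ s) (u₂ c') = -B (s : V) (c' : V) := by rw [hadj, h2C, map_neg]
      have k2 : B (u₂ c) (u₁ s') = -B (c : V) (s' : V) := by
        rw [← hA.neg_eq, hadj, h2C, map_neg, neg_neg]
        exact (hA.neg_eq _ _).symm
      simp only [hu, map_add, map_sub, LinearMap.add_apply, LinearMap.sub_apply]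
      rw [hSiso (hmS _ s'.2) _ (hmS _ s.2), hCiso (hmC _ c'.2) _ (hmC _ c.2), k1, k2,
        hSiso s'.2 _ s.2, hCiso c'.2 _ c.2]
      ring
    · refine LinearMap.ext fun v => ?_
      obtain ⟨⟨s, c⟩, rfl⟩ := E.surjective v
      show u (g ((s : V) + c)) = g (u ((s : V) + c))
      rw [map_add, hu, map_sub]
      refine (hu ⟨_, hS.1.1 _ s.2⟩ ⟨_, hCinv' _ c.2⟩).trans ?_
      have c1 : Commute u₁ (g.toLinearMap : Module.End F V) := commute_aeval (Commute.refl _) P
      have c2 : Commute u₂ (g.toLinearMap : Module.End F V) :=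
        commute_aeval (LinearMap.ext fun x => by simp) P
      exact congrArg₂ (· - ·) (LinearMap.congr_fun c1.eq s) (LinearMap.congr_fun c2.eq c)

end Cfsg.Agent.H71.TwistInvolution
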