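/-
The prime graphs of `PΩ_{2n+1}(q)` and `PSp_{2n}(q)`, `q` odd, coincide.
-/
import Cfsg.Agent.H71.SympOddModels
import Cfsg.Agent.H71.TwistInvolution
import Cfsg.Agent.H2.Center
import Cfsg.Agent.H5.OmegaSimple

set_option autoImplicit false

namespace Cfsg.Agent.H71.SympOddPrimeGraph

open QuadraticMap IsometryTwist SympOddModels

theorem exists_orderOf_mul_iff {G : Type*} [Group G] [Finite G] {r s : ℕ} (hrs : r.Coprime s) :
    (∃ g : G, orderOf g = r * s) ↔ ∃ a b : G, Commute a b ∧ orderOf a = r ∧ orderOf b = s := by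
  constructor
  · rintro ⟨g, hg⟩
    have h0 : orderOf g ≠ 0 := orderOf_ne_zero_iff.mpr (isOfFinOrder_of_finite g)
    exact ⟨_, _, (Commute.refl g).pow_pow _ _,
      orderOf_pow_orderOf_div h0 (hg ▸ dvd_mul_right r s),
      orderOf_pow_orderOf_div h0 (hg ▸ dvd_mul_left s r)⟩
  · rintro ⟨a, b, hab, rfl, rfl⟩
    exact ⟨a * b, hab.orderOf_mul_eq_mul_orderOf_of_coprime hrs⟩

theorem orderOf_prime_iff {G : Type*} [Group G] {x : G} {p : ℕ} (hp : p.Prime) :
    orderOf x = p ↔ x ^ p = 1 ∧ x ≠ 1 := by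
  have := Fact.mk hp
  refine ⟨fun h => ⟨h ▸ pow_orderOf_eq_one x, fun h1 => ?_⟩, fun h => orderOf_eq_prime h.1 h.2⟩
  rw [h1, orderOf_one] at h
  exact hp.ne_one h.symm

theorem orderOf_map_prod_one {G H K : Type*} [Group G] [Group H] [Group K] (φ : G × H →* K)
    (hφ : Function.Injective φ) (g : G) : orderOf (φ (g, 1)) = orderOf g := by
  rw [orderOf_injective φ hφ, Prod.orderOf, orderOf_one, Nat.lcm_one_right]

theorem orderOf_map_one_prod {G H K : Type*} [Group G] [Group H] [Group K] (φ : G × H →* K)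
    (hφ : Function.Injective φ) (g : H) : orderOf (φ (1, g)) = orderOf g := by
  rw [orderOf_injective φ hφ, Prod.orderOf, orderOf_one, Nat.lcm_one_left]

variable {F : Type*} [Field F] {n : ℕ}

/-- An isometry group of a coordinate space is finite. -/
instance finite_isoC [Finite F] (k : ℕ) : Finite (IsoC k F) :=
  Finite.of_injective (fun g : IsoC k F => ((g : VC k F ≃ₗ[F] VC k F) : VC k F → VC k F))
    fun a b h => iso_ext fun x => congrFun h x

instance finite_orthO [Finite F] (k : ℕ) : Finite (H5.orth (H5.qOdd k F)) :=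
  Finite.of_injective (fun g : H5.orth (H5.qOdd k F) =>
      ((g : VO k F ≃ₗ[F] VO k F) : VO k F → VO k F))
    fun a b h => H5.orth_ext fun x => congrFun h x

theorem finrank_VO (k : ℕ) : Module.finrank F (VO k F) = 2 * k + 1 := by
  rw [Module.finrank_fintype_fun_eq_card]; simp; omega

theorem finrank_VC (k : ℕ) : Module.finrank F (VC k F) = 2 * k := by
  rw [Module.finrank_fintype_fun_eq_card]; simp; omega

theorem nontrivial_VC {k : ℕ} (hk : 1 ≤ k) : Nontrivial (VC k F) :=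
  Module.nontrivial_of_finrank_pos (R := F) (by rw [finrank_VC]; omega)

theorem neg_isoC_ne_one (h2 : (2 : F) ≠ 0) {k : ℕ} (hk : 1 ≤ k) :
    neg (H2.sympBilin k F) ≠ 1 := by
  have := nontrivial_VC (F := F) hk
  obtain ⟨v, hv⟩ := exists_ne (0 : VC k F)
  exact neg_ne_one _ h2 hv

theorem pos_of_ne_one {k : ℕ} {h : IsoC k F} (hh : h ≠ 1) : 1 ≤ k := by
  by_contra hk
  obtain rfl : k = 0 := by omega
  have := subsingleton_isoC_zero (F := F)
  exact hh (Subsingleton.elim _ _)

theorem subsingleton_sub {k m : ℕ} (h : k = m) : Subsingleton (IsoC (m - k) F) := by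
  rw [h, Nat.sub_self]; exact subsingleton_isoC_zero

theorem orth_line {m : ℕ} (hm : m = 0) (g : H5.orth (H5.qOdd m F)) :
    g = 1 ∨ g = H4.negOrth _ := by
  subst hm
  set e : VO 0 F := Pi.single (.inl ()) 1 with he
  have hv : ∀ v : VO 0 F, v = v (.inl ()) • e := fun v => funext fun i => by
    rcases i with ⟨⟩ | i | i
    · simp [e]
    · exact i.elim0
    · exact i.elim0
  set c := (g : VO 0 F ≃ₗ[F] VO 0 F) e (.inl ()) with hc
  have hg : ∀ v, (g : VO 0 F ≃ₗ[F] VO 0 F) v = c • v := fun v => by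
    rw [hv v, map_smul, hv ((g : VO 0 F ≃ₗ[F] VO 0 F) e), smul_smul, smul_smul, mul_comm]
  have h1 : c * c = 1 := by
    have h := H5.orth_map g e
    rw [hg, QuadraticMap.map_smul] at h
    simpa [H5.coe_qOdd, Cfsg.quadFormOdd, e] using h
  rcases mul_self_eq_one_iff.mp h1 with h | h
  · exact Or.inl (H5.orth_ext fun v => by rw [hg, h, one_smul]; rfl)
  · exact Or.inr (H5.orth_ext fun v => by rw [hg, h, H4.negOrth_apply, neg_one_smul])

section psp

/-- Triviality in `PSp`. -/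
theorem mk_eq_one_iff (hn : 1 ≤ n) (g : Matrix.symplecticGroup (Fin n) F) :
    (QuotientGroup.mk g : Cfsg.PSp n F) = 1 ↔
      H2.spEquivIsometries n F g = 1 ∨ H2.spEquivIsometries n F g = neg _ := by
  rw [QuotientGroup.eq_one_iff, H2.mem_center_iff_eq hn, map_eq_one_iff _ (MulEquiv.injective _)]
  refine or_congr ⟨fun h => Subtype.ext h, fun h => h ▸ rfl⟩ ⟨fun h => iso_ext fun x => ?_,
    fun h => Matrix.ext_of_mulVec_single fun i => ?_⟩
  · rw [H2.spEquivIsometries_apply, h, IsometryTwist.neg_apply, Matrix.neg_mulVec,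
      Matrix.one_mulVec]
  · have := LinearEquiv.congr_fun (congrArg Subtype.val h) (Pi.single i 1)
    rw [H2.spEquivIsometries_apply, IsometryTwist.neg_apply] at this
    rw [this, Matrix.neg_mulVec, Matrix.one_mulVec]

theorem range_psp_odd (hn : 1 ≤ n) [Finite F] {N : ℕ} (hN : Odd N) :
    N ∈ Set.range (orderOf : Cfsg.PSp n F → ℕ) ↔ ∃ x : IsoC n F, orderOf x = N := by
  set e := H2.spEquivIsometries n F
  constructor
  · rintro ⟨y, hy⟩
    obtain ⟨g, rfl⟩ := QuotientGroup.mk_surjective y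
    refine ⟨e (g ^ 2), ?_⟩
    have hone : (QuotientGroup.mk g : Cfsg.PSp n F) ^ N = 1 := hy ▸ pow_orderOf_eq_one _
    rw [← QuotientGroup.mk_pow, mk_eq_one_iff hn] at hone
    have hd : orderOf (e (g ^ 2)) ∣ N := by
      refine orderOf_dvd_of_pow_eq_one ?_
      rw [← map_pow, ← pow_mul, mul_comm, pow_mul, map_pow]
      rcases hone with h | h <;> rw [h]
      · exact one_pow 2
      · rw [pow_two, neg_mul_self]
    refine Nat.dvd_antisymm hd ?_
    rw [MulEquiv.orderOf_eq]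
    have h3 := orderOf_map_dvd (QuotientGroup.mk' (Subgroup.center (Matrix.symplecticGroup (Fin n) F))) (g ^ 2)
    rw [map_pow, QuotientGroup.mk'_apply, (Nat.Coprime.orderOf_pow (by
      rw [hy]; exact Nat.coprime_two_right.mpr hN) : orderOf ((QuotientGroup.mk g : Cfsg.PSp n F) ^ 2) = _), hy] at h3
    exact h3
  · rintro ⟨x, hx⟩
    obtain ⟨g, rfl⟩ := e.surjective x
    rw [MulEquiv.orderOf_eq] at hx
    refine ⟨QuotientGroup.mk g, Nat.dvd_antisymm ?_ ?_⟩
    · rw [← hx]
      exact orderOf_map_dvd (QuotientGroup.mk' _) g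
    · have h := pow_orderOf_eq_one (QuotientGroup.mk g : Cfsg.PSp n F)
      rw [← QuotientGroup.mk_pow, mk_eq_one_iff hn, map_pow] at h
      have h2 : N ∣ orderOf (QuotientGroup.mk g : Cfsg.PSp n F) * 2 := by
        rw [← hx, ← MulEquiv.orderOf_eq e]
        refine orderOf_dvd_of_pow_eq_one ?_
        rw [pow_mul]
        rcases h with h | h <;> rw [h]
        · exact one_pow 2
        · rw [pow_two, neg_mul_self]
      exact (Nat.coprime_two_right.mpr hN).dvd_of_dvd_mul_right h2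

theorem range_psp_two (hn : 1 ≤ n) [Finite F] {r : ℕ} (hr : r.Prime) (hr2 : r ≠ 2) :
    2 * r ∈ Set.range (orderOf : Cfsg.PSp n F → ℕ) ↔
      ∃ a b : IsoC n F, Commute a b ∧ orderOf a = r ∧ b ≠ 1 ∧ b ≠ neg _ ∧
        (b * b = 1 ∨ b * b = neg _) := by
  set e := H2.spEquivIsometries n F
  have hodd : Odd r := hr.odd_of_ne_two hr2
  constructor
  · rintro ⟨y, hy⟩
    obtain ⟨g, rfl⟩ := QuotientGroup.mk_surjective y
    have hmk : ∀ i : ℕ, (e g ^ i = 1 ∨ e g ^ i = neg _) ↔ 2 * r ∣ i := by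
      intro i
      rw [← hy, orderOf_dvd_iff_pow_eq_one, ← QuotientGroup.mk_pow, mk_eq_one_iff hn, map_pow]
    refine ⟨e g ^ 4, e g ^ r, (Commute.refl _).pow_pow _ _, ?_, fun h => ?_, fun h => ?_, ?_⟩
    · rw [orderOf_prime_iff hr, ← pow_mul, show 4 * r = 2 * r * 2 by ring, pow_mul]
      refine ⟨?_, fun h => ?_⟩
      · rcases (hmk _).mpr dvd_rfl with h | h <;> rw [h]
        · exact one_pow 2
        · rw [pow_two, neg_mul_self]
      · have := Nat.le_of_dvd (by norm_num) ((hmk 4).mp (Or.inl h))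
        have := hr.two_le
        have : r ≠ 2 := hr2
        omega
    · have := Nat.le_of_dvd hr.pos ((hmk r).mp (Or.inl h))
      have := hr.pos; omega
    · have := Nat.le_of_dvd hr.pos ((hmk r).mp (Or.inr h))
      have := hr.pos; omega
    · rw [← pow_add, ← two_mul]
      exact (hmk _).mpr dvd_rfl
  · rintro ⟨a, b, hab, ha, hb1, hbn, hb⟩
    have hA := (range_psp_odd hn hodd).mpr ⟨a, ha⟩
    obtain ⟨g, rfl⟩ := e.surjective a
    obtain ⟨f, rfl⟩ := e.surjective b
    have hgf : Commute g f := by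
      have h := hab.map e.symm
      simpa using h
    refine ⟨QuotientGroup.mk' _ (f * g), ?_⟩
    rw [map_mul, ((hgf.symm).map (QuotientGroup.mk' _)).orderOf_mul_eq_mul_orderOf_of_coprime]
    · congr 1
      · rw [orderOf_prime_iff Nat.prime_two, ← map_pow]
        refine ⟨(mk_eq_one_iff hn _).mpr ?_, fun h => ?_⟩
        · rw [map_pow, pow_two]; exact hb
        · rcases (mk_eq_one_iff hn _).mp h with h | h
          exacts [hb1 h, hbn h]
      · rw [MulEquiv.orderOf_eq] at ha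
        rw [orderOf_prime_iff hr, ← map_pow, ← ha, pow_orderOf_eq_one, map_one]
        refine ⟨rfl, fun h => ?_⟩
        have hag : (e g) ^ r = 1 := by rw [← map_pow, ← ha, pow_orderOf_eq_one, map_one]
        rcases (mk_eq_one_iff hn _).mp h with h' | h'
        · exact hr.ne_one (by rw [← ha, (map_eq_one_iff _ e.injective).mp h', orderOf_one])
        · obtain ⟨j, hj⟩ := hodd
          rw [show e g = neg _ from h', hj, pow_succ, pow_mul, pow_two, neg_mul_self, one_pow,
            one_mul] at hag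
          exact hr.ne_one (by rw [← ha, (map_eq_one_iff _ e.injective).mp (h'.trans hag), orderOf_one])
    · have h1 : orderOf (QuotientGroup.mk' (Subgroup.center _) f : Cfsg.PSp n F) ∣ 2 := by
        refine orderOf_dvd_of_pow_eq_one ?_
        rw [← map_pow]
        refine (mk_eq_one_iff hn _).mpr ?_
        rw [map_pow, pow_two]; exact hb
      rw [MulEquiv.orderOf_eq] at ha
      exact Nat.Coprime.coprime_dvd_left h1 (Nat.Coprime.coprime_dvd_right
        (ha ▸ orderOf_map_dvd (QuotientGroup.mk' (Subgroup.center _)) g)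
        (Nat.coprime_two_left.mpr hodd))

end psp

section pomega

variable [Fintype F]

theorem range_pomega (h2 : (2 : F) ≠ 0) (hn : 3 ≤ n) (N : ℕ) :
    N ∈ Set.range (orderOf : Cfsg.POmega F (Cfsg.quadFormOdd n F) → ℕ) ↔
      ∃ g : H5.orth (H5.qOdd n F), g ∈ commutator (H5.orth (H5.qOdd n F)) ∧ orderOf g = N := by
  have hQ := H5.qOdd_nondegenerate (F := F) n h2
  have : Finite (VO n F) := Pi.finite
  have hdim := finrank_VO (F := F) n
  have hstd := H5.std_of_two_ne_zero h2 (Module.finrank F (VO n F))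
  have hcenter : Subgroup.center (commutator (H5.orth (H5.qOdd n F))) = ⊥ := by
    rw [eq_bot_iff]
    intro a ha
    rw [H5.mem_center_iff hQ (by rw [hdim]; omega) hstd] at ha
    obtain ⟨t, ht⟩ := ha
    have h0 : t = 1 := by
      by_contra hne
      have htop : H5.resid (a : H5.orth (H5.qOdd n F)) = ⊤ := by
        refine LinearMap.range_eq_top.mpr fun v => ⟨(t - 1)⁻¹ • v, ?_⟩
        rw [H5.dLin_apply, ht, smul_smul, ← sub_smul, ← sub_one_mul,
          mul_inv_cancel₀ (sub_ne_zero.mpr hne), one_smul]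
      have h := ((H5.mem_commutator_iff hQ hstd).mp a.2).1
      rw [H5.dick, H5.rk, htop, finrank_top, hdim,
        (show Odd (2 * n + 1) from ⟨n, rfl⟩).neg_one_pow] at h
      exact absurd h (by decide)
    rw [Subgroup.mem_bot]
    refine Subtype.ext (H5.orth_ext fun v => ?_)
    rw [ht, h0, one_smul]
    rfl
  set e := H5.pomegaEquiv (H5.qOdd n F) (H5.coe_qOdd n)
  have hord : ∀ g : commutator (H5.orth (H5.qOdd n F)),
      orderOf (e.symm (QuotientGroup.mk g)) = orderOf (g : H5.orth (H5.qOdd n F)) := by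
    intro g
    rw [MulEquiv.orderOf_eq, Subgroup.orderOf_coe]
    refine orderOf_eq_orderOf_iff.mpr fun M => ?_
    rw [← QuotientGroup.mk_pow, QuotientGroup.eq_one_iff, hcenter, Subgroup.mem_bot]
  constructor
  · rintro ⟨y, hy⟩
    obtain ⟨g, hg⟩ := QuotientGroup.mk_surjective (e y)
    exact ⟨g, g.2, by rw [← hord g, hg, e.symm_apply_apply, hy]⟩
  · rintro ⟨g, hgc, hg⟩
    exact ⟨e.symm (QuotientGroup.mk (⟨g, hgc⟩ : commutator (H5.orth (H5.qOdd n F)))),
      (hord ⟨g, hgc⟩).trans hg⟩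

theorem mul_self_mem_commutator {V : Type*} [AddCommGroup V] [Module F V] [FiniteDimensional F V]
    [Finite V] {Q : QuadraticForm F V} (h2 : (2 : F) ≠ 0) (hQ : (polarBilin Q).Nondegenerate)
    (g : H5.orth Q) : g * g ∈ commutator (H5.orth Q) := by
  rw [H5.commutator_eq_ker hQ (H5.std_of_two_ne_zero h2 _), MonoidHom.mem_ker, map_mul]
  exact Prod.ext (Int.units_mul_self _) (Int.units_mul_self _)

theorem mem_commutator_of_odd (h2 : (2 : F) ≠ 0) {g : H5.orth (H5.qOdd n F)} {N : ℕ}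
    (hg : orderOf g = N) (hN : Odd N) : g ∈ commutator (H5.orth (H5.qOdd n F)) := by
  have : Finite (VO n F) := Pi.finite
  obtain ⟨j, hj⟩ := hN
  have h : g = g ^ (j + 1) * g ^ (j + 1) := by
    rw [← pow_add, show j + 1 + (j + 1) = N + 1 by omega, pow_succ, ← hg, pow_orderOf_eq_one,
      one_mul]
  rw [h]
  exact mul_self_mem_commutator h2 (H5.qOdd_nondegenerate n h2) _

theorem range_pomega_odd (h2 : (2 : F) ≠ 0) (hn : 3 ≤ n) {N : ℕ} (hN : Odd N) :
    N ∈ Set.range (orderOf : Cfsg.POmega F (Cfsg.quadFormOdd n F) → ℕ) ↔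
      ∃ g : H5.orth (H5.qOdd n F), orderOf g = N := by
  rw [range_pomega h2 hn]
  exact ⟨fun ⟨g, _, h⟩ => ⟨g, h⟩, fun ⟨g, h⟩ => ⟨g, mem_commutator_of_odd h2 h hN, h⟩⟩

theorem negOrth_qOdd_notMem (h2 : (2 : F) ≠ 0) (m : ℕ) :
    H4.negOrth (H5.qOdd m F) ∉ commutator (H5.orth (H5.qOdd m F)) := by
  have : Finite (VO m F) := Pi.finite
  intro h
  have h' := ((H4.negOrth_mem_iff h2 (H5.qOdd_nondegenerate m h2) (Pi.basisFun F _)
    (by rw [finrank_VO]; omega)).mp h).1
  rw [finrank_VO] at h'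
  exact (Nat.not_even_iff_odd.mpr ⟨m, rfl⟩) h'

end pomega

section elements

variable [Fintype F] {p : ℕ} [Fact p.Prime] [CharP F p]

theorem exists_orderOf_char_isoC {m : ℕ} (hm : 1 ≤ m) : ∃ t : IsoC m F, orderOf t = p := by
  set e : Fin m ⊕ Fin m → F := Pi.single (.inl ⟨0, hm⟩) 1 with he
  refine ⟨H2.spEquivIsometries m F (H2.transv e (1 : F)), ?_⟩
  rw [MulEquiv.orderOf_eq, orderOf_prime_iff Fact.out]
  have hk : ∀ i : ℕ, H2.transv e (1 : F) ^ i = H2.transv e (i : F) := by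
    intro i
    induction i with
    | zero => rw [pow_zero, Nat.cast_zero, H2.transv_zero]
    | succ i ih => rw [pow_succ, ih, H2.transv_mul, Nat.cast_succ]
  refine ⟨by rw [hk, CharP.cast_eq_zero, H2.transv_zero], fun h => ?_⟩
  have h' := congrArg (fun g : Matrix.symplecticGroup (Fin m) F =>
    Matrix.mulVec (g : Matrix (Fin m ⊕ Fin m) (Fin m ⊕ Fin m) F)
      (Pi.single (.inr ⟨0, hm⟩) 1)) h
  simp only [H2.coe_transv, H2.sympTransvection_mulVec, OneMemClass.coe_one, Matrix.one_mulVec,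
    add_eq_left, one_mul, H2.sympForm_single_inr] at h'
  rw [he] at h'
  simp at h'

theorem eich_pow {V : Type*} [AddCommGroup V] [Module F V] {Q : QuadraticForm F V} {e a : V}
    (he : Q e = 0) (ha : polar Q e a = 0) (i : ℕ) :
    H5.eich Q e a ^ i = H5.eich Q e ((i : F) • a) := by
  induction i with
  | zero => rw [pow_zero, Nat.cast_zero, zero_smul, H5.eich_zero]
  | succ i ih =>
    rw [pow_succ, ih, H5.eich_mul he (by rw [polar_smul_right, ha, smul_zero]) ha, Nat.cast_succ,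
      add_smul, one_smul]

theorem exists_orderOf_char_orth {m : ℕ} (hm : 1 ≤ m) :
    ∃ t : H5.orth (H5.qOdd m F), orderOf t = p := by
  set e : VO m F := Pi.single (.inr (.inl ⟨0, hm⟩)) 1 with he
  set a : VO m F := Pi.single (.inl ()) 1 with ha
  have heQ : H5.qOdd m F e = 0 := by simp [H5.coe_qOdd, Cfsg.quadFormOdd, e, Pi.single_apply]
  have hea : polar (H5.qOdd m F) e a = 0 := by simp [H5.polar_qOdd, e, a, Pi.single_apply]
  refine ⟨H5.eich _ e a, ?_⟩
  rw [orderOf_prime_iff Fact.out, eich_pow heQ hea, CharP.cast_eq_zero, zero_smul, H5.eich_zero]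
  refine ⟨rfl, fun h => ?_⟩
  have h' := congrFun (LinearEquiv.congr_fun (congrArg Subtype.val h)
    (Pi.single (.inr (.inr ⟨0, hm⟩)) 1)) (.inl ())
  rw [H5.eich_apply heQ hea] at h'
  simp only [H5.polar_qOdd] at h'
  simp [H5.coe_qOdd, Cfsg.quadFormOdd, e, a, Pi.single_apply] at h'

omit [Fact p.Prime] [CharP F p] in
theorem exists_involution_orth (h2 : (2 : F) ≠ 0) {m : ℕ} (hm : 1 ≤ m) :
    ∃ b : H5.orth (H5.qOdd m F),
      b ∈ commutator (H5.orth (H5.qOdd m F)) ∧ b * b = 1 ∧ b ≠ 1 := by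
  have : Finite (VO m F) := Pi.finite
  set v : VO m F := Pi.single (.inl ()) 1 with hv
  set w : VO m F := Pi.single (.inr (.inl ⟨0, hm⟩)) 1 + Pi.single (.inr (.inr ⟨0, hm⟩)) 1 with hw
  have hQv : H5.qOdd m F v = 1 := by simp [H5.coe_qOdd, Cfsg.quadFormOdd, v, Pi.single_apply]
  have hQw : H5.qOdd m F w = 1 := by simp [H5.coe_qOdd, Cfsg.quadFormOdd, w, Pi.single_apply]
  have hvw : polar (H5.qOdd m F) v w = 0 := by simp [H5.polar_qOdd, v, w, Pi.single_apply]
  refine ⟨H5.refl _ v * H5.refl _ w, ?_, ?_, fun h => ?_⟩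
  · have hl := (H5.list_prod_mem_commutator_iff (H5.qOdd_nondegenerate m h2)
      (H5.std_of_two_ne_zero h2 _) (vs := [v, w]) (by simp [hQv, hQw])).mpr
      ⟨by simp, by simp [hQv, hQw]⟩
    simpa using hl
  · have hc := H5.refl_conj (H5.refl (H5.qOdd m F) v) w
    rw [H5.refl_apply_of_ortho hvw, H5.refl_inv] at hc
    rw [show H5.refl _ v * H5.refl _ w * (H5.refl _ v * H5.refl _ w) =
      H5.refl _ v * H5.refl _ w * H5.refl _ v * H5.refl _ w by group, hc, H5.refl_mul_self]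
  · have h' := congrFun (LinearEquiv.congr_fun (congrArg Subtype.val h) v) (.inl ())
    rw [H5.orth_mul_apply, H5.refl_apply_of_ortho (v := w) (x := v) (by rw [polar_comm]; exact hvw),
      H5.refl_apply_self (by rw [hQv]; exact one_ne_zero)] at h'
    simp [v] at h'
    exact h2 (by linear_combination -h')

end elements

section cases

variable [Fintype F]

theorem commute_toO {k N : ℕ} {h : IsoC k F} (h2 : (2 : F) ≠ 0) (hN : Odd N)
    (hf : Fpf N (h : VC k F ≃ₗ[F] VC k F)) {a b : IsoC k F} (ha : Commute a h) (hb : Commute b h)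
    (hab : Commute a b) : Commute (toO h2 hN hf a ha) (toO h2 hN hf b hb) :=
  Subtype.ext (congrArg (fun x : IsoC k F => (x : VC k F ≃ₗ[F] VC k F)) hab.eq)

theorem toO_eq_one {k N : ℕ} {h : IsoC k F} {h2 : (2 : F) ≠ 0} {hN : Odd N}
    {hf : Fpf N (h : VC k F ≃ₗ[F] VC k F)} {a : IsoC k F} {ha : Commute a h} :
    toO h2 hN hf a ha = 1 ↔ a = 1 :=
  ⟨fun he => Subtype.ext (congrArg Subtype.val he :), fun he => Subtype.ext (congrArg Subtype.val he :)⟩

theorem iff_odd (h2 : (2 : F) ≠ 0) {N : ℕ} (hN : Odd N) (hNF : (N : F) ≠ 0) :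
    (∃ x : IsoC n F, orderOf x = N) ↔ ∃ g : H5.orth (H5.qOdd n F), orderOf g = N := by
  constructor
  · rintro ⟨x, hx⟩
    obtain ⟨k, hk, h, hf, φ, hφ, -, hhx, -⟩ := exists_splitC x (hx ▸ pow_orderOf_eq_one x) hNF
    obtain ⟨ψ, hψ⟩ := exists_embO h2 hk hN hf
    exact ⟨ψ (toO h2 hN hf h (Commute.refl h), 1), by
      rw [orderOf_map_prod_one ψ hψ.inj, orderOf_toO, ← orderOf_map_prod_one φ hφ, hhx, hx]⟩
  · rintro ⟨g, hg⟩
    obtain ⟨k, hk, h, hf, φ, hφ, hhg, -⟩ := exists_splitO h2 g (hg ▸ pow_orderOf_eq_one g) hN hNF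
    obtain ⟨ψ, hψ, -⟩ := exists_embC (F := F) hk
    exact ⟨ψ (h, 1), by
      rw [orderOf_map_prod_one ψ hψ, ← orderOf_toO h2 hN hf h (Commute.refl h),
        ← orderOf_map_prod_one φ hφ.inj, hhg, hg]⟩

/-- The common datum for elements of order `r p`. -/
def DatP (n r p : ℕ) (F : Type*) [Field F] : Prop :=
  ∃ (k : ℕ) (_ : k ≤ n) (h : IsoC k F), Fpf r (h : VC k F ≃ₗ[F] VC k F) ∧ orderOf h = r ∧
    ((∃ z : IsoC k F, Commute z h ∧ orderOf z = p) ∨ k < n)

variable {r p : ℕ} [Fact p.Prime] [CharP F p]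

theorem datP_iff_isoC (hr : r.Prime) (hrF : (r : F) ≠ 0) :
    (∃ a b : IsoC n F, Commute a b ∧ orderOf a = r ∧ orderOf b = p) ↔ DatP n r p F := by
  have hp : p.Prime := Fact.out
  constructor
  · rintro ⟨a, b, hab, ha, hb⟩
    obtain ⟨k, hk, h, hf, φ, hφ, -, hha, hz⟩ := exists_splitC a (ha ▸ pow_orderOf_eq_one a) hrF
    refine ⟨k, hk, h, hf, by rw [← orderOf_map_prod_one φ hφ, hha, ha], ?_⟩
    obtain ⟨⟨z, z'⟩, hzb, hzh⟩ := hz b hab.symm
    by_cases h1 : z = 1
    · refine Or.inr (lt_of_le_of_ne hk fun hkn => ?_)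
      have := subsingleton_sub (F := F) hkn
      rw [h1, Subsingleton.elim z' 1, show ((1 : IsoC k F), (1 : IsoC (n - k) F)) = 1 from rfl,
        map_one] at hzb
      rw [← hzb, orderOf_one] at hb
      exact hp.ne_one hb.symm
    · refine Or.inl ⟨z, hzh, (orderOf_prime_iff hp).mpr ⟨?_, h1⟩⟩
      have h' : φ ((z, z') ^ p) = φ 1 := by rw [map_pow, hzb, ← hb, pow_orderOf_eq_one, map_one]
      exact congrArg Prod.fst (hφ h')
  · rintro ⟨k, hk, h, -, ho, hor⟩
    obtain ⟨φ, hφ, -⟩ := exists_embC (F := F) hk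
    rcases hor with ⟨z, hzh, hz⟩ | hlt
    · exact ⟨φ (h, 1), φ (z, 1), Commute.map (Commute.prod hzh.symm (Commute.refl 1)) φ,
        by rw [orderOf_map_prod_one φ hφ, ho], by rw [orderOf_map_prod_one φ hφ, hz]⟩
    · obtain ⟨t, ht⟩ := exists_orderOf_char_isoC (F := F) (p := p) (show 1 ≤ n - k by omega)
      exact ⟨φ (h, 1), φ (1, t), Commute.map (Commute.prod (Commute.one_right h) (Commute.one_left t)) φ,
        by rw [orderOf_map_prod_one φ hφ, ho], by rw [orderOf_map_one_prod φ hφ, ht]⟩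

theorem datP_iff_orth (h2 : (2 : F) ≠ 0) (hr : r.Prime) (hr2 : r ≠ 2) (hrF : (r : F) ≠ 0)
    (hp2 : p ≠ 2) :
    (∃ a b : H5.orth (H5.qOdd n F), Commute a b ∧ orderOf a = r ∧ orderOf b = p) ↔ DatP n r p F := by
  have hp : p.Prime := Fact.out
  have hodd := hr.odd_of_ne_two hr2
  constructor
  · rintro ⟨a, b, hab, ha, hb⟩
    obtain ⟨k, hk, h, hf, φ, hφ, hha, hz⟩ :=
      exists_splitO h2 a (ha ▸ pow_orderOf_eq_one a) hodd hrF
    refine ⟨k, hk, h, hf, by
      rw [← orderOf_toO h2 hodd hf h (Commute.refl h), ← orderOf_map_prod_one φ hφ.inj, hha, ha], ?_⟩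
    obtain ⟨z, hzh, z', hzb⟩ := hz b hab.symm
    have hpow : φ ((toO h2 hodd hf z hzh, z') ^ p) = φ 1 := by
      rw [map_pow, hzb, ← hb, pow_orderOf_eq_one, map_one]
    by_cases h1 : z = 1
    · refine Or.inr (lt_of_le_of_ne hk fun hkn => ?_)
      have hz' : z' = 1 := by
        rcases orth_line (show n - k = 0 by omega) z' with h0 | h0
        · exact h0
        · have h3 : z' ^ p = 1 := congrArg Prod.snd (hφ.inj hpow)
          obtain ⟨j, hj⟩ := hp.odd_of_ne_two hp2
          have hsq : z' * z' = 1 := by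
            rw [h0]; exact H5.orth_ext fun x => by simp [H5.orth_mul_apply, H4.negOrth_apply]
          rwa [hj, pow_succ, pow_mul, pow_two, hsq, one_pow, one_mul] at h3
      rw [toO_eq_one.mpr h1, hz', show ((1 : H5.orth (qsig h)), (1 : H5.orth (H5.qOdd (n - k) F))) = 1
        from rfl, map_one] at hzb
      rw [← hzb, orderOf_one] at hb
      exact hp.ne_one hb.symm
    · refine Or.inl ⟨z, hzh, (orderOf_prime_iff hp).mpr ⟨?_, h1⟩⟩
      have h3 : toO h2 hodd hf z hzh ^ p = 1 := congrArg Prod.fst (hφ.inj hpow)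
      have h4 : ((toO h2 hodd hf z hzh : VC k F ≃ₗ[F] VC k F)) ^ p = 1 := congrArg Subtype.val h3
      exact Subtype.ext h4
  · rintro ⟨k, hk, h, hf, ho, hor⟩
    obtain ⟨φ, hφ⟩ := exists_embO h2 hk hodd hf
    have ha : orderOf (φ (toO h2 hodd hf h (Commute.refl h), 1)) = r := by
      rw [orderOf_map_prod_one φ hφ.inj, orderOf_toO, ho]
    rcases hor with ⟨z, hzh, hz⟩ | hlt
    · exact ⟨_, φ (toO h2 hodd hf z hzh, 1),
        Commute.map (Commute.prod (commute_toO h2 hodd hf (Commute.refl h) hzh hzh.symm) (Commute.refl 1)) φ,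
        ha, by rw [orderOf_map_prod_one φ hφ.inj, orderOf_toO, hz]⟩
    · obtain ⟨t, ht⟩ := exists_orderOf_char_orth (F := F) (p := p) (show 1 ≤ n - k by omega)
      exact ⟨_, φ (1, t), Commute.map (Commute.prod (Commute.one_right _) (Commute.one_left t)) φ,
        ha, by rw [orderOf_map_one_prod φ hφ.inj, ht]⟩

/-- The common datum for elements of order `2 r`. -/
def DatTwo (n r : ℕ) (F : Type*) [Field F] : Prop :=
  ∃ (k : ℕ) (_ : k ≤ n) (h : IsoC k F), Fpf r (h : VC k F ≃ₗ[F] VC k F) ∧ orderOf h = r ∧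
    (k < n ∨ ∃ z : IsoC k F, Commute z h ∧ z ≠ 1 ∧ z ≠ neg _ ∧ (z * z = 1 ∨ z * z = neg _))

omit [Fintype F] in
theorem datTwo_iff_isoC (h2 : (2 : F) ≠ 0) (hr : r.Prime) (hrF : (r : F) ≠ 0) :
    (∃ a b : IsoC n F, Commute a b ∧ orderOf a = r ∧ b ≠ 1 ∧ b ≠ neg _ ∧
      (b * b = 1 ∨ b * b = neg _)) ↔ DatTwo n r F := by
  constructor
  · rintro ⟨a, b, hab, ha, hb1, hbn, hb⟩
    obtain ⟨k, hk, h, hf, φ, hφ, hneg, hha, hz⟩ := exists_splitC a (ha ▸ pow_orderOf_eq_one a) hrF
    refine ⟨k, hk, h, hf, by rw [← orderOf_map_prod_one φ hφ, hha, ha], ?_⟩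
    rcases hk.lt_or_eq with hlt | hkn
    · exact Or.inl hlt
    have := subsingleton_sub (F := F) hkn
    obtain ⟨⟨z, z'⟩, hzb, hzh⟩ := hz b hab.symm
    refine Or.inr ⟨z, hzh, fun h1 => hb1 ?_, fun h1 => hbn ?_, ?_⟩
    · rw [← hzb, h1, Subsingleton.elim z' 1]; exact map_one φ
    · rw [← hzb, h1, Subsingleton.elim z' (neg _), hneg]
    · have hsq : φ (z * z, z' * z') = b * b := by rw [← hzb, ← map_mul]; rfl
      rcases hb with hb | hb
      · exact Or.inl (congrArg Prod.fst (hφ (hsq.trans (hb.trans (map_one φ).symm))))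
      · exact Or.inr (congrArg Prod.fst (hφ (hsq.trans (hb.trans hneg.symm))))
  · rintro ⟨k, hk, h, -, ho, hor⟩
    obtain ⟨φ, hφ, hneg⟩ := exists_embC (F := F) hk
    have hk1 : 1 ≤ k := pos_of_ne_one ((orderOf_prime_iff hr).mp ho).2
    have ha : orderOf (φ (h, 1)) = r := by rw [orderOf_map_prod_one φ hφ, ho]
    by_cases hlt : k < n
    · have hn1 := neg_isoC_ne_one h2 (show 1 ≤ n - k by omega)
      refine ⟨_, φ (1, neg _), Commute.map (Commute.prod (Commute.one_right h)
        (Commute.one_left _)) φ, ha, fun h1 => hn1 ?_, fun h1 => neg_isoC_ne_one h2 hk1 ?_, Or.inl ?_⟩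
      · exact congrArg Prod.snd (hφ (h1.trans (map_one φ).symm))
      · exact (congrArg Prod.fst (hφ (h1.trans hneg.symm))).symm
      · rw [← map_mul, Prod.mk_mul_mk, one_mul, neg_mul_self]; exact map_one φ
    · obtain ⟨z, hzh, hz1, hzn, hz2⟩ := hor.resolve_left hlt
      have := subsingleton_sub (F := F) (show k = n by omega)
      refine ⟨_, φ (z, 1), Commute.map (Commute.prod hzh.symm (Commute.refl 1)) φ, ha,
        fun h1 => hz1 (congrArg Prod.fst (hφ (h1.trans (map_one φ).symm))),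
        fun h1 => hzn (congrArg Prod.fst (hφ (h1.trans hneg.symm))), ?_⟩
      rcases hz2 with hz2 | hz2
      · left; rw [← map_mul, Prod.mk_mul_mk, hz2, one_mul]; exact map_one φ
      · right; rw [← map_mul, Prod.mk_mul_mk, hz2, one_mul,
          Subsingleton.elim (1 : IsoC (n - k) F) (neg _), hneg]

omit [Fintype F] in
theorem det_J (k : ℕ) : (Matrix.J (Fin k) F).det = 1 := by
  have e : Matrix.J (Fin k) F =
      Matrix.fromBlocks 1 (-1) 0 1 * Matrix.fromBlocks 1 0 1 1 * Matrix.fromBlocks 1 (-1) 0 1 := by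
    simp [Matrix.J, Matrix.fromBlocks_multiply]
  rw [e, Matrix.det_mul, Matrix.det_mul, Matrix.det_fromBlocks_zero₂₁,
    Matrix.det_fromBlocks_zero₁₂]
  simp

omit [Fintype F] in
theorem det_gram_qsig (h2 : (2 : F) ≠ 0) {k : ℕ} (h : IsoC k F) :
    (H4.gram (qsig h) (Pi.basisFun F _)).det =
      LinearMap.det (dlt (h : VC k F ≃ₗ[F] VC k F)) := by
  have e : H4.gram (qsig h) (Pi.basisFun F _) =
      (LinearMap.toMatrix' (dlt (h : VC k F ≃ₗ[F] VC k F))).transpose * Matrix.J (Fin k) F := by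
    ext i j
    rw [H4.gram, Matrix.of_apply, qsig, polar_qf h2 _ (sig_h_symm h), sig_apply, H2.sympBilin,
      Matrix.toBilin'_apply]
    simp [Matrix.mul_apply, Pi.single_apply, LinearMap.toMatrix'_apply, mul_comm]
  rw [e, Matrix.det_mul, Matrix.det_transpose, det_J, mul_one, LinearMap.det_toMatrix']

theorem exists_spin_one {k : ℕ} (h2 : (2 : F) ≠ 0) (hodd : Odd r) {h : IsoC k F}
    (hf : Fpf r (h : VC k F ≃ₗ[F] VC k F)) (hk : 1 ≤ k) {z : IsoC k F} (hzh : Commute z h)
    (hz1 : z ≠ 1) (hzn : z ≠ neg _) (hz2 : z * z = 1) :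
    ∃ (w : IsoC k F) (hw : Commute w h), w ≠ 1 ∧ w * w = 1 ∧
      toO h2 hodd hf w hw ∈ commutator (H5.orth (qsig h)) := by
  have : Finite (VC k F) := Pi.finite
  have hQ := qsig_nondegenerate h2 hodd hf
  have hstd := H5.std_of_two_ne_zero h2 (Module.finrank F (VC k F))
  have hdick : ∀ (w : IsoC k F) (hw : Commute w h), w * w = 1 →
      H5.dick (toO h2 hodd hf w hw) = 1 := by
    intro w hw hw2
    have he : Even (H5.rk (toO h2 hodd hf w hw)) :=
      even_finrank_range_mv (z := (w : VC k F ≃ₗ[F] VC k F)) (H2.sympBilin_nondegenerate k F)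
        (H2.sympBilin_isAlt k F) h2 w.2
        (by rw [pow_two, ← Subgroup.coe_mul, hw2]; rfl)
    rw [H5.dick, he.neg_one_pow]
  have hn : Commute (neg (H2.sympBilin k F)) h := neg_comm _ h
  have hzn2 : z * neg _ * (z * neg _) = 1 := by
    rw [mul_assoc, ← mul_assoc (neg _) z, (neg_comm _ z).eq, mul_assoc z (neg _), neg_mul_self,
      mul_one, hz2]
  have hprod : toO h2 hodd hf z hzh * toO h2 hodd hf (z * neg _) (hzh.mul_left hn) =
      toO h2 hodd hf (neg _) hn := by
    refine Subtype.ext ?_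
    show (z : VC k F ≃ₗ[F] VC k F) * ((z * neg _ : IsoC k F) : VC k F ≃ₗ[F] VC k F) = _
    rw [← Subgroup.coe_mul, ← mul_assoc, hz2, one_mul]
    rfl
  have hs := congrArg (H5.spin (qsig h)) hprod
  rw [map_mul] at hs
  have hmem : ∀ (w : IsoC k F) (hw : Commute w h), w * w = 1 →
      H5.spin (qsig h) (toO h2 hodd hf w hw) = 1 →
      toO h2 hodd hf w hw ∈ commutator (H5.orth (qsig h)) := fun w hw hw2 hs' =>
    (H5.mem_commutator_iff hQ hstd).mpr ⟨hdick w hw hw2, hs'⟩
  rcases Int.units_eq_one_or (H5.spin (qsig h) (toO h2 hodd hf z hzh)) with h1 | h1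
  · exact ⟨z, hzh, hz1, hz2, hmem _ _ hz2 h1⟩
  rcases Int.units_eq_one_or
    (H5.spin (qsig h) (toO h2 hodd hf (z * neg _) (hzh.mul_left hn))) with h1' | h1'
  · refine ⟨_, hzh.mul_left hn, fun h0 => hzn ?_, hzn2, hmem _ _ hzn2 h1'⟩
    calc z = z * neg _ * neg _ := by rw [mul_assoc, neg_mul_self, mul_one]
      _ = neg _ := by rw [h0, one_mul]
  · rw [h1, h1'] at hs
    exact ⟨_, hn, neg_isoC_ne_one h2 hk, neg_mul_self _,
      hmem _ _ (neg_mul_self _) (hs.symm.trans (by decide))⟩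

theorem datTwo_iff_orth (hoddq : Odd (Fintype.card F)) (h2 : (2 : F) ≠ 0) (hr : r.Prime)
    (hr2 : r ≠ 2) (hrF : (r : F) ≠ 0) :
    (∃ a b : H5.orth (H5.qOdd n F), Commute a b ∧ orderOf a = r ∧ orderOf b = 2 ∧
      b ∈ commutator (H5.orth (H5.qOdd n F))) ↔ DatTwo n r F := by
  have hodd := hr.odd_of_ne_two hr2
  constructor
  · rintro ⟨a, b, hab, ha, hb, hbc⟩
    obtain ⟨k, hk, h, hf, φ, hφ, hha, hz⟩ :=
      exists_splitO h2 a (ha ▸ pow_orderOf_eq_one a) hodd hrF
    have ho : orderOf h = r := by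
      rw [← orderOf_toO h2 hodd hf h (Commute.refl h), ← orderOf_map_prod_one φ hφ.inj, hha, ha]
    refine ⟨k, hk, h, hf, ho, ?_⟩
    rcases hk.lt_or_eq with hlt | hkn
    · exact Or.inl hlt
    have hk1 : 1 ≤ k := pos_of_ne_one ((orderOf_prime_iff hr).mp ho).2
    obtain ⟨z, hzh, z', hzb⟩ := hz b hab.symm
    have hpow : φ ((toO h2 hodd hf z hzh, z') ^ 2) = φ 1 := by
      rw [map_pow, hzb, ← hb, pow_orderOf_eq_one, map_one]
    have hz2 : z * z = 1 := by
      have h3 : toO h2 hodd hf z hzh ^ 2 = 1 := congrArg Prod.fst (hφ.inj hpow)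
      rw [pow_two] at h3
      have h4 : (z : VC k F ≃ₗ[F] VC k F) * (z : VC k F ≃ₗ[F] VC k F) = 1 := congrArg Subtype.val h3
      exact Subtype.ext h4
    by_cases hz1 : z = 1
    · exfalso
      rw [toO_eq_one.mpr hz1] at hzb
      rcases orth_line (show n - k = 0 by omega) z' with h0 | h0
      · rw [h0, show ((1 : H5.orth (qsig h)), (1 : H5.orth (H5.qOdd (n - k) F))) = 1 from rfl,
          map_one] at hzb
        rw [← hzb, orderOf_one] at hb
        omega
      · rw [← hzb, h0, hφ.right_iff] at hbc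
        exact negOrth_qOdd_notMem h2 _ hbc
    by_cases hzn : z = neg _
    · have hneg : toO h2 hodd hf z hzh = H4.negOrth _ := by subst hzn; exact Subtype.ext rfl
      rw [hneg] at hzb
      rcases orth_line (show n - k = 0 by omega) z' with h0 | h0
      · rw [← hzb, h0, hφ.left_iff] at hbc
        have : Finite (VC k F) := Pi.finite
        have hsq := ((H4.negOrth_mem_iff h2 (qsig_nondegenerate h2 hodd hf) (Pi.basisFun F _)
          (by rw [finrank_VC]; omega)).mp hbc).2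
        rw [det_gram_qsig h2] at hsq
        have := nontrivial_VC (F := F) hk1
        obtain ⟨w, hwh, hw⟩ := TwistInvolution.exists_small_commuting hoddq h2
          (H2.sympBilin_nondegenerate k F) (H2.sympBilin_isAlt k F) hodd hrF h.2 hf hsq
        exact Or.inr ⟨w, Subtype.ext hwh.eq, hw⟩
      · rw [← hzb, h0, hφ.map_neg] at hbc
        exact absurd hbc (negOrth_qOdd_notMem h2 n)
    exact Or.inr ⟨z, hzh, hz1, hzn, Or.inl hz2⟩
  · rintro ⟨k, hk, h, hf, ho, hor⟩
    obtain ⟨φ, hφ⟩ := exists_embO h2 hk hodd hf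
    have hk1 : 1 ≤ k := pos_of_ne_one ((orderOf_prime_iff hr).mp ho).2
    have ha : orderOf (φ (toO h2 hodd hf h (Commute.refl h), 1)) = r := by
      rw [orderOf_map_prod_one φ hφ.inj, orderOf_toO, ho]
    by_cases hlt : k < n
    · obtain ⟨b, hbc, hb2, hb1⟩ := exists_involution_orth (F := F) h2 (show 1 ≤ n - k by omega)
      refine ⟨_, φ (1, b), Commute.map (Commute.prod (Commute.one_right _) (Commute.one_left b)) φ,
        ha, ?_, (hφ.right_iff b).mpr hbc⟩
      rw [orderOf_map_one_prod φ hφ.inj, orderOf_prime_iff Nat.prime_two, pow_two]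
      exact ⟨hb2, hb1⟩
    · obtain ⟨z, hzh, hz1, hzn, hz2⟩ := hor.resolve_left hlt
      obtain ⟨w, hw, hw1, hw2, hwc⟩ : ∃ (w : IsoC k F) (hw : Commute w h), w ≠ 1 ∧ w * w = 1 ∧
          toO h2 hodd hf w hw ∈ commutator (H5.orth (qsig h)) := by
        rcases hz2 with hz2 | hz2
        · exact exists_spin_one h2 hodd hf hk1 hzh hz1 hzn hz2
        · have : Finite (VC k F) := Pi.finite
          refine ⟨neg _, neg_comm _ h, neg_isoC_ne_one h2 hk1, neg_mul_self _, ?_⟩
          have h3 : toO h2 hodd hf z hzh * toO h2 hodd hf z hzh =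
              toO h2 hodd hf (neg _) (neg_comm _ h) :=
            Subtype.ext (congrArg (fun x : IsoC k F => (x : VC k F ≃ₗ[F] VC k F)) hz2)
          rw [← h3]
          exact mul_self_mem_commutator h2 (qsig_nondegenerate h2 hodd hf) _
      refine ⟨_, φ (toO h2 hodd hf w hw, 1),
        Commute.map (Commute.prod (commute_toO h2 hodd hf (Commute.refl h) hw hw.symm) (Commute.refl 1)) φ,
        ha, ?_, (hφ.left_iff _).mpr hwc⟩
      rw [orderOf_map_prod_one φ hφ.inj, orderOf_toO, orderOf_prime_iff Nat.prime_two, pow_two]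
      exact ⟨hw2, hw1⟩

end cases

section final

variable [Fintype F] {p : ℕ} [Fact p.Prime] [CharP F p]

theorem two_char_both (h2 : (2 : F) ≠ 0) (hp2 : p ≠ 2) (hn : 3 ≤ n) :
    2 * p ∈ Set.range (orderOf : Cfsg.POmega F (Cfsg.quadFormOdd n F) → ℕ) ∧
      2 * p ∈ Set.range (orderOf : Cfsg.PSp n F → ℕ) := by
  have hp : p.Prime := Fact.out
  refine ⟨?_, ?_⟩
  · rw [range_pomega h2 hn]
    have : Finite (VO n F) := Pi.finite
    let i : Fin 3 → Fin n := fun i => ⟨i, by omega⟩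
    set v : VO n F := Pi.single (.inl ()) 1 with hv
    set w : VO n F := Pi.single (.inr (.inl (i 0))) 1 + Pi.single (.inr (.inr (i 0))) 1 with hw
    set e : VO n F := Pi.single (.inr (.inl (i 1))) 1 with he
    set a : VO n F := Pi.single (.inr (.inl (i 2))) 1 with ha
    have hQv : H5.qOdd n F v = 1 := by simp [H5.coe_qOdd, Cfsg.quadFormOdd, v, Pi.single_apply]
    have hQw : H5.qOdd n F w = 1 := by simp [H5.coe_qOdd, Cfsg.quadFormOdd, w, Pi.single_apply]
    have heQ : H5.qOdd n F e = 0 := by simp [H5.coe_qOdd, Cfsg.quadFormOdd, e, Pi.single_apply]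
    have hea : polar (H5.qOdd n F) e a = 0 := by simp [H5.polar_qOdd, e, a, Pi.single_apply]
    have hvw : polar (H5.qOdd n F) v w = 0 := by simp [H5.polar_qOdd, v, w, Pi.single_apply]
    have fix : ∀ x, polar (H5.qOdd n F) v x = 0 → polar (H5.qOdd n F) w x = 0 →
        (((H5.refl _ v * H5.refl _ w : H5.orth (H5.qOdd n F))) : VO n F ≃ₗ[F] VO n F) x = x :=
      fun x h1 h2' => by
        rw [H5.orth_mul_apply, H5.refl_apply_of_ortho h2', H5.refl_apply_of_ortho h1]
    set b : H5.orth (H5.qOdd n F) := H5.refl _ v * H5.refl _ w with hb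
    have hbc : b ∈ commutator (H5.orth (H5.qOdd n F)) := by
      have hl := (H5.list_prod_mem_commutator_iff (H5.qOdd_nondegenerate n h2)
        (H5.std_of_two_ne_zero h2 _) (vs := [v, w]) (by simp [hQv, hQw])).mpr
        ⟨by simp, by simp [hQv, hQw]⟩
      simpa [b] using hl
    have hb2 : b * b = 1 := by
      have hc := H5.refl_conj (H5.refl (H5.qOdd n F) v) w
      rw [H5.refl_apply_of_ortho hvw, H5.refl_inv] at hc
      rw [hb, show H5.refl _ v * H5.refl _ w * (H5.refl _ v * H5.refl _ w) =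
        H5.refl _ v * H5.refl _ w * H5.refl _ v * H5.refl _ w by group, hc, H5.refl_mul_self]
    have hb1 : b ≠ 1 := fun h => by
      have h' := congrFun (LinearEquiv.congr_fun (congrArg Subtype.val h) v) (.inl ())
      rw [hb, H5.orth_mul_apply, H5.refl_apply_of_ortho (v := w) (x := v) (by rw [polar_comm]; exact hvw),
        H5.refl_apply_self (by rw [hQv]; exact one_ne_zero)] at h'
      simp [v] at h'
      exact h2 (by linear_combination -h')
    have hab : Commute b (H5.eich _ e a) := by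
      rw [commute_iff_eq, ← mul_inv_eq_iff_eq_mul, H5.eich_conj,
        fix e (by simp [H5.polar_qOdd, v, e, Pi.single_apply])
          (by simp [H5.polar_qOdd, w, e, i, Pi.single_apply]),
        fix a (by simp [H5.polar_qOdd, v, a, Pi.single_apply])
          (by simp [H5.polar_qOdd, w, a, i, Pi.single_apply])]
    have hbo : orderOf b = 2 := (orderOf_prime_iff Nat.prime_two).mpr ⟨by rw [pow_two, hb2], hb1⟩
    have hao : orderOf (H5.eich (H5.qOdd n F) e a) = p := by
      rw [orderOf_prime_iff hp, eich_pow heQ hea, CharP.cast_eq_zero, zero_smul, H5.eich_zero]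
      refine ⟨rfl, fun h => ?_⟩
      have h' := congrFun (LinearEquiv.congr_fun (congrArg Subtype.val h)
        (Pi.single (.inr (.inr (i 1))) 1)) (.inr (.inl (i 2)))
      rw [H5.eich_apply heQ hea] at h'
      simp only [H5.polar_qOdd] at h'
      simp [H5.coe_qOdd, Cfsg.quadFormOdd, e, a, i, Pi.single_apply] at h'
    refine ⟨b * H5.eich _ e a,
      mul_mem hbc (mem_commutator_of_odd h2 hao (hp.odd_of_ne_two hp2)), ?_⟩
    rw [hab.orderOf_mul_eq_mul_orderOf_of_coprime, hbo, hao]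
    rw [hbo, hao]
    exact (Nat.coprime_primes Nat.prime_two hp).mpr (Ne.symm hp2)
  · rw [range_psp_two (by omega) hp hp2]
    obtain ⟨φ, hφ, hneg⟩ := exists_embC (F := F) (show 1 ≤ n by omega)
    obtain ⟨t, ht⟩ := exists_orderOf_char_isoC (F := F) (p := p) (show 1 ≤ n - 1 by omega)
    refine ⟨φ (1, t), φ (neg _, 1), Commute.map (Commute.prod (Commute.one_left _)
      (Commute.one_right t)) φ, by rw [orderOf_map_one_prod φ hφ, ht],
      fun h => neg_isoC_ne_one h2 le_rfl (congrArg Prod.fst (hφ (h.trans (map_one φ).symm))),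
      fun h => neg_isoC_ne_one h2 (show 1 ≤ n - 1 by omega)
        (congrArg Prod.snd (hφ (h.trans hneg.symm))).symm, Or.inl ?_⟩
    rw [← map_mul, Prod.mk_mul_mk, one_mul, neg_mul_self]
    exact map_one φ

/-- The prime graphs coincide. -/
theorem main (hoddq : Odd (Fintype.card F)) (hn : 3 ≤ n) {r s : ℕ} (hr : r.Prime) (hs : s.Prime)
    (hrs : r ≠ s) :
    (r * s ∈ Set.range (orderOf : Cfsg.POmega F (Cfsg.quadFormOdd n F) → ℕ)) ↔
      (r * s ∈ Set.range (orderOf : Cfsg.PSp n F → ℕ)) := by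
  obtain ⟨p, _⟩ := CharP.exists F
  have : Fact p.Prime := ⟨CharP.char_is_prime F p⟩
  have hp : p.Prime := Fact.out
  have h2 : (2 : F) ≠ 0 := H4.two_ne_zero_of_odd_card hoddq
  have hp2 : p ≠ 2 := fun h => h2 (by
    have := CharP.cast_eq_zero F p
    rw [h] at this; exact_mod_cast this)
  have hcast : ∀ {t : ℕ}, t.Prime → t ≠ p → (t : F) ≠ 0 := fun {t} ht htp h0 =>
    htp (((Nat.prime_dvd_prime_iff_eq hp ht).mp ((CharP.cast_eq_zero_iff F p t).mp h0))).symm
  have two_r : ∀ {t : ℕ}, t.Prime → t ≠ 2 →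
      ((2 * t ∈ Set.range (orderOf : Cfsg.POmega F (Cfsg.quadFormOdd n F) → ℕ)) ↔
        (2 * t ∈ Set.range (orderOf : Cfsg.PSp n F → ℕ))) := by
    intro t ht ht2
    by_cases htp : t = p
    · subst htp
      exact iff_of_true (two_char_both h2 ht2 hn).1 (two_char_both h2 ht2 hn).2
    rw [range_psp_two (by omega) ht ht2, datTwo_iff_isoC h2 ht (hcast ht htp),
      ← datTwo_iff_orth hoddq h2 ht ht2 (hcast ht htp), range_pomega h2 hn]
    have hco : Nat.Coprime 2 t := (Nat.coprime_primes Nat.prime_two ht).mpr (Ne.symm ht2)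
    constructor
    · rintro ⟨g, hgc, hg⟩
      have h0 : orderOf g ≠ 0 := orderOf_ne_zero_iff.mpr (isOfFinOrder_of_finite g)
      exact ⟨_, _, (Commute.refl g).pow_pow _ _, orderOf_pow_orderOf_div h0 (hg ▸ dvd_mul_left t 2),
        orderOf_pow_orderOf_div h0 (hg ▸ dvd_mul_right 2 t), pow_mem hgc _⟩
    · rintro ⟨a, b, hab, ha, hb, hbc⟩
      refine ⟨b * a, mul_mem hbc (mem_commutator_of_odd h2 ha (ht.odd_of_ne_two ht2)), ?_⟩
      rw [hab.symm.orderOf_mul_eq_mul_orderOf_of_coprime (by rw [ha, hb]; exact hco), ha, hb]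
  have with_p : ∀ {t : ℕ}, t.Prime → t ≠ 2 → t ≠ p →
      ((t * p ∈ Set.range (orderOf : Cfsg.POmega F (Cfsg.quadFormOdd n F) → ℕ)) ↔
        (t * p ∈ Set.range (orderOf : Cfsg.PSp n F → ℕ))) := by
    intro t ht ht2 htp
    have hN : Odd (t * p) := (ht.odd_of_ne_two ht2).mul (hp.odd_of_ne_two hp2)
    have hco : Nat.Coprime t p := (Nat.coprime_primes ht hp).mpr htp
    rw [range_pomega_odd h2 hn hN, range_psp_odd (by omega) hN, exists_orderOf_mul_iff hco,
      exists_orderOf_mul_iff hco, datP_iff_orth h2 ht ht2 (hcast ht htp) hp2,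
      datP_iff_isoC ht (hcast ht htp)]
  by_cases hr2 : r = 2
  · subst hr2; exact two_r hs (Ne.symm hrs)
  by_cases hs2 : s = 2
  · subst hs2; rw [mul_comm]; exact two_r hr hrs
  by_cases hrp : r = p
  · subst hrp; rw [mul_comm]; exact with_p hs hs2 (Ne.symm hrs)
  by_cases hsp : s = p
  · subst hsp; exact with_p hr hr2 hrs
  have hN : Odd (r * s) := (hr.odd_of_ne_two hr2).mul (hs.odd_of_ne_two hs2)
  have hNF : ((r * s : ℕ) : F) ≠ 0 := by
    rw [Nat.cast_mul]; exact mul_ne_zero (hcast hr hrp) (hcast hs hsp)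
  rw [range_pomega_odd h2 hn hN, range_psp_odd (by omega) hN, iff_odd h2 hN hNF]

end final

end Cfsg.Agent.H71.SympOddPrimeGraph
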