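import Cfsg.Agent.H71.TrialityHeisenberg
import Cfsg.Agent.H71.CubicNormZero
import Cfsg.Agent.H71.HeisenbergDegree
import Cfsg.Agent.H46.TwistOrder

/-!
Lower bound for the degree of a representation of ³D₄(q) in which the centre of the Heisenberg
radical acts non-trivially.
-/

set_option autoImplicit false
set_option maxRecDepth 100000

open Cfsg.Lie Cfsg.Agent.H46 Cfsg.Agent.H47 Module LinearMap

namespace Cfsg.Agent.H71.Triality

variable {K : Type*} [Field K] [Fintype K] {q : ℕ} (f : K →+* K)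

local notation "X" => Good.xg goodD4

/-- The subfield with `q` elements. -/
abbrev fixField : Subfield K := RingHom.eqLocusField f (RingHom.id K)

theorem fix_eq (s : fixField f) : f (s : K) = s := s.2

variable (hf : ∀ x, f x = x ^ q) (hK : Fintype.card K = q ^ 3)
include hf hK

theorem f_three (x : K) : f (f (f x)) = x := period_D4 f hf hK x

theorem card_fixField : Nat.card (fixField f) = q := by
  have h := card_period f hf hK (by norm_num : 0 < 3) 1 (one_dvd _)
  rw [pow_one] at h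
  rw [← h]
  rfl

theorem finrank_fixField : Module.finrank (fixField f) K = 3 := by
  have h := Module.natCard_eq_pow_finrank (K := fixField f) (V := K)
  rw [card_fixField f hf hK, Nat.card_eq_fintype_card, hK] at h
  exact (Nat.pow_right_injective (one_lt_q f hf hK (by norm_num : 0 < 3)) h).symm

theorem exists_tr3_ne_zero : ∃ x : K, tr3 f x ≠ 0 := by
  classical
  by_contra hc
  push Not at hc
  have hq1 : 1 < q := one_lt_q f hf hK (by norm_num : 0 < 3)
  let P : Polynomial K := Polynomial.X + Polynomial.X ^ q + Polynomial.X ^ (q ^ 2)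
  have hdeg : P.natDegree ≤ q ^ 2 := by
    refine Polynomial.natDegree_add_le_of_degree_le (Polynomial.natDegree_add_le_of_degree_le ?_ ?_) ?_
    · rw [Polynomial.natDegree_X]; exact Nat.one_le_pow _ _ (by omega)
    · rw [Polynomial.natDegree_X_pow]; exact Nat.le_self_pow two_ne_zero q
    · rw [Polynomial.natDegree_X_pow]
  have hP0 : P = 0 := by
    refine Polynomial.eq_zero_of_natDegree_lt_card_of_eval_eq_zero P (ι := K) Function.injective_id (fun x => ?_) ?_
    · have := hc x
      simp only [tr3, hf, ← pow_mul, ← sq] at this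
      simpa [P] using this
    · rw [hK]
      exact lt_of_le_of_lt hdeg (Nat.pow_lt_pow_right hq1 (by norm_num))
  have h1 : P.coeff 1 = 1 := by
    simp only [P, Polynomial.coeff_add, Polynomial.coeff_X_one, Polynomial.coeff_X_pow]
    have h2 : q < q ^ 2 := lt_self_pow₀ hq1 (by norm_num)
    rw [if_neg (by omega), if_neg (by omega), add_zero, add_zero]
  rw [hP0, Polynomial.coeff_zero] at h1
  exact zero_ne_one h1

theorem mem_short (y : K) : short f y ∈ twistedD4 K q := by
  refine Subgroup.subset_closure ⟨_, Or.inr ⟨y, (d4p1, d4p3, d4p4), by simp, rfl⟩, (word_three goodD4 ..).2 ?_⟩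
  simp only [short, hf, ← pow_mul, ← sq, d4p1, d4p3, d4p4]

theorem mem_simple {r : ℕ} (hr : r ∈ [d4p2, d4m2]) {s : K} (hs : f s = s) : X r s ∈ twistedD4 K q := by
  exact Subgroup.subset_closure ⟨_, Or.inl ⟨s, by rw [← hf, hs], r, hr, rfl⟩, (word_one goodD4 ..).2 rfl⟩

theorem mem_ng {s : K} (hs : f s = s) : goodD4.ng 14 s ∈ twistedD4 K q := by
  have h9 : chevD4.neg 14 = 9 := by decide +kernel
  have hm : (d4p2 = 14) ∧ d4m2 = 9 := ⟨rfl, rfl⟩
  have h1 : X 14 s ∈ twistedD4 K q := mem_simple f hf hK (by simp [hm.1]) hs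
  have h2 : X 9 (-s⁻¹) ∈ twistedD4 K q := mem_simple f hf hK (by simp [hm.2]) (by rw [map_neg, map_inv₀, hs])
  unfold Good.ng
  rw [h9]
  exact mul_mem (mul_mem h1 h2) h1

theorem twist_tables : ∀ p ∈ [(14, 14, 1), (22, 22, 1), (23, 23, 1), (19, 16, -1), (16, 15, 1), (15, 19, -1),
    (20, 21, 1), (21, 17, -1), (17, 20, -1)],
    (graphD4.S.π p.1 = p.2.1) ∧ (graphD4.S.ε p.1 = (p.2.2 : ℤ)) ∧ p.1 < chevD4.nroots := by decide +kernel

theorem mem_center {v : K} (hv : f v = v) : X 23 v ∈ twistedD4 K q := by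
  rw [twistedD4_eq f hf hK]
  refine (tdD4 f).U1_le_G1 (Subgroup.mem_inf.2 ⟨?_, ?_⟩)
  · rw [graphD4.tdata_U okD4 coxD4 f]
    exact goodD4.xg_mem_pos (goodD4.isPosRoot_iff.2 (by decide +kernel)) _
  · show goodD4.twistHom okD4.check f (X 23 v) = X 23 v
    obtain ⟨e1, e2, e3⟩ := twist_tables (K := K) f hf hK (23, 23, 1) (by simp)
    rw [goodD4.twistHom_xg okD4.check f e3, e1, e2, hv, Int.cast_one, one_mul]

theorem mem_qElt (s t u r : K) (hs : f s = s) (hr : f r = r) : qElt f s t u r ∈ twistedD4 K q := by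
  have h3 := f_three f hf hK
  rw [twistedD4_eq f hf hK]
  refine (tdD4 f).U1_le_G1 (Subgroup.mem_inf.2 ⟨?_, ?_⟩)
  · rw [graphD4.tdata_U okD4 coxD4 f]
    have hp : ∀ k ∈ [14, 15, 16, 17, 19, 20, 21, 22], ∀ a : K, X k a ∈ chevD4.posUnipotent K := fun k hk a =>
      goodD4.xg_mem_pos (goodD4.isPosRoot_iff.2 ((by decide +kernel :
        ∀ k ∈ [14, 15, 16, 17, 19, 20, 21, 22], chevD4.nroots / 2 ≤ k ∧ k < chevD4.nroots) k hk)) _
    exact mul_mem (mul_mem (mul_mem (hp 14 (by simp) _) (mul_mem (mul_mem (hp 19 (by simp) _) (hp 16 (by simp) _))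
      (hp 15 (by simp) _))) (mul_mem (mul_mem (hp 20 (by simp) _) (hp 21 (by simp) _)) (hp 17 (by simp) _)))
      (hp 22 (by simp) _)
  · show goodD4.twistHom okD4.check f (qElt f s t u r) = qElt f s t u r
    have tw : ∀ r r' : ℕ, ∀ e : ℤ, (r, r', e) ∈ [(14, 14, 1), (22, 22, 1), (23, 23, 1), (19, 16, -1), (16, 15, 1),
        (15, 19, -1), (20, 21, 1), (21, 17, -1), (17, 20, -1)] → ∀ a : K,
        goodD4.twistHom okD4.check f (X r a) = X r' ((e : K) * f a) := by
      intro r r' e hmem a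
      obtain ⟨e1, e2, e3⟩ := twist_tables (K := K) f hf hK (r, r', e) hmem
      rw [goodD4.twistHom_xg okD4.check f e3, e1, e2]
    have c : ∀ i j, Comm0 i j → ∀ a b : K, X j b * X i a = X i a * X j b := fun i j h a b => comm0 h a b
    simp only [qElt, map_mul]
    rw [tw 14 14 1 (by simp), tw 19 16 (-1) (by simp), tw 16 15 1 (by simp), tw 15 19 (-1) (by simp),
      tw 20 21 1 (by simp), tw 21 17 (-1) (by simp), tw 17 20 (-1) (by simp), tw 22 22 1 (by simp)]
    simp only [map_neg, h3, hs, hr, Int.cast_one, Int.cast_neg, one_mul, neg_mul, neg_neg]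
    have ea : X 16 (-f t) * X 15 (-f (f t)) * X 19 t = X 19 t * X 16 (-f t) * X 15 (-f (f t)) := by
      rw [mul_assoc, ← c 15 19 (tables.2.1 (15, 19) (by simp)), ← mul_assoc, ← c 16 19 (tables.2.1 (16, 19) (by simp))]
    have eb : X 21 (f u) * X 17 (-f (f u)) * X 20 u = X 20 u * X 21 (f u) * X 17 (-f (f u)) := by
      rw [mul_assoc, ← c 17 20 (tables.2.1 (17, 20) (by simp)), ← mul_assoc, c 20 21 (tables.2.1 (20, 21) (by simp))]
    rw [ea, eb]

omit [Fintype K] hf hK in
/-- The parameter space of the radical modulo its centre. -/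
abbrev Par : Type _ := fixField f × K × K × fixField f

/-- An element of the radical. -/
noncomputable def rad (v : Par f) : ↥(twistedD4 K q) :=
  ⟨qElt f v.1 v.2.1 v.2.2.1 v.2.2.2, mem_qElt f hf hK _ _ _ _ v.1.2 v.2.2.2.2⟩

/-- An element of the centre of the radical. -/
noncomputable def cen (v : fixField f) : ↥(twistedD4 K q) := ⟨X 23 v, mem_center f hf hK v.2⟩

/-- The cocycle of the radical. -/
noncomputable def coc (v w : Par f) : fixField f :=
  ⟨-tr3 f (w.2.1 * f (f v.2.2.1)) - w.1 * v.2.2.2, by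
    show f _ = _
    rw [map_sub, map_neg, tr3_fixed (f_three f hf hK), map_mul, fix_eq, fix_eq]
    rfl⟩

theorem rad_mul (v w : Par f) : rad f hf hK v * rad f hf hK w = rad f hf hK (v + w) * cen f hf hK (coc f hf hK v w) :=
  Subtype.ext (by
    simp only [rad, cen, coc, Subgroup.coe_mul, Prod.fst_add, Prod.snd_add, Subfield.coe_add]
    exact qElt_mul f (f_three f hf hK) _ _ _ _ _ _ _ _)

theorem cen_add (a b : fixField f) : cen f hf hK (a + b) = cen f hf hK a * cen f hf hK b :=
  Subtype.ext (by simp [cen, goodD4.xg_add])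

theorem cen_comm (a : fixField f) (v : Par f) : cen f hf hK a * rad f hf hK v = rad f hf hK v * cen f hf hK a :=
  Subtype.ext (central_q f _ _ _ _ _)

theorem cen_zero : cen f hf hK 0 = 1 := Subtype.ext (by simp [cen, goodD4.xg_zero])

theorem rad_zero : rad f hf hK 0 = 1 := Subtype.ext (by simp [rad, qElt, goodD4.xg_zero])

/-- Elements with a prescribed commutator in the centre. -/
theorem exists_conj (v : Par f) (hu : v.2.2.1 = 0) (hr : v.2.2.2 = 0) (hv : v ≠ 0) (ζ : fixField f) :
    ∃ g, g * rad f hf hK v * g⁻¹ = rad f hf hK v * cen f hf hK ζ := by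
  classical
  obtain ⟨x0, hx0⟩ := exists_tr3_ne_zero f hf hK
  obtain ⟨s, t, u', r'⟩ := v
  simp only at hu hr
  subst hu hr
  have h3 := f_three f hf hK
  obtain ⟨u, r, hur⟩ : ∃ (u : K) (r : fixField f), -tr3 f (t * f (f u)) - (s : K) * r = ζ := by
    by_cases hs : s = 0
    · have ht : t ≠ 0 := fun ht => hv (by subst hs ht; rfl)
      refine ⟨f (x0 * (-(ζ : K)) / (tr3 f x0 * t)), 0, ?_⟩
      rw [h3, mul_div_assoc', show t * (x0 * -(ζ : K)) / (tr3 f x0 * t) = x0 * (-(ζ : K) / tr3 f x0) by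
        field_simp, show ((0 : fixField f) : K) = 0 from rfl, mul_zero, sub_zero]
      have hc : f (-(ζ : K) / tr3 f x0) = -(ζ : K) / tr3 f x0 := by
        rw [map_div₀, map_neg, fix_eq, tr3_fixed h3]
      generalize hk : -(ζ : K) / tr3 f x0 = k at hc
      have : tr3 f (x0 * k) = tr3 f x0 * k := by simp only [tr3, map_mul, hc]; ring
      rw [this, ← hk]
      field_simp
    · refine ⟨0, -(ζ / s), ?_⟩
      have hs' : (s : K) ≠ 0 := fun h => hs (Subtype.ext h)
      simp [tr3]
      field_simp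
  refine ⟨rad f hf hK (0, 0, u, r), ?_⟩
  have e1 : coc f hf hK (0, 0, u, r) (s, t, 0, 0) = ζ := Subtype.ext (by simpa [coc] using hur)
  have e2 : coc f hf hK (s, t, 0, 0) (0, 0, u, r) = 0 := Subtype.ext (by simp [coc, tr3])
  rw [mul_inv_eq_iff_eq_mul, rad_mul, e1, mul_assoc, cen_comm, ← mul_assoc (rad f hf hK (s, t, 0, 0)), rad_mul,
    e2, cen_zero, mul_one, add_comm]

/-- The Weyl element of the short orbit. -/
theorem exists_weyl : ∀ c : fixField f, ∃ (g : ↥(twistedD4 K q)) (c' : fixField f), (c ≠ 0 → c' ≠ 0) ∧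
    g * rad f hf hK (c, 0, 0, 0) * g⁻¹ = rad f hf hK (0, 0, 0, c') := by
  intro c
  set N : GL chevD4.Idx K := goodD4.ng 18 1 * goodD4.ng 13 1 * goodD4.ng 12 1 with hN
  have hNmem : N ∈ twistedD4 K q := by
    have h := (tdD4 f).N0_le_G1 ((tdD4 f).nS_mem_N0 (0 : Fin 2))
    rw [← twistedD4_eq f hf hK, graphD4.tdata_nS] at h
    simp only [GraphData.nPar, GraphData.orbProd, orbD4.1, List.map_cons, List.map_nil, List.prod_cons,
      List.prod_nil, mul_one, simpleD4.1, simpleD4.2.2.1, simpleD4.2.2.2.1] at h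
    rw [hN, mul_assoc]
    exact h
  obtain ⟨r1, r2, r3, hlt⟩ : chevD4.reflectRoot 3 14 = 15 ∧ chevD4.reflectRoot 2 15 = 17 ∧
      chevD4.reflectRoot 0 17 = 22 ∧ chevD4.simple 0 = 18 ∧ chevD4.simple 2 = 13 ∧ chevD4.simple 3 = 12 := by
    decide +kernel
  obtain ⟨e, he, he0⟩ : ∃ e : K, N * X 14 (c : K) = X 22 (e * c) * N ∧ f e = e ∧ e ≠ 0 := by
    refine ⟨(goodD4.tab.eta 0 17 : K) * ((goodD4.tab.eta 2 15 : K) * (goodD4.tab.eta 3 14 : K)), ?_, ?_, ?_⟩
    · have k1 := goodD4.ng_simple_mul_xg (F := K) (i := 3) (s := 14) (by decide) (by decide)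
      have k2 := goodD4.ng_simple_mul_xg (F := K) (i := 2) (s := 15) (by decide) (by decide)
      have k3 := goodD4.ng_simple_mul_xg (F := K) (i := 0) (s := 17) (by decide) (by decide)
      simp only [r1, r2, r3, hlt.1, hlt.2.1, hlt.2.2] at k1 k2 k3
      rw [hN, mul_assoc _ (goodD4.ng 12 1), k1, ← mul_assoc, mul_assoc (goodD4.ng 18 1), k2, ← mul_assoc,
        k3]
      simp only [mul_assoc]
    · simp only [map_mul, map_intCast]
    · have hne : ∀ i s, (goodD4.tab.eta i s : K) ≠ 0 := fun i s =>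
        left_ne_zero_of_mul_eq_one (goodD4.eta_cast_sq (F := K) i s)
      exact mul_ne_zero (hne 0 17) (mul_ne_zero (hne 2 15) (hne 3 14))
  refine ⟨⟨N, hNmem⟩, ⟨e * c, by show f _ = _; rw [map_mul, he0.1, fix_eq]; rfl⟩, fun h h' => ?_, Subtype.ext ?_⟩
  · exact he0.2 ((mul_eq_zero.1 (congrArg Subtype.val h')).resolve_right fun hh => h (Subtype.ext hh))
  · simp only [rad, Subgroup.coe_mul, Subgroup.coe_inv]
    simp [qElt, goodD4.xg_zero, mul_inv_eq_iff_eq_mul, he]

set_option maxHeartbeats 1000000 in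
/-- The trace facts. -/
theorem trace_roots {V : Type*} [AddCommGroup V] [Module ℂ V] [FiniteDimensional ℂ V]
    (ρ : ↥(twistedD4 K q) →* End ℂ V) :
    ∃ α : ℂ, (∀ v, v ≠ 0 → trace ℂ V (ρ (cen f hf hK v)) = α) ∧
      (∀ (y : K) (c ζ : fixField f), c ≠ 0 → ∃ w : Par f,
        (w.1 = c ∧ w.2.1 = -((c : K) * y) ∧ w.2.2.1 = -((c : K) * (y * f (f y))) ∧
          (w.2.2.2 : K) = -((c : K) * (y * f y * f (f y)))) ∧
        trace ℂ V (ρ (rad f hf hK w * cen f hf hK ζ)) = α) ∧
      (∀ (c ζ : fixField f), c ≠ 0 → trace ℂ V (ρ (rad f hf hK (0, 0, 0, c) * cen f hf hK ζ)) = α) := by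
  have h3 := f_three f hf hK
  refine ⟨trace ℂ V (ρ (cen f hf hK 1)), ?_⟩
  have hpair : chevD4.pairing 14 23 = 1 ∧ 14 < chevD4.nroots ∧ 23 < chevD4.nroots ∧
      chevD4.reflectRoot 1 22 = 23 ∧ chevD4.simple 1 = 14 := by decide +kernel
  have hc : ∀ v : fixField f, v ≠ 0 → trace ℂ V (ρ (cen f hf hK v)) = trace ℂ V (ρ (cen f hf hK 1)) := by
    intro v hv
    have hv' : (v : K) ≠ 0 := fun h => hv (Subtype.ext h)
    have hmem : goodD4.hg 14 (v : K) ∈ twistedD4 K q :=
      mul_mem (mem_ng f hf hK v.2) (mem_ng f hf hK (by rw [map_neg, map_one]))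
    rw [← HeisenbergDegree.trace_conj ρ ⟨_, hmem⟩ (cen f hf hK 1)]
    congr 2
    apply Subtype.ext
    simp only [cen, Subgroup.coe_mul, Subgroup.coe_inv]
    rw [show ((1 : fixField f) : K) = 1 from rfl, goodD4.hg_mul_xg hpair.2.1 hpair.2.2.1 hv', hpair.1, zpow_one,
      mul_one, mul_inv_cancel_right]
  have htop : ∀ c : fixField f, c ≠ 0 →
      trace ℂ V (ρ (rad f hf hK (0, 0, 0, c))) = trace ℂ V (ρ (cen f hf hK 1)) := by
    intro c hc0
    have hη : ∀ i s, f ((goodD4.tab.eta i s : K)) = goodD4.tab.eta i s := fun i s => map_intCast f _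
    let c' : fixField f := ⟨(goodD4.tab.eta 1 22 : K) * c, by show f _ = _; rw [map_mul, hη, fix_eq]; rfl⟩
    have hc' : c' ≠ 0 := fun h => by
      rcases mul_eq_zero.1 (congrArg Subtype.val h) with h | h
      · exact left_ne_zero_of_mul_eq_one (goodD4.eta_cast_sq (F := K) 1 22) h
      · exact hc0 (Subtype.ext h)
    rw [← hc c' hc', ← HeisenbergDegree.trace_conj ρ ⟨_, mem_ng f hf hK (map_one f)⟩ (rad f hf hK (0, 0, 0, c))]
    congr 2
    apply Subtype.ext
    have hk := goodD4.ng_simple_mul_xg (F := K) (i := 1) (s := 22) (by decide) (by decide) (c : K)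
    rw [hpair.2.2.2.1, hpair.2.2.2.2] at hk
    simp [c', rad, cen, qElt, goodD4.xg_zero, mul_inv_eq_iff_eq_mul, hk]
  have hsimple : ∀ c : fixField f, c ≠ 0 →
      trace ℂ V (ρ (rad f hf hK (c, 0, 0, 0))) = trace ℂ V (ρ (cen f hf hK 1)) := by
    intro c hc0
    obtain ⟨g, c', hc', hg⟩ := exists_weyl f hf hK c
    rw [← HeisenbergDegree.trace_conj ρ g, hg, htop c' (hc' hc0)]
  refine ⟨hc, fun y c ζ hc0 => ?_, fun c ζ hc0 => ?_⟩
  · refine ⟨(c, -((c : K) * y), -((c : K) * (y * f (f y))),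
      ⟨-((c : K) * (y * f y * f (f y))), by
        show f _ = _
        simp only [map_neg, map_mul, fix_eq, h3]
        show _ = _
        simp only [RingHom.id_apply]
        ring⟩), ⟨rfl, rfl, rfl, rfl⟩, ?_⟩
    let k : fixField f := ⟨-((c : K) * c * (y * f y * f (f y))), by
      show f _ = _
      simp only [map_neg, map_mul, fix_eq, h3, RingHom.id_apply]
      ring⟩
    have hcomm : ∀ v : K, short f y * X 23 v = X 23 v * short f y := by
      intro v
      have c18 : ∀ r ∈ [18, 13, 12], ∀ a, Commute (X r a) (X 23 v) := fun r hr a =>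
        (comm0 ((by decide +kernel : ∀ r ∈ [18, 13, 12], Comm0 r 23) r hr) a v).symm
      exact (((c18 18 (by simp) y).mul_left (c18 13 (by simp) _)).mul_left (c18 12 (by simp) _)).eq
    obtain ⟨g, hg⟩ := exists_conj f hf hK (c, 0, 0, 0) rfl rfl (fun h => hc0 (congrArg Prod.fst h)) (ζ - k)
    rw [← hsimple c hc0, ← HeisenbergDegree.trace_conj ρ g (rad f hf hK (c, 0, 0, 0)), hg,
      ← HeisenbergDegree.trace_conj ρ ⟨_, mem_short f hf hK y⟩ (rad f hf hK (c, 0, 0, 0) * cen f hf hK (ζ - k))]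
    congr 2
    apply Subtype.ext
    simp only [rad, cen, Subgroup.coe_mul, Subgroup.coe_inv]
    have hs := short_conj f h3 (c : K) y (fix_eq f c)
    rw [show qElt f (c : K) 0 0 ((0 : fixField f) : K) = X 14 (c : K) by simp [qElt, goodD4.xg_zero],
      show short f y * (X 14 (c : K) * X 23 ((ζ - k : fixField f) : K)) * (short f y)⁻¹ =
        short f y * X 14 (c : K) * (short f y)⁻¹ * (short f y * X 23 ((ζ - k : fixField f) : K) * (short f y)⁻¹) by
          group,
      hs, hcomm, mul_inv_cancel_right, mul_assoc (qElt f _ _ _ _), goodD4.xg_add]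
    congr 2
    simp [k]
  · rw [← htop c hc0]
    refine (congrArg (fun g => trace ℂ V (ρ g)) ?_).trans
      (HeisenbergDegree.trace_conj ρ (rad f hf hK (⟨(ζ : K) / c, by
        show f _ = _; rw [map_div₀, fix_eq, fix_eq]; rfl⟩, 0, 0, 0)) (rad f hf hK (0, 0, 0, c)))
    symm
    rw [mul_inv_eq_iff_eq_mul, mul_assoc, cen_comm, ← mul_assoc, rad_mul, rad_mul, add_comm, mul_assoc, ← cen_add]
    congr 2
    apply Subtype.ext
    have hc' : (c : K) ≠ 0 := fun h => hc0 (Subtype.ext h)
    simp [coc, tr3]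
    rw [div_mul_cancel₀ _ hc']
    ring

/-- The pairing on the parameter space. -/
noncomputable def omega (v w : Par f) : fixField f :=
  ⟨(v.1 : K) * w.2.2.2 + tr3 f (v.2.1 * f (f w.2.2.1)) + tr3 f (w.2.1 * f (f v.2.2.1)) + v.2.2.2 * w.1, by
    show f _ = _
    simp only [map_add, map_mul, fix_eq, tr3_fixed (f_three f hf hK)]
    rfl⟩

theorem omega_add (v v' w : Par f) : omega f hf hK (v + v') w = omega f hf hK v w + omega f hf hK v' w := by
  apply Subtype.ext
  simp only [omega, Prod.fst_add, Prod.snd_add, Subfield.coe_add, tr3, map_add, map_mul, mul_add, add_mul]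
  ring

set_option maxHeartbeats 2000000 in
/-- The degree bound. -/
theorem degree_bound {V : Type*} [AddCommGroup V] [Module ℂ V] [FiniteDimensional ℂ V]
    (ρ : ↥(twistedD4 K q) →* End ℂ V) (hne : ∃ v, ρ (cen f hf hK v) ≠ 1) :
    (q - 1) * (q ^ 4 + q ^ 3 + 1) ≤ finrank ℂ V := by
  classical
  obtain ⟨α, hα, hW, hWi⟩ := trace_roots f hf hK ρ
  set d := finrank ℂ V with hd
  haveI : Fintype (fixField f) := Fintype.ofFinite _
  have hcS : Fintype.card (fixField f) = q := by rw [← Nat.card_eq_fintype_card]; exact card_fixField f hf hK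
  have hq1 : 1 < q := hcS ▸ Fintype.one_lt_card
  have hq0 : (q : ℂ) ≠ 0 := Nat.cast_ne_zero.2 (by omega)
  have ftr0 : trace ℂ V (ρ (cen f hf hK 0)) = d := by rw [cen_zero, map_one, trace_one]
  obtain ⟨n0, hn0, -, hz0d⟩ := HeisenbergDegree.exists_sum_trace (fun v => ρ (cen f hf hK v))
    (fun a c => by rw [cen_add, map_mul]) (1 : AddChar (fixField f) ℂ)
  simp only [AddChar.one_apply, one_mul, one_smul, hcS] at hn0 hz0d
  have hsum : ∀ χ : AddChar (fixField f) ℂ, ∑ v, χ v * trace ℂ V (ρ (cen f hf hK v)) =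
      ((d : ℂ) - α) + (∑ v, χ v) * α := by
    intro χ
    have e : ∀ v : (fixField f), χ v * trace ℂ V (ρ (cen f hf hK v)) = (if v = 0 then (d : ℂ) - α else 0) + χ v * α := by
      intro v
      split_ifs with h
      · subst h
        rw [ftr0, AddChar.map_zero_eq_one]
        ring
      · rw [hα v h, zero_add]
    rw [Finset.sum_congr rfl fun v _ => e v, Finset.sum_add_distrib, Finset.sum_mul, Finset.sum_ite_eq',
      if_pos (Finset.mem_univ _)]
  have h0 : ((d : ℂ) - α) + q * α = q * n0 := by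
    rw [← hn0, ← Finset.sum_congr rfl (fun v _ => one_mul _)]
    have := hsum 1
    simp only [AddChar.one_apply, Finset.sum_const, Finset.card_univ, nsmul_eq_mul, mul_one, hcS] at this
    rw [this]
  obtain ⟨ψ, hψ⟩ := AddChar.exists_apply_ne_zero.2 (one_ne_zero : (1 : (fixField f)) ≠ 0)
  have hψ1 : ψ ≠ 1 := fun h => hψ (by rw [h]; rfl)
  have hψ0 : ∑ v, ψ v = 0 := (AddChar.sum_eq_zero_iff_ne_zero (ψ := ψ)).2 hψ1
  have hψa : ∀ a : (fixField f), (∀ e : (fixField f), ψ (e * a) = 1) → a = 0 := by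
    intro a ha
    by_contra hne'
    exact hψ (by simpa [hne'] using ha a⁻¹)
  -- the maximal abelian subgroup
  obtain ⟨n, hn, -, -⟩ := HeisenbergDegree.exists_sum_trace
    (fun p : ((fixField f) × K) × (fixField f) => ρ (rad f hf hK (p.1.1, p.1.2, 0, 0) * cen f hf hK p.2))
    (fun a c => by
      have e : coc f hf hK (a.1.1, a.1.2, 0, 0) (c.1.1, c.1.2, 0, 0) = 0 := Subtype.ext (by simp [coc, tr3])
      rw [← map_mul, mul_assoc (rad f hf hK (a.1.1, a.1.2, 0, 0)), ← mul_assoc (cen f hf hK a.2), cen_comm,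
        mul_assoc, ← mul_assoc, rad_mul, e, cen_zero, mul_one, ← cen_add]
      simp only [Prod.fst_add, Prod.snd_add, Prod.mk_add_mk, add_zero])
    (ψ.compAddMonoidHom (AddMonoidHom.snd ((fixField f) × K) (fixField f)))
  have h1 : ((d : ℂ) - α) = q ^ 5 * n := by
    have hcard : Fintype.card (((fixField f) × K) × (fixField f)) = q ^ 5 := by
      rw [Fintype.card_prod, Fintype.card_prod, hcS, hK]; ring
    rw [hcard, Nat.cast_pow] at hn
    rw [← hn, Fintype.sum_prod_type, Finset.sum_eq_single (0 : (fixField f) × K)]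
    · have := hsum ψ
      rw [hψ0, zero_mul, add_zero] at this
      rw [← this]
      refine Finset.sum_congr rfl fun v _ => ?_
      rw [show rad f hf hK (((0 : (fixField f) × K), v).1.1, ((0 : (fixField f) × K), v).1.2, 0, 0) = 1 from rad_zero f hf hK, one_mul]
      rfl
    · intro u _ hu
      have e : ∀ v, (ψ.compAddMonoidHom (AddMonoidHom.snd ((fixField f) × K) (fixField f))) (u, v) *
          trace ℂ V (ρ (rad f hf hK (u.1, u.2, 0, 0) * cen f hf hK v)) =
          ψ v * trace ℂ V (ρ (rad f hf hK (u.1, u.2, 0, 0))) := by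
        intro v
        obtain ⟨g, hg⟩ := exists_conj f hf hK (u.1, u.2, 0, 0) rfl rfl
          (fun h => hu (Prod.ext (congrArg (fun w : Par f => w.1) h :) (congrArg (fun w : Par f => w.2.1) h :))) v
        rw [← hg, HeisenbergDegree.trace_conj]
        rfl
      rw [Finset.sum_congr rfl fun v _ => e v, ← Finset.sum_mul, hψ0, zero_mul]
    · intro h
      exact absurd (Finset.mem_univ _) h
  have hdn : d = n0 + (q - 1) * q ^ 4 * n := by
    have : (q : ℂ) * d = q * (n0 + (q - 1) * q ^ 4 * n) := by linear_combination h0 + ((q : ℂ) - 1) * h1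
    have h2 := mul_left_cancel₀ hq0 this
    rw [← Nat.cast_one, ← Nat.cast_sub hq1.le] at h2
    exact_mod_cast h2
  have hn1 : n ≠ 0 := by
    intro h
    rw [h, mul_zero, add_zero] at hdn
    have hS := hz0d hdn.symm
    obtain ⟨v, hv⟩ := hne
    refine hv ?_
    have e : ρ (cen f hf hK v) * ∑ a, ρ (cen f hf hK a) = ∑ a, ρ (cen f hf hK a) := by
      rw [Finset.mul_sum]
      exact Fintype.sum_bijective (fun a => v + a) (AddGroup.addLeft_bijective v) _ _
        fun a => by rw [cen_add, map_mul]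
    rw [hS, mul_smul_comm, mul_one] at e
    exact smul_right_injective (End ℂ V) hq0 e
  -- the fixed space of the centre as a representation of the parameter space
  set P0 : End ℂ V := (q : ℂ)⁻¹ • ∑ a : (fixField f), ρ (cen f hf hK a) with hP0
  have hzP : ∀ v, ρ (cen f hf hK v) * P0 = P0 := by
    intro v
    rw [hP0, mul_smul_comm, Finset.mul_sum]
    congr 1
    exact Fintype.sum_bijective (fun a => v + a) (AddGroup.addLeft_bijective v) _ _
      fun a => by rw [cen_add, map_mul]
  have hPP : P0 * P0 = P0 := by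
    have e : ∀ a : (fixField f), ρ (cen f hf hK a) * ((q : ℂ)⁻¹ • ∑ c : (fixField f), ρ (cen f hf hK c)) = P0 := fun a => hzP a
    conv_lhs => arg 1; rw [hP0]
    conv_lhs => arg 2; rw [hP0]
    rw [smul_mul_assoc, Finset.sum_mul, Finset.sum_congr rfl fun a _ => e a, Finset.sum_const, Finset.card_univ,
      hcS, ← Nat.cast_smul_eq_nsmul ℂ, smul_smul, inv_mul_cancel₀ hq0, one_smul]
  have hPc : ∀ v : Par f, P0 * ρ (rad f hf hK v) = ρ (rad f hf hK v) * P0 := by
    intro v
    rw [hP0, smul_mul_assoc, mul_smul_comm, Finset.mul_sum, Finset.sum_mul]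
    congr 1
    exact Finset.sum_congr rfl fun a _ => by rw [← map_mul, ← map_mul, cen_comm]
  let π : Par f → End ℂ V := fun v => ρ (rad f hf hK v) * P0
  have hπ : ∀ v w, π (v + w) = π v * π w := by
    intro v w
    calc ρ (rad f hf hK (v + w)) * P0
        = ρ (rad f hf hK (v + w)) * (ρ (cen f hf hK (coc f hf hK v w)) * P0) := by rw [hzP]
      _ = ρ (rad f hf hK v) * ρ (rad f hf hK w) * (P0 * P0) := by
          rw [← mul_assoc, ← map_mul, ← rad_mul, map_mul, hPP]
      _ = ρ (rad f hf hK v) * (ρ (rad f hf hK w) * P0) * P0 := by simp only [mul_assoc]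
      _ = ρ (rad f hf hK v) * (P0 * ρ (rad f hf hK w)) * P0 := by rw [hPc]
      _ = _ := by simp only [π, mul_assoc]
  let g : Par f → ℂ := fun v => trace ℂ V (π v)
  have hgavg : ∀ v, g v = (q : ℂ)⁻¹ * ∑ a : (fixField f), trace ℂ V (ρ (rad f hf hK v * cen f hf hK a)) := by
    intro v
    simp only [g, π, hP0, mul_smul_comm, Finset.mul_sum, map_smul, map_sum, map_mul, smul_eq_mul]
  have hg0 : g 0 = n0 := by
    rw [hgavg]
    simp only [rad_zero, one_mul]
    rw [hn0, ← mul_assoc, inv_mul_cancel₀ hq0, one_mul]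
  have hgα : ∀ w, (∀ ζ, trace ℂ V (ρ (rad f hf hK w * cen f hf hK ζ)) = α) → g w = α := by
    intro w hw
    rw [hgavg, Finset.sum_congr rfl fun a _ => hw a, Finset.sum_const, Finset.card_univ, hcS, nsmul_eq_mul,
      ← mul_assoc, inv_mul_cancel₀ hq0, one_mul]
  have hcardP : Fintype.card (Par f) = q ^ 8 := by
    rw [Fintype.card_prod, Fintype.card_prod, Fintype.card_prod, hcS, hK]; ring
  choose nc hnc using fun χ : AddChar (Par f) ℂ => HeisenbergDegree.exists_sum_trace π hπ χ
  have hq8 : ((q ^ 8 : ℕ) : ℂ) ≠ 0 := Nat.cast_ne_zero.2 (pow_ne_zero _ (by omega))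
  have hinv : ∀ x, g x = ∑ χ : AddChar (Par f) ℂ, χ (-x) * nc χ := by
    intro x
    apply mul_left_cancel₀ hq8
    rw [Finset.mul_sum]
    have e : ∀ χ : AddChar (Par f) ℂ, ((q ^ 8 : ℕ) : ℂ) * (χ (-x) * nc χ) = ∑ v, χ (v + -x) * g v := by
      intro χ
      rw [mul_left_comm, ← hcardP, ← (hnc χ).1, Finset.mul_sum]
      refine Finset.sum_congr rfl fun v _ => ?_
      rw [AddChar.map_add_eq_mul]
      ring
    rw [Finset.sum_congr rfl fun χ _ => e χ, Finset.sum_comm]
    rw [Finset.sum_congr rfl fun v _ => (Finset.sum_mul _ _ _).symm]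
    simp only [AddChar.sum_apply_eq_ite, ← sub_eq_add_neg, sub_eq_zero, ite_mul, zero_mul, Finset.sum_ite_eq',
      Finset.mem_univ, if_true, hcardP]
  -- the orbit of root elements and the characters
  have h3 := f_three f hf hK
  let vec : Option K → (fixField f) → Par f := fun P c => match P with
    | none => (0, 0, 0, c)
    | some y => (c, -((c : K) * y), -((c : K) * (y * f (f y))),
        ⟨-((c : K) * (y * f y * f (f y))), by
          show f _ = _
          simp only [map_neg, map_mul, fix_eq, h3, RingHom.id_apply]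
          ring⟩)
  have hvec_add : ∀ P a c, vec P (a + c) = vec P a + vec P c := by
    rintro (_ | y) a c
    · simp [vec]
    · refine Prod.ext rfl (Prod.ext ?_ (Prod.ext ?_ (Subtype.ext ?_))) <;> simp [vec] <;> ring
  have hgvec : ∀ P c, g (vec P c) = if c = 0 then (n0 : ℂ) else α := by
    intro P c
    split_ifs with hc
    · subst hc
      have := hvec_add P 0 0
      rw [add_zero, left_eq_add] at this
      rw [this, hg0]
    · refine hgα _ fun ζ => ?_
      cases P with
      | none => exact hWi c ζ hc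
      | some y =>
        obtain ⟨w, ⟨e1, e2, e3, e4⟩, hw⟩ := hW y c ζ hc
        rw [show vec (some y) c = w from Prod.ext e1.symm (Prod.ext e2.symm (Prod.ext e3.symm (Subtype.ext e4.symm)))]
        exact hw
  let Φ : Par f → AddChar (Par f) ℂ := fun w =>
    ψ.compAddMonoidHom (AddMonoidHom.mk' (fun v => omega f hf hK v w) fun a c => omega_add f hf hK a c w)
  obtain ⟨x0, hx0⟩ := exists_tr3_ne_zero f hf hK
  have hΦ : Function.Surjective Φ := by
    refine ((Fintype.bijective_iff_injective_and_card Φ).2 ⟨fun w w' h => ?_, AddChar.card_eq.symm⟩).2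
    have hz : ∀ v : Par f, omega f hf hK v w - omega f hf hK v w' = 0 := by
      intro v
      refine hψa _ fun e => ?_
      have he : e * (omega f hf hK v w - omega f hf hK v w') =
          omega f hf hK (e * v.1, (e : K) * v.2.1, (e : K) * v.2.2.1, e * v.2.2.2) w -
            omega f hf hK (e * v.1, (e : K) * v.2.1, (e : K) * v.2.2.1, e * v.2.2.2) w' := by
        apply Subtype.ext
        simp only [omega, Subfield.coe_mul, Subfield.coe_sub, tr3, map_mul, fix_eq]
        ring
      rw [he, AddChar.map_sub_eq_div, div_eq_one_iff_eq]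
      · exact congrArg (fun χ : AddChar (Par f) ℂ => χ (e * v.1, (e : K) * v.2.1, (e : K) * v.2.2.1, e * v.2.2.2)) h
      · intro h0
        have := AddChar.map_add_eq_mul ψ (omega f hf hK (e * v.1, (e : K) * v.2.1, (e : K) * v.2.2.1, e * v.2.2.2) w')
          (-omega f hf hK (e * v.1, (e : K) * v.2.1, (e : K) * v.2.2.1, e * v.2.2.2) w')
        rw [add_neg_cancel, AddChar.map_zero_eq_one] at this
        rw [show ψ (omega f hf hK (e * v.1, (e : K) * v.2.1, (e : K) * v.2.2.1, e * v.2.2.2) w') = 0 from h0,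
          zero_mul] at this
        exact one_ne_zero this
    have a1 := congrArg (Subtype.val : (fixField f) → K) (hz (0, 0, 0, 1))
    have a4 := congrArg (Subtype.val : (fixField f) → K) (hz (1, 0, 0, 0))
    simp only [omega, tr3, Subfield.coe_sub, Subfield.coe_zero, Subfield.coe_one, map_zero, mul_zero, zero_mul,
      one_mul, add_zero, zero_add, sub_eq_zero] at a1 a4
    refine Prod.ext (Subtype.ext a1) (Prod.ext ?_ (Prod.ext ?_ (Subtype.ext a4)))
    · by_contra hne'
      have hu : w.2.1 - w'.2.1 ≠ 0 := sub_ne_zero.2 hne'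
      refine hx0 ?_
      have := congrArg (Subtype.val : (fixField f) → K) (hz (0, 0, f (x0 / (w.2.1 - w'.2.1)), 0))
      simp only [omega, Subfield.coe_sub, Subfield.coe_zero, mul_zero, zero_mul, add_zero, zero_add, h3] at this
      rw [show tr3 f x0 = tr3 f (w.2.1 * (x0 / (w.2.1 - w'.2.1))) - tr3 f (w'.2.1 * (x0 / (w.2.1 - w'.2.1))) by
        have e : x0 = w.2.1 * (x0 / (w.2.1 - w'.2.1)) - w'.2.1 * (x0 / (w.2.1 - w'.2.1)) := by
          rw [← sub_mul, mul_div_cancel₀ _ hu]
        conv_lhs => rw [e]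
        simp only [tr3, map_sub]
        ring]
      simpa [tr3] using this
    · by_contra hne'
      have hu : f (f (w.2.2.1 - w'.2.2.1)) ≠ 0 := by
        intro h'
        exact sub_ne_zero.2 hne' (f.injective ((f.injective (h'.trans (map_zero f).symm)).trans (map_zero f).symm))
      refine hx0 ?_
      have := congrArg (Subtype.val : (fixField f) → K) (hz (0, x0 / f (f (w.2.2.1 - w'.2.2.1)), 0, 0))
      simp only [omega, Subfield.coe_sub, Subfield.coe_zero, mul_zero, zero_mul, add_zero, zero_add] at this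
      rw [show tr3 f x0 = tr3 f (x0 / f (f (w.2.2.1 - w'.2.2.1)) * f (f w.2.2.1)) -
          tr3 f (x0 / f (f (w.2.2.1 - w'.2.2.1)) * f (f w'.2.2.1)) by
        have e : x0 = x0 / f (f (w.2.2.1 - w'.2.2.1)) * f (f w.2.2.1) -
            x0 / f (f (w.2.2.1 - w'.2.2.1)) * f (f w'.2.2.1) := by
          rw [← mul_sub, ← map_sub, ← map_sub, div_mul_cancel₀ _ hu]
        conv_lhs => rw [e]
        simp only [tr3, map_sub]
        ring]
      simpa [tr3] using this
  let η : AddChar (Par f) ℂ → Option K → AddChar (fixField f) ℂ := fun χ P =>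
    χ.compAddMonoidHom (AddMonoidHom.mk' (fun c => -vec P c) fun a c => by rw [hvec_add, neg_add])
  have hzero : ∀ χ : AddChar (Par f) ℂ, ∃ P, η χ P = 1 := by
    intro χ
    obtain ⟨w, rfl⟩ := hΦ χ
    have key : ∀ P, (∀ c, omega f hf hK (vec P c) w = 0) → η (Φ w) P = 1 := by
      intro P hP
      ext c
      show ψ (omega f hf hK (-vec P c) w) = 1
      have : omega f hf hK (-vec P c) w = 0 := by
        have h' := omega_add f hf hK (-vec P c) (vec P c) w
        rw [hP, add_zero, neg_add_cancel] at h'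
        rw [← h']
        apply Subtype.ext
        simp [omega, tr3]
      rw [this, AddChar.map_zero_eq_one]
    by_cases hs : w.1 = 0
    · exact ⟨none, key none fun c => Subtype.ext (by simp [omega, vec, hs, tr3])⟩
    · obtain ⟨y, hy⟩ := CubicNorm.exists_zero f (fixField f) (fun s => Iff.rfl) h3 (finrank_fixField f hf hK)
        (w.2.2.2 : K) (-f (f w.2.2.1)) (-w.2.1) (-(w.1 : K)) (fix_eq f _)
        (by rw [map_neg, fix_eq]) (neg_ne_zero.2 fun h => hs (Subtype.ext h))
      refine ⟨some y, key (some y) fun c => Subtype.ext ?_⟩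
      simp only [omega, vec, tr3, map_neg, map_mul, fix_eq, h3, Subfield.coe_zero]
      simp only [map_neg, h3] at hy
      linear_combination (c : K) * hy
  -- counting
  have hsumη : ∀ χ P, (∑ c : (fixField f), (1 - η χ P c)) = if η χ P = 1 then 0 else (q : ℂ) := by
    intro χ P
    rw [Finset.sum_sub_distrib, Finset.sum_const, Finset.card_univ, hcS, nsmul_eq_mul, mul_one]
    split_ifs with h
    · rw [h]
      simp only [AddChar.one_apply, Finset.sum_const, Finset.card_univ, hcS, nsmul_eq_mul, mul_one, sub_self]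
    · rw [(AddChar.sum_eq_zero_iff_ne_zero (ψ := η χ P)).2 h, sub_zero]
  let M : AddChar (Par f) ℂ → ℕ := fun χ => (Finset.univ.filter fun P => η χ P ≠ 1).card
  have hM : ∀ χ, M χ ≤ q ^ 3 := by
    intro χ
    obtain ⟨P, hP⟩ := hzero χ
    have hlt : M χ < Fintype.card (Option K) :=
      Finset.card_lt_univ_of_notMem (x := P) (by simp [hP])
    rw [Fintype.card_option, hK] at hlt
    omega
  have hleft : (∑ P : Option K, ∑ c : (fixField f), (g 0 - g (vec P c))) = ((q ^ 3 + 1) * (q - 1) : ℕ) * ((n0 : ℂ) - α) := by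
    have e : ∀ P : Option K, (∑ c : (fixField f), (g 0 - g (vec P c))) = ((q - 1 : ℕ) : ℂ) * ((n0 : ℂ) - α) := by
      intro P
      have e1 : ∀ c : (fixField f), g 0 - g (vec P c) = ((n0 : ℂ) - α) - if c = 0 then (n0 : ℂ) - α else 0 := by
        intro c
        rw [hgvec, hg0]
        split_ifs <;> ring
      rw [Finset.sum_congr rfl fun c _ => e1 c, Finset.sum_sub_distrib, Finset.sum_const, Finset.card_univ, hcS,
        nsmul_eq_mul, Finset.sum_ite_eq', if_pos (Finset.mem_univ _), Nat.cast_sub hq1.le, Nat.cast_one]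
      ring
    rw [Finset.sum_congr rfl fun P _ => e P, Finset.sum_const, Finset.card_univ, Fintype.card_option, hK,
      nsmul_eq_mul, Nat.cast_mul, mul_assoc]
  have hright : (∑ P : Option K, ∑ c : (fixField f), (g 0 - g (vec P c))) = ((∑ χ, nc χ * (q * M χ) : ℕ) : ℂ) := by
    have e : ∀ P c, g 0 - g (vec P c) = ∑ χ : AddChar (Par f) ℂ, (nc χ : ℂ) * (1 - η χ P c) := by
      intro P c
      rw [hinv, hinv, ← Finset.sum_sub_distrib]
      refine Finset.sum_congr rfl fun χ _ => ?_
      rw [neg_zero, AddChar.map_zero_eq_one]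
      show _ = (nc χ : ℂ) * (1 - χ (-vec P c))
      ring
    simp only [e]
    rw [Finset.sum_congr rfl fun P _ => Finset.sum_comm, Finset.sum_comm, Nat.cast_sum]
    refine Finset.sum_congr rfl fun χ _ => ?_
    rw [Finset.sum_congr rfl fun P _ => (Finset.mul_sum _ _ _).symm, ← Finset.mul_sum,
      Finset.sum_congr rfl fun P _ => hsumη χ P, Finset.sum_ite, Finset.sum_const_zero, zero_add, Finset.sum_const,
      nsmul_eq_mul, Nat.cast_mul, Nat.cast_mul]
    ring
  have hd4 : (n0 : ℂ) - α = (q : ℂ) ^ 4 * n := by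
    apply mul_left_cancel₀ hq0
    linear_combination -h0 + h1
  have hsumn : (∑ χ, nc χ) = n0 := by
    have := hinv 0
    simp only [neg_zero, AddChar.map_zero_eq_one, one_mul, hg0] at this
    exact_mod_cast this.symm
  have hle : (q ^ 3 + 1) * (q - 1) * (q ^ 4 * n) ≤ q ^ 4 * n0 := by
    have e : (q ^ 3 + 1) * (q - 1) * (q ^ 4 * n) = ∑ χ, nc χ * (q * M χ) := by
      apply Nat.cast_injective (R := ℂ)
      rw [← hright, hleft, hd4]
      push_cast
      ring
    rw [e, ← hsumn, Finset.mul_sum]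
    refine Finset.sum_le_sum fun χ _ => ?_
    rw [mul_comm (q ^ 4)]
    refine Nat.mul_le_mul_left _ ?_
    rw [show q ^ 4 = q * q ^ 3 by ring]
    exact Nat.mul_le_mul_left _ (hM χ)
  have hle' : (q ^ 3 + 1) * (q - 1) * n ≤ n0 := by
    refine Nat.le_of_mul_le_mul_left ?_ (pow_pos (Nat.zero_lt_of_lt hq1) 4)
    rw [mul_comm (q ^ 4) ((q ^ 3 + 1) * (q - 1) * n), mul_assoc, mul_comm n]
    exact hle
  calc (q - 1) * (q ^ 4 + q ^ 3 + 1) ≤ (q - 1) * (q ^ 4 + q ^ 3 + 1) * n :=
        Nat.le_mul_of_pos_right _ (Nat.pos_of_ne_zero hn1)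
    _ = (q ^ 3 + 1) * (q - 1) * n + (q - 1) * q ^ 4 * n := by ring
    _ ≤ n0 + (q - 1) * q ^ 4 * n := Nat.add_le_add_right hle' _
    _ = d := hdn.symm

end Cfsg.Agent.H71.Triality
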