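import Cfsg.Agent.H46.TwistD4
import Cfsg.Agent.H65.Chev.G2

/-!
The Heisenberg radical of the parabolic subgroup of ³D₄(q) at the central node, with the action of
the short root group.
-/

set_option autoImplicit false
set_option maxRecDepth 100000

open Cfsg.Lie Cfsg.Agent.H46 Cfsg.Agent.H47

namespace Cfsg.Agent.H71.Triality

variable {K : Type*} [Field K]

local notation "X" => Good.xg goodD4

theorem xcomm (r s : ℕ) (hr : r < chevD4.nroots) (hs : s < chevD4.nroots) (hrs : s ≠ r)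
    (hneg : s ≠ chevD4.neg r) (hL : chevD4.commTerms r s = []) (t u : K) :
    X s u * X r t = X r t * X s u := by
  rw [Cfsg.Agent.H65.xg_mul_xg goodD4 hr hs hrs hneg hL]
  simp

theorem xterm (r s c : ℕ) (M : ℤ) (hr : r < chevD4.nroots) (hs : s < chevD4.nroots) (hrs : s ≠ r)
    (hneg : s ≠ chevD4.neg r) (hL : chevD4.commTerms r s = [(c, M, 1, 1)]) (t u : K) :
    X s u * X r t = X r t * X s u * X c (-((M : K) * (t * u))) := by
  rw [Cfsg.Agent.H65.xg_mul_xg goodD4 hr hs hrs hneg hL]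
  simp [mul_assoc]

/-- `r` and `s` name distinct roots whose root elements commute. -/
def Comm0 (r s : ℕ) : Prop :=
  r < chevD4.nroots ∧ s < chevD4.nroots ∧ s ≠ r ∧ s ≠ chevD4.neg r ∧ chevD4.commTerms r s = []

instance (r s : ℕ) : Decidable (Comm0 r s) := inferInstanceAs (Decidable (_ ∧ _))

theorem comm0 {r s : ℕ} (h : Comm0 r s) (t u : K) : X s u * X r t = X r t * X s u :=
  xcomm r s h.1 h.2.1 h.2.2.1 h.2.2.2.1 h.2.2.2.2 t u

/-- `r` and `s` name roots with sum `c` and structure constant `M`. -/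
def Comm1 (r s c : ℕ) (M : ℤ) : Prop :=
  r < chevD4.nroots ∧ s < chevD4.nroots ∧ s ≠ r ∧ s ≠ chevD4.neg r ∧ chevD4.commTerms r s = [(c, M, 1, 1)]

instance (r s c : ℕ) (M : ℤ) : Decidable (Comm1 r s c M) := inferInstanceAs (Decidable (_ ∧ _))

theorem comm1 {r s c : ℕ} {M : ℤ} (h : Comm1 r s c M) (t u : K) :
    X s u * X r t = X r t * X s u * X c (-((M : K) * (t * u))) :=
  xterm r s c M h.1 h.2.1 h.2.2.1 h.2.2.2.1 h.2.2.2.2 t u

theorem tables :
    (∀ r ∈ [14, 15, 16, 17, 19, 20, 21, 22], Comm0 r 23) ∧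
    (∀ p ∈ [(14, 15), (14, 16), (14, 17), (14, 19), (14, 20), (14, 21), (15, 16), (15, 17), (15, 19), (15, 20),
      (15, 22), (16, 17), (16, 19), (16, 21), (16, 22), (17, 20), (17, 21), (17, 22), (19, 20), (19, 21), (19, 22),
      (20, 21), (20, 22), (21, 22), (12, 13), (12, 18), (13, 18), (15, 12), (16, 13), (17, 12), (17, 13)],
      Comm0 p.1 p.2) ∧
    (Comm1 14 22 23 1 ∧ Comm1 19 17 23 (-1) ∧ Comm1 17 19 23 1 ∧ Comm1 16 20 23 (-1) ∧ Comm1 20 16 23 1 ∧
      Comm1 15 21 23 (-1) ∧ Comm1 21 15 23 1 ∧ Comm1 22 14 23 (-1)) ∧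
    (Comm1 14 12 15 (-1) ∧ Comm1 14 13 16 (-1) ∧ Comm1 15 13 17 (-1) ∧ Comm1 14 18 19 1 ∧ Comm1 16 18 21 1 ∧
      Comm1 15 18 20 1 ∧ Comm1 17 18 22 1) := by
  decide +kernel

/-- The element `x₁₄(s) a(t) b(u) x₂₂(r)` of the radical. -/
noncomputable def qElt (φ : K →+* K) (s t u r : K) : GL chevD4.Idx K :=
  X 14 s * (X 19 t * X 16 (-φ t) * X 15 (-φ (φ t))) * (X 20 u * X 21 (φ u) * X 17 (-φ (φ u))) * X 22 r

/-- The trace form of the cubic extension. -/
def tr3 (φ : K →+* K) (x : K) : K := x + φ x + φ (φ x)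

theorem tr3_fixed {φ : K →+* K} (h3 : ∀ x, φ (φ (φ x)) = x) (x : K) : φ (tr3 φ x) = tr3 φ x := by
  simp only [tr3, map_add, h3]
  ring

theorem central (r : ℕ) (hr : r ∈ [14, 15, 16, 17, 19, 20, 21, 22]) (t v : K) :
    X 23 v * X r t = X r t * X 23 v :=
  comm0 (tables.1 r hr) t v

theorem central_q (φ : K →+* K) (s t u r v : K) : X 23 v * qElt φ s t u r = qElt φ s t u r * X 23 v := by
  have c : ∀ k ∈ [14, 15, 16, 17, 19, 20, 21, 22], ∀ a, Commute (X 23 v) (X k a) :=
    fun k hk a => central k hk a v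
  unfold qElt
  exact ((((c 14 (by simp) _).mul_right (((c 19 (by simp) _).mul_right (c 16 (by simp) _)).mul_right
    (c 15 (by simp) _))).mul_right (((c 20 (by simp) _).mul_right (c 21 (by simp) _)).mul_right
    (c 17 (by simp) _))).mul_right (c 22 (by simp) _)).eq

variable (φ : K →+* K)

/-- The product of three commuting root elements is additive. -/
theorem triple_mul {i j k : ℕ} (hij : Comm0 i j ∨ Comm0 j i) (hik : Comm0 i k ∨ Comm0 k i)
    (hjk : Comm0 j k ∨ Comm0 k j) (a b c a' b' c' : K) :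
    X i a * X j b * X k c * (X i a' * X j b' * X k c') = X i (a + a') * X j (b + b') * X k (c + c') := by
  have com : ∀ {i j : ℕ}, Comm0 i j ∨ Comm0 j i → ∀ t u : K, Commute (X i t) (X j u) := by
    intro i j h t u
    rcases h with h | h
    · exact (comm0 h t u).symm
    · exact comm0 h u t
  calc X i a * X j b * X k c * (X i a' * X j b' * X k c')
      = X i a * X j b * (X k c * X i a') * X j b' * X k c' := by simp only [mul_assoc]
    _ = X i a * (X j b * X i a') * (X k c * X j b') * X k c' := by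
        rw [(com hik a' c).symm.eq]; simp only [mul_assoc]
    _ = X i a * X i a' * (X j b * X j b') * (X k c * X k c') := by
        rw [(com hij a' b).symm.eq, (com hjk b' c).symm.eq]; simp only [mul_assoc]
    _ = X i (a + a') * X j (b + b') * X k (c + c') := by simp only [goodD4.xg_add]

theorem a_mul (t t' : K) :
    X 19 t * X 16 (-φ t) * X 15 (-φ (φ t)) * (X 19 t' * X 16 (-φ t') * X 15 (-φ (φ t'))) =
      X 19 (t + t') * X 16 (-φ (t + t')) * X 15 (-φ (φ (t + t'))) := by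
  rw [triple_mul (Or.inr (tables.2.1 (16, 19) (by simp))) (Or.inr (tables.2.1 (15, 19) (by simp)))
    (Or.inr (tables.2.1 (15, 16) (by simp)))]
  simp only [map_add, neg_add]

theorem b_mul (t t' : K) :
    X 20 t * X 21 (φ t) * X 17 (-φ (φ t)) * (X 20 t' * X 21 (φ t') * X 17 (-φ (φ t'))) =
      X 20 (t + t') * X 21 (φ (t + t')) * X 17 (-φ (φ (t + t'))) := by
  rw [triple_mul (Or.inl (tables.2.1 (20, 21) (by simp))) (Or.inr (tables.2.1 (17, 20) (by simp)))
    (Or.inr (tables.2.1 (17, 21) (by simp)))]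
  simp only [map_add, neg_add]

/-- Moving `b(u)` past `a(t)`. -/
theorem b_mul_a (h3 : ∀ x, φ (φ (φ x)) = x) (t u : K) :
    X 20 u * X 21 (φ u) * X 17 (-φ (φ u)) * (X 19 t * X 16 (-φ t) * X 15 (-φ (φ t))) =
      X 19 t * X 16 (-φ t) * X 15 (-φ (φ t)) * (X 20 u * X 21 (φ u) * X 17 (-φ (φ u))) *
        X 23 (-tr3 φ (t * φ (φ u))) := by
  obtain ⟨-, hc, ⟨-, h1917, -, h1620, -, h1521, -, -⟩, -⟩ := tables
  have k0 : ∀ {r s : ℕ}, Comm0 r s → ∀ a b : K, X s b * X r a = X r a * X s b := fun h a b => comm0 h a b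
  have z : ∀ k ∈ [14, 15, 16, 17, 19, 20, 21, 22], ∀ a v : K, X 23 v * X k a = X k a * X 23 v := central
  have e1 : X 17 (-φ (φ u)) * X 19 t = X 19 t * X 17 (-φ (φ u)) * X 23 (-(t * φ (φ u))) := by
    rw [comm1 h1917]; simp
  have e2 : X 20 u * X 16 (-φ t) = X 16 (-φ t) * X 20 u * X 23 (-(φ t * u)) := by
    rw [comm1 h1620]; simp
  have e3 : X 21 (φ u) * X 15 (-φ (φ t)) = X 15 (-φ (φ t)) * X 21 (φ u) * X 23 (-(φ (φ t) * φ u)) := by
    rw [comm1 h1521]; simp
  calc X 20 u * X 21 (φ u) * X 17 (-φ (φ u)) * (X 19 t * X 16 (-φ t) * X 15 (-φ (φ t)))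
      = X 20 u * X 21 (φ u) * (X 17 (-φ (φ u)) * X 19 t) * X 16 (-φ t) * X 15 (-φ (φ t)) := by
        simp only [mul_assoc]
    _ = X 20 u * (X 21 (φ u) * X 19 t) * X 17 (-φ (φ u)) * (X 23 (-(t * φ (φ u))) * X 16 (-φ t)) *
          X 15 (-φ (φ t)) := by
        rw [e1]; simp only [mul_assoc]
    _ = X 20 u * X 19 t * X 21 (φ u) * (X 17 (-φ (φ u)) * X 16 (-φ t)) * (X 23 (-(t * φ (φ u))) *
          X 15 (-φ (φ t))) := by
        rw [k0 (hc (19, 21) (by simp)), z 16 (by simp)]; simp only [mul_assoc]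
    _ = X 20 u * X 19 t * (X 21 (φ u) * X 16 (-φ t)) * (X 17 (-φ (φ u)) * X 15 (-φ (φ t))) *
          X 23 (-(t * φ (φ u))) := by
        rw [k0 (hc (16, 17) (by simp)), z 15 (by simp)]; simp only [mul_assoc]
    _ = (X 20 u * X 19 t) * X 16 (-φ t) * (X 21 (φ u) * X 15 (-φ (φ t))) * X 17 (-φ (φ u)) *
          X 23 (-(t * φ (φ u))) := by
        rw [k0 (hc (16, 21) (by simp)), k0 (hc (15, 17) (by simp))]; simp only [mul_assoc]
    _ = X 19 t * (X 20 u * X 16 (-φ t)) * X 15 (-φ (φ t)) * X 21 (φ u) *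
          (X 23 (-(φ (φ t) * φ u)) * X 17 (-φ (φ u))) * X 23 (-(t * φ (φ u))) := by
        rw [k0 (hc (19, 20) (by simp)), e3]; simp only [mul_assoc]
    _ = X 19 t * X 16 (-φ t) * X 20 u * (X 23 (-(φ t * u)) * X 15 (-φ (φ t))) * X 21 (φ u) * X 17 (-φ (φ u)) *
          (X 23 (-(φ (φ t) * φ u)) * X 23 (-(t * φ (φ u)))) := by
        rw [e2, z 17 (by simp)]; simp only [mul_assoc]
    _ = X 19 t * X 16 (-φ t) * (X 20 u * X 15 (-φ (φ t))) * (X 23 (-(φ t * u)) * X 21 (φ u)) * X 17 (-φ (φ u)) *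
          X 23 (-(φ (φ t) * φ u) + -(t * φ (φ u))) := by
        rw [z 15 (by simp), goodD4.xg_add]; simp only [mul_assoc]
    _ = X 19 t * X 16 (-φ t) * X 15 (-φ (φ t)) * X 20 u * X 21 (φ u) * (X 23 (-(φ t * u)) * X 17 (-φ (φ u))) *
          X 23 (-(φ (φ t) * φ u) + -(t * φ (φ u))) := by
        rw [k0 (hc (15, 20) (by simp)), z 21 (by simp)]; simp only [mul_assoc]
    _ = _ := by
        rw [z 17 (by simp)]
        simp only [mul_assoc, goodD4.xg_add]
        congr 7
        simp only [tr3, map_mul, h3]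
        ring

theorem commute_x22 (t r : K) :
    Commute (X 22 r) (X 19 t * X 16 (-φ t) * X 15 (-φ (φ t))) ∧
      Commute (X 22 r) (X 20 t * X 21 (φ t) * X 17 (-φ (φ t))) := by
  have c : ∀ k ∈ [15, 16, 17, 19, 20, 21], ∀ a, Commute (X 22 r) (X k a) := by
    intro k hk a
    refine comm0 (tables.2.1 (k, 22) ?_) a r
    simp only [List.mem_cons, List.not_mem_nil, or_false] at hk
    rcases hk with rfl | rfl | rfl | rfl | rfl | rfl <;> simp
  exact ⟨((c 19 (by simp) _).mul_right (c 16 (by simp) _)).mul_right (c 15 (by simp) _),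
    ((c 20 (by simp) _).mul_right (c 21 (by simp) _)).mul_right (c 17 (by simp) _)⟩

theorem commute_x14 (t s : K) :
    Commute (X 14 s) (X 19 t * X 16 (-φ t) * X 15 (-φ (φ t))) ∧
      Commute (X 14 s) (X 20 t * X 21 (φ t) * X 17 (-φ (φ t))) := by
  have c : ∀ k ∈ [15, 16, 17, 19, 20, 21], ∀ a, Commute (X 14 s) (X k a) := by
    intro k hk a
    refine Eq.symm (comm0 (tables.2.1 (14, k) ?_) s a)
    simp only [List.mem_cons, List.not_mem_nil, or_false] at hk
    rcases hk with rfl | rfl | rfl | rfl | rfl | rfl <;> simp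
  exact ⟨((c 19 (by simp) _).mul_right (c 16 (by simp) _)).mul_right (c 15 (by simp) _),
    ((c 20 (by simp) _).mul_right (c 21 (by simp) _)).mul_right (c 17 (by simp) _)⟩

/-- The multiplication law of the radical. -/
theorem qElt_mul (h3 : ∀ x, φ (φ (φ x)) = x) (s t u r s' t' u' r' : K) :
    qElt φ s t u r * qElt φ s' t' u' r' =
      qElt φ (s + s') (t + t') (u + u') (r + r') * X 23 (-tr3 φ (t' * φ (φ u)) - s' * r) := by
  set A : K → GL chevD4.Idx K := fun t => X 19 t * X 16 (-φ t) * X 15 (-φ (φ t)) with hA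
  set B : K → GL chevD4.Idx K := fun t => X 20 t * X 21 (φ t) * X 17 (-φ (φ t)) with hB
  have cz : ∀ k ∈ [14, 15, 16, 17, 19, 20, 21, 22], ∀ v a, Commute (X 23 v) (X k a : GL chevD4.Idx K) :=
    fun k hk v a => central k hk a v
  have zA : ∀ v t, X 23 v * A t = A t * X 23 v := fun v t =>
    (((cz 19 (by simp) v t).mul_right (cz 16 (by simp) v _)).mul_right (cz 15 (by simp) v _)).eq
  have zB : ∀ v t, X 23 v * B t = B t * X 23 v := fun v t =>
    (((cz 20 (by simp) v t).mul_right (cz 21 (by simp) v _)).mul_right (cz 17 (by simp) v _)).eq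
  have a14 : ∀ a b, A a * X 14 b = X 14 b * A a := fun a b => (commute_x14 φ a b).1.symm.eq
  have b14 : ∀ a b, B a * X 14 b = X 14 b * B a := fun a b => (commute_x14 φ a b).2.symm.eq
  have a22 : ∀ a b, X 22 b * A a = A a * X 22 b := fun a b => (commute_x22 φ a b).1.eq
  have b22 : ∀ a b, X 22 b * B a = B a * X 22 b := fun a b => (commute_x22 φ a b).2.eq
  have h2214 : X 22 r * X 14 s' = X 14 s' * X 22 r * X 23 (-(s' * r)) := by
    rw [comm1 tables.2.2.1.1]; simp
  have hz22 : ∀ v w : K, X 23 v * X 22 w = X 22 w * X 23 v := fun v w => central 22 (by simp) w v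
  calc qElt φ s t u r * qElt φ s' t' u' r'
      = X 14 s * A t * B u * (X 22 r * X 14 s') * A t' * B u' * X 22 r' := by
        simp only [qElt, hA, hB, mul_assoc]
    _ = X 14 s * A t * (B u * X 14 s') * X 22 r * (X 23 (-(s' * r)) * A t') * B u' * X 22 r' := by
        rw [h2214]; simp only [mul_assoc]
    _ = X 14 s * (A t * X 14 s') * B u * (X 22 r * A t') * (X 23 (-(s' * r)) * B u') * X 22 r' := by
        rw [b14, zA]; simp only [mul_assoc]
    _ = (X 14 s * X 14 s') * A t * (B u * A t') * (X 22 r * B u') * (X 23 (-(s' * r)) * X 22 r') := by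
        rw [a14, a22, zB]
        simp only [mul_assoc]
    _ = X 14 (s + s') * (A t * A t') * B u * (X 23 (-tr3 φ (t' * φ (φ u))) * B u') * (X 22 r * X 22 r') *
          X 23 (-(s' * r)) := by
        rw [show B u * A t' = A t' * B u * X 23 (-tr3 φ (t' * φ (φ u))) from b_mul_a φ h3 t' u,
          b22, hz22, goodD4.xg_add]
        simp only [mul_assoc]
    _ = X 14 (s + s') * (A t * A t') * (B u * B u') * (X 23 (-tr3 φ (t' * φ (φ u))) * X 22 (r + r')) *
          X 23 (-(s' * r)) := by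
        rw [zB, goodD4.xg_add]; simp only [mul_assoc]
    _ = X 14 (s + s') * A (t + t') * B (u + u') * X 22 (r + r') * (X 23 (-tr3 φ (t' * φ (φ u))) *
          X 23 (-(s' * r))) := by
        rw [show A t * A t' = A (t + t') from a_mul φ t t', show B u * B u' = B (u + u') from b_mul φ u u', hz22]
        simp only [mul_assoc]
    _ = _ := by
        rw [goodD4.xg_add, ← sub_eq_add_neg]
        rfl

/-- The product `x₁₈(y) x₁₃(φy) x₁₂(φ²y)`. -/
noncomputable def short (y : K) : GL chevD4.Idx K := X 18 y * X 13 (φ y) * X 12 (φ (φ y))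

/-- The orbit of the central root element under the short root group. -/
theorem short_conj (h3 : ∀ x, φ (φ (φ x)) = x) (c y : K) (hc : φ c = c) :
    short φ y * X 14 c * (short φ y)⁻¹ =
      qElt φ c (-(c * y)) (-(c * (y * φ (φ y)))) (-(c * (y * φ y * φ (φ y)))) *
        X 23 (-(c * c * (y * φ y * φ (φ y)))) := by
  obtain ⟨-, hc0, ⟨-, -, -, -, -, h1521, h2115, -⟩, h1412, h1413, h1513, h1418, h1618, h1518, h1718⟩ := tables
  set v := φ y with hv
  set w := φ (φ y) with hw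
  have k0 : ∀ {r s : ℕ}, Comm0 r s → ∀ a b : K, X s b * X r a = X r a * X s b := fun h a b => comm0 h a b
  have s1 : X 12 w * X 14 c * X 12 (-w) = X 14 c * X 15 (c * w) := by
    rw [comm1 h1412, mul_assoc (X 14 c * X 12 w), ← k0 (hc0 (15, 12) (by simp)), ← mul_assoc,
      mul_assoc (X 14 c) (X 12 w), goodD4.xg_add, add_neg_cancel, goodD4.xg_zero, mul_one]
    simp
  have s2 : X 13 v * (X 14 c * X 15 (c * w)) * X 13 (-v) = X 14 c * X 16 (c * v) * X 15 (c * w) *
      X 17 (c * w * v) := by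
    calc X 13 v * (X 14 c * X 15 (c * w)) * X 13 (-v)
        = X 14 c * X 13 v * (X 16 (c * v) * X 15 (c * w)) * X 13 (-v) := by
          rw [← mul_assoc, comm1 h1413]; simp [mul_assoc]
      _ = X 14 c * (X 13 v * X 16 (c * v)) * X 15 (c * w) * X 13 (-v) := by simp only [mul_assoc]
      _ = X 14 c * X 16 (c * v) * (X 13 v * X 15 (c * w)) * X 13 (-v) := by
          rw [k0 (hc0 (16, 13) (by simp))]; simp only [mul_assoc]
      _ = X 14 c * X 16 (c * v) * X 15 (c * w) * (X 13 v * (X 17 (c * w * v) * X 13 (-v))) := by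
          rw [comm1 h1513]; simp [mul_assoc]
      _ = X 14 c * X 16 (c * v) * X 15 (c * w) * (X 13 v * X 13 (-v)) * X 17 (c * w * v) := by
          rw [← k0 (hc0 (17, 13) (by simp))]; simp only [mul_assoc]
      _ = _ := by rw [goodD4.xg_add, add_neg_cancel, goodD4.xg_zero, mul_one]
  have c14 : ∀ a, X 18 y * X 14 a * (X 18 y)⁻¹ = X 14 a * X 19 (-(a * y)) := by
    intro a
    rw [mul_inv_eq_iff_eq_mul, comm1 h1418]
    simp only [mul_assoc]
    congr 1
    rw [Int.cast_one, one_mul]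
    exact (comm0 (show Comm0 18 19 by decide +kernel) y (-(a * y))).symm
  have c16 : ∀ a, X 18 y * X 16 a * (X 18 y)⁻¹ = X 16 a * X 21 (-(a * y)) := by
    intro a
    rw [mul_inv_eq_iff_eq_mul, comm1 h1618]
    simp only [mul_assoc]
    congr 1
    rw [Int.cast_one, one_mul]
    exact (comm0 (show Comm0 18 21 by decide +kernel) y (-(a * y))).symm
  have c15 : ∀ a, X 18 y * X 15 a * (X 18 y)⁻¹ = X 15 a * X 20 (-(a * y)) := by
    intro a
    rw [mul_inv_eq_iff_eq_mul, comm1 h1518]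
    simp only [mul_assoc]
    congr 1
    rw [Int.cast_one, one_mul]
    exact (comm0 (show Comm0 18 20 by decide +kernel) y (-(a * y))).symm
  have c17 : ∀ a, X 18 y * X 17 a * (X 18 y)⁻¹ = X 17 a * X 22 (-(a * y)) := by
    intro a
    rw [mul_inv_eq_iff_eq_mul, comm1 h1718]
    simp only [mul_assoc]
    congr 1
    rw [Int.cast_one, one_mul]
    exact (comm0 (show Comm0 18 22 by decide +kernel) y (-(a * y))).symm
  have e1 : short φ y * X 14 c * (short φ y)⁻¹ =
      (X 18 y * X 14 c * (X 18 y)⁻¹) * (X 18 y * X 16 (c * v) * (X 18 y)⁻¹) *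
        (X 18 y * X 15 (c * w) * (X 18 y)⁻¹) * (X 18 y * X 17 (c * w * v) * (X 18 y)⁻¹) := by
    rw [show short φ y = X 18 y * X 13 v * X 12 w from rfl]
    calc X 18 y * X 13 v * X 12 w * X 14 c * (X 18 y * X 13 v * X 12 w)⁻¹
        = X 18 y * (X 13 v * (X 12 w * X 14 c * (X 12 w)⁻¹) * (X 13 v)⁻¹) * (X 18 y)⁻¹ := by group
      _ = X 18 y * (X 14 c * X 16 (c * v) * X 15 (c * w) * X 17 (c * w * v)) * (X 18 y)⁻¹ := by
          rw [goodD4.xg_inv 12, s1, goodD4.xg_inv 13, s2]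
      _ = _ := by group
  rw [e1, c14, c16, c15, c17]
  have hlast : X 21 (-(c * v * y)) * X 15 (c * w) =
      X 15 (c * w) * X 21 (-(c * v * y)) * X 23 (-(c * w * (c * v * y))) := by
    rw [comm1 h1521]
    simp
  have z : ∀ k ∈ [14, 15, 16, 17, 19, 20, 21, 22], ∀ a v : K, X 23 v * X k a = X k a * X 23 v := central
  calc X 14 c * X 19 (-(c * y)) * (X 16 (c * v) * X 21 (-(c * v * y))) * (X 15 (c * w) * X 20 (-(c * w * y))) *
        (X 17 (c * w * v) * X 22 (-(c * w * v * y)))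
      = X 14 c * X 19 (-(c * y)) * X 16 (c * v) * X 15 (c * w) * X 21 (-(c * v * y)) *
          (X 23 (-(c * w * (c * v * y))) * X 20 (-(c * w * y))) * X 17 (c * w * v) * X 22 (-(c * w * v * y)) := by
        have hlast' : ∀ g, X 21 (-(c * v * y)) * (X 15 (c * w) * g) =
            X 15 (c * w) * (X 21 (-(c * v * y)) * (X 23 (-(c * w * (c * v * y))) * g)) := fun g => by
          rw [← mul_assoc, hlast]; simp only [mul_assoc]
        simp only [mul_assoc (G := GL chevD4.Idx K), hlast']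
    _ = X 14 c * X 19 (-(c * y)) * X 16 (c * v) * X 15 (c * w) * (X 21 (-(c * v * y)) * X 20 (-(c * w * y))) *
          (X 23 (-(c * w * (c * v * y))) * X 17 (c * w * v)) * X 22 (-(c * w * v * y)) := by
        rw [z 20 (by simp)]; simp only [mul_assoc]
    _ = X 14 c * X 19 (-(c * y)) * X 16 (c * v) * X 15 (c * w) * X 20 (-(c * w * y)) * X 21 (-(c * v * y)) *
          X 17 (c * w * v) * (X 23 (-(c * w * (c * v * y))) * X 22 (-(c * w * v * y))) := by
        rw [k0 (hc0 (20, 21) (by simp)), z 17 (by simp)]; simp only [mul_assoc]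
    _ = _ := by
        rw [z 22 (by simp)]
        simp only [qElt, map_neg, map_mul, hc, h3, hv, hw, mul_assoc (G := GL chevD4.Idx K), neg_neg]
        ring_nf

end Cfsg.Agent.H71.Triality
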