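import Cfsg.Agent.H71.TrialityDegree
import Cfsg.Agent.H25.CharIntegral
import Cfsg.Agent.S1071
import Mathlib.RepresentationTheory.Irreducible

/-!
The smallest degree of a non-trivial complex representation of ³D₄(q).
-/

set_option autoImplicit false

open Cfsg.Lie Cfsg.Agent.H46 Module

namespace Cfsg.Agent.H71.Triality

/-- The candidate degree does not divide the group order. -/
theorem not_dvd_order {q : ℕ} (hq : 1 < q) :
    ¬ (q - 1) * (q ^ 4 + q ^ 3 + 1) ∣ q ^ 12 * (q ^ 2 - 1) * (q ^ 6 - 1) * (q ^ 8 + q ^ 4 + 1) := by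
  intro h
  by_cases h5 : q ≤ 5
  · interval_cases q <;> norm_num at h
  · push Not at h5
    have h' : (q ^ 4 + q ^ 3 + 1 : ℕ) ∣ q ^ 12 * (q ^ 2 - 1) * (q ^ 6 - 1) * (q ^ 8 + q ^ 4 + 1) :=
      (Dvd.intro_left _ rfl).trans h
    have hcop : Nat.Coprime (q ^ 4 + q ^ 3 + 1) (q ^ 12) := by
      refine Nat.Coprime.pow_right 12 ?_
      rw [show q ^ 4 + q ^ 3 + 1 = 1 + (q ^ 3 + q ^ 2) * q by ring, Nat.coprime_add_mul_right_left]
      exact Nat.coprime_one_left q
    rw [mul_assoc, mul_assoc] at h'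
    have hd := hcop.dvd_of_dvd_mul_left h'
    have hz : ((q : ℤ) ^ 4 + (q : ℤ) ^ 3 + 1) ∣ ((q : ℤ) ^ 2 - 1) * (((q : ℤ) ^ 6 - 1) * ((q : ℤ) ^ 8 + (q : ℤ) ^ 4 + 1)) := by
      have := Int.natCast_dvd_natCast.2 hd
      push_cast [Nat.one_le_pow _ _ (by omega : 0 < q)] at this
      exact this
    set x : ℤ := (q : ℤ) with hx
    have hx6 : (6 : ℤ) ≤ x := by rw [hx]; exact_mod_cast (show 6 ≤ q by omega)
    have hr : (x ^ 4 + x ^ 3 + 1) ∣ (-6 * x ^ 3 - 2 * x ^ 2 + 4 * x - 5) := by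
      have e : (-6 * x ^ 3 - 2 * x ^ 2 + 4 * x - 5 : ℤ) = (x ^ 2 - 1) * ((x ^ 6 - 1) * (x ^ 8 + x ^ 4 + 1)) -
          (x ^ 12 - x ^ 11 + x ^ 7 - 3 * x ^ 6 + 3 * x ^ 5 - x ^ 4 + x ^ 2 - 4 * x + 6) * (x ^ 4 + x ^ 3 + 1) := by
        ring
      rw [e]
      exact dvd_sub hz (Dvd.intro_left _ rfl)
    obtain ⟨c, hc⟩ := hr
    have hA : (0 : ℤ) < x ^ 4 + x ^ 3 + 1 := by positivity
    have hneg : (-6 * x ^ 3 - 2 * x ^ 2 + 4 * x - 5 : ℤ) < 0 := by nlinarith
    have hbig : -(x ^ 4 + x ^ 3 + 1) < -6 * x ^ 3 - 2 * x ^ 2 + 4 * x - 5 := by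
      nlinarith [pow_pos (by linarith : (0 : ℤ) < x) 3, mul_le_mul_of_nonneg_right hx6 (pow_nonneg (by linarith : (0 : ℤ) ≤ x) 3)]
    rw [hc] at hneg hbig
    have h1 : c < 0 := neg_of_mul_neg_right hneg hA.le
    nlinarith

/-- Every irreducible complex representation of degree at least two of ³D₄(q) has degree at least
`q(q⁴ − q² + 1)`. -/
theorem min_degree {K : Type*} [Field K] [Fintype K] {q : ℕ} (hq : IsPrimePow q) (hK : Fintype.card K = q ^ 3)
    (k : ℕ) (ρ : Representation ℂ ↥(twistedD4 K q) (Fin k → ℂ)) (hρ : ρ.IsIrreducible) (hk : 2 ≤ k) :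
    q * (q ^ 4 - q ^ 2 + 1) ≤ k := by
  classical
  obtain ⟨f, hf⟩ := exists_qFrob hq (by norm_num : 0 < 3) hK
  have : ρ.IsIrreducible := hρ
  have hsimple : IsSimpleGroup ↥(twistedD4 K q) := (Cfsg.Agent.S1071.result hq hK).1
  have hne : ∃ v, ρ (cen f hf hK v) ≠ 1 := by
    by_contra hc
    push Not at hc
    rcases (MonoidHom.normal_ker (ρ : _ →* _)).eq_bot_or_eq_top with h | h
    · have h1 : cen f hf hK 1 = 1 := (Subgroup.eq_bot_iff_forall _).1 h _ (hc 1)
      have h2 : goodD4.xg 23 ((1 : fixField f) : K) = 1 := congrArg Subtype.val h1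
      rw [goodD4.xg_eq_one_iff (by decide +kernel)] at h2
      exact one_ne_zero h2
    · have htriv : ∀ g, ρ g = 1 := fun g => (h ▸ Subgroup.mem_top g : g ∈ MonoidHom.ker (ρ : _ →* _))
      set e : Fin k → ℂ := Pi.single ⟨0, by omega⟩ 1
      let σ : Subrepresentation ρ := ⟨Submodule.span ℂ {e}, fun g v hv => by rw [htriv g]; exact hv⟩
      let σ0 : Subrepresentation ρ := ⟨⊥, fun g v hv => by rw [htriv g]; exact hv⟩
      let σ1 : Subrepresentation ρ := ⟨⊤, fun g v hv => by rw [htriv g]; exact hv⟩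
      have he : finrank ℂ (Submodule.span ℂ ({e} : Set (Fin k → ℂ))) = 1 :=
        finrank_span_singleton (by simp [e])
      have hne1 : σ ≠ σ1 := fun h' => by
        have h2 : Submodule.span ℂ ({e} : Set (Fin k → ℂ)) = ⊤ := congrArg Subrepresentation.toSubmodule h'
        rw [h2, finrank_top, finrank_fin_fun] at he
        omega
      have hne0 : σ ≠ σ0 := fun h' => by
        have h2 : Submodule.span ℂ ({e} : Set (Fin k → ℂ)) = ⊥ := congrArg Subrepresentation.toSubmodule h'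
        rw [h2, finrank_bot] at he
        omega
      have h01 : σ0 ≠ σ1 := fun h' => by
        have h2 : (⊥ : Submodule ℂ (Fin k → ℂ)) = ⊤ := congrArg Subrepresentation.toSubmodule h'
        have h3 := congrArg (fun S : Submodule ℂ (Fin k → ℂ) => finrank ℂ S) h2
        simp only [finrank_bot, finrank_top, finrank_fin_fun] at h3
        omega
      rcases eq_bot_or_eq_top σ with a | a <;> rcases eq_bot_or_eq_top σ0 with c | c <;>
        rcases eq_bot_or_eq_top σ1 with d | d <;> simp_all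
  have hb := degree_bound f hf hK (ρ : _ →* _) hne
  rw [finrank_fin_fun] at hb
  have hq1 : 1 < q := hq.one_lt
  have hne' : k ≠ (q - 1) * (q ^ 4 + q ^ 3 + 1) := by
    intro h
    have hd := Cfsg.Agent.H25.finrank_dvd_card ρ
    rw [finrank_fin_fun, twistedD4_eq f hf hK, card_twistD4 f hf hK, h] at hd
    exact not_dvd_order hq1 hd
  have e : q * (q ^ 4 - q ^ 2 + 1) = (q - 1) * (q ^ 4 + q ^ 3 + 1) + 1 := by
    have h2 : q ^ 2 ≤ q ^ 4 := Nat.pow_le_pow_right (by omega) (by norm_num)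
    zify [h2, hq1.le]
    ring
  omega

end Cfsg.Agent.H71.Triality
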