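/-
`SL₃(q)` is generated by two conjugate regular unipotent elements.
-/
import Mathlib
import Cfsg.Agent.H70.SLGen

set_option autoImplicit false

open Matrix

namespace Cfsg.Agent.H71.TwoUnipotents

section centres

variable {F : Type*} [Field F]

local notation "G₃" => Matrix.SpecialLinearGroup (Fin 3) F
local notation "M₃" => Matrix (Fin 3) (Fin 3) F

/-- The transvection with centre `v` and axis the kernel of `ψ`. -/
def tv (v ψ : Fin 3 → F) : M₃ := 1 + Matrix.vecMulVec v ψ

theorem det_tv (v ψ : Fin 3 → F) (h : ψ ⬝ᵥ v = 0) : (tv v ψ).det = 1 := by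
  simp [dotProduct, Fin.sum_univ_three] at h
  simp [tv, Matrix.det_fin_three, Matrix.vecMulVec_apply]
  linear_combination h

theorem mul_tv (g : M₃) (v ψ : Fin 3 → F) : g * tv v (ψ ᵥ* g) = tv (g *ᵥ v) ψ * g := by
  rw [tv, tv, Matrix.mul_add, Matrix.add_mul, Matrix.mul_one, Matrix.one_mul, Matrix.mul_vecMulVec,
    Matrix.vecMulVec_mul]

/-- The centres all of whose transvections lie in `H`. -/
def centres (H : Subgroup G₃) : Set (Fin 3 → F) :=
  {v | ∀ (ψ : Fin 3 → F) (g : G₃), ψ ⬝ᵥ v = 0 → (g : M₃) = tv v ψ → g ∈ H}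

theorem map_centres (H : Subgroup G₃) {h : G₃} (hh : h ∈ H) {v : Fin 3 → F} (hv : v ∈ centres H) :
    (h : M₃) *ᵥ v ∈ centres H := by
  intro ψ g hψ hg
  have e : ((g * h : G₃) : M₃) = (h : M₃) * tv v (ψ ᵥ* (h : M₃)) := by
    rw [Matrix.SpecialLinearGroup.coe_mul, hg, mul_tv]
  have h2 : h⁻¹ * g * h ∈ H := by
    refine hv (ψ ᵥ* (h : M₃)) _ (by rw [← Matrix.dotProduct_mulVec]; exact hψ) ?_
    rw [mul_assoc, Matrix.SpecialLinearGroup.coe_mul, e, ← Matrix.mul_assoc,
      ← Matrix.SpecialLinearGroup.coe_mul, inv_mul_cancel, Matrix.SpecialLinearGroup.coe_one,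
      Matrix.one_mul]
  have h3 := H.mul_mem (H.mul_mem hh h2) (H.inv_mem hh)
  simpa [mul_assoc] using h3

theorem smul_centres (H : Subgroup G₃) (c : F) {v : Fin 3 → F} (hv : v ∈ centres H) :
    c • v ∈ centres H := by
  intro ψ g hψ hg
  rw [dotProduct_smul, ← smul_dotProduct] at hψ
  exact hv (c • ψ) g hψ (by rw [hg, tv, tv, Matrix.smul_vecMulVec, Matrix.vecMulVec_smul])

theorem add_centres (H : Subgroup G₃) {v w : Fin 3 → F} (hv : v ∈ centres H) (hw : w ∈ centres H) :
    v + w ∈ centres H := by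
  by_cases hdep : ∀ i j, v i * w j = v j * w i
  · by_cases hv0 : v = 0
    · simpa [hv0] using hw
    · obtain ⟨i, hi⟩ := Function.ne_iff.mp hv0
      have hi' : v i ≠ 0 := hi
      have e : v + w = (1 + w i / v i) • v := by
        funext j
        simp only [Pi.add_apply, Pi.smul_apply, smul_eq_mul]
        field_simp
        linear_combination hdep i j
      rw [e]
      exact smul_centres H _ hv
  · simp only [not_forall] at hdep
    obtain ⟨i, j, hij⟩ := hdep
    have hd : v i * w j - v j * w i ≠ 0 := sub_ne_zero.mpr hij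
    let φ : Fin 3 → F := (v i * w j - v j * w i)⁻¹ • (Pi.single j (v i) - Pi.single i (v j))
    have h0 : φ ⬝ᵥ v = 0 := by
      simp only [φ, smul_dotProduct, sub_dotProduct, single_dotProduct, smul_eq_mul]
      ring
    have h1 : φ ⬝ᵥ w = 1 := by
      simp only [φ, smul_dotProduct, sub_dotProduct, single_dotProduct, smul_eq_mul]
      exact inv_mul_cancel₀ hd
    let t : G₃ := ⟨tv v φ, det_tv v φ h0⟩
    have ht : t ∈ H := hv φ t h0 rfl
    have h2 := map_centres H ht hw
    have e : (t : M₃) *ᵥ w = v + w := by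
      show tv v φ *ᵥ w = _
      rw [tv, Matrix.add_mulVec, Matrix.one_mulVec, Matrix.vecMulVec_mulVec, h1, add_comm]
      simp
    rwa [e] at h2

/-- A subgroup with all transvections of centre `e₀` and an element moving it cyclically is
everything. -/
theorem eq_top_of_cyclic (H : Subgroup G₃) (y : G₃) (hy : y ∈ H)
    (h0 : ∀ (ψ : Fin 3 → F) (g : G₃), ψ 0 = 0 → (g : M₃) = tv ![1, 0, 0] ψ → g ∈ H)
    (hcyc : ∀ v : Fin 3 → F, ∃ a b c : F, v = a • ![1, 0, 0] + b • ((y : M₃) *ᵥ ![1, 0, 0]) +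
      c • ((y : M₃) *ᵥ ((y : M₃) *ᵥ ![1, 0, 0]))) :
    H = ⊤ := by
  have e0 : ![(1 : F), 0, 0] ∈ centres H := by
    intro ψ g hψ hg
    refine h0 ψ g ?_ hg
    simpa [dotProduct, Fin.sum_univ_three] using hψ
  have hall : ∀ v : Fin 3 → F, v ∈ centres H := by
    intro v
    obtain ⟨a, b, c, rfl⟩ := hcyc v
    exact add_centres H (add_centres H (smul_centres H a e0) (smul_centres H b (map_centres H hy e0)))
      (smul_centres H c (map_centres H hy (map_centres H hy e0)))
  refine H70.eq_top_of_transvection_mem H fun i j h c => ?_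
  refine hall (Pi.single i 1) (Pi.single j c) _ (by simp [h]) ?_
  ext a b
  simp only [Matrix.SpecialLinearGroup.transvection_coe, tv, Matrix.add_apply,
    Matrix.vecMulVec_apply, Matrix.single_apply, Pi.single_apply]
  by_cases ha : i = a <;> by_cases hb : j = b <;> simp [ha, hb, eq_comm]

/-- The axes of centre `e₀` from the two coordinate families. -/
theorem centre_zero_of_coord (H : Subgroup G₃) (h1 : (0 : Fin 3) ≠ 1) (h2 : (0 : Fin 3) ≠ 2)
    (a1 : ∀ c : F, SpecialLinearGroup.transvection h1 c ∈ H)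
    (a2 : ∀ c : F, SpecialLinearGroup.transvection h2 c ∈ H)
    (ψ : Fin 3 → F) (g : G₃) (hψ : ψ 0 = 0) (hg : (g : M₃) = tv ![1, 0, 0] ψ) : g ∈ H := by
  have e : g = SpecialLinearGroup.transvection h1 (ψ 1) * SpecialLinearGroup.transvection h2 (ψ 2) := by
    refine Subtype.ext ?_
    rw [Matrix.SpecialLinearGroup.coe_mul, hg]
    ext a b
    rw [tv, Matrix.add_apply, Matrix.vecMulVec_apply]
    fin_cases a <;> fin_cases b <;>
      simp [Matrix.mul_apply, Fin.sum_univ_three, Matrix.one_apply,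
        Matrix.SpecialLinearGroup.transvection_coe, Matrix.single_apply, hψ]
  rw [e]
  exact H.mul_mem (a1 _) (a2 _)

end centres

/-- An additive subgroup stable under `λ³`, for a generator `λ`, is trivial or everything. -/
theorem addSubgroup_top_of_cube {F : Type*} [Field F] [Fintype F] (hq : 5 ≤ Fintype.card F ∨
    Fintype.card F = 3) (l : Fˣ) (hl : ∀ x : Fˣ, x ∈ Subgroup.zpowers l) (P : AddSubgroup F)
    (hP : ∀ x ∈ P, (l : F) ^ 3 * x ∈ P) {r : F} (hr : r ∈ P) (hr0 : r ≠ 0) : ∀ x : F, x ∈ P := by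
  classical
  let R : Subring F :=
    { carrier := {c | ∀ x ∈ P, c * x ∈ P}
      mul_mem' := fun {a b} ha hb x hx => by rw [mul_assoc]; exact ha _ (hb x hx)
      one_mem' := fun x hx => by rwa [one_mul]
      add_mem' := fun {a b} ha hb x hx => by rw [add_mul]; exact P.add_mem (ha x hx) (hb x hx)
      zero_mem' := fun x hx => by rw [zero_mul]; exact P.zero_mem
      neg_mem' := fun {a} ha x hx => by rw [neg_mul]; exact P.neg_mem (ha x hx) }
  have hinv : ∀ x ∈ R, x⁻¹ ∈ R := by
    intro x hx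
    rcases eq_or_ne x 0 with rfl | h0
    · simp [R.zero_mem]
    · have h2 : 2 ≤ Fintype.card F := Fintype.one_lt_card
      have e : x⁻¹ = x ^ (Fintype.card F - 2) := by
        refine inv_eq_of_mul_eq_one_left ?_
        rw [← pow_succ, show Fintype.card F - 2 + 1 = Fintype.card F - 1 by omega,
          FiniteField.pow_card_sub_one_eq_one x h0]
      rw [e]
      exact R.pow_mem hx _
  let K : Subfield F := { R with inv_mem' := hinv }
  have hLK : (l : F) ^ 3 ∈ K := hP
  have hcard : Fintype.card F = Fintype.card K ^ Module.finrank K F := Module.card_eq_pow_finrank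
  have hK2 : 2 ≤ Fintype.card K := Fintype.one_lt_card
  have h1 : ((⟨(l : F) ^ 3, hLK⟩ : K)) ^ (Fintype.card K - 1) = 1 :=
    FiniteField.pow_card_sub_one_eq_one _ fun h => pow_ne_zero 3 l.ne_zero (congrArg Subtype.val h)
  have h2 : l ^ (3 * (Fintype.card K - 1)) = 1 := by
    refine Units.ext ?_
    rw [Units.val_pow_eq_pow_val, pow_mul, Units.val_one]
    exact congrArg Subtype.val h1
  have h3 := orderOf_dvd_of_pow_eq_one h2
  rw [orderOf_eq_card_of_forall_mem_zpowers hl, Nat.card_units, Nat.card_eq_fintype_card] at h3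
  have h4 := Nat.le_of_dvd (by omega) h3
  have hK : Fintype.card K = Fintype.card F := by
    rcases Nat.lt_or_ge (Module.finrank K F) 2 with h | h
    · have := Module.finrank_pos (R := K) (M := F)
      rw [hcard, show Module.finrank K F = 1 by omega, pow_one]
    · have h5 : Fintype.card K ^ 2 ≤ Fintype.card F :=
        hcard ▸ Nat.pow_le_pow_right (by omega) h
      rcases Nat.lt_or_ge (Fintype.card K) 3 with h6 | h6
      · rw [show Fintype.card K = 2 by omega] at h5 h4
        norm_num at h5 h4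
        omega
      · have : 3 * Fintype.card K ≤ Fintype.card K ^ 2 := by rw [pow_two]; exact Nat.mul_le_mul_right _ h6
        omega
  intro x
  have hbij : Function.Bijective ((↑) : K → F) :=
    (Fintype.bijective_iff_injective_and_card _).mpr ⟨Subtype.val_injective, hK⟩
  obtain ⟨c, hc⟩ := hbij.2 (x / r)
  have h7 : (c : F) * r ∈ P := c.2 r hr
  rwa [hc, div_mul_cancel₀ x hr0] at h7

section generic

variable {F : Type*} [Field F]

local notation "G₃" => Matrix.SpecialLinearGroup (Fin 3) F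
local notation "M₃" => Matrix (Fin 3) (Fin 3) F

/-- The nilpotent part of the second generator. -/
def nilMat (a δ : F) : M₃ := !![-δ, 0, -δ ^ 2; a, 0, a * (1 + δ); 1, 0, δ]

theorem nilMat_sq (a δ : F) : nilMat a δ * nilMat a δ = !![0, 0, 0; a, 0, a * δ; 0, 0, 0] := by
  ext i j
  fin_cases i <;> fin_cases j <;> simp [nilMat, Matrix.mul_apply, Fin.sum_univ_three] <;> ring

theorem nilMat_cube (a δ : F) : nilMat a δ * nilMat a δ * nilMat a δ = 0 := by
  rw [nilMat_sq]
  ext i j
  fin_cases i <;> fin_cases j <;> simp [nilMat, Matrix.mul_apply, Fin.sum_univ_three] <;> ring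

theorem det_one_add_nilMat (a δ : F) : (1 + nilMat a δ).det = 1 := by
  simp [nilMat, Matrix.det_fin_three]
  ring

set_option maxHeartbeats 800000 in
/-- The matrix identity behind the conjugacy of the two generators. -/
theorem key (l L δ : F) (hL : l * L = 1) (hd : δ * (l ^ 2 + l + 1) = (l - 1) * (l + 2)) :
    let a := (1 - l) ^ 3 * L ^ 2
    let μ := L ^ 2
    let A := 1 - μ - μ * δ
    let B := (l - 1) ^ 2 * L
    let G := 1 - l - δ
    !![G, 1, -((A * G + B) * l ^ 2); a, 0, (a - A * a) * l ^ 2; 1, 0, -(A * l ^ 2)] *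
      (!![l, 1, 0; 0, l, 0; 0, 0, μ] * !![1-δ, 0, -δ ^ 2; a, 1, a * (1 + δ); 1, 0, 1+δ]) =
      !![1-δ, 0, -δ ^ 2; a, 1, a * (1 + δ); 1, 0, 1+δ] *
      !![G, 1, -((A * G + B) * l ^ 2); a, 0, (a - A * a) * l ^ 2; 1, 0, -(A * l ^ 2)] := by
  intro a μ A B G
  rw [Matrix.mul_fin_three, Matrix.mul_fin_three, Matrix.mul_fin_three]
  ext i j
  fin_cases i <;> fin_cases j <;> simp [a, μ, A, B, G] <;> grind

/-- The determinant of the conjugating matrix. -/
theorem key_det (l L δ : F) (hL : l * L = 1) (hd : δ * (l ^ 2 + l + 1) = (l - 1) * (l + 2)) :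
    let a := (1 - l) ^ 3 * L ^ 2
    let μ := L ^ 2
    let A := 1 - μ - μ * δ
    let B := (l - 1) ^ 2 * L
    let G := 1 - l - δ
    (!![G, 1, -((A * G + B) * l ^ 2); a, 0, (a - A * a) * l ^ 2; 1, 0, -(A * l ^ 2)]).det = (1 - l) ^ 3 := by
  intro a μ A B G
  simp [Matrix.det_fin_three, a, μ, A, B, G]
  grind

theorem inv_eq {G : Type*} [Group G] {g u y : G} (h : g * u = y * g) : g⁻¹ * y * g = u := by
  rw [mul_assoc, ← h, inv_mul_cancel_left]

set_option maxHeartbeats 3000000 in
/-- The generic generation theorem. -/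
theorem exists_pair [Fintype F] (hq : 5 ≤ Fintype.card F ∨ Fintype.card F = 3) :
    ∃ u g : G₃, IsNilpotent ((u : M₃) - 1) ∧ ((u : M₃) - 1) ^ 2 ≠ 0 ∧
      Subgroup.closure ({u, g * u * g⁻¹} : Set G₃) = ⊤ := by
  classical
  obtain ⟨lu, hl⟩ := IsCyclic.exists_generator (α := Fˣ)
  set l : F := (lu : F) with hldef
  have hl0 : l ≠ 0 := lu.ne_zero
  have hord : orderOf lu = Fintype.card F - 1 := by
    rw [orderOf_eq_card_of_forall_mem_zpowers hl, Nat.card_units, Nat.card_eq_fintype_card]
  have hl3 : l ^ 3 ≠ 1 := by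
    intro h
    have h' : lu ^ 3 = 1 := Units.ext (by rw [Units.val_pow_eq_pow_val]; exact h)
    have hd := orderOf_dvd_of_pow_eq_one h'
    rw [hord] at hd
    rcases hq with h5 | h3'
    · have := Nat.le_of_dvd (by norm_num) hd; omega
    · rw [h3'] at hd; norm_num at hd
  have hden : l ^ 2 + l + 1 ≠ 0 := fun h => hl3 (by linear_combination (l - 1) * h)
  have hl1 : 1 - l ≠ 0 := fun h => hl3 (by rw [← sub_eq_zero.mp h]; ring)
  set δ : F := (l - 1) * (l + 2) / (l ^ 2 + l + 1) with hδ
  set a : F := (1 - l) ^ 3 / l ^ 2 with ha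
  have ha0 : a ≠ 0 := div_ne_zero (pow_ne_zero 3 hl1) (pow_ne_zero 2 hl0)
  set μ : F := (l ^ 2)⁻¹ with hμ
  let y : G₃ := ⟨1 + nilMat a δ, det_one_add_nilMat a δ⟩
  let D : G₃ := ⟨!![l, 0, 0; 0, l, 0; 0, 0, μ], by
    simp [Matrix.det_fin_three, hμ]; field_simp⟩
  have h12 : (0 : Fin 3) ≠ 1 := by decide
  have h13 : (0 : Fin 3) ≠ 2 := by decide
  let w : G₃ := D * SpecialLinearGroup.transvection h12 l⁻¹
  have hd : δ * (l ^ 2 + l + 1) = (l - 1) * (l + 2) := by rw [hδ]; exact div_mul_cancel₀ _ hden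
  have hL : l * l⁻¹ = 1 := mul_inv_cancel₀ hl0
  have ha' : a = (1 - l) ^ 3 * l⁻¹ ^ 2 := by rw [ha, inv_pow, div_eq_mul_inv]
  let A : F := 1 - l⁻¹ ^ 2 - l⁻¹ ^ 2 * δ
  let M : M₃ := !![1 - l - δ, 1, -((A * (1 - l - δ) + (l - 1) ^ 2 * l⁻¹) * l ^ 2);
    a, 0, (a - A * a) * l ^ 2; 1, 0, -(A * l ^ 2)]
  let g : G₃ := ⟨(1 - l)⁻¹ • M, by
    rw [Matrix.det_smul, Fintype.card_fin, inv_pow]
    have h : M.det = (1 - l) ^ 3 := by
      show (!![_, _, _; _, _, _; _, _, _] : M₃).det = _
      rw [ha']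
      exact key_det l l⁻¹ δ hL hd
    rw [h, inv_mul_cancel₀ (pow_ne_zero 3 hl1)]⟩
  have hy' : (1 + nilMat a δ : M₃) = !![1 - δ, 0, -δ ^ 2; a, 1, a * (1 + δ); 1, 0, 1 + δ] := by
    ext i j
    fin_cases i <;> fin_cases j <;> simp [nilMat, sub_eq_add_neg]
  have hw' : (w : M₃) = !![l, 1, 0; 0, l, 0; 0, 0, l⁻¹ ^ 2] := by
    show !![l, 0, 0; 0, l, 0; 0, 0, μ] * Matrix.transvection (0 : Fin 3) 1 l⁻¹ = _
    ext i j
    fin_cases i <;> fin_cases j <;>
      simp [Matrix.mul_apply, Fin.sum_univ_three, Matrix.one_apply, Matrix.transvection, hμ, hl0]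
  have hkey : g * (w * y) = y * g := by
    refine Subtype.ext ?_
    simp only [Matrix.SpecialLinearGroup.coe_mul]
    show (1 - l)⁻¹ • M * ((w : M₃) * (1 + nilMat a δ)) = (1 + nilMat a δ) * ((1 - l)⁻¹ • M)
    rw [hw', hy', Matrix.smul_mul, Matrix.mul_smul]
    congr 1
    show (!![_, _, _; _, _, _; _, _, _] : M₃) * _ = _ * !![_, _, _; _, _, _; _, _, _]
    rw [ha']
    exact key l l⁻¹ δ hL hd
  have hu : g⁻¹ * y * g = w * y := inv_eq hkey
  set H := Subgroup.closure ({y, g⁻¹ * y * (g⁻¹)⁻¹} : Set G₃) with hH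
  refine ⟨y, g⁻¹, ⟨3, ?_⟩, ?_, ?_⟩
  · show (1 + nilMat a δ - 1) ^ 3 = 0
    rw [add_sub_cancel_left, pow_succ, pow_two, nilMat_cube]
  · show (1 + nilMat a δ - 1) ^ 2 ≠ 0
    rw [add_sub_cancel_left, pow_two, nilMat_sq]
    intro h
    exact ha0 (by simpa using congrFun (congrFun h 1) 0)
  have hy : y ∈ H := Subgroup.subset_closure (by simp)
  have hw : w ∈ H := by
    have h : g⁻¹ * y * (g⁻¹)⁻¹ ∈ H := Subgroup.subset_closure (by simp)
    rw [inv_inv, hu] at h
    exact (H.mul_mem_cancel_right hy).mp h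
  -- the transvection and the torus element
  have hcomm : Commute D (SpecialLinearGroup.transvection h12 l⁻¹) := by
    refine Subtype.ext ?_
    simp only [Matrix.SpecialLinearGroup.coe_mul]
    show !![l, 0, 0; 0, l, 0; 0, 0, μ] * _ = _ * !![l, 0, 0; 0, l, 0; 0, 0, μ]
    ext i j
    fin_cases i <;> fin_cases j <;>
      simp [Matrix.mul_apply, Fin.sum_univ_three, Matrix.SpecialLinearGroup.transvection_coe,
        Matrix.single_apply, Matrix.one_apply, Matrix.transvection, mul_comm]
  have hDpow : D ^ (Fintype.card F - 1) = 1 := by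
    refine Subtype.ext ?_
    have e : !![l, 0, 0; 0, l, 0; 0, 0, μ] = Matrix.diagonal ![l, l, μ] := by
      ext i j
      fin_cases i <;> fin_cases j <;> simp
    show (!![l, 0, 0; 0, l, 0; 0, 0, μ] : M₃) ^ (Fintype.card F - 1) = 1
    rw [e, Matrix.diagonal_pow, ← Matrix.diagonal_one]
    congr 1
    funext i
    fin_cases i <;>
      simp [FiniteField.pow_card_sub_one_eq_one, hl0, hμ]
  have htpow : ∀ n : ℕ, SpecialLinearGroup.transvection h12 l⁻¹ ^ n =
      SpecialLinearGroup.transvection h12 ((n : F) * l⁻¹) := by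
    intro n
    induction n with
    | zero => simp
    | succ n ih =>
      rw [pow_succ, ih]
      refine Subtype.ext ?_
      simp only [Matrix.SpecialLinearGroup.coe_mul, Matrix.SpecialLinearGroup.transvection_coe]
      ext i j
      fin_cases i <;> fin_cases j <;>
        simp [Matrix.mul_apply, Fin.sum_univ_three, Matrix.one_apply, Matrix.single_apply]
      ring
  set c : F := -l⁻¹ with hc
  have hX : SpecialLinearGroup.transvection h12 c ∈ H := by
    have h := H.pow_mem hw (Fintype.card F - 1)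
    rw [hcomm.mul_pow, hDpow, one_mul, htpow] at h
    have e : ((Fintype.card F - 1 : ℕ) : F) = -1 := by
      rw [Nat.cast_sub Fintype.card_pos, FiniteField.cast_card_eq_zero, Nat.cast_one, zero_sub]
    rwa [e, neg_one_mul] at h
  have hD : D ∈ H := by
    have h := H.mul_mem hw hX
    have e : w * SpecialLinearGroup.transvection h12 c = D := by
      show D * _ * _ = D
      rw [hc, ← SpecialLinearGroup.transvection_inv, mul_inv_cancel_right]
    rwa [e] at h
  let X : G₃ := SpecialLinearGroup.transvection h12 c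
  let T : G₃ := ⟨tv (c • ![1 - δ, a, 1]) ![0, 1, -a], det_tv _ _ (by
    simp [dotProduct, Fin.sum_univ_three]; ring)⟩
  have hT : T ∈ H := by
    have e : y * X = T * y := by
      refine Subtype.ext ?_
      simp only [Matrix.SpecialLinearGroup.coe_mul]
      show (1 + nilMat a δ) * Matrix.transvection 0 1 c = tv _ _ * (1 + nilMat a δ)
      ext i j
      fin_cases i <;> fin_cases j <;>
        simp [nilMat, tv, Matrix.mul_apply, Fin.sum_univ_three, Matrix.one_apply, Matrix.transvection,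
          Matrix.single_apply] <;> ring
    rw [← mul_inv_eq_of_eq_mul e]
    exact H.mul_mem (H.mul_mem hy hX) (H.inv_mem hy)
  let Z : F → F → G₃ := fun p r =>
    SpecialLinearGroup.transvection h12 p * SpecialLinearGroup.transvection h13 r
  have hZcoe : ∀ p r : F, ((Z p r : G₃) : M₃) = !![1, p, r; 0, 1, 0; 0, 0, 1] := by
    intro p r
    simp only [Z, Matrix.SpecialLinearGroup.coe_mul]
    ext i j
    fin_cases i <;> fin_cases j <;>
      simp [Matrix.mul_apply, Fin.sum_univ_three, Matrix.SpecialLinearGroup.transvection_coe,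
        Matrix.single_apply, Matrix.one_apply, Matrix.transvection]
  -- an element of the form `Z p r`
  set p₀ : F := c * c * a with hp₀
  set r₀ : F := -(c * c * a * a) with hr₀
  have hZ : Z p₀ r₀ ∈ H := by
    have e : X * T = T * Z p₀ r₀ * X := by
      refine Subtype.ext ?_
      simp only [Matrix.SpecialLinearGroup.coe_mul, hZcoe]
      show Matrix.transvection 0 1 c * tv _ _ = tv _ _ * _ * Matrix.transvection 0 1 c
      ext i j
      fin_cases i <;> fin_cases j <;>
        simp [tv, Matrix.mul_apply, Fin.sum_univ_three, Matrix.one_apply, Matrix.transvection,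
          Matrix.single_apply, hp₀, hr₀] <;> ring
    have e2 : Z p₀ r₀ = T⁻¹ * X * T * X⁻¹ := by
      calc Z p₀ r₀ = T⁻¹ * (T * Z p₀ r₀ * X) * X⁻¹ := by group
        _ = _ := by rw [← e]; group
    rw [e2]
    exact H.mul_mem (H.mul_mem (H.mul_mem (H.inv_mem hT) hX) hT) (H.inv_mem hX)
  let P : AddSubgroup F := H70.paramSet H h13
  have hPinv : ∀ x ∈ P, l ^ 3 * x ∈ P := by
    intro x hx
    have e : D * SpecialLinearGroup.transvection h13 x =
        SpecialLinearGroup.transvection h13 (l ^ 3 * x) * D := by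
      refine Subtype.ext ?_
      simp only [Matrix.SpecialLinearGroup.coe_mul]
      ext i j
      fin_cases i <;> fin_cases j <;>
        simp [D, Matrix.mul_apply, Fin.sum_univ_three, Matrix.SpecialLinearGroup.transvection_coe,
          Matrix.single_apply, Matrix.one_apply, Matrix.transvection, hμ] <;>
        field_simp
    show SpecialLinearGroup.transvection h13 _ ∈ H
    rw [← mul_inv_eq_of_eq_mul e]
    exact H.mul_mem (H.mul_mem hD hx) (H.inv_mem hD)
  have hr₁ : (l ^ 3 - 1) * r₀ ∈ P := by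
    have e : D * Z p₀ r₀ = SpecialLinearGroup.transvection h13 ((l ^ 3 - 1) * r₀) * Z p₀ r₀ * D := by
      refine Subtype.ext ?_
      simp only [Matrix.SpecialLinearGroup.coe_mul, hZcoe]
      ext i j
      fin_cases i <;> fin_cases j <;>
        simp [D, Matrix.mul_apply, Fin.sum_univ_three, Matrix.SpecialLinearGroup.transvection_coe,
          Matrix.single_apply, Matrix.one_apply, Matrix.transvection, hμ] <;>
        field_simp <;> ring
    show SpecialLinearGroup.transvection h13 _ ∈ H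
    rw [show SpecialLinearGroup.transvection h13 ((l ^ 3 - 1) * r₀) = D * Z p₀ r₀ * D⁻¹ * (Z p₀ r₀)⁻¹ by
      rw [e]; group]
    exact H.mul_mem (H.mul_mem (H.mul_mem hD hZ) (H.inv_mem hD)) (H.inv_mem hZ)
  have hc0 : c ≠ 0 := neg_ne_zero.mpr (inv_ne_zero hl0)
  have h13all : ∀ x : F, SpecialLinearGroup.transvection h13 x ∈ H :=
    addSubgroup_top_of_cube hq lu hl P hPinv hr₁
      (mul_ne_zero (sub_ne_zero.mpr hl3) (by rw [hr₀]; simp [hc0, ha0]))
  have h12all : ∀ x : F, SpecialLinearGroup.transvection h12 x ∈ H := by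
    intro x
    set t : F := x / c
    have hx : c * t = x := mul_div_cancel₀ x hc0
    let X3 : G₃ := SpecialLinearGroup.transvection h13 t
    have e : X3 * T = T * Z x (-(x * a)) * X3 := by
      refine Subtype.ext ?_
      simp only [Matrix.SpecialLinearGroup.coe_mul, hZcoe]
      show Matrix.transvection 0 2 t * tv _ _ = tv _ _ * _ * Matrix.transvection 0 2 t
      ext i j
      fin_cases i <;> fin_cases j <;>
        simp [tv, Matrix.mul_apply, Fin.sum_univ_three, Matrix.one_apply, Matrix.transvection,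
          Matrix.single_apply, ← hx] <;> ring
    have hX3 : X3 ∈ H := h13all t
    have hmem : Z x (-(x * a)) ∈ H := by
      have e2 : Z x (-(x * a)) = T⁻¹ * X3 * T * X3⁻¹ := by
        calc Z x (-(x * a)) = T⁻¹ * (T * Z x (-(x * a)) * X3) * X3⁻¹ := by group
          _ = _ := by rw [← e]; group
      rw [e2]
      exact H.mul_mem (H.mul_mem (H.mul_mem (H.inv_mem hT) hX3) hT) (H.inv_mem hX3)
    exact (H.mul_mem_cancel_right (h13all _)).mp hmem
  refine eq_top_of_cyclic H y hy (centre_zero_of_coord H h12 h13 h12all h13all) fun v => ?_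
  -- the iterates of `e₀` under `y` form a basis
  refine ⟨?_, ?_, ?_, ?_⟩
  rotate_left 3
  · have ye : (y : M₃) *ᵥ ![1, 0, 0] = ![1 - δ, a, 1] := by
      show (1 + nilMat a δ) *ᵥ _ = _
      ext i
      fin_cases i <;> simp [nilMat, Matrix.mulVec, dotProduct, Fin.sum_univ_three, Matrix.one_apply] <;> ring
    have yye : (y : M₃) *ᵥ ![1 - δ, a, 1] = ![1 - 2 * δ, 3 * a, 2] := by
      show (1 + nilMat a δ) *ᵥ _ = _
      ext i
      fin_cases i <;> simp [nilMat, Matrix.mulVec, dotProduct, Fin.sum_univ_three, Matrix.one_apply] <;> ring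
    rw [ye, yye]
    show v = (v 0 + δ * v 2 - v 2 + (v 1 / a - v 2)) • ![1, 0, 0] + (3 * v 2 - 2 * (v 1 / a)) • ![1 - δ, a, 1] +
      (v 1 / a - v 2) • ![1 - 2 * δ, 3 * a, 2]
    ext i
    fin_cases i <;> simp <;> field_simp <;> ring

end generic

end Cfsg.Agent.H71.TwoUnipotents
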