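/-
`SL₃(2)` and `SL₃(4)` are generated by two conjugate regular unipotent elements.
-/
import Cfsg.Agent.H71.TwoUnipotents
import Mathlib.Algebra.QuadraticAlgebra.Basic

set_option autoImplicit false

open Matrix

namespace Cfsg.Agent.H71.TwoUnipotents

/-- Transport of the small witnesses along a ring map. -/
theorem exists_pair_of_small {R : Type*} [CommRing R] {F : Type*} [Field F] [Fintype F] (φ : R →+* F)
    (hsurj : Function.Surjective φ) (u v g : SpecialLinearGroup (Fin 3) R)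
    (hu : (u : Matrix (Fin 3) (Fin 3) R) = !![1, 1, 0; 0, 1, 1; 0, 0, 1])
    (hv : (v : Matrix (Fin 3) (Fin 3) R) 1 0 = (v : Matrix (Fin 3) (Fin 3) R) 2 1)
    (hv0 : (v : Matrix (Fin 3) (Fin 3) R) 0 1 = 0 ∧ (v : Matrix (Fin 3) (Fin 3) R) 0 2 = 0 ∧
      (v : Matrix (Fin 3) (Fin 3) R) 1 2 = 0)
    (hv1 : ∀ i : Fin 3, (v : Matrix (Fin 3) (Fin 3) R) i i = 1)
    (hva : IsUnit ((v : Matrix (Fin 3) (Fin 3) R) 1 0))
    (hg : g * u = v * g)
    (hgen : ∀ (h : (0 : Fin 3) ≠ 1) (h' : (0 : Fin 3) ≠ 2) (c : R),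
      SpecialLinearGroup.transvection h c ∈ Subgroup.closure {u, v} ∧
      SpecialLinearGroup.transvection h' c ∈ Subgroup.closure {u, v}) :
    ∃ u g : SpecialLinearGroup (Fin 3) F, IsNilpotent ((u : Matrix (Fin 3) (Fin 3) F) - 1) ∧
      ((u : Matrix (Fin 3) (Fin 3) F) - 1) ^ 2 ≠ 0 ∧
      Subgroup.closure ({u, g * u * g⁻¹} : Set (SpecialLinearGroup (Fin 3) F)) = ⊤ := by
  let Φ := SpecialLinearGroup.map (n := Fin 3) φ
  have hU : ((Φ u : SpecialLinearGroup (Fin 3) F) : Matrix (Fin 3) (Fin 3) F) = !![1, 1, 0; 0, 1, 1; 0, 0, 1] := by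
    ext i j
    have h : ((Φ u : SpecialLinearGroup (Fin 3) F) : Matrix (Fin 3) (Fin 3) F) i j =
      φ ((u : Matrix (Fin 3) (Fin 3) R) i j) := rfl
    rw [h, hu]
    fin_cases i <;> fin_cases j <;> simp
  have hN : ((Φ u : SpecialLinearGroup (Fin 3) F) : Matrix (Fin 3) (Fin 3) F) - 1 =
      !![0, 1, 0; 0, 0, 1; 0, 0, 0] := by
    rw [hU]
    ext i j
    fin_cases i <;> fin_cases j <;> simp
  refine ⟨Φ u, Φ g, ⟨3, ?_⟩, ?_, ?_⟩
  · rw [hN, pow_succ, pow_two]
    ext i j
    fin_cases i <;> fin_cases j <;> simp [Matrix.mul_apply, Fin.sum_univ_three]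
  · rw [hN, pow_two]
    intro h
    simpa [Matrix.mul_apply, Fin.sum_univ_three] using congrFun (congrFun h 0) 2
  · have hvv : Φ g * Φ u * (Φ g)⁻¹ = Φ v := by rw [← map_mul, hg, map_mul, mul_inv_cancel_right]
    rw [hvv]
    have himg : Subgroup.closure ({Φ u, Φ v} : Set (SpecialLinearGroup (Fin 3) F)) =
        (Subgroup.closure ({u, v} : Set (SpecialLinearGroup (Fin 3) R))).map Φ := by
      rw [MonoidHom.map_closure, Set.image_pair]
    have hmap : ∀ {i j : Fin 3} (h : i ≠ j) (c : R),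
        Φ (SpecialLinearGroup.transvection h c) = SpecialLinearGroup.transvection h (φ c) := by
      intro i j h c
      apply Subtype.ext
      simp only [Φ, SpecialLinearGroup.map_apply_coe, SpecialLinearGroup.transvection_coe]
      ext a b
      simp [Matrix.one_apply, Matrix.single_apply, apply_ite φ]
    refine eq_top_of_cyclic _ (Φ v) (Subgroup.subset_closure (by simp))
      (centre_zero_of_coord _ (by decide) (by decide) ?_ ?_) fun x => ?_
    · intro c
      obtain ⟨c, rfl⟩ := hsurj c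
      rw [himg, ← hmap]
      exact Subgroup.mem_map_of_mem _ (hgen (by decide) (by decide) c).1
    · intro c
      obtain ⟨c, rfl⟩ := hsurj c
      rw [himg, ← hmap]
      exact Subgroup.mem_map_of_mem _ (hgen (by decide) (by decide) c).2
    · set V : Matrix (Fin 3) (Fin 3) F := ((Φ v : SpecialLinearGroup (Fin 3) F) : Matrix (Fin 3) (Fin 3) F)
      have hV : ∀ i j, V i j = φ ((v : Matrix (Fin 3) (Fin 3) R) i j) := fun i j => rfl
      set a : F := V 1 0 with ha
      have ha0 : a ≠ 0 := by rw [ha, hV]; exact (hva.map φ).ne_zero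
      have h21 : V 2 1 = a := by rw [ha, hV, hV, hv]
      have e01 : V 0 1 = 0 := by rw [hV, hv0.1, map_zero]
      have e02 : V 0 2 = 0 := by rw [hV, hv0.2.1, map_zero]
      have e12 : V 1 2 = 0 := by rw [hV, hv0.2.2, map_zero]
      have e1 : ∀ i, V i i = 1 := fun i => by rw [hV, hv1, map_one]
      have ye : V *ᵥ ![1, 0, 0] = ![1, a, V 2 0] := by
        ext i
        fin_cases i <;> simp [Matrix.mulVec, dotProduct, Fin.sum_univ_three, e1, ha]
      have yye : V *ᵥ ![1, a, V 2 0] = ![1, 2 * a, 2 * V 2 0 + a * a] := by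
        ext i
        fin_cases i <;>
          simp [Matrix.mulVec, dotProduct, Fin.sum_univ_three, e1, h21, ← ha, e01, e02, e12] <;> ring
      set t : F := (x 2 - V 2 0 * (x 1 / a)) / (a * a) with ht
      refine ⟨x 0 - (x 1 / a - 2 * t) - t, x 1 / a - 2 * t, t, ?_⟩
      rw [ye, yye]
      ext i
      fin_cases i <;> simp [ht] <;> field_simp <;> ring

/-- `SL₃(2)`. -/
theorem exists_pair_two {F : Type*} [Field F] [Fintype F] (hF : Fintype.card F = 2) :
    ∃ u g : SpecialLinearGroup (Fin 3) F, IsNilpotent ((u : Matrix (Fin 3) (Fin 3) F) - 1) ∧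
      ((u : Matrix (Fin 3) (Fin 3) F) - 1) ^ 2 ≠ 0 ∧
      Subgroup.closure ({u, g * u * g⁻¹} : Set (SpecialLinearGroup (Fin 3) F)) = ⊤ := by
  have : CharP F 2 := charP_of_card_eq_prime hF
  let φ := ZMod.castHom (dvd_refl 2) F
  have hsurj : Function.Surjective φ :=
    ((Fintype.bijective_iff_injective_and_card φ).mpr ⟨φ.injective, by rw [ZMod.card, hF]⟩).2
  let u : SpecialLinearGroup (Fin 3) (ZMod 2) := ⟨!![1, 1, 0; 0, 1, 1; 0, 0, 1], by decide⟩
  let v : SpecialLinearGroup (Fin 3) (ZMod 2) := ⟨!![1, 0, 0; 1, 1, 0; 0, 1, 1], by decide⟩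
  let g : SpecialLinearGroup (Fin 3) (ZMod 2) := ⟨!![0, 0, 1; 0, 1, 0; 1, 0, 0], by decide⟩
  refine exists_pair_of_small φ hsurj u v g rfl rfl ⟨rfl, rfl, rfl⟩ (fun i => by fin_cases i <;> rfl) (IsUnit.of_mul_eq_one 1 (by decide))
    (Subtype.ext (by decide)) fun h h' c => ?_
  set H := Subgroup.closure ({u, v} : Set (SpecialLinearGroup (Fin 3) (ZMod 2)))
  have hu : u ∈ H := Subgroup.subset_closure (by simp)
  have hv : v ∈ H := Subgroup.subset_closure (by simp)
  have e1 : SpecialLinearGroup.transvection (by decide : (0 : Fin 3) ≠ 1) 1 = v * u * v * u * u * v := Subtype.ext (by decide)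
  have e2 : SpecialLinearGroup.transvection (by decide : (0 : Fin 3) ≠ 2) 1 = u * u := Subtype.ext (by decide)
  have hc : c = 0 ∨ c = 1 := by revert c; decide
  rcases hc with rfl | rfl
  · simp
  · rw [e1, e2]
    exact ⟨H.mul_mem (H.mul_mem (H.mul_mem (H.mul_mem (H.mul_mem hv hu) hv) hu) hu) hv, H.mul_mem hu hu⟩

/-- The field of four elements as a quadratic algebra. -/
abbrev Q4 : Type := QuadraticAlgebra (ZMod 2) 1 1

set_option maxHeartbeats 800000 in
/-- `SL₃(4)`. -/
theorem exists_pair_four {F : Type*} [Field F] [Fintype F] (hF : Fintype.card F = 4) :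
    ∃ u g : SpecialLinearGroup (Fin 3) F, IsNilpotent ((u : Matrix (Fin 3) (Fin 3) F) - 1) ∧
      ((u : Matrix (Fin 3) (Fin 3) F) - 1) ^ 2 ≠ 0 ∧
      Subgroup.closure ({u, g * u * g⁻¹} : Set (SpecialLinearGroup (Fin 3) F)) = ⊤ := by
  have : CharP F 2 := by
    obtain ⟨p, hp⟩ := CharP.exists F
    obtain ⟨n, hpp, hn⟩ := FiniteField.card F p
    have h : p ∣ 2 ^ 2 := by rw [show (2 : ℕ) ^ 2 = 4 by norm_num, ← hF, hn]; exact dvd_pow_self p n.ne_zero
    rwa [← (Nat.prime_dvd_prime_iff_eq hpp Nat.prime_two).mp (hpp.dvd_of_dvd_pow h)]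
  let := ZMod.algebra F 2
  obtain ⟨w, hw0, hw1⟩ : ∃ w : F, w ≠ 0 ∧ w ≠ 1 := by
    classical
    by_contra h
    simp only [not_exists, not_and, not_not] at h
    have hle : Fintype.card F ≤ ({0, 1} : Finset F).card := Finset.card_le_card fun w _ => by
      by_cases hw : w = 0
      · simp [hw]
      · simp [h w hw]
    have := ({0, 1} : Finset F).card_le_univ
    have h2 : ({0, 1} : Finset F).card ≤ 2 := Finset.card_le_two
    omega
  have hrel : w * w = (1 : ZMod 2) • (1 : F) + (1 : ZMod 2) • w := by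
    have h3 : w ^ 3 = 1 := by
      have := FiniteField.pow_card_sub_one_eq_one w hw0
      rwa [hF] at this
    have h4 : (w - 1) * (w * w + w + 1) = 0 := by linear_combination h3
    have h5 := (mul_eq_zero.mp h4).resolve_left (sub_ne_zero.mpr hw1)
    have h2 : (2 : F) = 0 := CharTwo.two_eq_zero
    simp only [one_smul]
    linear_combination h5 - (w + 1) * h2
  let φ : Q4 →+* F := (QuadraticAlgebra.lift ⟨w, hrel⟩).toRingHom
  have hφw : φ ⟨0, 1⟩ = w := by simp [φ, QuadraticAlgebra.lift]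
  have hsurj : Function.Surjective φ := by
    classical
    intro c
    have hall : (Finset.univ : Finset F) = {0, 1, w, φ ⟨1, 1⟩} := by
      have h11 : φ ⟨1, 1⟩ = 1 + w := by simp [φ, QuadraticAlgebra.lift]
      refine (Finset.eq_univ_of_card _ ?_).symm
      rw [h11, hF]
      have e1 : (1 : F) + w ≠ 0 := fun h => hw1 (by
        have h2 : (2 : F) = 0 := CharTwo.two_eq_zero
        linear_combination h - h2)
      simp [Finset.card_insert_of_notMem, Ne.symm hw0, Ne.symm hw1, e1.symm, hw0]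
    have hc : c ∈ ({0, 1, w, φ ⟨1, 1⟩} : Finset F) := hall ▸ Finset.mem_univ c
    simp only [Finset.mem_insert, Finset.mem_singleton] at hc
    rcases hc with rfl | rfl | rfl | rfl
    · exact ⟨0, map_zero φ⟩
    · exact ⟨1, map_one φ⟩
    · exact ⟨_, hφw⟩
    · exact ⟨_, rfl⟩
  let om : Q4 := ⟨0, 1⟩
  let u : SpecialLinearGroup (Fin 3) Q4 := ⟨!![1, 1, 0; 0, 1, 1; 0, 0, 1], by decide +kernel⟩
  let v : SpecialLinearGroup (Fin 3) Q4 := ⟨!![1, 0, 0; om, 1, 0; 1, om, 1], by decide +kernel⟩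
  let g : SpecialLinearGroup (Fin 3) Q4 := ⟨!![0, 0, 1; 0, om, 0; 1 + om, 1, 0], by decide +kernel⟩
  refine exists_pair_of_small φ hsurj u v g rfl rfl ⟨rfl, rfl, rfl⟩ (fun i => by fin_cases i <;> rfl)
    (IsUnit.of_mul_eq_one (1 + om) (by decide +kernel)) (Subtype.ext (by decide +kernel)) fun h h' c => ?_
  set H := Subgroup.closure ({u, v} : Set (SpecialLinearGroup (Fin 3) Q4))
  have hu : u ∈ H := Subgroup.subset_closure (by simp)
  have hv : v ∈ H := Subgroup.subset_closure (by simp)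
  let U := u * u * u
  let V := v * v * v
  have hU : U ∈ H := H.mul_mem (H.mul_mem hu hu) hu
  have hV : V ∈ H := H.mul_mem (H.mul_mem hv hv) hv
  let prodL : List (SpecialLinearGroup (Fin 3) Q4) → SpecialLinearGroup (Fin 3) Q4 := List.prod
  have hmem : ∀ l : List (SpecialLinearGroup (Fin 3) Q4), (∀ x ∈ l, x = u ∨ x = v ∨ x = U ∨ x = V) →
      prodL l ∈ H := fun l hl => H.list_prod_mem fun x hx => by
    rcases hl x hx with rfl | rfl | rfl | rfl
    exacts [hu, hv, hU, hV]
  have a1 : SpecialLinearGroup.transvection (by decide : (0 : Fin 3) ≠ 1) 1 =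
      prodL [V, u, u, v, u, v, v, U, V, u, u, v] := Subtype.ext (by decide +kernel)
  have a2 : SpecialLinearGroup.transvection (by decide : (0 : Fin 3) ≠ 1) om =
      prodL [u, u, v, v, u, V, u, u, v, U, v, v] := Subtype.ext (by decide +kernel)
  have b1 : SpecialLinearGroup.transvection (by decide : (0 : Fin 3) ≠ 2) 1 = prodL [u, u] := Subtype.ext (by decide +kernel)
  have b2 : SpecialLinearGroup.transvection (by decide : (0 : Fin 3) ≠ 2) om =
      prodL [u, v, v, u, v, u, v, u, v, u, u, V, U, v] := Subtype.ext (by decide +kernel)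
  have ma1 : SpecialLinearGroup.transvection h 1 ∈ H := a1 ▸ hmem _ (by simp)
  have ma2 : SpecialLinearGroup.transvection h om ∈ H := a2 ▸ hmem _ (by simp)
  have mb1 : SpecialLinearGroup.transvection h' 1 ∈ H := b1 ▸ hmem _ (by simp)
  have mb2 : SpecialLinearGroup.transvection h' om ∈ H := b2 ▸ hmem _ (by simp)
  have hc : c = 0 ∨ c = 1 ∨ c = om ∨ c = 1 + om := by
    rcases c with ⟨a, b⟩
    revert a b
    decide +kernel
  rcases hc with rfl | rfl | rfl | rfl
  · simp
  · exact ⟨ma1, mb1⟩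
  · exact ⟨ma2, mb2⟩
  · have e1 : SpecialLinearGroup.transvection (by decide : (0 : Fin 3) ≠ 1) (1 + om) =
        SpecialLinearGroup.transvection (by decide : (0 : Fin 3) ≠ 1) 1 *
          SpecialLinearGroup.transvection (by decide : (0 : Fin 3) ≠ 1) om := Subtype.ext (by decide +kernel)
    have e2 : SpecialLinearGroup.transvection (by decide : (0 : Fin 3) ≠ 2) (1 + om) =
        SpecialLinearGroup.transvection (by decide : (0 : Fin 3) ≠ 2) 1 *
          SpecialLinearGroup.transvection (by decide : (0 : Fin 3) ≠ 2) om := Subtype.ext (by decide +kernel)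
    constructor
    · rw [e1]; exact H.mul_mem ma1 ma2
    · rw [e2]; exact H.mul_mem mb1 mb2

end Cfsg.Agent.H71.TwoUnipotents
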