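/-
Elements of order `q ^ (n / 2) + (-1) ^ (n / 2)` in `PSU_n(q)`.
-/
import Cfsg.Agent.H71.UnitarySpectrum
import Cfsg.Agent.H3.Geometry
import Cfsg.Agent.H3.Isotropic
import Cfsg.Agent.H74.Zsigmondy

set_option autoImplicit false

open Matrix
open Cfsg.Agent.H71.UnitaryBlocks
open Cfsg.Agent.H71.UnitarySpectrum (exists_A)

namespace Cfsg.Agent.H71.UnitaryHalfTorus

variable {F : Type*} [Field F] [Fintype F] {q : ℕ}

theorem uQuot_mul (hq : 1 ≤ q) (D : ℕ) : (uQuot q D : ℤ) * ((q : ℤ) + 1) = (q : ℤ) ^ D - (-1) ^ D := by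
  rcases Nat.even_or_odd' D with ⟨d, rfl | rfl⟩
  · have h := uQuot_mul_even q d
    have h1 := Nat.one_le_pow (2 * d) q hq
    zify [h1] at h
    rw [h, (even_two_mul d).neg_one_pow]
  · have h := uQuot_mul_odd (q := q) (odd_two_mul_add_one d)
    zify at h
    rw [h, (odd_two_mul_add_one d).neg_one_pow, sub_neg_eq_add]

/-- `uQuot` modulo a divisor of `q + 1`. -/
theorem dvd_uQuot_iff (hq : 1 ≤ q) {d : ℕ} (D : ℕ) (hd : d ∣ q + 1) : d ∣ uQuot q D ↔ d ∣ D := by
  have hsum : (uQuot q D : ℤ) = (-1) ^ (D + 1) * ∑ i ∈ Finset.range D, (-(q : ℤ)) ^ i := by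
    have h := geom_sum_mul (-(q : ℤ)) D
    rw [neg_pow (q : ℤ) D] at h
    refine mul_right_cancel₀ (show ((q : ℤ) + 1) ≠ 0 by omega) ?_
    rw [uQuot_mul hq, pow_succ]
    have hs : ((-1 : ℤ) ^ D) * (-1) ^ D = 1 := by rw [← mul_pow]; norm_num
    linear_combination (-(-1 : ℤ) ^ D) * h - (q : ℤ) ^ D * hs
  have hq' : ((q : ℕ) : ZMod d) = -1 := by
    rw [eq_neg_iff_add_eq_zero, ← Nat.cast_add_one, ZMod.natCast_eq_zero_iff]
    exact hd
  have h := congrArg (fun x : ℤ => (x : ZMod d)) hsum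
  simp only [Int.cast_natCast, Int.cast_mul, Int.cast_pow, Int.cast_neg, Int.cast_one, Int.cast_sum] at h
  simp only [hq', neg_neg, one_pow, Finset.sum_const, Finset.card_range, nsmul_one] at h
  rw [← ZMod.natCast_eq_zero_iff, ← ZMod.natCast_eq_zero_iff, h,
    IsUnit.mul_right_eq_zero ((isUnit_one.neg).pow _)]

/-- The target order. -/
def halfOrder (q m : ℕ) : ℕ := if Even m then q ^ m + 1 else q ^ m - 1

theorem halfOrder_int (hq : 1 ≤ q) (m : ℕ) : (halfOrder q m : ℤ) = (q : ℤ) ^ m + (-1) ^ m := by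
  have h1 := Nat.one_le_pow m q hq
  rw [halfOrder]
  split_ifs with h
  · rw [h.neg_one_pow]; push_cast; ring
  · rw [(Nat.not_even_iff_odd.mp h).neg_one_pow]; zify [h1]; ring

/-- The arithmetic criterion. -/
theorem dvd_torus_iff (hq : 2 ≤ q) {m : ℕ} (hm : 0 < m) :
    halfOrder q m ∣ uQuot q (2 * m) / Nat.gcd (uQuot q (2 * m)) (q + 1) ↔
      padicValNat 2 (q + 1) < padicValNat 2 (2 * m) := by
  have hT : 0 < halfOrder q m := by
    rw [halfOrder]
    have : 2 ≤ q ^ m := le_trans hq (Nat.le_self_pow hm.ne' q)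
    split_ifs <;> omega
  have hM : uQuot q (2 * m) = uQuot q m * halfOrder q m := by
    zify
    refine mul_right_cancel₀ (show ((q : ℤ) + 1) ≠ 0 by omega) ?_
    rw [uQuot_mul (by omega), mul_right_comm, uQuot_mul (by omega), halfOrder_int (by omega),
      (even_two_mul m).neg_one_pow]
    have hs : ((-1 : ℤ) ^ m) * (-1) ^ m = 1 := by rw [← mul_pow]; norm_num
    linear_combination hs
  have hd : Nat.gcd (uQuot q (2 * m)) (q + 1) = Nat.gcd (2 * m) (q + 1) :=
    Nat.dvd_antisymm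
      (Nat.dvd_gcd ((dvd_uQuot_iff (by omega) _ (Nat.gcd_dvd_right _ _)).mp (Nat.gcd_dvd_left _ _))
        (Nat.gcd_dvd_right _ _))
      (Nat.dvd_gcd ((dvd_uQuot_iff (by omega) _ (Nat.gcd_dvd_right _ _)).mpr (Nat.gcd_dvd_left _ _))
        (Nat.gcd_dvd_right _ _))
  rw [hd]
  set d := Nat.gcd (2 * m) (q + 1) with hddef
  have hdM : d ∣ uQuot q (2 * m) := hd ▸ Nat.gcd_dvd_left _ _
  have h1 : halfOrder q m ∣ uQuot q (2 * m) / d ↔ d ∣ uQuot q m := by
    rw [Nat.dvd_div_iff_mul_dvd hdM, hM, Nat.mul_dvd_mul_iff_right hT]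
  rw [h1, dvd_uQuot_iff (by omega) m (Nat.gcd_dvd_right _ _), padicValNat.mul (by norm_num) hm.ne',
    padicValNat_self]
  constructor
  · intro h
    by_contra hc
    have h3 : 2 ^ (padicValNat 2 m + 1) ∣ d := Nat.dvd_gcd
      (by rw [pow_succ']; exact Nat.mul_dvd_mul_left 2 pow_padicValNat_dvd)
      ((pow_dvd_pow 2 (by omega)).trans pow_padicValNat_dvd)
    have := (padicValNat_dvd_iff_le hm.ne').1 (h3.trans h)
    omega
  · intro h
    set a := padicValNat 2 (q + 1) with ha
    obtain ⟨w, hw⟩ : 2 ^ a ∣ m := (padicValNat_dvd_iff_le hm.ne').2 (by omega)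
    obtain ⟨u, hu⟩ : 2 ^ a ∣ q + 1 := pow_padicValNat_dvd
    have hu2 : ¬ 2 ∣ u := fun h => by
      have := (padicValNat_dvd_iff_le (show q + 1 ≠ 0 by omega)).1
        (show 2 ^ (a + 1) ∣ q + 1 by rw [pow_succ, hu]; exact Nat.mul_dvd_mul_left _ h)
      omega
    rw [hw, hu, show 2 * (2 ^ a * w) = 2 ^ a * (2 * w) by ring, Nat.gcd_mul_left]
    exact Nat.mul_dvd_mul_left _
      ((Nat.Coprime.dvd_of_dvd_mul_left ((Nat.prime_two.coprime_iff_not_dvd.2 hu2).coprime_dvd_right
        (Nat.gcd_dvd_right _ _)).symm (Nat.gcd_dvd_left (2 * w) u)))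

/-- A primitive prime divisor of `(-q) ^ j - 1` does not divide smaller unitary groups. -/
theorem not_dvd_card_GU (hF : Fintype.card F = q ^ 2) {r n : ℕ} [Fact r.Prime]
    (hr : orderOf (-(q : ZMod r)) = n) (hn : 0 < n) {j : ℕ} (hj : j < n) :
    ¬ r ∣ Nat.card (Cfsg.GU j F q) := by
  have hq := H3.two_le_q hF
  rw [H3.card_GU hF]
  intro h
  rcases (Fact.out : r.Prime).dvd_mul.mp h with h | h
  · have hq0 : (q : ZMod r) = 0 :=
      (ZMod.natCast_eq_zero_iff _ _).mpr ((Fact.out : r.Prime).dvd_of_dvd_pow h)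
    have h1 := pow_orderOf_eq_one (-(q : ZMod r))
    rw [hr, hq0, neg_zero, zero_pow hn.ne'] at h1
    exact zero_ne_one h1
  · obtain ⟨i, hi, hd⟩ := (Prime.dvd_finsetProd_iff (Fact.out : r.Prime).prime _).mp h
    rw [Finset.mem_range] at hi
    have h1 : (-(q : ZMod r)) ^ (i + 1) = 1 := by
      split_ifs at hd with he
      · rw [← ZMod.natCast_eq_zero_iff, Nat.cast_add, Nat.cast_pow, Nat.cast_one] at hd
        rw [(Even.add_one he).neg_pow]
        linear_combination -hd
      · rw [← ZMod.natCast_eq_zero_iff, Nat.cast_sub (Nat.one_le_pow _ _ (by omega)), Nat.cast_pow,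
          Nat.cast_one] at hd
        rw [((Nat.not_even_iff_odd.mp he).add_one).neg_pow]
        linear_combination hd
    have := Nat.le_of_dvd (by omega) (hr ▸ orderOf_dvd_of_pow_eq_one h1)
    omega

/-- A self-adjoint idempotent splits an element between two smaller unitary groups. -/
theorem dvd_of_idempotent (hF : Fintype.card F = q ^ 2) {n : ℕ} (g : Cfsg.SU n F q)
    (E : Matrix (Fin n) (Fin n) F) (hE : E * E = E) (h0 : E ≠ 0) (h1 : E ≠ 1) (hadj : adj hF E = E)
    (hc : E * (g.1 : Matrix (Fin n) (Fin n) F) = (g.1 : Matrix (Fin n) (Fin n) F) * E) :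
    ∃ a b : ℕ, a < n ∧ b < n ∧ orderOf g ∣ Nat.card (Cfsg.GU a F q) * Nat.card (Cfsg.GU b F q) := by
  classical
  set W := LinearMap.range E.toLin' with hW
  set k := Module.finrank F W with hk
  have hfix : ∀ w ∈ W, E *ᵥ w = w := by
    rintro _ ⟨v, rfl⟩
    rw [Matrix.toLin'_apply, Matrix.mulVec_mulVec, hE]
  have hne0 : W ≠ ⊥ := by
    rw [hW, Ne, LinearMap.range_eq_bot]
    exact fun h => h0 (Matrix.toLin'.injective (by rw [h, map_zero]))
  have hnetop : W ≠ ⊤ := fun h => h1 (Matrix.ext_of_mulVec_single fun i => by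
    rw [hfix _ (h ▸ Submodule.mem_top), Matrix.one_mulVec])
  have hk1 : 0 < k := Nat.pos_of_ne_zero fun h => hne0 (Submodule.finrank_eq_zero.mp h)
  have hk2 : k < n := by
    refine lt_of_lt_of_eq (Submodule.finrank_lt hnetop) ?_
    rw [Module.finrank_fintype_fun_eq_card, Fintype.card_fin]
  have hsa : ∀ u v : Fin n → F, Cfsg.hermForm n F q (E *ᵥ u) v = Cfsg.hermForm n F q u (E *ᵥ v) := by
    intro u v
    have h2 : E.map (fun x => x ^ q) = Eᵀ := by
      rw [← Matrix.transpose_transpose (E.map fun x => x ^ q)]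
      congr 1
    have h3 : (fun i => (E *ᵥ v) i ^ q) = Eᵀ *ᵥ fun i => v i ^ q := by
      rw [← h2]; funext i; exact RingHom.map_mulVec (H3.conjQ hF) E v i
    rw [H67.hermForm_eq_dot, H67.hermForm_eq_dot, h3, Matrix.dotProduct_mulVec, Matrix.vecMul_transpose]
  have hnd : ∀ u ∈ W, (∀ v ∈ W, Cfsg.hermForm n F q u v = 0) → u = 0 := by
    intro u hu h
    by_contra hu0
    obtain ⟨x, hx⟩ := H3.exists_hermForm_eq_one hF hu0
    have h4 := h (E *ᵥ x) ⟨x, by rw [Matrix.toLin'_apply]⟩
    rw [← hsa, hfix u hu] at h4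
    have h5 := H3.hermForm_pow_q hF u x
    rw [h4, zero_pow (by have := H3.two_le_q hF; omega), hx] at h5
    exact zero_ne_one h5
  let G := H3.suToGU n F q g
  have hG : G ∈ H3.guStab n F q (W : Set (Fin n → F)) := H3.mem_guStab_of_mapsTo fun v hv => by
    refine ⟨(g.1 : Matrix (Fin n) (Fin n) F) *ᵥ v, ?_⟩
    rw [Matrix.toLin'_apply, Matrix.mulVec_mulVec, hc, ← Matrix.mulVec_mulVec, hfix v hv]
    rfl
  have ho : orderOf g = orderOf (⟨G, hG⟩ : H3.guStab n F q (W : Set (Fin n → F))) := by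
    rw [← Subgroup.orderOf_coe (⟨G, hG⟩ : H3.guStab n F q (W : Set (Fin n → F)))]
    exact (orderOf_injective (H3.suToGU n F q) (H3.suToGU_injective n) g).symm
  have hsplit : ∀ (n' k m : ℕ) (W : Submodule F (Fin n' → F)), k + m = n' → Module.finrank F W = k →
      (∀ u ∈ W, (∀ v ∈ W, Cfsg.hermForm n' F q u v = 0) → u = 0) →
      Nat.card (H3.guStab n' F q (W : Set (Fin n' → F))) =
        Nat.card (Cfsg.GU k F q) * Nat.card (Cfsg.GU m F q) := by
    rintro n' k m W rfl hWk hWn
    obtain ⟨e⟩ := H3.nonempty_stab_nondeg_equiv hF W hWk hWn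
    rw [Nat.card_congr e.toEquiv, Nat.card_prod]
  refine ⟨k, n - k, hk2, by omega, ?_⟩
  rw [ho, ← hsplit n k (n - k) W (by omega) hk.symm hnd]
  exact orderOf_dvd_natCard _

/-- The criterion. -/
theorem exists_iff (hF : Fintype.card F = q ^ 2) (hodd : Odd q) {m : ℕ} (hm : 2 ≤ m) :
    (∃ g : Cfsg.PSU (2 * m) F q, orderOf g = halfOrder q m) ↔
      padicValNat 2 (q + 1) < padicValNat 2 (2 * m) := by
  classical
  have hq := H3.two_le_q hF
  have hq3 : 3 ≤ q := by obtain ⟨t, ht⟩ := hodd; omega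
  obtain ⟨p, e, hp, hc, he, hqe⟩ := H3.exists_q_eq_pow hF
  have : Fact p.Prime := ⟨hp⟩
  rw [← dvd_torus_iff hq (by omega)]
  constructor
  · rintro ⟨x, hx⟩
    obtain ⟨r, hr, hrd, hro⟩ := H74.exists_prime_orderOf_eq (a := q) (n := if Even m then 2 * m else m)
      (by omega) (by split_ifs <;> omega) (by omega) (by
        rintro ⟨h2, -⟩
        split_ifs at h2 with h
        · omega
        · exact h (by rw [h2]; exact even_two))
    have := Fact.mk hr
    have hqn : (q : ZMod r) ^ (2 * m) = 1 := by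
      refine orderOf_dvd_iff_pow_eq_one.mp ?_
      rw [hro]; split_ifs
      exacts [dvd_rfl, dvd_mul_left m 2]
    have hr2 : r ≠ 2 := by
      rintro rfl
      rw [ZMod.natCast_eq_one_iff_odd.mpr hodd, orderOf_one] at hro
      split_ifs at hro <;> omega
    have : Fact (2 < r) := ⟨by have := hr.two_le; omega⟩
    have hhalf : (q : ZMod r) ^ m = (-1) ^ (m + 1) := by
      rcases Nat.even_or_odd m with h | h
      · rw [(Even.add_one h).neg_one_pow]
        refine (sq_eq_one_iff.mp (by rw [← pow_mul, mul_comm]; exact hqn)).resolve_left fun h1 => ?_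
        have := Nat.le_of_dvd (by omega) (orderOf_dvd_of_pow_eq_one h1)
        rw [hro, if_pos h] at this
        omega
      · rw [(Odd.add_one h).neg_one_pow, ← orderOf_dvd_iff_pow_eq_one, hro,
          if_neg (Nat.not_even_iff_odd.mpr h)]
    have hord : orderOf (-(q : ZMod r)) = 2 * m := by
      refine (orderOf_eq_iff (by omega)).mpr ⟨by rw [(even_two_mul m).neg_pow, hqn], fun d hd hd0 h => ?_⟩
      have h2 : (q : ZMod r) ^ (2 * d) = 1 := by
        rw [← (even_two_mul d).neg_pow, mul_comm, pow_mul, h, one_pow]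
      have hmd : m ∣ d := by
        have h3 := orderOf_dvd_of_pow_eq_one h2
        rw [hro] at h3
        split_ifs at h3 with hm2
        · exact Nat.dvd_of_mul_dvd_mul_left two_pos h3
        · exact (((Nat.prime_two.coprime_iff_not_dvd).mpr fun h => hm2 (even_iff_two_dvd.mpr h)).symm).dvd_of_dvd_mul_left h3
      obtain ⟨t, rfl⟩ := hmd
      have ht : t = 1 := by
        rcases t with - | - | t
        · omega
        · rfl
        · have : m * 2 ≤ m * (t + 1 + 1) := Nat.mul_le_mul_left m (by omega)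
          omega
      subst ht
      rw [mul_one, neg_pow, hhalf, ← pow_add, show m + (m + 1) = 2 * m + 1 by ring,
        (odd_two_mul_add_one m).neg_one_pow] at h
      exact ZMod.neg_one_ne_one h
    have hrT : r ∣ halfOrder q m := by
      have h1 := halfOrder_int (q := q) (by omega) m
      have h2 := congrArg (fun z : ℤ => (z : ZMod r)) h1
      simp only [Int.cast_natCast, Int.cast_add, Int.cast_pow, Int.cast_neg, Int.cast_one, hhalf] at h2
      rw [← ZMod.natCast_eq_zero_iff, h2, pow_succ]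
      ring
    have hrp : r ≠ p := by
      rintro rfl
      have h0 : (q : ZMod r) = 0 := (ZMod.natCast_eq_zero_iff _ _).mpr (hqe ▸ dvd_pow_self r (by omega))
      rw [h0, zero_pow (by omega)] at hqn
      exact zero_ne_one hqn
    have : CharP F p := hc
    obtain ⟨g, rfl⟩ := QuotientGroup.mk_surjective x
    rw [← hx]
    rcases idempotent_or_primary hF (by omega) g with ⟨E, hE, h0, h1, hadj, hEg⟩ | ⟨f, j, hf, hfm, hf0, hj, h⟩
    · exfalso
      obtain ⟨a, b, ha, hb, hab⟩ := dvd_of_idempotent hF g E hE h0 h1 hadj hEg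
      have hrg : r ∣ Nat.card (Cfsg.GU a F q) * Nat.card (Cfsg.GU b F q) :=
        ((hx ▸ hrT).trans (orderOf_map_dvd (QuotientGroup.mk' _) g)).trans hab
      rcases hr.dvd_mul.mp hrg with h | h
      · exact not_dvd_card_GU hF hord (by omega) ha h
      · exact not_dvd_card_GU hF hord (by omega) hb h
    · rcases order_dvd_of_primary hF (by omega) p g f j hf hfm hf0 hj h with h' | ⟨D, k, hD, hk, hDk, h'⟩
      · exact h'
      · exfalso
        have hrD : r ∣ uQuot q D := by
          refine (hr.dvd_mul.mp ((hx ▸ hrT).trans h')).resolve_right fun h => ?_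
          exact hrp ((Nat.prime_dvd_prime_iff_eq hr hp).mp (hr.dvd_of_dvd_pow h))
        have h1 := congrArg (fun z : ℤ => (z : ZMod r)) (uQuot_mul (q := q) (by omega) D)
        simp only [Int.cast_natCast, Int.cast_sub, Int.cast_mul, Int.cast_add, Int.cast_pow, Int.cast_neg,
          Int.cast_one, (ZMod.natCast_eq_zero_iff _ _).mpr hrD, zero_mul] at h1
        have h2 : (-(q : ZMod r)) ^ D = 1 := by
          rw [neg_pow, sub_eq_zero.mp h1.symm, ← mul_pow]; norm_num
        have := Nat.le_of_dvd hD (hord ▸ orderOf_dvd_of_pow_eq_one h2)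
        have : 2 * D ≤ k * D := Nat.mul_le_mul_right D hk
        rw [mul_comm k D, hDk] at this
        omega
  · intro h
    obtain ⟨g, hg⟩ := exists_A (n := 2 * m) hF (by omega)
    exact ⟨g ^ (orderOf g / halfOrder q m), orderOf_pow_orderOf_div (orderOf_pos g).ne' (h.trans hg)⟩

end Cfsg.Agent.H71.UnitaryHalfTorus
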