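/-
Involutions of `SU₃(q)`, `q` odd, as reflections in unit vectors.
-/
import Cfsg.Agent.H58.PSUThree.Setup

set_option autoImplicit false

open Matrix Cfsg

namespace Cfsg.Agent.H71.UnitaryInvolutions

variable {F : Type*} [Field F] [Fintype F] {q : ℕ}

local notation "hh" => hermForm 3 F q
local notation "mat" M => ((M : Matrix.SpecialLinearGroup (Fin 3) F) : Matrix (Fin 3) (Fin 3) F)

theorem two_ne_zero_of_odd (hq : Odd q) (hF : Fintype.card F = q ^ 2) : (2 : F) ≠ 0 :=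
  fun h => by
    have h1 : addOrderOf (1 : F) ∣ 2 := addOrderOf_dvd_of_nsmul_eq_zero (by simpa using h)
    have h2 : addOrderOf (1 : F) ∣ q ^ 2 := hF ▸ addOrderOf_dvd_card
    have h3 := Nat.dvd_gcd h1 h2
    rw [Nat.Coprime.gcd_eq_one (Nat.coprime_two_left.mpr hq.pow), Nat.dvd_one,
      AddMonoid.addOrderOf_eq_one_iff] at h3
    exact one_ne_zero h3

/-- Reflection in a unit vector. -/
def refl (q : ℕ) (v : Fin 3 → F) : Matrix (Fin 3) (Fin 3) F :=
  (2 : F) • Matrix.vecMulVec v (fun i => v i ^ q) - 1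

theorem refl_mulVec (v x : Fin 3 → F) : refl q v *ᵥ x = (2 * hh x v) • v - x := by
  rw [refl, Matrix.sub_mulVec, Matrix.one_mulVec, Matrix.smul_mulVec, Matrix.vecMulVec_mulVec]
  rw [op_smul_eq_smul, smul_smul]
  simp [hermForm, dotProduct, Fin.sum_univ_three, mul_comm]

theorem det_refl (v : Fin 3 → F) (hv : hh v v = 1) : (refl q v).det = 1 := by
  simp [hermForm, Fin.sum_univ_three] at hv
  simp [refl, Matrix.det_fin_three, Matrix.vecMulVec]
  linear_combination (2 : F) * hv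

theorem refl_preserves (hF : Fintype.card F = q ^ 2) (v : Fin 3 → F) (hv : hh v v = 1) (x y : Fin 3 → F) :
    hh (refl q v *ᵥ x) (refl q v *ᵥ y) = hh x y := by
  rw [refl_mulVec, refl_mulVec, H3.hermForm_sub_left hF, H3.hermForm_sub_right hF,
    H3.hermForm_sub_right hF, H3.hermForm_smul_left hF, H3.hermForm_smul_left hF,
    H3.hermForm_smul_right hF, H3.hermForm_smul_right hF, hv, mul_pow, H3.hermForm_pow_q hF]
  have h2 : (2 : F) ^ q = 2 := by
    rw [show (2 : F) = 1 + 1 by norm_num, H3.add_pow_q hF, one_pow]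
  rw [h2]
  ring

/-- The involution attached to a unit vector. -/
def iv (hF : Fintype.card F = q ^ 2) (v : {v : Fin 3 → F // hh v v = 1}) : SU 3 F q :=
  ⟨⟨refl q v.1, det_refl v.1 v.2⟩, H3.mem_SU_iff.2 (refl_preserves hF v.1 v.2)⟩

variable (hq : Odd q) (hF : Fintype.card F = q ^ 2)
include hF

theorem coe_iv (v : {v : Fin 3 → F // hh v v = 1}) (x : Fin 3 → F) :
    (mat (iv hF v).1) *ᵥ x = (2 * hh x v.1) • v.1 - x := refl_mulVec v.1 x

theorem eq_of_mulVec {A B : SU 3 F q} (h : ∀ x, (mat A.1) *ᵥ x = (mat B.1) *ᵥ x) : A = B :=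
  Subtype.ext (Subtype.ext (Matrix.ext_of_mulVec_single fun i => h _))

theorem mul_mulVec (A B : SU 3 F q) (x : Fin 3 → F) :
    (mat (A * B).1) *ᵥ x = (mat A.1) *ᵥ ((mat B.1) *ᵥ x) := by
  rw [Matrix.mulVec_mulVec]; rfl

theorem iv_sq (v : {v : Fin 3 → F // hh v v = 1}) : iv hF v * iv hF v = 1 := by
  refine eq_of_mulVec hF fun x => ?_
  rw [mul_mulVec hF, coe_iv, coe_iv, H3.hermForm_sub_left hF, H3.hermForm_smul_left hF, v.2]
  show _ = (1 : Matrix (Fin 3) (Fin 3) F) *ᵥ x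
  rw [one_mulVec]
  module

theorem iv_self (v : {v : Fin 3 → F // hh v v = 1}) : (mat (iv hF v).1) *ᵥ v.1 = v.1 := by
  rw [coe_iv, v.2]; module

theorem norm_smul (c : F) (v : Fin 3 → F) : hh (c • v) (c • v) = c ^ (q + 1) * hh v v := by
  rw [H3.hermForm_smul_left hF, H3.hermForm_smul_right hF]; ring

theorem iv_eq_iff (hq : Odd q) (v w : {v : Fin 3 → F // hh v v = 1}) :
    iv hF v = iv hF w ↔ ∃ c : F, w.1 = c • v.1 := by
  constructor
  · intro h
    have h1 := iv_self hF w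
    rw [← h, coe_iv, sub_eq_iff_eq_add, ← two_smul F w.1, mul_smul] at h1
    exact ⟨hh w.1 v.1, (smul_right_injective _ (two_ne_zero_of_odd hq hF) h1).symm⟩
  · rintro ⟨c, hc⟩
    have hc1 : c * c ^ q = 1 := by
      have := w.2
      rw [hc, norm_smul hF, v.2, mul_one, pow_succ'] at this
      exact this
    refine eq_of_mulVec hF fun x => ?_
    rw [coe_iv, coe_iv, hc, H3.hermForm_smul_right hF, smul_smul]
    congr 2
    linear_combination (-2 * hh x v.1) * hc1

theorem iv_ne_one (hq : Odd q) (v : {v : Fin 3 → F // hh v v = 1}) : iv hF v ≠ 1 := by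
  intro h
  have hall : ∀ x : Fin 3 → F, x = hh x v.1 • v.1 := fun x => by
    have h1 := coe_iv hF v x
    rw [h] at h1
    change (1 : Matrix (Fin 3) (Fin 3) F) *ᵥ x = _ at h1
    rw [one_mulVec, eq_sub_iff_add_eq, ← two_smul F x, mul_smul] at h1
    exact smul_right_injective _ (two_ne_zero_of_odd hq hF) h1
  have key : ∀ i j : Fin 3, i ≠ j → v.1 i = 0 := fun i j hij => by
    have h1 := congrFun (hall (Pi.single j 1)) i
    have h2 := congrFun (hall (Pi.single j 1)) j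
    rw [Pi.single_eq_of_ne hij, Pi.smul_apply, smul_eq_mul] at h1
    rw [Pi.single_eq_same, Pi.smul_apply, smul_eq_mul] at h2
    exact (mul_eq_zero.mp h1.symm).resolve_left (left_ne_zero_of_mul_eq_one h2.symm)
  have hv : v.1 = 0 := funext fun i => key i (i + 1) (by revert i; decide)
  have := v.2
  rw [hv, H3.hermForm_zero_left hF] at this
  exact zero_ne_one this

/-- A vector of non-zero norm can be scaled to a unit vector. -/
theorem exists_unit_smul {w : Fin 3 → F} (hw : hh w w ≠ 0) : ∃ c : F, hh (c • w) (c • w) = 1 := by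
  have hinv : (hh w w)⁻¹ ^ q = (hh w w)⁻¹ := by rw [inv_pow, H3.hermForm_pow_q hF]
  have hcard := H3.card_norm_eq hF (inv_ne_zero hw) hinv
  have : Nonempty {x : F // x ^ (q + 1) = (hh w w)⁻¹} := (Nat.card_pos_iff.mp (by rw [hcard]; omega)).1
  obtain ⟨c, hc⟩ := this
  exact ⟨c, by rw [norm_smul hF, hc, inv_mul_cancel₀ hw]⟩

theorem exists_iv_eq (hq : Odd q) (N : SU 3 F q) (h1 : N ≠ 1) (h2 : N * N = 1) : ∃ v, iv hF v = N := by
  have h20 := two_ne_zero_of_odd hq hF
  have hNN : (mat N.1) * (mat N.1) = 1 := by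
    rw [← Matrix.SpecialLinearGroup.coe_mul, ← Subgroup.coe_mul, h2]; rfl
  obtain ⟨P, hP, hNP⟩ := H58.PSLThree.exists_conj_diag h20 hNN N.1.det_coe
    (fun h => h1 (Subtype.ext (Subtype.ext h)))
  have hcol : ∀ j : Fin 3, (mat N.1) *ᵥ (P *ᵥ Pi.single j 1) =
      (![-1, -1, 1] : Fin 3 → F) j • (P *ᵥ Pi.single j 1) := by
    intro j
    rw [mulVec_mulVec, hNP, ← mulVec_mulVec, diagonal_mulVec_single, mul_one, ← mulVec_smul]
    congr 1
    ext i
    simp [Pi.single_apply]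
  set w : Fin 3 → F := P *ᵥ Pi.single 2 1 with hw
  have hNw : (mat N.1) *ᵥ w = w := by simpa [hw] using hcol 2
  have hperp : ∀ j : Fin 3, j ≠ 2 → hh (P *ᵥ Pi.single j 1) w = 0 := by
    intro j hj
    have h := H3.mem_SU_iff.1 N.2 (P *ᵥ Pi.single j 1) w
    have hm : (![-1, -1, 1] : Fin 3 → F) j = -1 := by fin_cases j <;> simp_all
    rw [hNw, hcol j, H3.hermForm_smul_left hF, hm] at h
    have : (2 : F) * hh (P *ᵥ Pi.single j 1) w = 0 := by linear_combination -h
    exact (mul_eq_zero.1 this).resolve_left h20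
  have hPu : IsUnit P.det := by rw [hP]; exact isUnit_one
  have hw0 : w ≠ 0 := fun h => by
    have := congrFun (Matrix.eq_zero_of_mulVec_eq_zero hPu.ne_zero h) 2
    simp at this
  have hww : hh w w ≠ 0 := by
    intro h0
    obtain ⟨z, hz⟩ := H3.exists_hermForm_eq_one hF hw0
    have hy : z = ∑ j, (P⁻¹ *ᵥ z) j • (P *ᵥ Pi.single j 1) := by
      conv_lhs => rw [← one_mulVec z, ← Matrix.mul_nonsing_inv P hPu, ← mulVec_mulVec]
      ext i
      simp [Matrix.mulVec, dotProduct, mul_comm]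
    rw [hy, Fin.sum_univ_three, H3.hermForm_add_left hF, H3.hermForm_add_left hF,
      H3.hermForm_smul_left hF, H3.hermForm_smul_left hF, H3.hermForm_smul_left hF,
      hperp 0 (by decide), hperp 1 (by decide), ← hw, h0] at hz
    simp at hz
  obtain ⟨c, hc⟩ := exists_unit_smul hF hww
  refine ⟨⟨c • w, hc⟩, Subtype.ext (Subtype.ext ?_)⟩
  refine (IsUnit.mul_left_inj (Matrix.isUnit_iff_isUnit_det _ |>.mpr hPu)).mp ?_
  refine Matrix.ext_of_mulVec_single fun j => ?_
  rw [← mulVec_mulVec, ← mulVec_mulVec, hcol j, coe_iv]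
  rcases eq_or_ne j 2 with rfl | hj
  · rw [← hw, H3.hermForm_smul_right hF, smul_smul]
    have hc' : c * c ^ q * hh w w = 1 := by rw [norm_smul hF, pow_succ'] at hc; exact hc
    simp only [Matrix.cons_val, one_smul]
    rw [show (2 * (c ^ q * hh w w)) * c = 2 by linear_combination 2 * hc']
    module
  · rw [H3.hermForm_smul_right hF, hperp j hj]
    have hm : (![-1, -1, 1] : Fin 3 → F) j = -1 := by fin_cases j <;> simp_all
    rw [hm]
    simp

theorem commute_iff (hq : Odd q) (v w : {v : Fin 3 → F // hh v v = 1}) :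
    Commute (iv hF v) (iv hF w) ↔ hh v.1 w.1 = 0 ∨ iv hF v = iv hF w := by
  constructor
  · intro h
    set a := hh w.1 v.1 with ha
    by_cases ha0 : a = 0
    · left
      rw [← H3.hermForm_pow_q hF, ← ha, ha0, zero_pow hq.pos.ne']
    right
    have h1 := mul_mulVec hF (iv hF v) (iv hF w) w.1
    rw [iv_self hF w, h.eq, mul_mulVec hF] at h1
    rw [coe_iv hF v w.1, ← ha] at h1
    set u : Fin 3 → F := (2 * a) • v.1 - w.1 with hu
    rw [coe_iv hF w u, sub_eq_iff_eq_add, ← two_smul F u, mul_smul] at h1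
    have h2 := smul_right_injective _ (two_ne_zero_of_odd hq hF) h1
    refine ((iv_eq_iff hF hq w v).mpr ⟨(hh u w.1 + 1) / (2 * a), ?_⟩).symm
    have h3 : (2 * a) • v.1 = (hh u w.1 + 1) • w.1 := by
      rw [add_smul, one_smul, h2, hu, sub_add_cancel]
    rw [div_eq_inv_mul, mul_smul, ← h3, smul_smul,
      inv_mul_cancel₀ (mul_ne_zero (two_ne_zero_of_odd hq hF) ha0), one_smul]
  · rintro (h | h)
    · have h' : hh w.1 v.1 = 0 := by rw [← H3.hermForm_pow_q hF, h, zero_pow hq.pos.ne']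
      refine eq_of_mulVec hF fun x => ?_
      rw [mul_mulVec hF, mul_mulVec hF, coe_iv, coe_iv, coe_iv, coe_iv, H3.hermForm_sub_left hF,
        H3.hermForm_sub_left hF, H3.hermForm_smul_left hF, H3.hermForm_smul_left hF, h, h']
      module
    · rw [h]

/-- Conjugation moves the vector. -/
theorem conj_iv (g : SU 3 F q) (v w : {v : Fin 3 → F // hh v v = 1}) (hg : (mat g.1) *ᵥ v.1 = w.1) :
    g * iv hF v * g⁻¹ = iv hF w := by
  rw [mul_inv_eq_iff_eq_mul]
  refine eq_of_mulVec hF fun x => ?_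
  rw [mul_mulVec hF, mul_mulVec hF, coe_iv, coe_iv, Matrix.mulVec_sub, Matrix.mulVec_smul, hg]
  conv_rhs => rw [← hg, H3.mem_SU_iff.1 g.2, hg]

/-- The standard unit vector. -/
def e2 : {v : Fin 3 → F // hh v v = 1} := ⟨Pi.single 2 1, by
  rw [H3.hermForm_single_left, Pi.single_eq_same, one_pow, mul_one]⟩

theorem exists_conj_e2 (v : {v : Fin 3 → F // hh v v = 1}) :
    ∃ g : SU 3 F q, g * iv hF e2 * g⁻¹ = iv hF v := by
  have hne : ∀ u : {v : Fin 3 → F // hh v v = 1}, u.1 ≠ 0 := fun u h => by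
    have := u.2
    rw [h, H3.hermForm_zero_left hF] at this
    exact zero_ne_one this
  obtain ⟨g, hg⟩ := H3.exists_GU_mulVec_eq hF (hne e2) (hne v) (e2.2.trans v.2.symm)
  set d := (g.1 : Matrix (Fin 3) (Fin 3) F).det⁻¹ with hd
  have hdq : d ^ (q + 1) = 1 := by rw [hd, inv_pow, H3.det_GU hF g, inv_one]
  let s := g * H3.guDiag (q := q) ![d, 1, 1] (by intro i; fin_cases i <;> simp [hdq])
  have hs2 : (s.1 : Matrix (Fin 3) (Fin 3) F) = (g.1 : Matrix (Fin 3) (Fin 3) F) * diagonal ![d, 1, 1] := rfl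
  have hdet : (s.1 : Matrix (Fin 3) (Fin 3) F).det = 1 := by
    rw [hs2, Matrix.det_mul, Matrix.det_diagonal, Fin.prod_univ_three]
    simp [hd, mul_inv_cancel₀ (Matrix.GeneralLinearGroup.det_ne_zero g.1)]
  refine ⟨⟨⟨_, hdet⟩, H3.mem_SU_iff.2 (H3.GU_preserves s)⟩, conj_iv hF _ _ _ ?_⟩
  show (s.1 : Matrix (Fin 3) (Fin 3) F) *ᵥ (Pi.single 2 1 : Fin 3 → F) = v.1
  rw [hs2, ← mulVec_mulVec, diagonal_mulVec_single]
  simpa [e2] using hg

/-- The dictionary between involutions and unit vectors. -/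
theorem card_invol_mul (hq : Odd q) (Q : SU 3 F q → Prop) :
    Nat.card {x : SU 3 F q // x ≠ 1 ∧ x * x = 1 ∧ Q x} * (q + 1) =
      Nat.card {v : {v : Fin 3 → F // hh v v = 1} // Q (iv hF v)} := by
  classical
  let f : {v : {v : Fin 3 → F // hh v v = 1} // Q (iv hF v)} → {x : SU 3 F q // x ≠ 1 ∧ x * x = 1 ∧ Q x} :=
    fun v => ⟨iv hF v.1, iv_ne_one hF hq v.1, iv_sq hF v.1, v.2⟩
  have : Fintype {x : SU 3 F q // x ≠ 1 ∧ x * x = 1 ∧ Q x} := Fintype.ofFinite _
  rw [← Nat.card_congr (Equiv.sigmaFiberEquiv f), Nat.card_sigma]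
  have hfib : ∀ x, Nat.card {v // f v = x} = q + 1 := by
    rintro ⟨x, hx1, hx2, hxQ⟩
    obtain ⟨v, rfl⟩ := exists_iv_eq hF hq x hx1 hx2
    rw [← H3.card_norm_eq hF (one_ne_zero : (1 : F) ≠ 0) (one_pow q)]
    let g : {c : F // c ^ (q + 1) = 1} → {w // f w = ⟨iv hF v, hx1, hx2, hxQ⟩} := fun c =>
      have hu : hh (c.1 • v.1) (c.1 • v.1) = 1 := by rw [norm_smul hF, c.2, v.2, one_mul]
      have he : iv hF ⟨c.1 • v.1, hu⟩ = iv hF v := ((iv_eq_iff hF hq v _).mpr ⟨c.1, rfl⟩).symm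
      ⟨⟨⟨c.1 • v.1, hu⟩, by rw [he]; exact hxQ⟩, Subtype.ext he⟩
    refine (Nat.card_congr (Equiv.ofBijective g ⟨?_, ?_⟩)).symm
    · intro c c' h
      have hv0 : v.1 ≠ 0 := fun h0 => by
        have := v.2
        rw [h0, H3.hermForm_zero_left hF] at this
        exact zero_ne_one this
      exact Subtype.ext (smul_left_injective F hv0 (congrArg (fun z => z.1.1.1) h))
    · rintro ⟨⟨w, hw⟩, hwv⟩
      obtain ⟨c, hc⟩ := (iv_eq_iff hF hq v w).mp (congrArg Subtype.val hwv).symm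
      refine ⟨⟨c, ?_⟩, Subtype.ext (Subtype.ext (Subtype.ext hc.symm))⟩
      have := w.2
      rwa [hc, norm_smul hF, v.2, mul_one] at this
  rw [Finset.sum_congr rfl fun x _ => hfib x, Finset.sum_const, Finset.card_univ, smul_eq_mul,
    Nat.card_eq_fintype_card]

theorem hermForm_three (u v : Fin 3 → F) : hh u v = u 0 * v 0 ^ q + u 1 * v 1 ^ q + u 2 * v 2 ^ q := by
  simp [hermForm, Fin.sum_univ_three]

/-- A common perpendicular unit vector of a coordinate vector and a unit vector. -/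
theorem exists_perp (v : {v : Fin 3 → F // hh v v = 1}) (i : Fin 3) (hi : v.1 i ^ (q + 1) ≠ 1) :
    ∃ z : {v : Fin 3 → F // hh v v = 1}, z.1 i = 0 ∧ hh z.1 v.1 = 0 := by
  have hv := v.2
  rw [hermForm_three hF] at hv
  have hq0 : q ≠ 0 := by have := H3.two_le_q hF; omega
  have hqq : ∀ x : F, (x ^ q) ^ q = x := H3.pow_q_pow_q hF
  suffices h : ∃ w : Fin 3 → F, w i = 0 ∧ hh w v.1 = 0 ∧ hh w w = 1 - v.1 i ^ (q + 1) by
    obtain ⟨w, h0, h1, h2⟩ := h
    obtain ⟨c, hc⟩ := exists_unit_smul hF (w := w) (by rw [h2]; exact sub_ne_zero.mpr (Ne.symm hi))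
    exact ⟨⟨c • w, hc⟩, by simp [h0], by rw [H3.hermForm_smul_left hF, h1, mul_zero]⟩
  have hneg : ∀ x : F, (-x) ^ q = -(x ^ q) := fun x => by
    have h := H3.add_pow_q hF (-x) x
    rw [neg_add_cancel, zero_pow hq0] at h
    linear_combination -h
  fin_cases i
  · refine ⟨![0, v.1 2 ^ q, -(v.1 1 ^ q)], rfl, ?_, ?_⟩ <;> rw [hermForm_three hF] <;>
      simp [hneg, hqq, hq0]
    · ring
    · linear_combination hv
  · refine ⟨![v.1 2 ^ q, 0, -(v.1 0 ^ q)], rfl, ?_, ?_⟩ <;> rw [hermForm_three hF] <;>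
      simp [hneg, hqq, hq0]
    · ring
    · linear_combination hv
  · refine ⟨![v.1 1 ^ q, -(v.1 0 ^ q), 0], rfl, ?_, ?_⟩ <;> rw [hermForm_three hF] <;>
      simp [hneg, hqq, hq0]
    · ring
    · linear_combination hv

theorem herm_e2 (v : Fin 3 → F) : hh v (e2 (F := F) (q := q)).1 = v 2 := by
  rw [hermForm_three hF]
  have hq0 : q ≠ 0 := by have := H3.two_le_q hF; omega
  simp [e2, hq0]

theorem herm_e2_left (v : Fin 3 → F) : hh (e2 (F := F) (q := q)).1 v = v 2 ^ q := by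
  rw [hermForm_three hF]; simp [e2]

theorem iv_eq_e2_iff (hq : Odd q) (v : {v : Fin 3 → F // hh v v = 1}) :
    iv hF v = iv hF e2 ↔ v.1 0 = 0 ∧ v.1 1 = 0 := by
  rw [eq_comm, iv_eq_iff hF hq]
  constructor
  · rintro ⟨c, hc⟩; simp [hc, e2]
  · rintro ⟨h0, h1⟩
    refine ⟨v.1 2, funext fun i => ?_⟩
    fin_cases i <;> simp [e2, h0, h1]

theorem commute_e2_iff (hq : Odd q) (v : {v : Fin 3 → F // hh v v = 1}) :
    Commute (iv hF e2) (iv hF v) ↔ v.1 2 = 0 ∨ (v.1 0 = 0 ∧ v.1 1 = 0) := by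
  rw [commute_iff hF hq, herm_e2_left hF, eq_comm (a := iv hF e2), iv_eq_e2_iff hF hq,
    pow_eq_zero_iff hq.pos.ne']

/-- Vectors with prescribed last coordinate. -/
theorem card_fix_last (c : F) :
    Nat.card {v : {v : Fin 3 → F // hh v v = 1} // v.1 2 = c} =
      Nat.card {u : Fin 2 → F // hermForm 2 F q u u = 1 - c ^ (q + 1)} := by
  refine Nat.card_congr
    { toFun := fun v => ⟨![v.1.1 0, v.1.1 1], by
        have h := v.1.2
        rw [hermForm_three hF, v.2] at h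
        simp [hermForm]
        linear_combination h⟩
      invFun := fun u => ⟨⟨![u.1 0, u.1 1, c], by
        have h := u.2
        simp [hermForm] at h
        rw [hermForm_three hF]
        simp
        linear_combination h⟩, rfl⟩
      left_inv := fun v => Subtype.ext (Subtype.ext (funext fun i => by
        fin_cases i <;> simp [v.2]))
      right_inv := fun u => Subtype.ext (funext fun i => by fin_cases i <;> rfl) }

theorem card_units_three : Nat.card {v : Fin 3 → F // hh v v = 1} = q ^ 2 * (q ^ 3 + 1) := by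
  have h := H3.card_norm_one_vectors hF 2
  simpa using h

theorem card_last_zero :
    Nat.card {v : {v : Fin 3 → F // hh v v = 1} // v.1 2 = 0} = q * (q ^ 2 - 1) := by
  rw [card_fix_last hF, zero_pow (Nat.succ_ne_zero q), sub_zero, H3.card_norm_one_vectors hF 1]
  simp [Nat.even_add_one]

theorem card_axis :
    Nat.card {v : {v : Fin 3 → F // hh v v = 1} // v.1 0 = 0 ∧ v.1 1 = 0} = q + 1 := by
  have hq0 : q ≠ 0 := by have := H3.two_le_q hF; omega
  rw [← H3.card_norm_eq hF (one_ne_zero : (1 : F) ≠ 0) (one_pow q)]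
  refine Nat.card_congr
    { toFun := fun v => ⟨v.1.1 2, by
        have h := v.1.2
        rw [hermForm_three hF, v.2.1, v.2.2] at h
        simp at h
        rw [pow_succ']; exact h⟩
      invFun := fun c => ⟨⟨![0, 0, c.1], by
        rw [hermForm_three hF]; simp [← pow_succ', c.2]⟩, rfl, rfl⟩
      left_inv := fun v => Subtype.ext (Subtype.ext (funext fun i => by
        fin_cases i <;> simp [v.2.1, v.2.2]))
      right_inv := fun c => Subtype.ext rfl }

/-- The tangent vectors. -/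
theorem card_tangent :
    Nat.card {v : {v : Fin 3 → F // hh v v = 1} //
      v.1 2 ^ (q + 1) = 1 ∧ ¬ (v.1 0 = 0 ∧ v.1 1 = 0)} = (q + 1) * ((q + 1) * (q ^ 2 - 1)) := by
  classical
  have h2 : Nat.card {v : {v : Fin 3 → F // hh v v = 1} // v.1 2 ^ (q + 1) = 1} =
      (q + 1) * (q ^ 3 + q ^ 2 - q) := by
    have hiso : Nat.card {u : Fin 2 → F // hermForm 2 F q u u = 0} = q ^ 3 + q ^ 2 - q := by
      have h := H3.card_isotropic_int hF 2
      have hq2 := H3.two_le_q hF
      have : q ≤ q ^ 3 + q ^ 2 := by nlinarith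
      zify [this]
      exact mul_left_cancel₀ (show (q : ℤ) ≠ 0 by omega) (by rw [h]; ring)
    rw [Nat.card_congr (Equiv.sigmaSubtypeFiberEquivSubtype
      (fun v : {v : Fin 3 → F // hh v v = 1} => v.1 2) (p := fun v => v.1 2 ^ (q + 1) = 1)
      (q := fun c : F => c ^ (q + 1) = 1) fun _ => Iff.rfl).symm]
    have : Fintype {c : F // c ^ (q + 1) = 1} := Fintype.ofFinite _
    rw [Nat.card_sigma, Finset.sum_congr rfl fun c _ => (by
      rw [card_fix_last hF, c.2, sub_self, hiso] :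
        Nat.card {v : {v : Fin 3 → F // hh v v = 1} // v.1 2 = c.1} = q ^ 3 + q ^ 2 - q),
      Finset.sum_const, Finset.card_univ, smul_eq_mul, ← Nat.card_eq_fintype_card,
      H3.card_norm_eq hF (one_ne_zero : (1 : F) ≠ 0) (one_pow q)]
  have haxis : Nat.card {v : {v : Fin 3 → F // hh v v = 1} //
      v.1 2 ^ (q + 1) = 1 ∧ (v.1 0 = 0 ∧ v.1 1 = 0)} = q + 1 := by
    refine (Nat.card_congr (Equiv.subtypeEquivRight fun v => ⟨fun h => h.2, fun h => ⟨?_, h⟩⟩)).trans
      (card_axis hF)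
    have hv := v.2
    rw [hermForm_three hF, h.1, h.2] at hv
    simp at hv
    exact (pow_succ' _ _).trans hv
  have hsplit := Nat.card_congr (Equiv.sumCompl
    (fun v : {v : {v : Fin 3 → F // hh v v = 1} // v.1 2 ^ (q + 1) = 1} => v.1.1 0 = 0 ∧ v.1.1 1 = 0))
  rw [Nat.card_sum, Nat.card_congr (Equiv.subtypeSubtypeEquivSubtypeInter
      (fun v : {v : Fin 3 → F // hh v v = 1} => v.1 2 ^ (q + 1) = 1) (fun v => v.1 0 = 0 ∧ v.1 1 = 0)),
    haxis, Nat.card_congr (Equiv.subtypeSubtypeEquivSubtypeInter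
      (fun v : {v : Fin 3 → F // hh v v = 1} => v.1 2 ^ (q + 1) = 1) (fun v => ¬ (v.1 0 = 0 ∧ v.1 1 = 0))),
    h2] at hsplit
  have hq2 := H3.two_le_q hF
  have h5 : q ≤ q ^ 3 + q ^ 2 := by nlinarith
  have h6 : 1 ≤ q ^ 2 := by nlinarith
  zify [h5, h6] at hsplit ⊢
  linear_combination hsplit

end Cfsg.Agent.H71.UnitaryInvolutions
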